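import Cfsg.Statements.S5048
import Cfsg.Agent.H9.RootInv3
-- import your own Cfsg.Agent.* helpers here

set_option autoImplicit false
open Cfsg

namespace Cfsg.Agent.S5048
open CfsgH9

/-- Let G be a finite group generated by a set D of root involutions whose odd-order-product graph is connected, with some product of two different commuting members of D again in D. Then the largest solvable normal subgroup of G is the preimage of the centre of G/O₂(G), and the quotient of G by it is a simple group. -/
theorem result {G : Type*} [Group G] [Finite G] {D : Set G} (hD : Cfsg.IsRootInvolutionSet D)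
    (hc : Cfsg.IsConnectedSet (Cfsg.OddAdj D) D) (hDD : (D ∩ Cfsg.commutingProducts D).Nonempty) :
    Cfsg.solvableRadical G = Cfsg.twoZCore G ∧ IsSimpleGroup (G ⧸ Cfsg.twoZCore G) := by
  have hR := RI.of_set hD
  have hcl := oneClass_of_connected hR hc
  obtain ⟨_, hab, a, ha, b, hb, h1, h2, rfl⟩ := hDD
  have hxp : XP D a b := ⟨hb, h1, fun e => h2 (by rw [e, hR.sq a ha]), hab⟩
  have htop : ∀ N : Subgroup G, N.Normal → ∀ d ∈ D, d ∈ N → N = ⊤ := by
    intro N hN d hd hdN
    rw [eq_top_iff, ← hD.generates, Subgroup.closure_le]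
    intro e he
    obtain ⟨g, -, rfl⟩ := hcl d hd e he
    exact hN.conj_mem d hdN g
  have hdich : ∀ N : Subgroup G, N.Normal → N = ⊤ ∨ N ≤ twoZCore G := by
    intro N hN
    by_cases h : ∃ d ∈ D, d ∈ N
    · obtain ⟨d, hd, hdN⟩ := h
      exact Or.inl (htop N hN d hd hdN)
    · push Not at h
      exact Or.inr (le_twoZCore hD hcl ha hxp N h)
  have hperf : commutator G = ⊤ := by
    refine htop _ inferInstance b hb ?_
    obtain ⟨g, -, e⟩ := hcl a ha _ hab
    have := Subgroup.commutator_mem_commutator (Subgroup.mem_top a⁻¹) (Subgroup.mem_top g)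
    rwa [commutatorElement_def, inv_inv, mul_assoc, mul_assoc, ← mul_assoc g, ← e, inv_mul_cancel_left] at this
  haveI : Nontrivial G := ⟨⟨a, 1, hR.ne a ha⟩⟩
  have hns : ¬ Group.IsSolvable G := fun h =>
    (IsSolvable.commutator_lt_top_of_nontrivial G).ne hperf
  have hsolv : Group.IsSolvable (twoZCore G) := by
    haveI := (CfsgL0.isPGroup_pCore G 2).isNilpotent
    let f : twoZCore G →* Subgroup.center (G ⧸ pCore 2 G) :=
      ((QuotientGroup.mk' (pCore 2 G)).comp (twoZCore G).subtype).codRestrict _ fun x => x.2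
    have hle : pCore 2 G ≤ twoZCore G := fun x hx => by
      unfold twoZCore
      rw [Subgroup.mem_comap, QuotientGroup.mk'_apply, (QuotientGroup.eq_one_iff x).2 hx]
      exact Subgroup.one_mem _
    haveI : Group.IsSolvable (Subgroup.center (G ⧸ pCore 2 G)) :=
      isSolvable_of_comm fun x y => Subtype.ext (Subgroup.mem_center_iff.1 y.2 x)
    refine solvable_of_ker_le_range (Subgroup.inclusion hle) f fun x hx => ?_
    have : ((x : G) : G ⧸ pCore 2 G) = 1 := congrArg Subtype.val hx
    exact ⟨⟨x, (QuotientGroup.eq_one_iff _).1 this⟩, rfl⟩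
  have hne : twoZCore G ≠ ⊤ := fun e => hns (by
    rw [e] at hsolv
    exact solvable_of_surjective (f := (⊤ : Subgroup G).subtype) fun x => ⟨⟨x, trivial⟩, rfl⟩)
  constructor
  · refine le_antisymm (sSup_le fun N hN => (hdich N hN.1).resolve_left fun e => hns ?_)
      (le_sSup ⟨inferInstance, hsolv⟩)
    have := hN.2
    rw [e] at this
    exact solvable_of_surjective (f := (⊤ : Subgroup G).subtype) fun x => ⟨⟨x, trivial⟩, rfl⟩
  · haveI : Nontrivial (G ⧸ twoZCore G) := QuotientGroup.nontrivial_iff.2 hne
    refine ⟨fun M hM => ?_⟩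
    rcases hdich (M.comap (QuotientGroup.mk' _)) (hM.comap _) with h | h
    · right
      rw [← Subgroup.map_comap_eq_self_of_surjective (QuotientGroup.mk'_surjective _) M, h]
      exact Subgroup.map_top_of_surjective _ (QuotientGroup.mk'_surjective _)
    · left
      rw [eq_bot_iff]
      intro m hm
      obtain ⟨m, rfl⟩ := QuotientGroup.mk'_surjective _ m
      exact (QuotientGroup.eq_one_iff m).2 (h hm)

end Cfsg.Agent.S5048
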