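import Cfsg.Statements.S0111
import Cfsg.Agent.H1.Tate

set_option autoImplicit false
open Cfsg

namespace Cfsg.Agent.S0111

open CfsgH1 Subgroup
open scoped commutatorElement
set_option maxHeartbeats 400000

/-- The Thompson transfer lemma states that an involution of a Sylow 2-subgroup P lying outside a subgroup Q of index 2 in P either lies outside some normal subgroup of index 2 in G or is conjugate to an element of Q. -/
theorem result {G : Type*} [Group G] [Finite G] (P : Sylow 2 G) (Q : Subgroup G) (hQP : Q ≤ (P : Subgroup G)) (hQi : Q.relIndex (P : Subgroup G) = 2) (u : G) (hu : orderOf u = 2) (huP : u ∈ (P : Subgroup G)) (huQ : u ∉ Q) : (∃ M : Subgroup G, M.Normal ∧ M.index = 2 ∧ u ∉ M) ∨ ∃ g : G, g * u * g⁻¹ ∈ Q := by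
  classical
  letI : Fintype (G ⧸ (P : Subgroup G)) := Fintype.ofFinite _
  by_contra hcon
  push Not at hcon
  obtain ⟨h1, h2⟩ := hcon
  refine thompson_transfer_odd (P : Subgroup G) P.not_dvd_index (A := ℤˣ)
    (fun g => if g ∈ Q then 1 else -1) (fun a ha b hb => ?_) (ε := -1) (by decide) (by decide)
    (y := u) (by rw [← pow_two, ← hu, pow_orderOf_eq_one]) (fun s _ _ => by split_ifs <;> simp)
    (fun V => ?_) ?_
  · have := mul_mem_iff_of_index_two (H := Q.subgroupOf (P : Subgroup G)) hQi (a := ⟨a, ha⟩)
      (b := ⟨b, hb⟩)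
    simp only [mem_subgroupOf, Subgroup.coe_mul] at this
    by_cases h3 : a ∈ Q <;> by_cases h4 : b ∈ Q <;> simp [h3, h4, this]
  · by_contra hV
    refine hV (h1 V.ker inferInstance ?_)
    rw [index_ker]
    have : V.range = ⊤ := by
      rw [eq_top_iff]
      intro z _
      rcases Int.units_eq_one_or z with rfl | rfl
      · exact one_mem _
      · exact ⟨u, (Int.units_eq_one_or _).resolve_left hV⟩
    rw [this, card_top, Nat.card_eq_fintype_card, Fintype.card_units_int]
  · rw [Nat.card_eq_zero.mpr (Or.inl ⟨fun q => ?_⟩)]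
    · exact dvd_zero 2
    · have h3 := q.2.2
      rw [if_neg (by simpa using h2 (q.1.out)⁻¹)] at h3
      exact absurd h3 (by decide)

end Cfsg.Agent.S0111
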