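import Cfsg.Statements.S0454
import Cfsg.Agent.H6.Ly

set_option autoImplicit false
open Cfsg

namespace Cfsg.Agent.S0454

open CfsgH6 Subgroup

theorem pack {Γ K : Type} [Group Γ] [Finite Γ] [Group K] {n a b : ℕ} [NeZero n] (hn : 1 < n) (ha : a = n * b)
    {G H A : Subgroup Γ} {z : Γ} (hH : H ≤ G) (hG : IsSimpleGroup G ∧ Nat.card G = a)
    (h2 : IsSimpleGroup H ∧ Nat.card H = b)
    (hz : z ∈ G ∧ (z ^ 2 = 1 ∧ z ≠ 1) ∧ G ⊓ centralizer {z} = A ∧
      ∀ (H' : Type) [Group H'], (H' ≃* A) → IsNonsplitDoubleCover H' K) :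
    ∃ P : Subgroup (Equiv.Perm (Fin n)), (IsSimpleGroup P ∧ Nat.card P = a) ∧
      MulAction.IsPretransitive P (Fin n) ∧
      (IsSimpleGroup (MulAction.stabilizer P (0 : Fin n)) ∧ Nat.card (MulAction.stabilizer P (0 : Fin n)) = b) ∧
      ∃ t : P, orderOf t = 2 ∧ IsNonsplitDoubleCover (centralizer ({t} : Set P)) K := by
  obtain ⟨h1, h3⟩ := hG
  obtain ⟨h4, h5⟩ := h2
  obtain ⟨hz, ⟨z2, z1⟩, hA, hc⟩ := hz
  have e0 := subgroupOfEquivOfLe hH
  obtain ⟨P, ⟨E⟩, hP, ⟨E'⟩⟩ := exists_perm_rep (H.subgroupOf G) hn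
    (by rw [Nat.card_congr e0.toEquiv, h3, h5, ha])
  have e1 := E'.symm.trans e0
  obtain ⟨e2⟩ := cent_equiv hz hA E
  refine ⟨P, ⟨E.symm.isSimpleGroup, (Nat.card_congr E.toEquiv).symm.trans h3⟩, hP,
    ⟨e1.isSimpleGroup, (Nat.card_congr e1.toEquiv).trans h5⟩, E ⟨z, hz⟩, ?_, hc _ e2⟩
  rw [E.orderOf_eq]
  exact orderOf_eq_prime (Subtype.ext z2) fun h => z1 (congrArg Subtype.val h)

/-- Existence of the Lyons group: there is a transitive permutation group of degree 8835156, simple of order 51765179004000000, whose point stabiliser is simple of the order of a group of type G2, and which has an involution whose centraliser is a non-split double cover of the alternating group of degree 11. -/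
theorem result : ∃ H : Subgroup (Equiv.Perm (Fin 8835156)), Cfsg.IsLy H ∧ MulAction.IsPretransitive H (Fin 8835156) ∧ Cfsg.IsG2 (MulAction.stabilizer H (0 : Fin 8835156)) ∧ ∃ t : H, orderOf t = 2 ∧ Cfsg.IsNonsplitDoubleCover (Subgroup.centralizer ({t} : Set H)) (alternatingGroup (Fin 11)) := by
  obtain ⟨G, H, A, Y, Z, z, x, hH, hG, h2, hz, -⟩ := CfsgH6.Ly.main
  obtain ⟨P, h1, h3, ⟨h4, h5⟩, h6⟩ := pack (n := 8835156) (by norm_num) (by norm_num) hH hG h2 hz
  exact ⟨P, h1, h3, ⟨h4, 5, (show Nat.Prime 5 by norm_num).isPrimePow, by norm_num, h5.trans (by norm_num)⟩, h6⟩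

end Cfsg.Agent.S0454
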