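import Cfsg.Statements.S0200
import Cfsg.Agent.H4.BaerSuzuki
import Cfsg.Agent.H4.Dihedral

set_option autoImplicit false
open Cfsg

namespace Cfsg.Agent.S0200

open CfsgH4

/-- An involution lying in no normal 2-subgroup of a finite group inverts a nontrivial element of odd order (a consequence of the Baer–Suzuki Theorem). -/
theorem result {G : Type*} [Group G] [Finite G] (t : G) (ht : orderOf t = 2) (hO : ∀ N : Subgroup G, N.Normal → IsPGroup 2 N → t ∉ N) : ∃ h : G, h ≠ 1 ∧ Odd (orderOf h) ∧ t * h * t⁻¹ = h⁻¹ := by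
  by_contra hcon
  push Not at hcon
  apply hO (Subgroup.normalClosure {t}) inferInstance _ (Subgroup.subset_normalClosure rfl)
  apply baer_suzuki_elt
  intro g
  have h1 := mul_self_of_orderOf ht
  have h2 : (g * t * g⁻¹) * (g * t * g⁻¹) = 1 :=
    mul_self_of_orderOf (by rw [orderOf_conj', ht])
  set r := t * (g * t * g⁻¹) with hr
  obtain ⟨k, m, hm, hkm⟩ := Nat.exists_eq_two_pow_mul_odd (orderOf_pos r).ne'
  apply dih_isPGroup h1 h2 (k := k)
  by_contra hne
  refine hcon (r ^ 2 ^ k) hne ?_ (inverts_pow (dih_inv_left h1 h2) _)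
  rw [orderOf_pow' _ (by positivity), hkm, Nat.gcd_mul_right_left,
    Nat.mul_div_cancel_left _ (by positivity)]
  exact hm

end Cfsg.Agent.S0200
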