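import Cfsg.Statements.S0106
import Cfsg.Agent.H1.Detect
import Cfsg.Agent.H1.Invol
import Cfsg.Agent.H2.RankOne
import Cfsg.Agent.H2.LinAct

set_option autoImplicit false
open Cfsg

namespace Cfsg.Agent.S0106

open CfsgH1 Subgroup
open scoped commutatorElement
set_option maxHeartbeats 400000

theorem isSec_of_graph {G X : Type*} [Group G] [Group X] (Γ : Subgroup (G × X))
    (h1 : ∀ x ∈ Γ, x.1 = 1 → x.2 = 1) (h2 : ∀ y : X, ∃ x ∈ Γ, x.2 = y) : IsSec G X := by
  have hi : Function.Injective ((MonoidHom.fst G X).comp Γ.subtype) :=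
    (injective_iff_map_eq_one _).mpr fun x hx => Subtype.ext (Prod.ext hx (h1 x x.2 hx))
  refine ⟨_, ((MonoidHom.snd G X).comp Γ.subtype).comp (MonoidHom.ofInjective hi).symm.toMonoidHom,
    fun y => ?_⟩
  obtain ⟨x, hx, rfl⟩ := h2 y
  exact ⟨MonoidHom.ofInjective hi ⟨x, hx⟩, by simp⟩

abbrev SL23 := Matrix.SpecialLinearGroup (Fin 2) (ZMod 3)
abbrev Q8 := QuaternionGroup 2

def mI : SL23 := ⟨!![0, 2; 1, 0], by decide⟩
def mJ : SL23 := ⟨!![1, 1; 1, 2], by decide⟩
def mW : SL23 := ⟨!![1, 1; 0, 1], by decide⟩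

def ext2 {M : Type*} [Monoid M] (u v : M) : Q8 → M
  | .a i => u ^ i.val
  | .xa i => v * u ^ i.val

def iota : Q8 →* SL23 := MonoidHom.mk' (ext2 mI mJ) (by decide +kernel)

theorem iota_inj : Function.Injective iota :=
  (injective_iff_map_eq_one _).mpr (show ∀ x, ext2 mI mJ x = 1 → x = 1 by decide +kernel)

theorem comp (u v : Q8) (h : Function.Injective (ext2 u v)) : ∃ (q : Q8) (e : Fin 3),
    (ext2 mI mJ q * mW ^ e.val) ^ 3 = 1 ∧ ∀ x, ext2 mI mJ (ext2 u v (ext2 u v (ext2 u v (ext2 u v x)))) *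
      (ext2 mI mJ q * mW ^ e.val) = ext2 mI mJ q * mW ^ e.val * ext2 mI mJ x := by
  revert u v
  decide +kernel

theorem card_SL23 : Nat.card SL23 = 24 := by
  rw [Nat.card_eq_fintype_card]
  decide +kernel

theorem exists_w {α : MulAut Q8} (h : (orderOf α).Coprime 2) :
    ∃ w : SL23, w ^ 3 = 1 ∧ ∀ x, iota (α x) = w * iota x * w⁻¹ := by
  obtain ⟨m, hm⟩ := exists_pow_eq_self_of_coprime (x := α) (Nat.Coprime.pow_left 2 h.symm)
  set β := α ^ m
  have e : ∀ x, β x = ext2 (β (.a 1)) (β (.xa 0)) x := by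
    rintro (i | i)
    · rw [ext2, ← map_pow, QuaternionGroup.a_one_pow, ZMod.natCast_zmod_val]
    · rw [ext2, ← map_pow, ← map_mul, QuaternionGroup.a_one_pow, ZMod.natCast_zmod_val,
        QuaternionGroup.xa_mul_a, zero_add]
  obtain ⟨q, k, h1, h2⟩ := comp (β (.a 1)) (β (.xa 0)) (by rw [← funext e]; exact β.injective)
  refine ⟨_, h1, fun x => eq_mul_inv_of_mul_eq ?_⟩
  have e2 : α x = β (β (β (β x))) := by
    rw [← hm, ← pow_mul, mul_comm, pow_mul]; rfl
  rw [e2]
  simp only [← e] at h2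
  exact h2 x

theorem sec {G : Type*} [Group G] [Finite G] {D : Subgroup G} (e : D ≃* Q8) {g : G}
    (hg : g ∈ normalizer (D : Set G)) (hc : (orderOf g).Coprime 2)
    (hn : g ∉ centralizer (D : Set G)) : IsSec G SL23 := by
  let φ : normalizer (D : Set G) →* MulAut Q8 :=
    (MulAut.congr e).toMonoidHom.comp (CfsgH2.conjAut le_rfl)
  have h0 : orderOf (φ ⟨g, hg⟩) ∣ orderOf g := (orderOf_map_dvd _ _).trans (by rw [← orderOf_coe])
  obtain ⟨w, hw, h1⟩ := exists_w (α := φ ⟨g, hg⟩) (Nat.Coprime.coprime_dvd_left h0 hc)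
  have hφ : φ ⟨g, hg⟩ ≠ 1 := fun h => hn (by
    have := (map_eq_one_iff _ (MulAut.congr e).injective).mp h
    rw [← MonoidHom.mem_ker, CfsgH2.ker_conjAut] at this
    exact this)
  have h3 : orderOf (φ ⟨g, hg⟩) = 3 := by
    refine orderOf_eq_prime (MulEquiv.ext fun x => iota_inj ?_) hφ
    change iota (φ ⟨g, hg⟩ (φ ⟨g, hg⟩ (φ ⟨g, hg⟩ x))) = iota x
    rw [h1, h1, h1]
    calc _ = w ^ 3 * iota x * (w ^ 3)⁻¹ := by simp only [pow_succ, pow_zero, one_mul]; group
      _ = _ := by rw [hw]; group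
  have hw1 : w ≠ 1 := fun h => hφ (MulEquiv.ext fun x => iota_inj (by rw [h1, h]; simp))
  let Δ := (D.subtype.prod (iota.comp e.toMonoidHom)).range
  have hΔ : ((g, w) : G × SL23) ∈ normalizer (Δ : Set (G × SL23)) :=
    mem_normalizer_of_cj_le (cj_le_iff.mpr (by
      rintro _ ⟨d, rfl⟩
      refine ⟨CfsgH2.conjAut le_rfl ⟨g, hg⟩ d, Prod.ext rfl ?_⟩
      have := h1 (e d)
      simpa [φ] using this))
  have hD : IsPGroup 2 D := IsPGroup.of_card (n := 3) (by
    rw [Nat.card_congr e.toEquiv, Nat.card_eq_fintype_card, QuaternionGroup.card]; rfl)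
  refine isSec_of_graph (Δ ⊔ zpowers (g, w)) (fun x hx h => ?_) fun y => ?_
  · obtain ⟨_, ⟨d, rfl⟩, k, rfl⟩ := (CfsgH2.mem_sup_zpowers_iff hΔ).mp hx
    have h4 : (d : G) * g ^ k = 1 := h
    have h5 : (d : G) = 1 := eq_one_of_mem_pgroup_of_coprime hD d.2 (by
      rw [eq_inv_of_mul_eq_one_left h4, orderOf_inv]
      exact Nat.Coprime.coprime_dvd_left (orderOf_dvd_of_mem_zpowers (zpow_mem_zpowers g k)) hc)
    rw [h5, one_mul, ← orderOf_dvd_iff_zpow_eq_one] at h4
    change iota (e d) * w ^ k = 1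
    rw [show d = 1 from Subtype.ext h5, map_one, map_one, one_mul, ← orderOf_dvd_iff_zpow_eq_one,
      orderOf_eq_prime hw hw1, ← h3]
    exact (Int.natCast_dvd_natCast.mpr h0).trans h4
  · have h4 : iota.range ⊔ zpowers w = ⊤ := by
      have h5 : Nat.card iota.range = 8 := by
        rw [← Nat.card_congr (MonoidHom.ofInjective iota_inj).toEquiv, Nat.card_eq_fintype_card,
          QuaternionGroup.card]
      have h6 := iota.range.card_mul_index
      rw [h5, card_SL23] at h6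
      refine (CfsgH2.isCoatom_of_index_eq_prime (p := 3) (by omega)).2 _ (left_lt_sup.mpr fun h => ?_)
      have h7 := iota.range.orderOf_dvd_natCard (h (mem_zpowers w))
      rw [orderOf_eq_prime hw hw1, h5] at h7
      omega
    have h5 : ⊤ ≤ (Δ ⊔ zpowers (g, w)).map (MonoidHom.snd G SL23) := by
      rw [← h4, Subgroup.map_sup, MonoidHom.map_zpowers]
      refine sup_le_sup ?_ le_rfl
      rintro _ ⟨q, rfl⟩
      exact ⟨_, ⟨e.symm q, rfl⟩, by simp⟩
    exact h5 (mem_top y)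

theorem quat_sq {m : ℕ} [NeZero m] {x : QuaternionGroup m} (h : x ^ 2 = 1) :
    x ∈ zpowers (QuaternionGroup.a 1 : QuaternionGroup m) := by
  cases x with
  | a i => exact ⟨i.val, by
      simp only [zpow_natCast, QuaternionGroup.a_one_pow, ZMod.natCast_zmod_val]⟩
  | xa i =>
    have := orderOf_dvd_of_pow_eq_one h
    rw [QuaternionGroup.orderOf_xa] at this
    omega

/-- A finite group with generalized quaternion Sylow 2-subgroups either has a normal 2-complement or has a section isomorphic to SL(2,3). -/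
theorem result {G : Type*} [Group G] [Finite G] (T : Sylow 2 G) (n : ℕ) (hn : 1 ≤ n) (hT : Nonempty ((T : Subgroup G) ≃* QuaternionGroup (2 ^ n))) : Cfsg.HasNormalPComplement 2 G ∨ ∃ (H K : Subgroup G) (hK : (K.subgroupOf H).Normal), Nonempty ((H ⧸ K.subgroupOf H) ≃* Matrix.SpecialLinearGroup (Fin 2) (ZMod 3)) := by
  obtain ⟨e⟩ := hT
  haveI : NeZero (2 ^ n) := ⟨by positivity⟩
  have hS := isSylowIn_top T
  have huniq : ∀ x ∈ (T : Subgroup G), ∀ y ∈ (T : Subgroup G), x ^ 2 = 1 → y ^ 2 = 1 → x ≠ 1 →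
      y ≠ 1 → x = y := by
    intro x hx y hy h1 h2 h3 h4
    have k1 : e ⟨x, hx⟩ ^ 2 = 1 := by
      rw [← map_pow, show (⟨x, hx⟩ : (T : Subgroup G)) ^ 2 = 1 from Subtype.ext h1, map_one]
    have k2 : e ⟨y, hy⟩ ^ 2 = 1 := by
      rw [← map_pow, show (⟨y, hy⟩ : (T : Subgroup G)) ^ 2 = 1 from Subtype.ext h2, map_one]
    exact congrArg Subtype.val (e.injective (eq_of_mul_self_of_mem_isCyclic inferInstance (quat_sq k1)
      (quat_sq k2) (by rwa [← pow_two]) (by rwa [← pow_two])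
      (fun h => h3 (congrArg Subtype.val ((map_eq_one_iff _ e.injective).mp h)))
      (fun h => h4 (congrArg Subtype.val ((map_eq_one_iff _ e.injective).mp h)))))
  rw [hasNormalPComplement_iff_top, or_iff_not_imp_left]
  intro h
  obtain ⟨U, hU, g, -, hg, hc, hn⟩ := hS.exists_automizer_of_not_pNil h
  obtain ⟨D, h1, h2, h3, -, h4⟩ := exists_detect (hS.pgroup.to_le hU)
  have hD := hS.pgroup.to_le (h1.trans hU)
  have hDT := h1.trans hU
  have hn' : g ∉ centralizer (D : Set G) := fun h => hn (h4 g hg hc h)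
  rcases CfsgH2.isCyclic_or_quaternion hD (fun A _ hA => by
    by_cases hb : A = ⊥
    · simp [hb]
    obtain ⟨⟨z, hz⟩, hz1⟩ := (Subgroup.ne_bot_iff_exists_ne_one).mp hb
    have hz1' : z ≠ 1 := fun h => hz1 (Subtype.ext h)
    rw [pow_one, ← CfsgH2.card_zpowers_of_pow_eq_one hz1' (hA z hz)]
    refine card_le_of_le fun a ha => ?_
    by_cases ha1 : a = 1
    · exact ha1 ▸ one_mem _
    rw [show a = z from Subtype.ext (huniq _ (hDT a.2) _ (hDT z.2) (congrArg Subtype.val (hA a ha))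
      (congrArg Subtype.val (hA z hz)) (fun h => ha1 (Subtype.ext h)) fun h => hz1' (Subtype.ext h))]
    exact mem_zpowers z) with h5 | ⟨k, ⟨f⟩⟩
  · refine absurd (mem_centralizer_of_conj_eq (CfsgH2.aut_fix_abelian (α := MulAut.conj g)
      (Nat.Coprime.coprime_dvd_left (orderOf_map_dvd _ _) hc) hD h5.isMulCommutative
      (fun x hx => (mem_normalizer_iff.mp (h2 hg) x).mp hx) fun x hx h6 => ?_)) hn'
    by_cases hx1 : x = 1
    · simp [hx1]
    exact huniq _ (hDT ((mem_normalizer_iff.mp (h2 hg) x).mp hx)) _ (hDT hx)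
      (by rw [conj_pow, h6]; simp) h6 (by simpa using hx1) hx1
  · have h5 : (QuaternionGroup.a 1 : QuaternionGroup (2 ^ (k + 1))) ^ 4 = 1 := by
      obtain ⟨d, hd⟩ := f.surjective (QuaternionGroup.a 1)
      rw [← hd, ← map_pow, show d ^ 4 = 1 from Subtype.ext ?_, map_one]
      rcases h3 d d.2 with h | h
      · rw [Subgroup.coe_pow, show 4 = 2 * 2 from rfl, pow_mul, h, one_pow]; rfl
      · exact h.2
    have h6 := Nat.le_of_dvd (by norm_num) (orderOf_dvd_of_pow_eq_one h5)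
    rw [QuaternionGroup.orderOf_a_one] at h6
    obtain rfl : k = 0 := by
      by_contra hk
      have : 2 ^ 2 ≤ 2 ^ (k + 1) := Nat.pow_le_pow_right (by norm_num) (by omega)
      omega
    obtain ⟨K, R, hR, h7⟩ := (sec f (h2 hg) hc hn').exists_equiv
    exact ⟨K, R, hR, h7⟩

end Cfsg.Agent.S0106
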