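import Cfsg.Statements.S0112
import Cfsg.Agent.H2.MaxClass

set_option autoImplicit false
open Cfsg

namespace Cfsg.Agent.S0112
open Subgroup CfsgH2 CfsgL0
open scoped commutatorElement



/-- A p-group with a self-centralizing subgroup of order p^2 is of maximal class. -/
theorem result {X : Type*} [Group X] [Finite X] {p : ℕ} [Fact p.Prime] (n : ℕ) (hX : Nat.card X = p ^ n) (A : Subgroup X) (hA : Nat.card A = p ^ 2) (hC : Subgroup.centralizer (A : Set X) = A) : Group.nilpotencyClass X = n - 1 := by
  have hp : p.Prime := Fact.out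
  have hG : IsPGroup p X := IsPGroup.of_card hX
  have hn : 2 ≤ n := by
    have := card_le_card_group A
    rwa [hA, hX, pow_le_pow_iff] at this
  obtain ⟨n, rfl⟩ := Nat.exists_eq_add_of_le' hn
  have hZ : center X ≤ A := hC ▸ center_le_centralizer _
  obtain ⟨a, ha⟩ : ∃ a : X, Nat.card (centralizer ({a} : Set X)) ≤ p ^ 2 := by
    by_cases h : A ≤ center X
    · refine ⟨1, (card_le_card_group _).trans ?_⟩
      rw [← card_top, ← centralizer_eq_top_iff_subset.mpr h, hC, hA]
    · obtain ⟨a, ha, haZ⟩ := SetLike.not_le_iff_exists.mp h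
      refine ⟨a, ?_⟩
      have : Nontrivial X := Finite.one_lt_card_iff_nontrivial.mp
        (hX ▸ Nat.one_lt_pow (by omega) hp.one_lt)
      have := hG.isNilpotent
      have h2 := card_mul_le_of_lt (hG.to_subgroup _)
        (bot_lt_iff_ne_bot.mpr (Group.IsNilpotent.center_ne_bot X))
      rw [card_bot, one_mul] at h2
      have e : center X ⊔ zpowers a = A := eq_of_lt_of_card_eq_mul (hG.to_subgroup _)
        (lt_of_le_not_ge le_sup_left fun e => haZ (e (mem_sup_right (mem_zpowers a))))
        (sup_le hZ (zpowers_le.mpr ha)) (by rw [hA, pow_two]; exact Nat.mul_le_mul_right _ h2)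
      rw [← hA, ← hC, ← e, centralizer_sup, centralizer_zpowers,
        centralizer_eq_top_iff_subset.mpr (subset_refl _), top_inf_eq]
  exact nilpotencyClass_of_card_centralizer n X hX a ha

end Cfsg.Agent.S0112
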