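import Cfsg.Statements.S0447
import Cfsg.Agent.H8.Spinor
import Cfsg.Agent.H4.BSLocal

set_option autoImplicit false
open Cfsg

namespace Cfsg.Agent.S0447

open CfsgH4 Subgroup Equiv Equiv.Perm CliffordAlgebra

theorem split_aux {H K : Type*} [Group H] [Finite H] [Group K] (π : H →* K)
    (hπ : Function.Surjective π) {z : H} (hz : orderOf z = 2) (hzc : ∀ g, g * z = z * g)
    (hker : ∀ h, π h = 1 ↔ h = 1 ∨ h = z) (hall : ∀ h, π h * π h = 1 → h * h = 1) {s t : K}
    (hs : orderOf s = 2) (ht : orderOf t = 2) (hst : s ≠ t) {k : ℕ} (hk : orderOf (s * t) = 2 * k)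
    {m : ℕ} (hm : Odd m) (hc : Nat.card K = 2 * (2 * k) * m) :
    ∃ M : Subgroup H, M.index = 2 ∧ z ∉ M := by
  have : Finite K := Finite.of_surjective π hπ
  obtain ⟨a, rfl⟩ := hπ s
  obtain ⟨b, rfl⟩ := hπ t
  have ha := hall a (mul_self_of_orderOf hs)
  have hb := hall b (mul_self_of_orderOf ht)
  have hz1 : π z = 1 := (hker z).2 (Or.inr rfl)
  have hzQ : z ∉ closure ({a, b} : Set H) := by
    intro h
    obtain ⟨n, h | h⟩ := (dih_mem_closure ha hb z).1 h
    · have h1 : (a * b) ^ (2 * k) = 1 := by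
        rw [two_mul, pow_add]
        apply hall
        rw [← map_mul, ← pow_add, ← two_mul, map_pow, map_mul, ← hk, pow_orderOf_eq_one]
      have h2 := hz1
      rw [h, map_zpow, map_mul, ← orderOf_dvd_iff_zpow_eq_one, hk] at h2
      obtain ⟨l, rfl⟩ := h2
      rw [zpow_mul, zpow_natCast, h1, one_zpow] at h
      exact ne_one_of_orderOf hz h
    · apply dih_left_notMem hs ht hst
      have h2 := hz1
      rw [h, map_mul, map_zpow, map_mul] at h2
      have h3 := inv_mem (zpow_mem_zpowers (π a * π b) n)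
      rwa [inv_eq_of_mul_eq_one_right h2] at h3
  set L := closure ({π a, π b} : Set K) with hL
  have hLc : Nat.card L = 2 * (2 * k) := by
    obtain ⟨e⟩ := closure_pair_dihedral hs ht hst
    rw [Nat.card_congr e.toEquiv, DihedralGroup.nat_card, hk]
  have hmap : (closure ({a, b} : Set H)).map π = L := by
    rw [MonoidHom.map_closure, Set.image_pair]
  obtain ⟨M, -, h1, h2⟩ := exists_index_two_of_transfer (H := L.comap π)
    (Q := closure ({a, b} : Set H)) (u := z) (by
      rw [index_comap_of_surjective _ hπ]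
      have := L.card_mul_index
      rw [hLc, hc] at this
      rwa [Nat.eq_of_mul_eq_mul_left (by rw [← hLc]; exact Nat.card_pos) this]) (by
      rw [relIndex_eq_two_iff_exists_notMem_and]
      refine ⟨z, by simp [mem_comap, hz1], hzQ, fun y hy => ?_⟩
      rw [mem_comap, ← hmap] at hy
      obtain ⟨w, hw, hwy⟩ := hy
      rcases (hker (w⁻¹ * y)).1 (by simp [hwy]) with h | h
      · right; rwa [← inv_mul_eq_one.1 h]
      · left
        rw [inv_mul_eq_iff_eq_mul.1 h, mul_assoc, mul_self_of_orderOf hz, mul_one]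
        exact hw) (by
      intro g j _
      have h3 : g⁻¹ * z ^ j * g = z ^ j := by
        rw [mul_assoc, ← (Commute.pow_right (hzc g) j).eq]; simp
      rw [h3]
      rcases Nat.even_or_odd j with ⟨j, rfl⟩ | ⟨j, rfl⟩
      · rw [← two_mul, pow_mul, sq, mul_self_of_orderOf hz]; simp
      · rw [pow_succ, pow_mul, sq, mul_self_of_orderOf hz, one_pow, one_mul]
        simp [hzQ])
  exact ⟨M, h1, h2⟩

theorem cycleType_inv {n : ℕ} (hn : n ≤ 7) (σ : alternatingGroup (Fin n)) (h : orderOf σ = 2) :
    (σ : Perm (Fin n)).cycleType = {2, 2} := by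
  have h1 : orderOf (σ : Perm (Fin n)) = 2 := by rw [orderOf_coe, h]
  obtain ⟨k, hk⟩ := cycleType_prime_order (σ := (σ : Perm (Fin n))) (by rw [h1]; exact Nat.prime_two)
  rw [h1] at hk
  have h2 := sum_cycleType_le (σ : Perm (Fin n))
  have h3 := sign_of_cycleType (σ : Perm (Fin n))
  rw [mem_alternatingGroup.1 σ.2, hk] at h3
  rw [hk] at h2 ⊢
  simp only [Multiset.sum_replicate, smul_eq_mul, Fintype.card_fin, Multiset.card_replicate] at h2 h3
  have : k ≤ 2 := by omega
  interval_cases k
  · exact absurd h3 (by decide)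
  · rfl
  · exact absurd h3 (by decide)

theorem isConj_alt {n : ℕ} (hn : n ≤ 7) {σ τ : alternatingGroup (Fin n)} (h : orderOf σ = 2)
    (h' : orderOf τ = 2) {a b : Fin n} (hab : a ≠ b) (hc : swap a b * τ = τ * swap a b) :
    IsConj τ σ := by
  obtain ⟨π, hπ⟩ := isConj_iff.1 (isConj_iff_cycleType_eq.2
    ((cycleType_inv hn τ h').trans (cycleType_inv hn σ h).symm))
  rcases Int.units_eq_one_or (sign π) with h1 | h1
  · exact isConj_iff.2 ⟨⟨π, mem_alternatingGroup.2 h1⟩, Subtype.ext hπ⟩
  · refine isConj_iff.2 ⟨⟨π * swap a b, mem_alternatingGroup.2 (by simp [h1, hab])⟩,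
      Subtype.ext ?_⟩
    change π * swap a b * τ * (π * swap a b)⁻¹ = σ
    rw [← hπ, mul_assoc π, hc]; group

theorem part_one (n : ℕ) (H : Type) [Group H] [Finite H] (hn : n ≤ 7)
    (h : Cfsg.IsNonsplitDoubleCover H (alternatingGroup (Fin n))) (x y : H) (hx : orderOf x = 2)
    (hy : orderOf y = 2) : x = y := by
  obtain ⟨hc, ⟨e⟩, hns⟩ := h
  obtain ⟨z, hz1, hz⟩ := (Nat.card_eq_two_iff' (1 : center H)).1 hc
  let π : H →* alternatingGroup (Fin n) := e.toMonoidHom.comp (QuotientGroup.mk' _)
  have hπ : Function.Surjective π := e.surjective.comp (QuotientGroup.mk'_surjective _)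
  have hker : ∀ h, π h = 1 ↔ h = 1 ∨ h = z := by
    intro h
    change e (h : H ⧸ center H) = 1 ↔ _
    rw [map_eq_one_iff _ e.injective, QuotientGroup.eq_one_iff]
    refine ⟨fun hh => ?_, by rintro (rfl | rfl); exacts [one_mem _, z.2]⟩
    by_cases h1 : h = 1
    · exact Or.inl h1
    · exact Or.inr (congrArg Subtype.val (hz ⟨h, hh⟩ fun h2 => h1 (congrArg Subtype.val h2)))
  have hz2 : orderOf (z : H) = 2 := by
    rw [orderOf_coe, ← hc]
    exact orderOf_eq_card_of_forall_mem_zpowers fun w => by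
      by_cases h1 : w = 1
      · rw [h1]; exact one_mem _
      · rw [hz w h1]; exact mem_zpowers _
  have hzc : ∀ g : H, g * z = z * g := mem_center_iff.1 z.2
  suffices key : ∀ x : H, orderOf x = 2 → x = z by rw [key x hx, key y hy]
  intro x hx
  by_contra hxz
  have hx' : orderOf (π x) = 2 := CfsgH4.orderOf_eq_two_iff.2 ⟨by
    rw [← map_mul, mul_self_of_orderOf hx, map_one], fun h =>
      ((hker x).1 h).elim (ne_one_of_orderOf hx) hxz⟩
  have hmain : ∀ (s t : alternatingGroup (Fin n)) (a b : Fin n) (k m : ℕ), a ≠ b →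
      swap a b * s = s * swap a b → s * s = 1 → s ≠ 1 → t * t = 1 → t ≠ 1 → s ≠ t →
      orderOf (s * t) = 2 * k → Odd m → 2 * (2 * (2 * k) * m) = n.factorial → False := by
    intro s t a b k m hab h1 h2 h3 h4 h5 h6 h7 h8 h9
    have hs := CfsgH4.orderOf_eq_two_iff.2 ⟨h2, h3⟩
    have : Nontrivial (Fin n) := ⟨a, b, hab⟩
    obtain ⟨M, hM, hzM⟩ := split_aux π hπ hz2 hzc hker (by
      intro h hh
      by_cases h10 : π h = 1
      · rcases (hker h).1 h10 with rfl | rfl
        · simp
        · exact mul_self_of_orderOf hz2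
      · obtain ⟨g, hg⟩ := isConj_iff.1 ((isConj_alt hn hx' hs hab h1).symm.trans
          (isConj_alt hn (CfsgH4.orderOf_eq_two_iff.2 ⟨hh, h10⟩) hs hab h1))
        obtain ⟨g, rfl⟩ := hπ g
        have h11 := mul_self_of_orderOf (show orderOf (g * x * g⁻¹) = 2 by rw [orderOf_conj', hx])
        rcases (hker ((g * x * g⁻¹)⁻¹ * h)).1 (by
            rw [map_mul, map_inv, map_mul, map_mul, map_inv, hg, inv_mul_cancel]) with h12 | h12
        · rwa [← inv_mul_eq_one.1 h12]
        · rw [inv_mul_eq_iff_eq_mul.1 h12, mul_assoc, ← mul_assoc (z : H), ← hzc, mul_assoc _ (z : H),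
            mul_self_of_orderOf hz2, mul_one, h11]) hs (CfsgH4.orderOf_eq_two_iff.2 ⟨h4, h5⟩) h6 h7 h8
      (by
        have := two_mul_nat_card_alternatingGroup (α := Fin n)
        rw [Nat.card_perm, Nat.card_fin, ← h9] at this
        omega)
    apply hns M
    refine isComplement'_of_card_mul_and_disjoint (by rw [hc, ← hM, index_mul_card]) ?_
    rw [disjoint_def]
    intro w hw hwM
    by_contra h10
    exact hzM (congrArg Subtype.val (hz ⟨w, hw⟩ fun h2 => h10 (congrArg Subtype.val h2)) ▸ hwM)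
  have h4 : 4 ≤ n := by
    have := sum_cycleType_le (π x : Perm (Fin n))
    rw [cycleType_inv hn _ hx'] at this
    simpa using this
  have : Fact (Nat.Prime 2) := ⟨Nat.prime_two⟩
  interval_cases n
  · exact hmain ⟨swap 0 1 * swap 2 3, mem_alternatingGroup.2 (by decide)⟩ ⟨swap 0 2 * swap 1 3, mem_alternatingGroup.2 (by decide)⟩ 0 1 1 3
      (by decide) (by decide) (by decide) (by decide) (by decide) (by decide) (by decide)
      (orderOf_eq_prime_pow (p := 2) (n := 0) (by decide) (by decide)) (by decide) (by decide)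
  · exact hmain ⟨swap 0 1 * swap 2 3, mem_alternatingGroup.2 (by decide)⟩ ⟨swap 0 2 * swap 1 3, mem_alternatingGroup.2 (by decide)⟩ 0 1 1 15
      (by decide) (by decide) (by decide) (by decide) (by decide) (by decide) (by decide)
      (orderOf_eq_prime_pow (p := 2) (n := 0) (by decide) (by decide)) (by decide) (by decide)
  · exact hmain ⟨swap 0 1 * swap 2 3, mem_alternatingGroup.2 (by decide)⟩ ⟨swap 1 2 * swap 4 5, mem_alternatingGroup.2 (by decide)⟩ 0 1 2 45
      (by decide) (by decide) (by decide) (by decide) (by decide) (by decide) (by decide)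
      (orderOf_eq_prime_pow (p := 2) (n := 1) (by decide) (by decide)) (by decide) (by decide)
  · exact hmain ⟨swap 0 1 * swap 2 3, mem_alternatingGroup.2 (by decide)⟩ ⟨swap 1 2 * swap 4 5, mem_alternatingGroup.2 (by decide)⟩ 0 1 2 315
      (by decide) (by decide) (by decide) (by decide) (by decide) (by decide) (by decide)
      (orderOf_eq_prime_pow (p := 2) (n := 1) (by decide) (by decide)) (by decide) (by decide)

local instance fact3 : Fact (Nat.Prime 3) := ⟨Nat.prime_three⟩

noncomputable def QQ : QuadraticForm (ZMod 3) (Fin 8 → ZMod 3) := ∑ i, QuadraticMap.proj i i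

theorem polar_QQ (x y : Fin 8 → ZMod 3) : QuadraticMap.polar QQ x y = ∑ i, 2 * (x i * y i) := by
  simp only [QuadraticMap.polar, QQ, QuadraticMap.sum_apply, QuadraticMap.proj_apply, Pi.add_apply,
    ← Finset.sum_sub_distrib]
  exact Finset.sum_congr rfl fun i _ => by ring

noncomputable def E (i : Fin 8) : CliffordAlgebra QQ := ι QQ (Pi.single i 1)

theorem E_sq (i : Fin 8) : E i * E i = 1 := by
  have : QQ (Pi.single i 1) = 1 := by simp [QQ, Pi.single_apply]
  rw [E, ι_sq_scalar, this, map_one]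

theorem E_anti {i j : Fin 8} (h : i ≠ j) : E i * E j = -(E j * E i) := by
  rw [eq_neg_iff_add_eq_zero, E, E, ι_mul_ι_add_swap, polar_QQ]
  simp [Pi.single_apply, h, h.symm]

theorem three_eq : (3 : CliffordAlgebra QQ) = 0 := by
  have := map_ofNat (algebraMap (ZMod 3) (CliffordAlgebra QQ)) 3
  exact this.symm.trans (by rw [show (OfNat.ofNat 3 : ZMod 3) = 0 from rfl, map_zero])

theorem V_sq {i j : Fin 8} (h : i ≠ j) : (E i - E j) * (E i - E j) = -1 := by
  rw [sub_mul, mul_sub, mul_sub, E_sq, E_sq, E_anti h]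
  have h3 : (1 : CliffordAlgebra QQ) + 1 + 1 = 0 := by rw [← three_eq]; norm_num
  rw [← eq_neg_of_add_eq_zero_left h3]; abel

noncomputable def VV {i j : Fin 8} (h : i ≠ j) : (CliffordAlgebra QQ)ˣ :=
  ⟨E i - E j, -(E i - E j), by rw [mul_neg, V_sq h, neg_neg], by rw [neg_mul, V_sq h, neg_neg]⟩

theorem E_swap {i j : Fin 8} (h : i ≠ j) (k : Fin 8) :
    E (swap i j k) * (E i - E j) = -((E i - E j) * E k) := by
  rw [swap_apply_def]
  split_ifs with h1 h2
  · subst h1; rw [mul_sub, sub_mul, E_sq, E_sq, neg_sub]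
  · subst h2; rw [mul_sub, sub_mul, E_sq, E_sq, neg_sub]
  · rw [mul_sub, sub_mul, E_anti h1, E_anti h2]; abel

theorem involute_V (i j : Fin 8) : involute (E i - E j) = -(E i - E j) := by
  simp [E]; abel

theorem exists_lift (σ : Perm (Fin 8)) : ∃ c : (CliffordAlgebra QQ)ˣ,
    involute (c : CliffordAlgebra QQ) = (sign σ : ℤ) • c ∧
      ∀ i, E (σ i) * c = (sign σ : ℤ) • (c * E i) := by
  induction σ using swap_induction_on with
  | one => exact ⟨1, by simp, by simp⟩
  | swap_mul f x y hxy ih =>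
    obtain ⟨c, h1, h2⟩ := ih
    refine ⟨VV hxy * c, ?_, fun i => ?_⟩
    · change involute ((E x - E y) * (c : CliffordAlgebra QQ)) =
        _ • ((E x - E y) * (c : CliffordAlgebra QQ))
      rw [map_mul, involute_V, h1, Perm.sign_mul, sign_swap hxy, neg_one_mul, Units.val_neg, neg_smul,
        neg_mul, mul_smul_comm]
    · change E (swap x y (f i)) * ((E x - E y) * c) = _ • ((E x - E y) * c * E i)
      rw [← mul_assoc, E_swap hxy, neg_mul, mul_assoc, h2, Perm.sign_mul, sign_swap hxy, neg_one_mul,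
        Units.val_neg, neg_smul, mul_smul_comm, mul_assoc]

noncomputable def HH : Subgroup ((CliffordAlgebra QQ)ˣ × alternatingGroup (Fin 8)) where
  carrier := {p | involute (p.1 : CliffordAlgebra QQ) = p.1 ∧
    ∀ i, E ((p.2 : Perm (Fin 8)) i) * p.1 = p.1 * E i}
  one_mem' := ⟨by simp, by simp⟩
  mul_mem' := fun {a b} ha hb => ⟨by simp [ha.1, hb.1], fun i => by
    change E ((a.2 : Perm (Fin 8)) ((b.2 : Perm (Fin 8)) i)) * (a.1 * b.1) = a.1 * b.1 * E i
    rw [← mul_assoc, ha.2, mul_assoc, hb.2, mul_assoc]⟩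
  inv_mem' := fun {a} ha => ⟨by
    change involute (↑a.1⁻¹ : CliffordAlgebra QQ) = ↑a.1⁻¹
    rw [← a.1.mul_right_inj, Units.mul_inv]
    nth_rewrite 1 [← ha.1]
    rw [← map_mul, Units.mul_inv, map_one], fun i => by
    change E ((a.2 : Perm (Fin 8))⁻¹ i) * ↑a.1⁻¹ = ↑a.1⁻¹ * E i
    rw [Units.mul_inv_eq_iff_eq_mul, mul_assoc, Units.eq_inv_mul_iff_mul_eq, ← ha.2]
    simp⟩

noncomputable def pp : HH →* alternatingGroup (Fin 8) := (MonoidHom.snd _ _).comp HH.subtype

theorem pp_surj : Function.Surjective pp := by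
  intro σ
  obtain ⟨c, h1, h2⟩ := exists_lift σ
  rw [mem_alternatingGroup.1 σ.2] at h1 h2
  exact ⟨⟨(c, σ), by simpa using h1, by simpa using h2⟩, rfl⟩

noncomputable def zz : HH := ⟨(-1, 1), by simp, by simp⟩

theorem neg_one_ne : (-1 : CliffordAlgebra QQ) ≠ 1 := by
  have : Invertible (2 : ZMod 3) := invertibleOfNonzero (by decide)
  intro h
  have : (-1 : ZMod 3) = 1 := (algebraMap (ZMod 3) (CliffordAlgebra QQ)).injective (by simpa using h)
  exact absurd this (by decide)

theorem zz_ne : zz ≠ 1 := fun h =>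
  neg_one_ne (congrArg (fun p : HH => (p.1.1 : CliffordAlgebra QQ)) h)

theorem ker_pp (h : HH) : pp h = 1 ↔ h = 1 ∨ h = zz := by
  refine ⟨fun h1 => ?_, by rintro (rfl | rfl); exacts [map_one _, rfl]⟩
  obtain ⟨⟨c, σ⟩, h2, h3⟩ := h
  obtain rfl : σ = 1 := h1
  obtain ⟨r, hr⟩ := CfsgH8.scalar_of_contract (x := (c : CliffordAlgebra QQ)) (fun d => by
    have h4 : d = QuadraticMap.polarBilin QQ (fun i => - d (Pi.single i 1)) := by
      apply LinearMap.pi_ext
      intro i x
      rw [QuadraticMap.polarBilin_apply_apply, polar_QQ, Finset.sum_eq_single i]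
      · rw [show (Pi.single i x : Fin 8 → ZMod 3) = x • Pi.single i 1 by
          rw [← Pi.single_smul, smul_eq_mul, mul_one], map_smul]
        simp only [smul_eq_mul, Pi.smul_apply, Pi.single_eq_same]
        have h30 : (3 : ZMod 3) = 0 := rfl
        linear_combination (x * d (Pi.single i 1)) * h30
      · intro j _ hj; simp [hj]
      · simp
    rw [h4, ← CfsgH8.ι_mul_sub, h2, sub_eq_zero]
    generalize (fun i => - d (Pi.single i 1)) = w
    rw [pi_eq_sum_univ' w, map_sum, Finset.sum_mul, Finset.mul_sum]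
    refine Finset.sum_congr rfl fun i _ => ?_
    rw [map_smul, smul_mul_assoc, mul_smul_comm]
    exact congrArg _ (h3 i))
  have h5 : r = 0 ∨ r = 1 ∨ r = -1 := by clear hr; revert r; decide
  rcases h5 with rfl | rfl | rfl
  · have : Invertible (2 : ZMod 3) := invertibleOfNonzero (by decide)
    exact absurd (by simpa using hr) c.ne_zero
  · left; exact Subtype.ext (Prod.ext (Units.ext (by simpa using hr)) rfl)
  · right; exact Subtype.ext (Prod.ext (Units.ext (hr.trans (by simp [zz]))) rfl)

theorem center_HH : center HH = pp.ker := by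
  apply le_antisymm
  · intro h hh
    have : pp h ∈ center (alternatingGroup (Fin 8)) := mem_center_iff.2 fun g => by
      obtain ⟨g, rfl⟩ := pp_surj g
      rw [← map_mul, ← map_mul, mem_center_iff.1 hh]
    rwa [alternatingGroup.center_eq_bot (by simp)] at this
  · intro h hh
    rcases (ker_pp h).1 hh with rfl | rfl
    · exact one_mem _
    · exact mem_center_iff.2 fun g => Subtype.ext (Prod.ext (by simp [zz]) (by simp [zz]))

theorem card_ker : Nat.card pp.ker = 2 :=
  (Nat.card_eq_two_iff' 1).2 ⟨⟨zz, rfl⟩, fun h => zz_ne (congrArg Subtype.val h), fun w hw =>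
    Subtype.ext (((ker_pp w).1 w.2).resolve_left fun h => hw (Subtype.ext h))⟩

noncomputable def dbl {i j k l : Fin 8} (h1 : i ≠ j) (h2 : k ≠ l) : HH :=
  ⟨(VV h1 * VV h2, ⟨swap i j * swap k l, by simp [h1, h2]⟩), by
    change involute ((E i - E j) * (E k - E l)) = (E i - E j) * (E k - E l)
    rw [map_mul, involute_V, involute_V, neg_mul_neg], fun m => by
    change E (swap i j (swap k l m)) * ((E i - E j) * (E k - E l)) = (E i - E j) * (E k - E l) * E m
    rw [← mul_assoc, E_swap h1, neg_mul, mul_assoc, E_swap h2]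
    simp [mul_assoc]⟩

theorem V_anti {i j k l : Fin 8} (h1 : i ≠ k) (h2 : i ≠ l) (h3 : j ≠ k) (h4 : j ≠ l) :
    (E i - E j) * (E k - E l) = -((E k - E l) * (E i - E j)) := by
  simp only [mul_sub, sub_mul, E_anti h1, E_anti h2, E_anti h3, E_anti h4]; abel

theorem dbl_sq {i j k l : Fin 8} (h1 : i ≠ j) (h2 : k ≠ l) (h3 : i ≠ k) (h4 : i ≠ l) (h5 : j ≠ k)
    (h6 : j ≠ l) : dbl h1 h2 * dbl h1 h2 = zz := by
  refine Subtype.ext (Prod.ext (Units.ext ?_) (Subtype.ext ?_))
  · change (E i - E j) * (E k - E l) * ((E i - E j) * (E k - E l)) = -1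
    nth_rewrite 2 [V_anti h3 h4 h5 h6]
    rw [mul_neg, mul_assoc, ← mul_assoc (E k - E l), V_sq h2, neg_one_mul, mul_neg, V_sq h1]
    simp
  · change swap i j * swap k l * (swap i j * swap k l) = 1
    rw [← mul_assoc, mul_assoc (swap i j), ← (disjoint_swap_swap (by simp [*])).commute.eq]
    simp

/-- Involutions in double covers of alternating groups: for n ≤ 7, a finite non-split double cover of the alternating group of degree n has exactly one element of order 2 (the central one); for degree 8 there is a non-split double cover with two distinct involutions. -/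
theorem result : (∀ (n : ℕ) (H : Type) (_ : Group H) (_ : Finite H), n ≤ 7 → Cfsg.IsNonsplitDoubleCover H (alternatingGroup (Fin n)) → ∀ x y : H, orderOf x = 2 → orderOf y = 2 → x = y) ∧ ∃ (H : Type) (_ : Group H) (_ : Finite H), Cfsg.IsNonsplitDoubleCover H (alternatingGroup (Fin 8)) ∧ ∃ x y : H, x ≠ y ∧ orderOf x = 2 ∧ orderOf y = 2 := by
  refine ⟨fun n H _ _ => part_one n H, HH, inferInstance, ?_, ⟨?_, ?_, ?_⟩, ?_⟩
  · have : Finite pp.ker := Nat.finite_of_card_ne_zero (by rw [card_ker]; decide)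
    exact (MonoidHom.finite_iff_finite_ker_range pp).2 ⟨this, inferInstance⟩
  · rw [center_HH, card_ker]
  · exact ⟨(QuotientGroup.quotientMulEquivOfEq center_HH).trans
      (QuotientGroup.quotientKerEquivOfSurjective pp pp_surj)⟩
  · intro L hL
    have h1 : L.index = 2 := by rw [hL.index_eq_card, center_HH, card_ker]
    have h2 := mul_self_mem_of_index_two h1 (dbl (i := 0) (j := 1) (k := 2) (l := 3)
      (by decide) (by decide))
    rw [dbl_sq _ _ (by decide) (by decide) (by decide) (by decide)] at h2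
    exact zz_ne (disjoint_def.1 hL.disjoint (center_HH ▸ (rfl : pp zz = 1)) h2)
  · let a : HH := dbl (i := 0) (j := 1) (k := 2) (l := 3) (by decide) (by decide)
    let b : HH := dbl (i := 4) (j := 5) (k := 6) (l := 7) (by decide) (by decide)
    have hz : zz * zz = 1 := Subtype.ext (Prod.ext (by simp [zz]) (by simp [zz]))
    have hp : pp (a * b) ≠ 1 := by
      change (⟨swap 0 1 * swap 2 3 * (swap 4 5 * swap 6 7), _⟩ : alternatingGroup (Fin 8)) ≠ 1
      decide
    have hab : a * b = b * a := by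
      refine Subtype.ext (Prod.ext (Units.ext ?_) (Subtype.ext ?_))
      · change (E 0 - E 1) * (E 2 - E 3) * ((E 4 - E 5) * (E 6 - E 7)) =
          (E 4 - E 5) * (E 6 - E 7) * ((E 0 - E 1) * (E 2 - E 3))
        have e1 := V_anti (i := 0) (j := 1) (k := 4) (l := 5) (by decide) (by decide) (by decide)
          (by decide)
        have e2 := V_anti (i := 0) (j := 1) (k := 6) (l := 7) (by decide) (by decide) (by decide)
          (by decide)
        have e3 := V_anti (i := 2) (j := 3) (k := 4) (l := 5) (by decide) (by decide) (by decide)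
          (by decide)
        have e4 := V_anti (i := 2) (j := 3) (k := 6) (l := 7) (by decide) (by decide) (by decide)
          (by decide)
        generalize E 0 - E 1 = p at *
        generalize E 2 - E 3 = q at *
        generalize E 4 - E 5 = r at *
        generalize E 6 - E 7 = s at *
        calc p * q * (r * s) = p * (q * r) * s := by noncomm_ring
          _ = -((p * r) * (q * s)) := by rw [e3]; noncomm_ring
          _ = -(r * (p * s) * q) := by rw [e1, e4]; noncomm_ring
          _ = _ := by rw [e2]; noncomm_ring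
      · change swap 0 1 * swap 2 3 * (swap 4 5 * swap 6 7) =
          (swap 4 5 * swap 6 7 * (swap 0 1 * swap 2 3) : Perm (Fin 8))
        decide
    refine ⟨zz, a * b, fun h => hp (h ▸ rfl), CfsgH4.orderOf_eq_two_iff.2 ⟨hz, zz_ne⟩,
      CfsgH4.orderOf_eq_two_iff.2 ⟨?_, fun h => hp (by rw [h, map_one])⟩⟩
    rw [← sq, Commute.mul_pow hab, sq, sq, dbl_sq _ _ (by decide) (by decide) (by decide) (by decide),
      dbl_sq _ _ (by decide) (by decide) (by decide) (by decide), hz]

end Cfsg.Agent.S0447
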