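import Cfsg.Statements.S0472
import Cfsg.Agent.H5.F23S
import Cfsg.Agent.H5.Max

set_option autoImplicit false
open Cfsg

namespace Cfsg.Agent.S0472

open CfsgH5 CfsgH5.F23 Subgroup



/-- The Fischer group of order 4089470473293004800 exists as a 3-transposition group: a simple group of that order generated by a conjugacy class of 31671 3-transpositions, the centraliser of each being a non-split double cover of a simple group of order 64561751654400. -/
theorem result : ∃ (G : Type) (_ : Group G) (_ : Finite G), Cfsg.IsFi23 G ∧ ∃ D : Set G, Cfsg.IsThreeTranspositionClass D ∧ Nat.card D = 31671 ∧ ∀ d ∈ D, ∃ (K : Type) (_ : Group K), Cfsg.IsFi22 K ∧ Cfsg.IsNonsplitDoubleCover (Subgroup.centralizer ({d} : Set G)) K := by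
  have := simple
  refine ⟨Spor.Fi23, inferInstance, inferInstance, ⟨simple, card_eq⟩, conjugatesOf z,
    ⟨⟨fun x hx => ?_, three⟩, ⟨z, IsConj.refl _, rfl⟩, ?_⟩, card_D, fun x hx => ?_⟩
  · obtain ⟨k, rfl⟩ := isConj_iff.1 hx
    exact orderOf_eq_prime (by rw [conj_pow, pow_two, z_sq]; simp) (mt conj_eq_one_iff.1 z_ne)
  · have e : closure (conjugatesOf z) = normalClosure {z} := by
      rw [normalClosure]; congr 1; ext x; simp [Group.mem_conjugatesOfSet_iff, conjugatesOf]
    rw [e]
    exact (normalClosure_normal.eq_bot_or_eq_top).resolve_left fun h =>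
      z_ne (mem_bot.1 (h ▸ subset_normalClosure rfl))
  · obtain ⟨k, rfl⟩ := isConj_iff.1 hx
    refine ⟨_, _, ⟨H_cen.2.1, H_cen.2.2⟩, CfsgH6.nonsplit_of (conjEquiv k fun y => ?_).symm H_cen.1
      ⟨MulEquiv.refl _⟩ H_idx⟩
    rw [← stab0, cent, mem_centralizer_singleton_iff, mem_centralizer_singleton_iff]
    simp only [mul_assoc, inv_mul_cancel_left, mul_right_inj]
    rw [← mul_assoc, ← mul_assoc, mul_left_inj]

end Cfsg.Agent.S0472
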