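import Cfsg.Statements.S0473
import Cfsg.Agent.H5.F24S
import Cfsg.Agent.H5.Max

set_option autoImplicit false
open Cfsg

namespace Cfsg.Agent.S0473

open CfsgH5 CfsgH5.F24 Subgroup

theorem range_of {A B : Type*} [Group A] [Group B] {n : ℕ} (f : A →* B) (hf : Function.Injective f)
    (h : IsSimpleGroup A) (hn : Nat.card A = n) : IsSimpleGroup f.range ∧ Nat.card f.range = n :=
  ⟨(MonoidHom.ofInjective hf).symm.isSimpleGroup,
    (Nat.card_congr (MonoidHom.ofInjective hf).toEquiv).symm.trans hn⟩

/-- The largest Fischer 3-transposition group: a group of order 2 · 1255205709190661721292800 generated by a conjugacy class of 306936 3-transpositions, in which a transposition centraliser has order 2 · 4089470473293004800 and contains a simple subgroup of order 4089470473293004800; its subgroup of index 2 is simple and contains simple subgroups of orders 4089470473293004800 and 4030387200. -/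
theorem result : ∃ (G : Type) (_ : Group G) (_ : Finite G), Nat.card G = 2 * 1255205709190661721292800 ∧ ∃ D : Set G, Cfsg.IsThreeTranspositionClass D ∧ Nat.card D = 306936 ∧ (∀ d ∈ D, Nat.card (Subgroup.centralizer ({d} : Set G)) = 2 * 4089470473293004800 ∧ ∃ K : Subgroup G, K ≤ Subgroup.centralizer ({d} : Set G) ∧ Cfsg.IsFi23 K) ∧ ∃ H : Subgroup G, H.index = 2 ∧ Cfsg.IsFi24' H ∧ (∃ K : Subgroup H, Cfsg.IsFi23 K) ∧ (∃ K : Subgroup H, Cfsg.IsHe K) := by
  refine ⟨F24.G, inferInstance, inferInstance, chain.1, conjugatesOf (g 11),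
    ⟨⟨fun x hx => ?_, three⟩, ⟨_, IsConj.refl _, rfl⟩, gen_D⟩, card_D, fun x hx => ?_, ε.ker, idx,
    ⟨simple, card_ker⟩, ⟨_, range_of (ψ.codRestrict _ ψ_ε)
      (fun _ _ h => ψ_inj (congrArg Subtype.val h)) F23.simple F23.card_eq⟩,
    _, range_of (χ.codRestrict _ χ_ε) (fun _ _ h => χ_inj (congrArg Subtype.val h)) He.simple
      He.chain.1⟩
  · obtain ⟨k, rfl⟩ := isConj_iff.1 hx
    exact orderOf_eq_prime (by rw [conj_pow, pow_two, F24.sq]; simp) (mt conj_eq_one_iff.1 l_ne)
  · obtain ⟨k, rfl⟩ := isConj_iff.1 hx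
    have e : ∀ y, y ∈ KT.grp g 11 ↔ k * y * k⁻¹ ∈ centralizer {k * g 11 * k⁻¹} := fun y => by
      rw [← chain.2, cent, mem_centralizer_singleton_iff, mem_centralizer_singleton_iff]
      simp only [mul_assoc, inv_mul_cancel_left, mul_right_inj]
      rw [← mul_assoc, ← mul_assoc, mul_left_inj]
    refine ⟨(Nat.card_congr (conjEquiv k e).toEquiv).symm.trans card_H, _, ?_,
      range_of ((MulAut.conj k).toMonoidHom.comp ψ) ((MulAut.conj k).injective.comp ψ_inj)
        F23.simple F23.card_eq⟩
    rintro _ ⟨a, rfl⟩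
    exact (e _).1 (ψ_H a)

end Cfsg.Agent.S0473
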