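import Cfsg.Statements.S1892
import Cfsg.Agent.H2.Sect
import Cfsg.Agent.L0.PSolv

set_option autoImplicit false
open Cfsg

namespace Cfsg.Agent.S1892
open Subgroup CfsgH2 CfsgL0
open scoped commutatorElement



/-- Let S be a finite p-solvable group with no nontrivial normal subgroup of order prime to p, A a p-subgroup of S, and Q a nontrivial A-invariant subgroup of order prime to p with [A, Q] = Q. Then the commutator [O_p(S), A, Q] is nontrivial. -/
theorem result {S : Type*} [Group S] [Finite S] {p : ℕ} [Fact p.Prime]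
    (hS : Cfsg.IsPSolvable p S) (hred : Cfsg.pPrimeCore p S = ⊥)
    (A Q : Subgroup S) (hA : IsPGroup p A) (hQ : ¬ p ∣ Nat.card Q) (hQ1 : Q ≠ ⊥)
    (hinv : ∀ a ∈ A, ∀ x ∈ Q, a * x * a⁻¹ ∈ Q) (hAQ : ⁅A, Q⁆ = Q) :
    ⁅⁅Cfsg.pCore p S, A⁆, Q⁆ ≠ ⊥ := by
  intro h
  apply hQ1
  have nQ : A ≤ normalizer (Q : Set S) := le_normalizer_iff.mpr hinv
  have hP : IsPGroup p (Cfsg.pCore p S) := isPGroup_pCore S p
  have hc : Nat.Coprime (Nat.card Q) (Nat.card (Cfsg.pCore p S)) :=
    (coprime_card_of_isPGroup hP hQ).symm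
  have hN : ⁅Cfsg.pCore p S, A⁆ ≤ centralizer (Q : Set S) :=
    commutator_eq_bot_iff_le_centralizer.mp h
  have h1 : ⁅⁅A, Q⁆, Cfsg.pCore p S⁆ ≤ ⁅Cfsg.pCore p S, A⁆ :=
    three_subgroups (X := Q) (Y := Cfsg.pCore p S) (Z := A)
      ((le_centralizer_iff.mp hN).trans (centralizer_le_normalizer _))
      (normalizer_commutator_ge_left _ _) (normalizer_commutator_ge_right _ _)
      (commutator_mono (commutator_le_right _ _) le_rfl) (h ▸ bot_le)
  rw [hAQ, commutator_comm] at h1
  have h2 := commutator_eq_bot_of_commutator_commutator le_normalizer_of_normal hc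
    (Or.inr (isSolvable_of_isPGroup hP)) (commutator_eq_bot_iff_le_centralizer.mpr (h1.trans hN))
  have h3 : Q ≤ Cfsg.pCore p S := (le_centralizer_iff.mp
    (commutator_eq_bot_iff_le_centralizer.mp h2)).trans (centralizer_pCore_le hS hred)
  exact (disjoint_of_coprime_card hc).eq_bot_of_le h3

end Cfsg.Agent.S1892
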