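import Cfsg.Statements.S1893
import Cfsg.Agent.H2.Generation
import Cfsg.Agent.H2.PGroup
import Cfsg.Agent.L0.CoresOf
import Cfsg.Agent.H3.ZJApp

set_option autoImplicit false
open Cfsg

namespace Cfsg.Agent.S1893
open Subgroup CfsgH2 CfsgL0
open scoped commutatorElement

theorem quad_le_fitting {G : Type*} [Group G] [Finite G] [Group.IsSolvable G]
    (h23 : ∀ q : ℕ, q.Prime → pCore q G ≠ ⊥ → 3 < q) {C : Subgroup G}
    (hq : ⁅⁅fittingSubgroup G, C⁆, C⁆ = ⊥) : C ≤ fittingSubgroup G := by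
  apply le_of_forall_sylow
  intro q hqp _
  have : Fact q.Prime := ⟨hqp⟩
  obtain ⟨Q, hQ⟩ := exists_isSylowOf q C
  refine ⟨Q, hQ, ?_⟩
  set F := fittingSubgroup G
  set K := F ⊓ pPrimeCore q G
  have hK : ⁅K, Q⁆ = ⊥ := commutator_eq_bot_of_commutator_commutator le_normalizer_of_normal
    (coprime_card_of_isPGroup hQ.2.1 fun h =>
      not_dvd_card_pPrimeCore G q (h.trans (card_dvd_of_le inf_le_right)))
    (Or.inl inferInstance) (eq_bot_iff.mpr
      ((commutator_mono (commutator_mono inf_le_left hQ.1) hQ.1).trans hq.le))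
  have hQK : Q ≤ centralizer (K : Set G) :=
    le_centralizer_iff.mp (commutator_eq_bot_iff_le_centralizer.mp hK)
  have hF : F ≤ pCore q G ⊔ K := by
    intro x hx
    obtain ⟨a, ha, b, hb, rfl⟩ := (mem_sup_of_le_normalizer le_normalizer_of_normal).mp
      (fitting_le_pCore_sup q hx)
    exact mul_mem (mem_sup_left ha) (mem_sup_right
      ⟨by simpa using mul_mem (inv_mem (pCore_le_fitting q ha)) hx, hb⟩)
  have hC : ∀ x ∈ centralizer (pCore q G : Set G), x ∈ centralizer (K : Set G) → x ∈ F := by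
    intro x h1 h2
    apply centralizer_fitting_le
    refine centralizer_le hF ?_
    exact le_centralizer_iff.mp (sup_le (le_centralizer_iff.mp (zpowers_le.mpr h1))
      (le_centralizer_iff.mp (zpowers_le.mpr h2))) (mem_zpowers x)
  intro x hx
  by_cases h0 : pCore q G = ⊥
  · exact hC x (by rw [h0]; intro y hy; rw [mem_bot.mp hy]; simp) (hQK hx)
  have h3 := h23 q hqp h0
  obtain ⟨X, h1, -, h2, h4⟩ := (CfsgH3.pStab_of_not_isSec (by omega)
    (CfsgH3.not_isSec_QD_of_isSolvable h3)).nStab ⊤ _ inferInstance (isPGroup_pCore G q) x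
    (mem_top x) (eq_bot_iff.mpr ((commutator_mono (commutator_mono (pCore_le_fitting q)
      (zpowers_le.mpr (hQ.1 hx))) (zpowers_le.mpr (hQ.1 hx))).trans hq.le))
  have : X.Normal := normalizer_eq_top_iff.mp (eq_top_iff.mpr h2)
  refine le_fitting (N := X ⊓ centralizer (K : Set G)) ?_ ⟨h1, hQK hx⟩
  apply Group.of_quotient_center_nilpotent
  apply IsPGroup.isNilpotent (p := q)
  intro y
  obtain ⟨y, rfl⟩ := QuotientGroup.mk_surjective y
  obtain ⟨k, hk⟩ := h4 y y.2.1
  obtain ⟨a, ha, b, hb, e⟩ := (mem_sup_of_le_normalizer le_normalizer_of_normal).mp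
    (hF (hC _ hk (pow_mem (show (y : G) ∈ centralizer (K : Set G) from y.2.2) _)))
  obtain ⟨j, hj⟩ := IsPGroup.exists_pow_eq_one (isPGroup_pCore G q) ha
  have hab : Commute a b := by
    have := commutator_pCore_pPrimeCore G q
    exact (commutator_eq_bot_iff_le_centralizer.mp this ha b hb.2).symm
  refine ⟨k + j, ?_⟩
  rw [← QuotientGroup.mk_pow, QuotientGroup.eq_one_iff, mem_center_iff]
  intro w
  apply Subtype.ext
  have : (y : G) ^ q ^ (k + j) = b ^ q ^ j := by
    rw [pow_add, pow_mul, ← e, hab.mul_pow, hj, one_mul]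
  simp only [coe_mul, SubmonoidClass.coe_pow, this]
  exact (w.2.2 _ (pow_mem hb _)).symm

/-- Let S be a finite solvable group, π a set of primes containing neither 2 nor 3, H a Hall π-subgroup of S, and A a self-centralizing normal subgroup of the Fitting subgroup F(H). Then C_S(A) = A × D for a normal subgroup D of C_S(A) whose order has no prime divisor in π. -/
theorem result {S : Type*} [Group S] [Finite S] [Group.IsSolvable S]
    (π : Set ℕ) (h2 : 2 ∉ π) (h3 : 3 ∉ π) (H : Subgroup S) (hH : Cfsg.IsPiHall π H)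
    (A : Subgroup S) (hA : Cfsg.IsSCN ((Cfsg.fittingSubgroup H).map H.subtype) A) :
    ∃ D : Subgroup S, D ≤ Subgroup.centralizer (A : Set S) ∧
      (∀ c ∈ Subgroup.centralizer (A : Set S), ∀ d ∈ D, c * d * c⁻¹ ∈ D) ∧
      A ⊓ D = ⊥ ∧ A ⊔ D = Subgroup.centralizer (A : Set S) ∧
      ∀ q : ℕ, q.Prime → q ∣ Nat.card D → q ∉ π := by
  set N := piCore πᶜ S
  let f := QuotientGroup.mk' N
  have hf : Function.Surjective f := QuotientGroup.mk'_surjective N
  have hH' := isPiHall_iff.mp hH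
  have hHN : H ⊓ N = ⊥ := hH'.2.1.inf_eq_bot (isPi_piCore _)
  have hAH : A ≤ H := hA.1.trans (map_subtype_le _)
  have h0 : piCore πᶜ (S ⧸ N) = ⊥ := piCore_quotient _
  set F := fittingSubgroup (S ⧸ N)
  have hFπ : IsPi π (Nat.card F) := by
    have := fitting_le_piCore_sup (G := S ⧸ N) π
    rw [h0, sup_bot_eq] at this
    exact (isPi_piCore π).of_le this
  have hFH : F ≤ H.map f := by
    have h1 : IsHallOf π (H.map f) ⊤ := ⟨le_top, hH'.2.1.map f, by
      have := hH'.2.2
      rw [relIndex_top_right] at this ⊢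
      exact this.of_dvd (index_map_dvd H hf)⟩
    exact le_sup_right.trans (h1.eq_of_le (IsPi.sup le_normalizer_of_normal h1.2.1 hFπ)
      le_sup_left le_top).le
  have hF1 : H ⊓ F.comap f ≤ fittingOf H := by
    refine le_fittingOf inf_le_left (le_normalizer_inf le_normalizer le_normalizer_of_normal) ?_
    refine Subgroup.isNilpotent_of_ker_le_center
      ((f.comp (H ⊓ F.comap f).subtype).codRestrict F fun x => x.2.2) (fun x hx => ?_)
    have : (x : S) ∈ H ⊓ N := ⟨x.2.1, (QuotientGroup.eq_one_iff _).mp (congrArg Subtype.val hx)⟩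
    rw [hHN, mem_bot] at this
    rw [show x = 1 from Subtype.ext this]
    exact one_mem _
  have hFF : F ≤ (fittingOf H).map f := fun x hx => by
    obtain ⟨y, hy, rfl⟩ := hFH hx
    exact ⟨y, hF1 ⟨hy, hx⟩, rfl⟩
  have hFA : F ⊓ centralizer (A.map f : Set (S ⧸ N)) ≤ A.map f := by
    rintro x ⟨hx, hc⟩
    obtain ⟨y, hy, rfl⟩ := hFF hx
    refine ⟨y, hA.2.2.le ⟨hy, fun a ha => ?_⟩, rfl⟩
    have : ⁅a, y⁆ ∈ H ⊓ N := mem_inf.mpr ⟨mul_mem (mul_mem (mul_mem (hAH ha) (fittingOf_le hy)) (inv_mem (hAH ha))) (inv_mem (fittingOf_le hy)), by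
      rw [← QuotientGroup.ker_mk' N, MonoidHom.mem_ker, map_commutatorElement, comm_eq_one_iff]
      exact hc _ ⟨a, ha, rfl⟩⟩
    rw [hHN, mem_bot, comm_eq_one_iff] at this
    exact this
  have hn : F ≤ normalizer (A.map f : Set (S ⧸ N)) :=
    hFF.trans ((map_mono hA.2.1).trans (le_normalizer_map f))
  have hCF : centralizer (A.map f : Set (S ⧸ N)) ≤ F := by
    refine quad_le_fitting (fun q hq h => ?_) ?_
    · have : Fact q.Prime := ⟨hq⟩
      have hqπ : q ∈ π := by
        by_contra hqπ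
        apply h
        rw [eq_bot_iff, ← h0, pCore_eq_piCore]
        exact piCore_mono (by simpa using hqπ)
      have := hq.two_le
      have : q ≠ 2 := fun e => h2 (e ▸ hqπ)
      have : q ≠ 3 := fun e => h3 (e ▸ hqπ)
      omega
    · rw [commutator_eq_bot_iff_le_centralizer, le_centralizer_iff]
      refine centralizer_le (le_trans (le_inf (commutator_le_left _ _) ?_) hFA)
      exact le_normalizer_iff_commutator_le_right.mp (le_normalizer_centralizer hn)
  have hAC : A ≤ centralizer (A : Set S) := hA.2.2.ge.trans inf_le_right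
  refine ⟨N ⊓ centralizer (A : Set S), inf_le_right, fun c hc d hd =>
    mem_inf.mpr ⟨Normal.conj_mem inferInstance d hd.1 c, mul_mem (mul_mem hc hd.2) (inv_mem hc)⟩,
    eq_bot_iff.mpr ((inf_le_inf hAH inf_le_left).trans hHN.le),
    le_antisymm (sup_le hAC inf_le_right) fun c hc => ?_,
    fun q hq hd => isPi_piCore πᶜ q hq (hd.trans (card_dvd_of_le inf_le_left))⟩
  have h1 : f c ∈ centralizer (A.map f : Set (S ⧸ N)) := by
    rintro _ ⟨a, ha, rfl⟩
    rw [← map_mul, hc a ha, map_mul]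
  obtain ⟨a, ha, e⟩ := hFA ⟨hCF h1, h1⟩
  have : a⁻¹ * c ∈ N := QuotientGroup.eq.mp e
  simpa using mul_mem (mem_sup_left ha)
    (mem_sup_right (S := A) (show a⁻¹ * c ∈ N ⊓ centralizer (A : Set S) from
      mem_inf.mpr ⟨this, mul_mem (inv_mem (hAC ha)) hc⟩))

end Cfsg.Agent.S1893
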