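import Cfsg.Statements.S1895
import Cfsg.Agent.H2.PCentral

set_option autoImplicit false
open Cfsg

namespace Cfsg.Agent.S1895
open Subgroup CfsgH2 CfsgL0
open scoped commutatorElement



/-- Let p be an odd prime and G a finite p-solvable group with no elementary abelian subgroup of order p³. Then every chief factor H/K of G (H, K normal in G with no normal subgroup of G strictly between them) whose order is a power of p has order p or p². -/
theorem result {G : Type*} [Group G] [Finite G] {p : ℕ} [Fact p.Prime] (hp : p ≠ 2)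
    (hG : Cfsg.IsPSolvable p G) (hr : Cfsg.PRankLE p 2 G)
    (H K : Subgroup G) [H.Normal] [K.Normal] (hKH : K < H) (hpow : ∃ n : ℕ, K.relIndex H = p ^ n)
    (hchief : ∀ L : Subgroup G, L.Normal → K ≤ L → L ≤ H → L = K ∨ L = H) :
    K.relIndex H = p ∨ K.relIndex H = p ^ 2 := by
  have hpp : p.Prime := Fact.out
  obtain ⟨n, hn⟩ := hpow
  obtain ⟨P, hP⟩ := exists_isSylowOf (p := p) H
  have h1 : P ⊔ K = H := by
    refine le_antisymm (sup_le hP.1 hKH.le) (relIndex_eq_one.mp ?_)
    exact (fun a b c => Nat.eq_one_of_dvd_coprimes c a b)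
      (hn ▸ relIndex_dvd_of_le_left H (le_sup_right : K ≤ P ⊔ K))
      (relIndex_dvd_of_le_left H (le_sup_left : P ≤ P ⊔ K))
      ((hpp.coprime_iff_not_dvd.mpr hP.2.2).pow_left n)
  have h2 : K ⊔ normalizer (P : Set G) = ⊤ := by
    have := hP.frattini (X := ⊤) le_top le_normalizer_of_normal
    rw [← h1, top_inf_eq, sup_comm P K, sup_assoc, sup_eq_right.mpr le_normalizer] at this
    exact this
  obtain ⟨L, hL⟩ := (Set.toFinite {L : Subgroup G | L ≤ P ∧
    normalizer (P : Set G) ≤ normalizer (L : Set G) ∧ ¬ L ≤ K}).exists_minimal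
    ⟨P, le_rfl, le_rfl, fun h => hKH.ne (by rw [← h1, sup_eq_right.mpr h])⟩
  obtain ⟨a1, a2, a3⟩ := hL.prop
  have h3 : L ⊔ K = H := by
    refine (hchief _ ?_ le_sup_right (sup_le (a1.trans hP.1) hKH.le)).resolve_left
      fun h => a3 (h ▸ le_sup_left)
    rw [← normalizer_eq_top_iff, eq_top_iff, ← h2]
    exact sup_le (le_sup_right.trans le_normalizer) (le_normalizer_sup a2 le_normalizer_of_normal)
  have h4 := index_le_sq_of_rank_two hp (hP.2.1.to_le a1) (PRankLE.subgroup hr L)
    (K := K.subgroupOf L) fun M hM hne => by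
      by_contra h
      have := hL.le_of_le (y := M.map L.subtype) ⟨(map_subtype_le M).trans a1,
        le_normalizer_map_char a2 M, fun e => h (map_le_iff_le_comap.mp e)⟩ (map_subtype_le M)
      exact hne (eq_top_iff.mpr fun x _ => (mem_map_iff_mem L.subtype_injective).mp (this x.2))
  rw [← relIndex, ← relIndex_sup_of_le_normalizer le_normalizer_of_normal, h3, hn,
    pow_le_pow_iff] at h4
  have h5 : n ≠ 0 := fun h => hKH.not_ge (relIndex_eq_one.mp (by rw [hn, h, pow_zero]))
  have : n = 1 ∨ n = 2 := by omega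
  rcases this with rfl | rfl
  · exact Or.inl (hn.trans (pow_one p))
  · exact Or.inr hn

end Cfsg.Agent.S1895
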