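import Cfsg.Statements.S1898
import Cfsg.Agent.H2.Omega

set_option autoImplicit false
open Cfsg

namespace Cfsg.Agent.S1898
open Subgroup CfsgH2 CfsgL0
open scoped commutatorElement



/-- Let X be a finite 2-group whose derived subgroup is elementary abelian and central. Then the subgroup generated by the elements of order dividing 4 has exponent dividing 4, and every automorphism of X fixing each element of order dividing 4 has 2-power order. -/
theorem result {X : Type*} [Group X] [Finite X] (hX : IsPGroup 2 X)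
    (hel : Cfsg.IsElementaryAbelian 2 (commutator X)) (hcen : commutator X ≤ Subgroup.center X) :
    (∀ x ∈ Subgroup.closure {g : X | g ^ 4 = 1}, x ^ 4 = 1) ∧
      ∀ φ : MulAut X, (∀ g : X, g ^ 4 = 1 → φ g = g) → ∃ k : ℕ, φ ^ (2 ^ k) = 1 := by
  have hz : ∀ x y : X, ⁅x, y⁆ ∈ center X := fun x y => hcen (comm_mem_commutator x y)
  have h4 : ∀ x y : X, (x * y) ^ 4 = x ^ 4 * y ^ 4 := by
    intro x y
    rw [mul_pow_class_two (commute_of_mem_center (hz _ _) _) (commute_of_mem_center (hz _ _) _),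
      show Nat.choose 4 2 = 2 * 3 by decide, pow_mul, hel.2 _ (comm_mem_commutator y x), one_pow,
      mul_one]
  refine ⟨pow_eq_one_of_mem_closure (fun _ h => h) fun x _ y _ hx hy => by rw [h4, hx, hy, one_mul],
    fun φ hφ => ?_⟩
  obtain ⟨k, m, hm, hkm⟩ := Nat.exists_eq_two_pow_mul_odd (orderOf_pos φ).ne'
  refine ⟨k, ?_⟩
  have hfix : ∀ g : X, g ^ 4 = 1 → (φ ^ 2 ^ k) g = g := fun g hg => by
    have := MulAction.mem_fixedBy_zpow (α := X) (g := φ) (a := g) (hφ g hg) ((2 ^ k : ℕ) : ℤ)
    rw [zpow_natCast] at this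
    exact this
  have ho : (orderOf (φ ^ 2 ^ k)).Coprime 2 := by
    refine Nat.Coprime.coprime_dvd_left (orderOf_dvd_of_pow_eq_one (n := m) ?_)
      (Nat.coprime_two_right.mpr hm)
    rw [← pow_mul, ← hkm, pow_orderOf_eq_one]
  ext x
  obtain ⟨j, hj⟩ := hX x
  induction j generalizing x with
  | zero => rw [pow_zero, pow_one] at hj; simp [hj]
  | succ j ih =>
    have h1 := ih (x ^ 2) (by rw [← pow_mul, ← pow_succ', hj])
    rw [MulAut.one_apply] at h1 ⊢
    have h2 : (x⁻¹ * (φ ^ 2 ^ k) x) ^ 4 = 1 := by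
      rw [h4, ← map_pow, show 4 = 2 * 2 by rfl, pow_mul x, map_pow, h1, inv_pow, pow_mul x,
        inv_mul_cancel]
    exact aut_apply_eq_of_fixed ho (k := 2) (hfix _ h2) h2

end Cfsg.Agent.S1898
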