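import Cfsg.Statements.S1899
import Cfsg.Agent.H2.Sect

set_option autoImplicit false
open Cfsg

namespace Cfsg.Agent.S1899
open Subgroup CfsgH2 CfsgL0
open scoped commutatorElement



/-- Let a dihedral group of order 2n, n odd and n > 1, act on a finite abelian 2-group A through automorphisms d and t with d^n = 1, t² = 1 and t d t⁻¹ = d⁻¹, and suppose that d fixes only the identity. Then A is the internal direct product of C_A(t) and its image under d. -/
theorem result {A : Type*} [CommGroup A] [Finite A] (hA : IsPGroup 2 A)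
    {n : ℕ} (hn : Odd n) (hn1 : 1 < n) (d t : MulAut A) (hd : d ^ n = 1) (ht : t ^ 2 = 1) (hdt : t * d * t⁻¹ = d⁻¹)
    (hfix : ∀ a : A, d a = a → a = 1) :
    (MulEquiv.toMonoidHom t).eqLocus (MonoidHom.id A) ⊓ ((MulEquiv.toMonoidHom t).eqLocus (MonoidHom.id A)).map d.toMonoidHom = ⊥ ∧
      (MulEquiv.toMonoidHom t).eqLocus (MonoidHom.id A) ⊔ ((MulEquiv.toMonoidHom t).eqLocus (MonoidHom.id A)).map d.toMonoidHom = ⊤ := by
  have htt : ∀ x, t (t x) = x := fun x => by
    rw [← MulAut.mul_apply, ← pow_two, ht, MulAut.one_apply]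
  have hdtd : ∀ x, d (t (d x)) = t x := fun x => by
    have h1 : t * d = d⁻¹ * t := by rw [← hdt]; group
    have h2 : d * (t * d) = t := by rw [h1]; group
    exact congrArg (fun f : MulAut A => f x) h2
  have hfix2 : ∀ a : A, d (d a) = a → a = 1 := fun a ha => by
    obtain ⟨k, rfl⟩ := hn
    have h1 : ∀ j : ℕ, (d ^ (2 * j)) a = a := fun j => by
      induction j with
      | zero => rfl
      | succ j ih => rw [mul_add, pow_add, MulAut.mul_apply, mul_one, pow_two, MulAut.mul_apply, ha, ih]
    apply hfix
    have h2 := congrArg (fun f : MulAut A => f a) hd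
    simp only [pow_succ', MulAut.mul_apply, h1, MulAut.one_apply] at h2
    exact h2
  constructor
  · rw [eq_bot_iff]
    rintro _ ⟨h1, y, hy, rfl⟩
    have h1 : t (d y) = d y := h1
    have hy : t y = y := hy
    have : y = 1 := hfix2 y (by rw [← h1, hdtd, hy])
    rw [this, map_one]; exact one_mem _
  · let f : A →* A := (MonoidHom.id A) / (d.toMonoidHom.comp d.toMonoidHom)
    have hinj : Function.Injective f := (injective_iff_map_eq_one f).mpr fun a ha =>
      hfix2 a (div_eq_one.mp ha).symm
    rw [eq_top_iff]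
    intro a _
    obtain ⟨x, rfl⟩ := Finite.surjective_of_injective hinj a
    have e : f x = (x * t x) * d ((d x * t (d x))⁻¹) := by
      change x / d (d x) = _
      rw [map_inv, map_mul, hdtd, div_eq_mul_inv, mul_inv, mul_comm (d (d x))⁻¹, ← mul_assoc,
        mul_inv_cancel_right]
    rw [e]
    refine mul_mem (mem_sup_left ?_) (mem_sup_right ⟨_, inv_mem ?_, rfl⟩)
    · change t (x * t x) = x * t x
      rw [map_mul, htt, mul_comm]
    · change t (d x * t (d x)) = d x * t (d x)
      rw [map_mul, htt, mul_comm]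

end Cfsg.Agent.S1899
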