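import Cfsg.Statements.S1900
import Cfsg.Agent.H2.Sect
import Cfsg.Agent.H1.Basic

set_option autoImplicit false
open Cfsg

namespace Cfsg.Agent.S1900
open Subgroup CfsgH2 CfsgL0
open scoped commutatorElement

theorem comm_le_of_le_sup {S : Type*} [Group S] {D N C X : Subgroup S}
    (hX : X ≤ normalizer (N : Set S)) (hC : C ≤ normalizer (N : Set S))
    (hCX : C ≤ centralizer (X : Set S)) (h : D ≤ N ⊔ C) : ⁅D, X⁆ ≤ N := by
  rw [commutator_le]
  intro d hd x hx
  obtain ⟨n, hn, c, hc, rfl⟩ := (mem_sup_of_le_normalizer hC).mp (h hd)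
  rw [commutatorElement_mul_left_eq_conj_mul, comm_eq_one_iff.mpr (hCX hc x hx).symm, mul_one,
    mul_inv_cancel, one_mul]
  exact le_normalizer_iff_commutator_le_left.mp hX (commutator_mem_commutator hn hx)

theorem aux {S : Type*} [Group S] [Finite S] {P X₁ X₂ D : Subgroup S} [P.Normal]
    (hP : Group.IsSolvable P) (hc : Nat.Coprime (Nat.card X₁) (Nat.card P))
    (h12 : X₁ ≤ centralizer (X₂ : Set S))
    (hd : (P ⊓ centralizer (X₁ : Set S)) ⊓ (P ⊓ centralizer (X₂ : Set S)) = ⊥)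
    (hD : D = ⁅P ⊓ centralizer (X₁ : Set S), P ⊓ centralizer (X₂ : Set S)⁆) [D.Normal]
    (hgen : D ≤ (D ⊓ centralizer (X₁ : Set S)) ⊔ (D ⊓ centralizer (X₂ : Set S))) :
    ⁅D, X₂⁆ ≤ ⁅D, P⁆ := by
  have nX : X₁ ≤ normalizer ((centralizer (X₂ : Set S) : Subgroup S) : Set S) :=
    h12.trans le_normalizer
  have nP : P ≤ normalizer ((⁅D, P⁆ ⊔ D ⊓ centralizer (X₂ : Set S) : Subgroup S) : Set S) :=
    le_normalizer_iff_commutator_le_left.mpr ((commutator_mono
      (sup_le (commutator_le_left D P) inf_le_left) le_rfl).trans le_sup_left)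
  have nX₁ : X₁ ≤ normalizer ((⁅D, P⁆ ⊔ D ⊓ centralizer (X₂ : Set S) : Subgroup S) : Set S) :=
    le_normalizer_sup le_normalizer_of_normal (le_normalizer_inf le_normalizer_of_normal nX)
  have hDP : D ≤ P := hD ▸ commutator_le_of_le inf_le_left inf_le_left
  have h1 : ⁅D, X₁⁆ ≤ ⁅D, P⁆ ⊔ D ⊓ centralizer (X₂ : Set S) :=
    comm_le_of_le_sup nX₁ ((inf_le_left.trans hDP).trans nP) inf_le_right
      (hgen.trans (sup_le le_sup_right (le_sup_right.trans le_sup_left)))
  have h2 := three_subgroups (X := X₁) (Y := P ⊓ centralizer (X₁ : Set S))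
    (Z := P ⊓ centralizer (X₂ : Set S)) nX₁ (inf_le_left.trans nP) (inf_le_left.trans nP)
    (by rw [commutator_eq_bot_iff_le_centralizer.mpr (le_centralizer_iff.mp inf_le_right),
          commutator_bot_left]; exact bot_le) (hD ▸ h1)
  have h3 := commutator_sup_centralizer (A := X₁) (H := P ⊓ centralizer (X₂ : Set S))
    (le_normalizer_inf le_normalizer_of_normal nX) (coprime_mono hc le_rfl inf_le_left)
    (Or.inr (isSolvable_of_le inf_le_left hP))
  rw [show P ⊓ centralizer (X₂ : Set S) ⊓ centralizer (X₁ : Set S) = ⊥ from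
    eq_bot_iff.mpr (hd ▸ fun x hx => ⟨⟨hx.1.1, hx.2⟩, hx.1⟩), sup_bot_eq] at h3
  rw [h3, commutator_comm, ← hD] at h2
  exact comm_le_of_le_sup le_normalizer_of_normal le_normalizer_of_normal inf_le_right h2

/-- Let S = PQ be a finite group with P a normal Sylow p-subgroup and Q elementary abelian of order q², q a prime different from p. If exactly two subgroups X₁, X₂ of order q in Q have a nontrivial centralizer in P, then P is the internal direct product of C_P(X₁) and C_P(X₂): they commute elementwise, meet trivially and generate P. -/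
theorem result {S : Type*} [Group S] [Finite S] {p q : ℕ} [Fact p.Prime] [Fact q.Prime] (hpq : p ≠ q)
    (P : Sylow p S) [(P : Subgroup S).Normal] (Q : Subgroup S) (hQ : Cfsg.IsElementaryAbelian q Q) (hQc : Nat.card Q = q ^ 2)
    (hS : (P : Subgroup S) ⊔ Q = ⊤)
    (X₁ X₂ : Subgroup S) (h₁ : X₁ ≤ Q) (h₂ : X₂ ≤ Q) (h₁₂ : X₁ ≠ X₂) (hc₁ : Nat.card X₁ = q) (hc₂ : Nat.card X₂ = q)
    (hf₁ : (P : Subgroup S) ⊓ Subgroup.centralizer (X₁ : Set S) ≠ ⊥)
    (hf₂ : (P : Subgroup S) ⊓ Subgroup.centralizer (X₂ : Set S) ≠ ⊥)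
    (honly : ∀ X : Subgroup S, X ≤ Q → Nat.card X = q →
      (P : Subgroup S) ⊓ Subgroup.centralizer (X : Set S) ≠ ⊥ → X = X₁ ∨ X = X₂) :
    ⁅(P : Subgroup S) ⊓ Subgroup.centralizer (X₁ : Set S), (P : Subgroup S) ⊓ Subgroup.centralizer (X₂ : Set S)⁆ = ⊥ ∧
      ((P : Subgroup S) ⊓ Subgroup.centralizer (X₁ : Set S)) ⊓ ((P : Subgroup S) ⊓ Subgroup.centralizer (X₂ : Set S)) = ⊥ ∧
      ((P : Subgroup S) ⊓ Subgroup.centralizer (X₁ : Set S)) ⊔ ((P : Subgroup S) ⊓ Subgroup.centralizer (X₂ : Set S)) = P := by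
  have hp : p.Prime := Fact.out
  have hq : q.Prime := Fact.out
  have hQq : IsPGroup q Q := IsPGroup.of_card hQc
  have hc : Nat.Coprime (Nat.card Q) (Nat.card (P : Subgroup S)) :=
    IsPGroup.coprime_card_of_ne q p hpq.symm _ _ hQq P.isPGroup'
  have hnc : ¬ IsCyclic Q := fun h => by
    have h1 : Monoid.exponent Q ∣ q :=
      Monoid.exponent_dvd_of_forall_pow_eq_one fun g => Subtype.ext (hQ.2 g g.2)
    rw [IsCyclic.exponent_eq_card, hQc] at h1
    have := Nat.le_of_dvd hq.pos h1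
    have := hq.one_lt
    nlinarith
  have hQc' : Q ≤ centralizer (Q : Set S) := le_centralizer_iff_isMulCommutative.mpr hQ.1
  have gen : ∀ D : Subgroup S, D ≤ P → Q ≤ normalizer (D : Set S) →
      D ≤ (D ⊓ centralizer (X₁ : Set S)) ⊔ (D ⊓ centralizer (X₂ : Set S)) := by
    intro D hD hn
    refine le_of_noncyclic hQ.1 hnc hn (coprime_mono hc le_rfl hD) fun a ha ha1 => ?_
    rw [← centralizer_zpowers]
    by_cases h0 : (P : Subgroup S) ⊓ centralizer (zpowers a : Set S) = ⊥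
    · exact (inf_le_inf_right _ hD).trans (h0 ▸ bot_le)
    · rcases honly _ (zpowers_le.mpr ha) (card_zpowers_of_pow_eq_one ha1 (hQ.2 a ha)) h0 with e | e
      · rw [e]; exact le_sup_left
      · rw [e]; exact le_sup_right
  have hgenP := le_antisymm (sup_le inf_le_left inf_le_left) (gen P le_rfl le_normalizer_of_normal)
  have ex : ∀ X : Subgroup S, Nat.card X = q → ∃ x ∈ X, x ≠ 1 := fun X hX => by
    obtain ⟨x, hx⟩ := X.ne_bot_iff_exists_ne_one.mp
      (by rw [← one_lt_card_iff_ne_bot, hX]; exact hq.one_lt)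
    exact ⟨x, x.2, fun e => hx (Subtype.ext e)⟩
  obtain ⟨x₁, hx₁, n₁⟩ := ex X₁ hc₁
  obtain ⟨x₂, hx₂, n₂⟩ := ex X₂ hc₂
  have e₁ : x₂ ∉ X₁ := fun h => h₁₂ (eq_of_le_of_card_ge (le_of_card_prime hc₂ hx₂ h n₂)
    (by rw [hc₁, hc₂])).symm
  have e₂ : x₁ ∉ X₂ := fun h => h₁₂ (eq_of_le_of_card_ge (le_of_card_prime hc₁ hx₁ h n₁)
    (by rw [hc₁, hc₂]))
  have hd : ((P : Subgroup S) ⊓ centralizer (X₁ : Set S)) ⊓
      ((P : Subgroup S) ⊓ centralizer (X₂ : Set S)) = ⊥ := by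
    have h12 : x₁ * x₂ ∈ Q := mul_mem (h₁ hx₁) (h₂ hx₂)
    have h0 : (P : Subgroup S) ⊓ centralizer (zpowers (x₁ * x₂) : Set S) = ⊥ := by
      by_contra h0
      rcases honly _ (zpowers_le.mpr h12) (card_zpowers_of_pow_eq_one (fun e => e₁ (by
        rw [eq_inv_of_mul_eq_one_right e]; exact inv_mem hx₁)) (hQ.2 _ h12)) h0 with e | e
      · exact e₁ ((X₁.mul_mem_cancel_left hx₁).mp (e ▸ mem_zpowers _))
      · exact e₂ ((X₂.mul_mem_cancel_right hx₂).mp (e ▸ mem_zpowers _))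
    rw [eq_bot_iff, ← h0, centralizer_zpowers]
    intro c hc
    refine ⟨hc.1.1, mem_centralizer_singleton_iff.mpr ?_⟩
    exact ((show Commute x₁ c from hc.1.2 x₁ hx₁).mul_left (hc.2.2 x₂ hx₂)).symm
  refine ⟨?_, hd, hgenP⟩
  obtain ⟨D, hD⟩ : ∃ D, D = ⁅(P : Subgroup S) ⊓ centralizer (X₁ : Set S),
    (P : Subgroup S) ⊓ centralizer (X₂ : Set S)⁆ := ⟨_, rfl⟩
  have nC : ∀ X ≤ Q, Q ≤ normalizer (((P : Subgroup S) ⊓ centralizer (X : Set S) : Subgroup S) : Set S) :=
    fun X hX => le_normalizer_inf le_normalizer_of_normal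
      ((hQc'.trans (centralizer_le hX)).trans le_normalizer)
  have hDn : D.Normal := by
    rw [← normalizer_eq_top_iff, eq_top_iff, ← hS, hD]
    exact sup_le (hgenP.ge.trans (sup_le (normalizer_commutator_ge_left _ _)
      (normalizer_commutator_ge_right _ _))) (le_normalizer_commutator (nC _ h₁) (nC _ h₂))
  have hDP : D ≤ P := hD ▸ commutator_le_of_le inf_le_left inf_le_left
  have hs := isSolvable_of_isPGroup P.isPGroup'
  have hg := gen D hDP le_normalizer_of_normal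
  have a2 := aux hs (coprime_mono hc h₁ le_rfl) (h₁.trans (hQc'.trans (centralizer_le h₂))) hd hD hg
  have a1 := aux hs (coprime_mono hc h₂ le_rfl) (h₂.trans (hQc'.trans (centralizer_le h₁)))
    ((inf_comm _ _).trans hd) (hD.trans (commutator_comm _ _)) (hg.trans (sup_comm _ _).le)
  have a3 : ⁅D, Q⁆ ≤ ⁅D, (P : Subgroup S)⁆ := by
    have : X₁ ⊔ X₂ = Q := eq_of_lt_of_card_eq_mul hQq (H := X₁)
      (lt_of_le_not_ge le_sup_left fun h => e₁ (h (mem_sup_right hx₂))) (sup_le h₁ h₂)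
      (by rw [hc₁, hQc, pow_two])
    rw [← this, ← QuotientGroup.ker_mk' ⁅D, (P : Subgroup S)⁆, ← Subgroup.map_eq_bot_iff,
      Subgroup.map_commutator, commutator_eq_bot_iff_le_centralizer, le_centralizer_iff,
      Subgroup.map_sup, sup_le_iff]
    rw [← QuotientGroup.ker_mk' ⁅D, (P : Subgroup S)⁆, ← Subgroup.map_eq_bot_iff,
      Subgroup.map_commutator, commutator_eq_bot_iff_le_centralizer, le_centralizer_iff] at a1 a2
    exact ⟨a1, a2⟩
  have a4 := commutator_sup_centralizer (A := Q) (H := D) le_normalizer_of_normal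
    (coprime_mono hc le_rfl hDP) (Or.inr (isSolvable_of_le hDP hs))
  rw [show D ⊓ centralizer (Q : Set S) = ⊥ from eq_bot_iff.mpr (hd ▸ fun x hx =>
    ⟨⟨hDP hx.1, centralizer_le h₁ hx.2⟩, hDP hx.1, centralizer_le h₂ hx.2⟩), sup_bot_eq] at a4
  rw [a4] at a3
  rw [← hD]
  by_contra hne
  exact CfsgH1.commutator_lt_of_isNilpotent P.isPGroup'.isNilpotent hDP hne a3

end Cfsg.Agent.S1900
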