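import Cfsg.Statements.S1901
import Cfsg.Agent.H2.Sect
import Cfsg.Agent.L0.PSolv

set_option autoImplicit false
open Cfsg

namespace Cfsg.Agent.S1901
open Subgroup CfsgH2 CfsgL0
open scoped commutatorElement

theorem card_map_mul {G H : Type*} [Group G] [Group H] (f : G →* H) (K : Subgroup G) :
    Nat.card (K.map f) * Nat.card (K ⊓ f.ker : Subgroup G) = Nat.card K := by
  rw [← relIndex_ker, mul_comm, card_inf_mul_relIndex]

theorem aux {p : ℕ} [hp : Fact p.Prime] (n : ℕ) : ∀ (G : Type*) [Group G] [Finite G],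
    Nat.card G = n → Cfsg.IsPSolvable p G → ∀ (P : Sylow p G) (Q R : Subgroup G),
    ¬ p ∣ Nat.card Q → Q ≤ normalizer ((P : Subgroup G) : Set G) → IsPGroup p R →
    R ≤ normalizer (Q : Set G) →
    Nat.card R ≤ Nat.card ((P : Subgroup G) ⊓ centralizer (Q : Set G) : Subgroup G) := by
  induction n using Nat.strong_induction_on with
  | _ n ih =>
  intro G _ _ hn hG P Q R hQ hQP hR hRQ
  rcases subsingleton_or_nontrivial G with hs | hs
  · rw [Subsingleton.elim R ⊥, card_bot]; exact Nat.card_pos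
  have key : ∀ (M : Subgroup G) [M.Normal], M ≠ ⊥ →
      Nat.card (R.map (QuotientGroup.mk' M)) ≤
      Nat.card ((P : Subgroup G).map (QuotientGroup.mk' M) ⊓
        centralizer (Q.map (QuotientGroup.mk' M) : Set (G ⧸ M)) : Subgroup (G ⧸ M)) := by
    intro M _ hM
    exact ih _ (hn ▸ card_quotient_lt hM) (G ⧸ M) rfl (isPSolvable_quotient hG M)
      (P.mapSurjective (QuotientGroup.mk'_surjective M)) _ _
      (fun h => hQ (h.trans (card_map_dvd _ _))) ((map_mono hQP).trans (le_normalizer_map _))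
      (hR.map _) ((map_mono hRQ).trans (le_normalizer_map _))
  rcases pCore_ne_bot_or_pPrimeCore_ne_bot hG with h | h
  · have hM : IsPGroup p (Cfsg.pCore p G) := isPGroup_pCore G p
    have hMP : Cfsg.pCore p G ≤ P := pCore_le_sylow P
    have hc := (coprime_card_of_isPGroup hM hQ).symm
    have h1 := key _ h
    rw [centralizer_map_mk' hc (Or.inr (isSolvable_of_isPGroup hM))] at h1
    have h2 : (P : Subgroup G).map (QuotientGroup.mk' (Cfsg.pCore p G)) ⊓
        (centralizer (Q : Set G)).map (QuotientGroup.mk' (Cfsg.pCore p G)) ≤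
        ((P : Subgroup G) ⊓ centralizer (Q : Set G)).map (QuotientGroup.mk' (Cfsg.pCore p G)) := by
      rintro _ ⟨⟨x, hx, e⟩, c, hc, rfl⟩
      exact ⟨c, ⟨(mul_mem_cancel_left (inv_mem hx)).mp (hMP (QuotientGroup.eq.mp e)), hc⟩, rfl⟩
    rw [← card_map_mul (QuotientGroup.mk' (Cfsg.pCore p G)) R,
      ← card_map_mul (QuotientGroup.mk' (Cfsg.pCore p G)) ((P : Subgroup G) ⊓ _),
      QuotientGroup.ker_mk']
    refine Nat.mul_le_mul (h1.trans (card_le_of_le h2)) (card_le_of_le (H := R ⊓ Cfsg.pCore p G)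
      (K := (P : Subgroup G) ⊓ centralizer (Q : Set G) ⊓ Cfsg.pCore p G) fun x hx => ?_)
    refine ⟨⟨hMP hx.2, fun y hy => (comm_eq_one_iff.mp ?_).eq⟩, hx.2⟩
    exact mem_bot.mp ((disjoint_of_coprime_card hc).eq_bot ▸
      comm_mem_inf_of_normalizer hy hx.2 (mem_normalizer_of_normal _ _) (hRQ hx.1))
  · have hM : ¬ p ∣ Nat.card (Cfsg.pPrimeCore p G) :=
      hp.out.coprime_iff_not_dvd.mp (coprime_card_pPrimeCore G p).symm
    have h1 := key _ h
    have h2 : (P : Subgroup G).map (QuotientGroup.mk' (Cfsg.pPrimeCore p G)) ⊓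
        centralizer (Q.map (QuotientGroup.mk' (Cfsg.pPrimeCore p G)) : Set _) ≤
        ((P : Subgroup G) ⊓ centralizer (Q : Set G)).map
          (QuotientGroup.mk' (Cfsg.pPrimeCore p G)) := by
      rintro _ ⟨⟨x, hx, rfl⟩, hc⟩
      refine ⟨x, ⟨hx, fun y hy => (comm_eq_one_iff.mp ?_).eq⟩, rfl⟩
      have a1 : ⁅y, x⁆ ∈ Cfsg.pPrimeCore p G := comm_mem_iff_commute_mk.mpr (hc _ ⟨y, hy, rfl⟩)
      have a2 : ⁅y, x⁆ ∈ (P : Subgroup G) :=
        le_normalizer_iff_commutator_le_right.mp hQP (commutator_mem_commutator hy hx)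
      exact mem_bot.mp ((disjoint_of_coprime_card
        (coprime_card_of_isPGroup P.isPGroup' hM)).eq_bot ▸ ⟨a2, a1⟩)
    rw [← card_map_mul (QuotientGroup.mk' (Cfsg.pPrimeCore p G)) R, QuotientGroup.ker_mk',
      (disjoint_of_coprime_card (coprime_card_of_isPGroup hR hM)).eq_bot, card_bot, mul_one]
    exact (h1.trans (card_le_of_le h2)).trans (Nat.le_of_dvd Nat.card_pos (card_map_dvd _ _))

/-- Let G be a finite p-solvable group and Q a subgroup of order prime to p such that p divides the index of C_G(Q) in N_G(Q). Then Q normalizes no Sylow p-subgroup of G. -/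
theorem result {G : Type*} [Group G] [Finite G] {p : ℕ} [Fact p.Prime]
    (hG : Cfsg.IsPSolvable p G) (Q : Subgroup G) (hQ : ¬ p ∣ Nat.card Q)
    (hA : p ∣ (Subgroup.centralizer (Q : Set G)).relIndex (Subgroup.normalizer (Q : Set G)))
    (P : Sylow p G) : ¬ Q ≤ Subgroup.normalizer ((P : Subgroup G) : Set G) := by
  intro hQP
  have hle : (P : Subgroup G) ⊓ centralizer (Q : Set G) ≤ normalizer (Q : Set G) :=
    inf_le_right.trans (centralizer_le_normalizer _)
  have := isSylowOf_of_maximal (P.isPGroup'.to_le inf_le_left) hle fun R hR h1 h2 =>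
    (eq_of_le_of_card_ge h1 (aux _ G rfl hG P Q R hQ hQP hR h2)).ge
  exact this.2.2 (hA.trans (relIndex_dvd_of_le_left _ inf_le_right))

end Cfsg.Agent.S1901
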