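import Cfsg.Statements.S1902
import Cfsg.Agent.H2.Frob
import Cfsg.Agent.H2.Sect
import Cfsg.Agent.L0.PSolv
import Cfsg.Agent.H1.PNil

set_option autoImplicit false
open Cfsg

namespace Cfsg.Agent.S1902
open Subgroup CfsgH2 CfsgL0
open scoped commutatorElement

theorem reduced {G : Type*} [Group G] [Finite G] {p : ℕ} [hp : Fact p.Prime] (hp2 : p ≠ 2)
    {R : Subgroup G} [R.Normal] (hR : IsPGroup p R) (hC : centralizer (R : Set G) ≤ R)
    {B : Subgroup G} (hB : IsElementaryAbelian p B) (hBc : Nat.card B ≤ p ^ 2)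
    {b : G} (hb : b ∈ B) {P : Subgroup G} (hP : IsSylowOf p P (centralizer {b})) (hBP : B ≤ P)
    (hPB : ∀ x ∈ P, x ^ p = 1 → x ∈ B) {Q : Subgroup G} (hQ : ¬ p ∣ Nat.card Q)
    (hinv : B ≤ normalizer (Q : Set G)) : Q = ⊥ := by
  have hBp : IsPGroup p B := hP.2.1.to_le hBP
  have hx : ∀ x ∈ R, x ^ p = 1 → x ∈ centralizer {b} → x ∈ B := by
    intro x hx hxp hxb
    obtain ⟨c, -, hc⟩ := hP.exists_cj_le (Q := (R ⊔ B) ⊓ centralizer {b})
      (hR.to_sup_of_normal_left hBp).to_inf_left inf_le_right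
    have h1 : ∀ y ∈ (R ⊔ B) ⊓ centralizer {b}, y ^ p = 1 → c * y * c⁻¹ ∈ B := fun y hy hyp =>
      hPB _ (hc (conj_mem_cj c hy)) (by rw [conj_pow, hyp]; simp)
    have h2 : c ∈ normalizer (B : Set G) := mem_normalizer_fintype fun y hy =>
      h1 y ⟨mem_sup_right hy, hP.1 (hBP hy)⟩ (hB.2 y hy)
    exact (mem_normalizer_iff.mp h2 x).mpr (h1 x ⟨mem_sup_left hx, hxb⟩ hxp)
  have hd : Q ⊓ R = ⊥ := by
    rw [inf_comm]; exact disjoint_iff.mp (disjoint_of_coprime_card (coprime_card_of_isPGroup hR hQ))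
  have hQ' : Nat.Coprime (Nat.card Q) p := ((Nat.Prime.coprime_iff_not_dvd hp.out).mpr hQ).symm
  have hBR : ∀ x ∈ B, x ∈ R → ∀ q ∈ Q, q * x * q⁻¹ = x := fun x hxB hxR q hq => by
    have : ⁅q, x⁆ ∈ Q ⊓ R := ⟨le_normalizer_iff_commutator_le_left.mp hinv
      (commutator_mem_commutator hq hxB), commutator_le_right ⊤ R
      (commutator_mem_commutator (mem_top q) hxR)⟩
    rw [hd, mem_bot, comm_eq_one_iff] at this
    rw [this.eq, mul_inv_cancel_right]
  have hbp : IsPGroup p (zpowers b) := hBp.to_le (zpowers_le.mpr hb)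
  have hz : centralizer (zpowers b : Set G) = centralizer {b} := by
    rw [zpowers_eq_closure, centralizer_closure]
  have h0 : Q ⊓ centralizer {b} = ⊥ := by
    have h1 : R ≤ centralizer ((Q ⊓ centralizer {b} : Subgroup G) : Set G) := by
      refine thompson_PxQ hbp hR (fun h => hQ (h.trans (card_dvd_of_le inf_le_left)))
        le_normalizer_of_normal le_normalizer_of_normal
        (le_centralizer_iff.mp (hz ▸ inf_le_right)) ?_
      rw [hz]
      intro x hx' q hq
      have hn : Q ⊓ centralizer {b} ≤ normalizer ((R ⊓ centralizer {b} : Subgroup G) : Set G) :=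
        le_normalizer_inf le_normalizer_of_normal (inf_le_right.trans le_normalizer)
      have := aut_eq_one_of_fix_order_p hp2 hR.to_inf_left (a := conjAut hn ⟨q, hq⟩)
        (hQ'.coprime_dvd_left ((orderOf_map_dvd _ _).trans
          ((_root_.orderOf_dvd_natCard _).trans (card_dvd_of_le inf_le_left))))
        fun y hy => Subtype.ext (hBR y (hx y y.2.1 (congrArg Subtype.val hy) y.2.2) y.2.1 q hq.1)
      have := congrArg Subtype.val (DFunLike.congr_fun this ⟨x, hx'⟩)
      exact mul_inv_eq_iff_eq_mul.mp this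
    rw [eq_bot_iff, ← hd]
    exact le_inf inf_le_left ((le_centralizer_iff.mp h1).trans hC)
  by_cases hbR : b ∈ R
  · rw [← h0, left_eq_inf]
    intro q hq
    rw [mem_centralizer_singleton_iff, ← mul_inv_eq_iff_eq_mul, hBR b hb hbR q hq]
  have hc : Nat.card (B ⊓ R : Subgroup G) ≤ p := by
    obtain ⟨k, hk⟩ := IsPGroup.iff_card.mp (hBp.to_inf_left (K := R))
    have := (card_lt_of_lt (lt_of_le_not_ge (inf_le_left : B ⊓ R ≤ B)
      fun h => hbR (h hb).2)).trans_le hBc
    rw [hk, pow_lt_pow_iff] at this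
    rw [hk]
    exact (pow_le_pow_iff.mpr (by omega : k ≤ 1)).trans_eq (pow_one p)
  have : (Q.subgroupOf (Q ⊔ zpowers b)).Normal := Subgroup.normal_subgroupOf_of_le_normalizer
    (sup_le le_normalizer (zpowers_le.mpr (hinv hb)))
  have key := frob_trivial_of_fix hp2 (Q.subgroupOf (Q ⊔ zpowers b))
    (by rwa [CfsgH2.card_subgroupOf_of_le le_sup_left]) ⟨b, mem_sup_right (mem_zpowers b)⟩
    (Subtype.ext (hB.2 b hb)) (fun q hq h => Subtype.ext (mem_bot.mp (h0 ▸
      ⟨hq, mem_centralizer_singleton_iff.mpr (congrArg Subtype.val h.eq).symm⟩)))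
    (by
      apply map_injective (Q ⊔ zpowers b).subtype_injective
      rw [Subgroup.map_sup, MonoidHom.map_zpowers, map_subgroupOf_eq_of_le le_sup_left,
        ← MonoidHom.range_eq_map, range_subtype]
      rfl) _ R rfl hR (MulAut.conjNormal.comp (Q ⊔ zpowers b).subtype)
    (fun x h1 h2 q hq => Subtype.ext (hBR x (hx x x.2 (congrArg Subtype.val h1)
      (mem_centralizer_singleton_iff.mpr
        (mul_inv_eq_iff_eq_mul.mp (congrArg Subtype.val h2)).symm)) x.2 q hq))
    (le_trans (Nat.card_le_card_of_injective (fun x => (⟨x.1, hx x.1 x.1.2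
      (congrArg Subtype.val x.2.1) (mem_centralizer_singleton_iff.mpr
        (mul_inv_eq_iff_eq_mul.mp (congrArg Subtype.val x.2.2)).symm), x.1.2⟩ : (B ⊓ R :)))
      fun x y e => Subtype.ext (Subtype.ext (Subtype.mk.inj e))) hc)
  rw [eq_bot_iff, ← hd]
  refine le_inf le_rfl fun q hq => hC fun x hx => ?_
  have := (key ▸ mem_top (⟨x, hx⟩ : R) : (⟨x, hx⟩ : R) ∈ fixAut _) ⟨⟨q, mem_sup_left hq⟩, hq⟩
  exact (mul_inv_eq_iff_eq_mul.mp (congrArg Subtype.val this)).symm

/-- Let p be an odd prime, G a finite p-solvable group, and B an elementary abelian subgroup of order p² such that B is the subgroup generated by the elements of order p of some Sylow p-subgroup of C_G(b₀), for some nontrivial b₀ ∈ B. Then every B-invariant subgroup of G of order prime to p lies in O_{p'}(G). -/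
theorem result {G : Type*} [Group G] [Finite G] {p : ℕ} [Fact p.Prime] (hp : p ≠ 2)
    (hG : Cfsg.IsPSolvable p G) (B : Subgroup G) (hB : Cfsg.IsElementaryAbelian p B) (hBc : Nat.card B = p ^ 2)
    (b₀ : G) (hb₀ : b₀ ∈ B) (hb₁ : b₀ ≠ 1) (P : Sylow p ↥(Subgroup.centralizer ({b₀} : Set G)))
    (hBP : B = Subgroup.closure {x : G | x ∈ ((P : Subgroup ↥(Subgroup.centralizer ({b₀} : Set G))).map
      (Subgroup.centralizer ({b₀} : Set G)).subtype : Subgroup G) ∧ orderOf x = p})
    (Q : Subgroup G) (hQ : ¬ p ∣ Nat.card Q) (hinv : ∀ b ∈ B, ∀ x ∈ Q, b * x * b⁻¹ ∈ Q) :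
    Q ≤ Cfsg.pPrimeCore p G := by
  set N := pPrimeCore p G
  let f := QuotientGroup.mk' N
  have hP := isSylowOf_map P
  set P' := (P : Subgroup (centralizer ({b₀} : Set G))).map (centralizer {b₀}).subtype
  have hBP' : B ≤ P' := hBP ▸ (closure_le _).mpr fun x hx => hx.1
  have hd : P' ⊓ N = ⊥ := pPrime_inf_pGroup_eq_bot hP.2.1 (coprime_card_pPrimeCore G p)
  have hz : ∀ {H : Type _} [Group H] (b : H), centralizer (zpowers b : Set H) = centralizer {b} :=
    fun b => by rw [zpowers_eq_closure, centralizer_closure]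
  have hc := centralizer_map_mk' (A := zpowers b₀) (N := N)
    (coprime_card_of_isPGroup (hP.2.1.to_le ((zpowers_le.mpr hb₀).trans hBP'))
      (not_dvd_card_pPrimeCore G p)) (Or.inl inferInstance)
  rw [MonoidHom.map_zpowers, hz, hz] at hc
  have h1 := (CfsgH1.IsSylowIn.mk hP.1 hP.2.1 hP.2.2).map f
  have := reduced hp (isPGroup_pCore (G ⧸ N) p)
    (centralizer_pCore_le (isPSolvable_quotient hG N) (pPrimeCore_quotient G p))
    (isElementaryAbelian_map hB f) (hBc ▸ Nat.le_of_dvd Nat.card_pos (card_map_dvd _ _))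
    (mem_map_of_mem f hb₀) (P := P'.map f) (hc ▸ ⟨h1.le, h1.pgroup, h1.not_dvd⟩) (map_mono hBP')
    (by
      rintro _ ⟨x, hx, rfl⟩ h
      have : x ^ p ∈ P' ⊓ N := ⟨pow_mem hx p, (QuotientGroup.eq_one_iff _).mp h⟩
      rw [hd, mem_bot] at this
      refine mem_map_of_mem f ?_
      by_cases h1 : x = 1
      · exact h1 ▸ one_mem _
      · exact hBP ▸ subset_closure ⟨hx, orderOf_eq_prime this h1⟩)
    (Q := Q.map f) (fun h => hQ (h.trans (card_map_dvd _ _)))
    ((map_mono fun b hb => mem_normalizer_fintype (hinv b hb)).trans (le_normalizer_map f))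
  rwa [Subgroup.map_eq_bot_iff, QuotientGroup.ker_mk'] at this

end Cfsg.Agent.S1902
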