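import Cfsg.Statements.S1904
import Cfsg.Agent.H2.Scn3

set_option autoImplicit false
open Cfsg

namespace Cfsg.Agent.S1904
open Subgroup CfsgH2 CfsgL0
open scoped commutatorElement



/-- Let X be a finite nonabelian 2-group with no normal abelian subgroup that is self-centralizing and contains an elementary abelian subgroup of order 8. Suppose a group A of automorphisms of X of odd order satisfies [X, A] = X. Then X is the quaternion group of order 8, or X is special of order 64 with exactly three involutions, all central, or X is extraspecial of order 32 with exactly eleven involutions (the central product of a quaternion group and a dihedral group of order 8). -/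
theorem result {X : Type*} [Group X] [Finite X] (hX : IsPGroup 2 X) (hna : ¬ IsMulCommutative X)
    (hscn : ¬ ∃ A : Subgroup X, A.Normal ∧ Subgroup.centralizer (A : Set X) = A ∧
      ∃ E : Subgroup X, E ≤ A ∧ Cfsg.IsElementaryAbelian 2 E ∧ Nat.card E = 8)
    (A : Subgroup (MulAut X)) (hA : Odd (Nat.card A))
    (hXA : Subgroup.closure {g : X | ∃ φ ∈ A, ∃ x : X, g = x⁻¹ * φ x} = ⊤) :
    Nonempty (X ≃* QuaternionGroup 2) ∨
      (Cfsg.IsSpecial 2 X ∧ Nat.card X = 64 ∧ Nat.card {x : X // orderOf x = 2} = 3 ∧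
        ∀ x : X, orderOf x = 2 → x ∈ Subgroup.center X) ∨
      (Cfsg.IsExtraspecial 2 X ∧ Nat.card X = 32 ∧ Nat.card {x : X // orderOf x = 2} = 11) := by
  refine CfsgScn.main (φ := A.subtype) hX (fun E hE hEe => ?_) hna hA ?_
  · by_contra h4
    obtain ⟨n, hn⟩ := card_eq_pow_of_isPGroup hX E
    have h8 : 2 ^ 3 ≤ Nat.card E := by
      rw [hn] at h4 ⊢
      refine Nat.pow_le_pow_right two_pos ?_
      by_contra h
      exact h4 (Nat.pow_le_pow_right two_pos (by omega : n ≤ 2))
    obtain ⟨L, hL, hLE, hc⟩ := exists_normal_card hX 3 h8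
    have hLe := isElementaryAbelian_of_le hLE hEe
    obtain ⟨C, h1, -, h2, -, h3⟩ := exists_scn hX (A := ⊤) le_top hLe.1
    exact hscn ⟨C, h1, by rwa [top_inf_eq] at h3, L, h2, hLe, hc⟩
  · rw [commAut_subtype_top, ← hXA]
    congr 1
    ext x
    exact ⟨fun ⟨g, a, ha, e⟩ => ⟨a, ha, g, e⟩, fun ⟨a, ha, g, e⟩ => ⟨g, a, ha, e⟩⟩

end Cfsg.Agent.S1904
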