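import Cfsg.Statements.S1905
import Cfsg.Agent.H4.StrEmb
import Cfsg.Agent.H4.Isolated

set_option autoImplicit false
open Cfsg

namespace Cfsg.Agent.S1905

open CfsgH4 Subgroup

/-- Let M be a subgroup of even order of a finite group S such that M contains the centralizer in S of each of its involutions and the normal core of M in S has odd order. Then all involutions of S are conjugate. If moreover N_S(X) ≤ M for a Sylow 2-subgroup X of M and I is an involution in the centre of X, then all involutions of M are conjugate in M and M = M₀ C_M(I) for some subgroup M₀ of M of odd order. -/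
theorem result {S : Type*} [Group S] [Finite S] (M : Subgroup S) (hM : Even (Nat.card M))
    (hC : ∀ i ∈ M, orderOf i = 2 → Subgroup.centralizer ({i} : Set S) ≤ M) (hcore : Odd (Nat.card M.normalCore)) :
    (∀ x y : S, orderOf x = 2 → orderOf y = 2 → IsConj x y) ∧
      ∀ (X : Sylow 2 M) (I : M), I ∈ (Subgroup.center ↥(X : Subgroup ↥M)).map (X : Subgroup ↥M).subtype → orderOf I = 2 →
        Subgroup.normalizer (((X : Subgroup M).map M.subtype : Subgroup S) : Set S) ≤ M →
        (∀ x y : M, orderOf x = 2 → orderOf y = 2 → IsConj x y) ∧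
          ∃ M₀ : Subgroup M, Odd (Nat.card M₀) ∧
            ∀ m : M, ∃ a ∈ M₀, ∃ c ∈ Subgroup.centralizer ({I} : Set M), m = a * c := by
  have hout : ∀ i : S, orderOf i = 2 → ∃ g, g * i * g⁻¹ ∉ M := by
    intro i hi
    by_contra h
    push Not at h
    exact odd_card_iff_no_involution.1 hcore i h hi
  have hodd : ∀ i ∈ M, ∀ t, t ∉ M → orderOf i = 2 → orderOf t = 2 → Odd (orderOf (i * t)) := by
    intro i hi t ht hi2 ht2
    rw [← Nat.not_even_iff_odd]
    intro he
    have h1 := orderOf_pow_half he (orderOf_pos _).ne'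
    have h2 : (i * t) ^ (orderOf (i * t) / 2) ∈ zpowers (i * t) := npow_mem_zpowers _ _
    have h3 := dih_commute_left (mul_self_of_orderOf hi2) (mul_self_of_orderOf ht2) h2
      (mul_self_of_orderOf h1)
    have h4 := dih_commute_right (mul_self_of_orderOf hi2) (mul_self_of_orderOf ht2) h2
      (mul_self_of_orderOf h1)
    exact ht (hC _ (hC i hi hi2 (mem_centralizer_singleton_iff.2 h3)) h1
      (mem_centralizer_singleton_iff.2 h4.symm))
  obtain ⟨i, hi, hi2⟩ := exists_involution_mem_of_even hM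
  have hall : ∀ x y : S, orderOf x = 2 → orderOf y = 2 → IsConj x y := by
    have key : ∀ x : S, orderOf x = 2 → IsConj i x := by
      intro x hx
      obtain ⟨g, hg⟩ := hout x hx
      have hx' : orderOf (g * x * g⁻¹) = 2 := by rw [orderOf_conj', hx]
      exact (dih_isConj_of_odd (mul_self_of_orderOf hi2) (mul_self_of_orderOf hx')
        (hodd i hi _ hg hi2 hx')).trans (isConj_iff.2 ⟨g, rfl⟩).symm
    exact fun x y hx hy => (key x hx).symm.trans (key y hy)
  refine ⟨hall, fun X I hI hI2 hN => ?_⟩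
  obtain ⟨T, hT⟩ := exists_sylow_eq_map X (fun g hg _ => hN hg)
  have hTM : (T : Subgroup S) ≤ M := by rw [hT]; exact map_subtype_le _
  have hI2' : orderOf (I : S) = 2 := by rw [orderOf_coe, hI2]
  have hTI : ∀ s ∈ T, s * I = I * s := by
    intro s hs
    have hs' : s ∈ (T : Subgroup S) := hs
    rw [hT] at hs'
    obtain ⟨s, hs2, rfl⟩ := hs'
    obtain ⟨I', hI', rfl⟩ := hI
    exact congrArg (fun y : (X : Subgroup M) => ((y : M) : S)) (mem_center_iff.1 hI' ⟨s, hs2⟩)
  have hle : ∀ h : S, h * I * h⁻¹ ∈ M → h ∈ M := by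
    intro h hh
    have h1 : ((h • T : Sylow 2 S) : Subgroup S) ≤ M := by
      intro s hs
      refine hC _ hh (by rw [orderOf_conj', hI2']) (mem_centralizer_singleton_iff.2 ?_)
      have := hTI _ ((mem_smul_sylow h s T).1 hs)
      calc s * (h * I * h⁻¹) = h * (h⁻¹ * s * h * I) * h⁻¹ := by group
        _ = _ := by rw [this]; group
    obtain ⟨m, hm, h2⟩ := exists_smul_eq_of_le h1 hTM
    rw [← mul_smul, Sylow.smul_eq_iff_mem_normalizer, ← Sylow.coe_coe, hT] at h2
    exact (M.mul_mem_cancel_left hm).1 (hN h2)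
  obtain ⟨g, hg⟩ := hout i hi2
  set t := g * i * g⁻¹
  have ht2 : orderOf t = 2 := by rw [orderOf_conj', hi2]
  have hse : ∀ (j h : S), j ∈ M → orderOf j = 2 → h * j * h⁻¹ ∈ M → h ∈ M := by
    intro j h hj hj2 hh
    obtain ⟨a, rfl⟩ := isConj_iff.1 (hall _ _ hI2' hj2)
    have h1 := hle a hj
    have h2 := hle (h * a) (by simpa [mul_assoc] using hh)
    exact (M.mul_mem_cancel_right h1).1 h2
  refine ⟨fun x y hx hy => ?_, (M.map (MulAut.conj t).toMonoidHom).subgroupOf M, ?_, ?_⟩
  · rw [← orderOf_coe] at hx hy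
    obtain ⟨a, ha⟩ := isConj_iff.1 (hall _ _ hx hy)
    exact isConj_iff.2 ⟨⟨a, hse _ a x.2 hx (ha ▸ y.2)⟩, Subtype.ext ha⟩
  · rw [odd_card_iff_no_involution]
    intro j hj hj2
    rw [mem_subgroupOf, mem_map_conj] at hj
    exact hg (inv_mem_iff.1 (hse j t⁻¹ j.2 (by rw [orderOf_coe, hj2]) (by simpa using hj)))
  · intro m
    set j : S := m * I * (m : S)⁻¹ with hj
    have hjM : j ∈ M := mul_mem (mul_mem m.2 I.2) (inv_mem m.2)
    have hj2 : orderOf j = 2 := by rw [orderOf_conj', hI2']
    have hj' : orderOf (t * j * t⁻¹) = 2 := by rw [orderOf_conj', hj2]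
    have h1 := hodd I I.2 (t * j * t⁻¹) (fun h => hg (hse j t hjM hj2 h)) hI2' hj'
    obtain ⟨n, hn⟩ := dih_conj_of_odd (mul_self_of_orderOf hI2') (mul_self_of_orderOf hj') h1
    have h2 := inverts_pow (dih_inv_right (mul_self_of_orderOf hI2') (mul_self_of_orderOf hj')) n
    generalize ((I : S) * (t * j * t⁻¹)) ^ n = r at hn h2
    set s := r * (t * j * t⁻¹) with hs
    have hs2 : s * s = 1 := by
      calc s * s = r * ((t * j * t⁻¹) * r * (t * j * t⁻¹)⁻¹) * ((t * j * t⁻¹) * (t * j * t⁻¹)) := by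
            rw [hs]; group
        _ = 1 := by rw [h2, mul_self_of_orderOf hj']; group
    have h3 : (s * t) * j * (s * t)⁻¹ = I := by rw [← hn, hs]; group
    have h4 : s * t ∈ M := hse j _ hjM hj2 (h3 ▸ I.2)
    refine ⟨⟨s * t, h4⟩⁻¹, inv_mem ?_, ⟨s * t, h4⟩ * m, ?_, by group⟩
    · rw [mem_subgroupOf, mem_map_conj]
      change t⁻¹ * (s * t) * t ∈ M
      rw [mul_assoc, mul_assoc, mul_self_of_orderOf ht2, mul_one,
        ← inv_eq_of_mul_eq_one_right hs2, ← mul_inv_rev]
      exact inv_mem h4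
    · rw [mem_centralizer_singleton_iff]
      apply Subtype.ext
      change s * t * m * I = I * (s * t * m)
      nth_rewrite 2 [← h3]
      rw [hj]; group

end Cfsg.Agent.S1905
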