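import Cfsg.Statements.S1906
import Cfsg.Agent.H2.PCentral
import Cfsg.Agent.H2.Extra2
import Cfsg.Agent.H2.AutAct
import Cfsg.Agent.L0.Cores
import Cfsg.Agent.H1.Orbit

set_option autoImplicit false
open Cfsg

namespace Cfsg.Agent.S1906
open Subgroup CfsgH2 CfsgL0
open scoped commutatorElement

theorem transfer_central {G M : Type*} [Group G] [Finite G] [CommGroup M] (X : Sylow 2 G)
    (l : (X : Subgroup G) →* M) (z : (X : Subgroup G)) (hz : z * z = 1) (hc : z ∈ center _)
    (h : ∀ g : normalizer ((X : Subgroup G) : Set G), l (conjAut le_rfl g z) = l z) :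
    MonoidHom.transfer l z = l z := by
  classical
  have : Fact (Nat.Prime 2) := ⟨Nat.prime_two⟩
  let T : (X : Subgroup G).LeftTransversal := default
  let α : G ⧸ (X : Subgroup G) → G := fun q => T.2.leftQuotientEquiv q
  have hα : ∀ q, (α q : G ⧸ (X : Subgroup G)) = q := fun q => T.2.leftQuotientEquiv.symm_apply_apply q
  let Λ : G → M := fun y => if h : y ∈ (X : Subgroup G) then l ⟨y, h⟩ else 1
  have hΛ : ∀ y : (X : Subgroup G), Λ y = l y := fun y => dif_pos y.2
  have hΛm : ∀ a ∈ (X : Subgroup G), ∀ b ∈ (X : Subgroup G), Λ (a * b) = Λ a * Λ b :=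
    fun a ha b hb => by
      rw [hΛ ⟨a, ha⟩, hΛ ⟨b, hb⟩, ← map_mul]; exact hΛ (⟨a, ha⟩ * ⟨b, hb⟩)
  have hΛ1 : Λ 1 = 1 := (hΛ 1).trans (map_one l)
  have hz' : (z : G) * z = 1 := congrArg Subtype.val hz
  have hzi : (z : G)⁻¹ = z := inv_eq_of_mul_eq_one_right hz'
  have hmem : ∀ (q r : G ⧸ (X : Subgroup G)) (g : G), g • r = q →
      (α q)⁻¹ * g * α r ∈ (X : Subgroup G) := by
    intro q r g e
    rw [mul_assoc, ← QuotientGroup.eq, hα, ← e]
    conv_lhs => rw [← hα r]
    rfl
  letI := (X : Subgroup G).fintypeQuotientOfFiniteIndex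
  let F : G ⧸ (X : Subgroup G) → M := fun q => Λ ((α q)⁻¹ * z * α ((z : G) • q))
  have hzz : ∀ q : G ⧸ (X : Subgroup G), (z : G) • (z : G) • q = q := fun q => by
    rw [smul_smul, hz', one_smul]
  have e1 : MonoidHom.transfer l z = ∏ q, F q := by
    rw [MonoidHom.transfer_def l T]
    refine Finset.prod_congr rfl fun q _ => ?_
    rw [← hΛ]
    simp only [F, α, smul_apply_eq_smul_apply_inv_smul, hzi, smul_eq_mul, mul_assoc]
  have hX : IsPGroup 2 (closure ((X : Subgroup G) : Set G)) := by
    rw [closure_eq]; exact X.isPGroup'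
  have hZ : IsPGroup 2 (closure ({(z : G)} : Set G)) :=
    X.isPGroup'.to_le ((closure_le _).mpr (by simp))
  let F' : G ⧸ (X : Subgroup G) → M := fun q => if (z : G) • q = q then F q else 1
  have e2 : ∏ q, F q = ∏ q, F' q := by
    rw [CfsgH1.prod_eq_prod_fixed _ hZ F, Finset.prod_filter]
    · simp [F']
    · rintro _ rfl q -
      simp only [Finset.prod_range_succ, Finset.range_zero, Finset.prod_empty, one_mul, pow_zero,
        one_smul, pow_one, F]
      rw [← hΛm _ (hmem _ _ _ (hzz q)) _ (hmem _ _ _ (by rw [hzz])), hzz, ← hΛ1]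
      congr 1
      calc _ = (α q)⁻¹ * (z * z) * α q := by group
        _ = 1 := by rw [hz']; group
  have hcz : ∀ x ∈ (X : Subgroup G), x * z = z * x := fun x hx =>
    congrArg Subtype.val (mem_center_iff.mp hc ⟨x, hx⟩)
  have e3 : ∏ q, F' q = ∏ q : G ⧸ (X : Subgroup G), l z := by
    rw [CfsgH1.prod_eq_prod_fixed _ hX F', CfsgH1.prod_eq_prod_fixed _ hX (fun _ => l z)]
    · refine Finset.prod_congr rfl fun q hq => ?_
      have hq := (Finset.mem_filter.mp hq).2
      have hn : (α q)⁻¹ ∈ normalizer ((X : Subgroup G) : Set G) := by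
        apply mem_normalizer_fintype
        intro x hx
        rw [inv_inv]
        exact hmem q q x (hq x hx)
      simp only [F', F, hq z z.2, if_true]
      rw [← h ⟨_, hn⟩, ← hΛ]
      simp
    · intro e _ q _
      simp [← map_mul, sq, hz]
    · intro e he q _
      simp only [Finset.prod_range_succ, Finset.range_zero, Finset.prod_empty, one_mul, pow_zero,
        one_smul, pow_one, F']
      have hze : (z : G) • e • q = e • (z : G) • q := by rw [smul_smul, smul_smul, hcz e he]
      by_cases hq : (z : G) • q = q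
      · have hq' : (z : G) • e • q = e • q := by rw [hze, hq]
        simp only [hq, hq', if_true, F]
        have m1 := hmem q q z hq
        have m2 := hmem _ q e rfl
        have : (α (e • q))⁻¹ * z * α (e • q) = ((α (e • q))⁻¹ * e * α q) * ((α q)⁻¹ * z * α q) *
            ((α (e • q))⁻¹ * e * α q)⁻¹ := by
          calc _ = (α (e • q))⁻¹ * (z * e) * e⁻¹ * α (e • q) := by group
            _ = _ := by rw [← hcz e he]; group
        rw [this, hΛm _ (mul_mem m2 m1) _ (inv_mem m2), hΛm _ m2 _ m1, mul_right_comm,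
          ← hΛm _ m2 _ (inv_mem m2), mul_inv_cancel, hΛ1, one_mul, ← hΛm _ m1 _ m1, ← hΛ1]
        congr 1
        calc _ = (α q)⁻¹ * (z * z) * α q := by group
          _ = 1 := by rw [hz']; group
      · have hq' : ¬ (z : G) • e • q = e • q := by rwa [hze, smul_left_cancel_iff]
        simp [hq, hq']
  rw [e1, e2, e3, Finset.prod_const, Finset.card_univ, ← Nat.card_eq_fintype_card,
    ← index_eq_card]
  obtain ⟨k, hk⟩ : Odd (X : Subgroup G).index := by
    rw [← Nat.not_even_iff_odd, even_iff_two_dvd]; exact X.not_dvd_index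
  rw [hk, pow_succ, pow_mul, sq, ← map_mul, hz, map_one, one_pow, one_mul]

theorem exists_index_two {G M : Type*} [Group G] [Finite G] [CommGroup M] (X : Sylow 2 G)
    (l : (X : Subgroup G) →* M) (z : (X : Subgroup G)) (hz : z * z = 1) (hc : z ∈ center _)
    (h : ∀ g : normalizer ((X : Subgroup G) : Set G), l (conjAut le_rfl g z) = l z)
    (h1 : l z ≠ 1) : ∃ H : Subgroup G, H.index = 2 := by
  have : Fact (Nat.Prime 2) := ⟨Nat.prime_two⟩
  let V := MonoidHom.transfer l.rangeRestrict
  have hV : V z ≠ 1 := by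
    rw [transfer_central X l.rangeRestrict z hz hc fun g => Subtype.ext (h g)]
    exact fun e => h1 (congrArg Subtype.val e)
  have hp : IsPGroup 2 V.range :=
    (X.isPGroup'.of_surjective _ l.rangeRestrict_surjective).to_subgroup _
  have : Finite V.range := Finite.of_surjective _ V.rangeRestrict_surjective
  obtain ⟨K, hK, -⟩ := exists_isCoatom_ge (G := V.range) (K := ⊥) (fun e => hV (by
    have : V.rangeRestrict z ∈ (⊥ : Subgroup V.range) := e ▸ mem_top _
    exact congrArg Subtype.val (mem_bot.mp this)))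
  exact ⟨K.comap V.rangeRestrict, by
    rw [index_comap_of_surjective _ V.rangeRestrict_surjective, index_of_isCoatom hp hK]⟩

theorem mat1 {F : Type*} [Field F] (h2 : (2 : F) ≠ 0) {A : Matrix (Fin 2) (Fin 2) F}
    (h : A * A = 1) (hd : A.det = 1) : A = 1 ∨ A = -1 := by
  have e := fun i j => congrFun (congrFun h i) j
  have e00 := e 0 0; have e01 := e 0 1; have e10 := e 1 0; have e11 := e 1 1
  simp [Matrix.mul_apply, Fin.sum_univ_two] at e00 e01 e10 e11
  rw [Matrix.det_fin_two] at hd
  have ht : A 0 0 + A 1 1 ≠ 0 := fun h => h2 (by linear_combination (A 0 0) * h - e00 - hd)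
  have hb : A 0 1 = 0 := mul_left_cancel₀ ht (by linear_combination e01)
  have hc : A 1 0 = 0 := mul_left_cancel₀ ht (by linear_combination e10)
  have had : A 1 1 = A 0 0 := mul_left_cancel₀ ht (by linear_combination e11 - e00)
  have : (A 0 0 - 1) * (A 0 0 + 1) = 0 := by linear_combination e00 - (A 1 0) * hb
  rcases mul_eq_zero.mp this with h | h
  · left
    ext i j; fin_cases i <;> fin_cases j <;> simp [hb, hc, had, sub_eq_zero.mp h]
  · right
    ext i j; fin_cases i <;> fin_cases j <;> simp [hb, hc, had, eq_neg_of_add_eq_zero_left h]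

theorem mat2 {F : Type*} [Field F] {A B C : Matrix (Fin 2) (Fin 2) F}
    (h : A * A = 1) (h1 : A ≠ 1) (h2 : A ≠ -1) (hB : B * A = A * B) (hC : C * A = A * C) :
    B * C = C * B := by
  have e := fun i j => congrFun (congrFun hB i) j
  have e00 := e 0 0; have e01 := e 0 1; have e10 := e 1 0
  have f := fun i j => congrFun (congrFun hC i) j
  have f00 := f 0 0; have f01 := f 0 1; have f10 := f 1 0
  have g00 := congrFun (congrFun h 0) 0
  simp [Matrix.mul_apply, Fin.sum_univ_two] at e00 e01 e10 f00 f01 f10 g00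
  have key : ∀ u : F, A 0 1 * u = 0 → A 1 0 * u = 0 → (A 0 0 - A 1 1) * u = 0 → u = 0 := by
    intro u a1 a2 a3
    by_contra hu
    have hb := (mul_eq_zero.mp a1).resolve_right hu
    have hc := (mul_eq_zero.mp a2).resolve_right hu
    have had := (sub_eq_zero.mp ((mul_eq_zero.mp a3).resolve_right hu)).symm
    have : (A 0 0 - 1) * (A 0 0 + 1) = 0 := by linear_combination g00 - (A 1 0) * hb
    rcases mul_eq_zero.mp this with h | h
    · apply h1
      ext i j; fin_cases i <;> fin_cases j <;> simp [hb, hc, had, sub_eq_zero.mp h]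
    · apply h2
      ext i j; fin_cases i <;> fin_cases j <;> simp [hb, hc, had, eq_neg_of_add_eq_zero_left h]
  have k1 : B 0 1 * C 1 0 - C 0 1 * B 1 0 = 0 := key _
    (by linear_combination (C 0 1) * e00 - (B 0 1) * f00)
    (by linear_combination (C 1 0) * e00 - (B 1 0) * f00)
    (by linear_combination (B 0 1) * f10 + (B 1 0) * f01 + (C 0 0 - C 1 1) * e00)
  have k2 : B 0 1 * (C 0 0 - C 1 1) - C 0 1 * (B 0 0 - B 1 1) = 0 := key _
    (by linear_combination (B 0 1) * f01 - (C 0 1) * e01)
    (by linear_combination (B 0 0 - B 1 1) * (-f00) - (C 1 0) * e01 - (B 0 1) * f10)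
    (by linear_combination (B 0 0 - B 1 1) * f01 - (C 0 0 - C 1 1) * e01)
  have k3 : B 1 0 * (C 0 0 - C 1 1) - C 1 0 * (B 0 0 - B 1 1) = 0 := key _
    (by linear_combination (B 0 0 - B 1 1) * f00 + (C 0 1) * e10 + (B 1 0) * f01)
    (by linear_combination (C 1 0) * e10 - (B 1 0) * f10)
    (by linear_combination (C 0 0 - C 1 1) * e10 - (B 0 0 - B 1 1) * f10)
  ext i j; fin_cases i <;> fin_cases j <;> simp [Matrix.mul_apply, Fin.sum_univ_two]
  · linear_combination k1
  · linear_combination -k2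
  · linear_combination k3
  · linear_combination -k1

theorem hom_commutator {X M : Type*} [Group X] [CommMonoid M] (f : X →* M) {x : X}
    (hx : x ∈ commutator X) : f x = 1 :=
  congrArg Units.val (Abelianization.commutator_subset_ker f.toHomUnits hx)

theorem exists_data {X F V : Type*} [Group X] [Field F] [AddCommGroup V] [Module F V]
    (h2 : (2 : F) ≠ 0) (hV : Module.finrank F V = 3) (ρ : Representation F X V)
    (hρ : Function.Injective ρ) {t : X} (ht : t ∈ commutator X) (ht1 : t ≠ 1) (ht2 : t * t = 1)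
    (htc : t ∈ center X) :
    ∃ (l : X →* F) (w : X →* Matrix (Fin 2) (Fin 2) F), w t = -1 ∧
      ∀ x, l x = 1 → w x = 1 → x = 1 := by
  have : Module.Finite F V := Module.finite_of_finrank_pos (by omega)
  have hcm : ∀ x v, ρ t (ρ x v) = ρ x (ρ t v) := fun x v => by
    rw [← Module.End.mul_apply, ← map_mul, ← mem_center_iff.mp htc, map_mul]; rfl
  have htt : ∀ v, ρ t (ρ t v) = v := fun v => by
    rw [← Module.End.mul_apply, ← map_mul, ht2, map_one]; rfl
  let V₁ := LinearMap.ker (ρ t - 1)
  let V₂ := LinearMap.ker (ρ t + 1)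
  have m1 : ∀ v, v ∈ V₁ ↔ ρ t v = v := fun v => by simp [V₁, sub_eq_zero]
  have m2 : ∀ v, v ∈ V₂ ↔ ρ t v = -v := fun v => by simp [V₂, add_eq_zero_iff_eq_neg]
  have hdec : ∀ v, ∃ a ∈ V₁, ∃ b ∈ V₂, a + b = v := fun v =>
    ⟨(2 : F)⁻¹ • (v + ρ t v), (m1 _).mpr (by simp [htt, add_comm]),
      (2 : F)⁻¹ • (v - ρ t v), (m2 _).mpr (by simp [htt, smul_sub]), by
      rw [← smul_add, add_add_sub_cancel, ← two_smul F v, smul_smul, inv_mul_cancel₀ h2, one_smul]⟩
  have hcompl : IsCompl V₁ V₂ := by
    refine ⟨Submodule.disjoint_def.mpr fun v a b => ?_, codisjoint_iff.mpr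
      (eq_top_iff.mpr fun v _ => Submodule.mem_sup.mpr (hdec v))⟩
    rw [m1] at a; rw [m2, a] at b
    have : (2 : F) • v = 0 := by rw [two_smul]; nth_rw 1 [b]; simp
    exact (smul_eq_zero.mp this).resolve_left h2
  let ρ₁ := ρ.subrepresentation V₁ fun g v hv => (m1 _).mpr (by rw [hcm, (m1 _).mp hv])
  let ρ₂ := ρ.subrepresentation V₂ fun g v hv => (m2 _).mpr (by rw [hcm, (m2 _).mp hv, map_neg])
  have hf : ∀ x, ρ₁ x = 1 → ρ₂ x = 1 → x = 1 := by
    intro x a b
    apply hρ
    rw [map_one]
    ext v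
    obtain ⟨u, hu, u', hu', rfl⟩ := hdec v
    have e1 : ρ x u = u := congrArg Subtype.val (LinearMap.congr_fun a ⟨u, hu⟩)
    have e2 : ρ x u' = u' := congrArg Subtype.val (LinearMap.congr_fun b ⟨u', hu'⟩)
    simp [e1, e2]
  have t1 : ρ₁ t = 1 := by ext ⟨v, hv⟩; exact (m1 v).mp hv
  have t2 : ρ₂ t = -1 := by ext ⟨v, hv⟩; exact (m2 v).mp hv
  have hsum := Submodule.finrank_add_eq_of_isCompl hcompl
  have hd := hom_commutator (LinearMap.det.comp ρ₂) ht
  have hn1 : (-1 : F) ≠ 1 := fun h => h2 (by linear_combination -h)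
  have hev : Even (Module.finrank F V₂) := by
    rw [MonoidHom.comp_apply, t2, ← neg_one_smul F (1 : Module.End F V₂), LinearMap.det_smul,
      map_one, mul_one] at hd
    exact (neg_one_pow_eq_one_iff_even hn1).mp hd
  have h0 : Module.finrank F V₂ ≠ 0 := fun h => by
    have := Module.finrank_zero_iff.mp h
    exact ht1 (hf t t1 (Subsingleton.elim _ _))
  obtain ⟨k, hk⟩ := hev
  have d2 : Module.finrank F V₂ = 2 := by omega
  have d1 : Module.finrank F V₁ = 1 := by omega
  let b := Module.finBasisOfFinrankEq F V₂ d2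
  let e := LinearMap.toMatrixAlgEquiv b
  refine ⟨LinearMap.det.comp ρ₁, (e : Module.End F V₂ →* _).comp ρ₂, by simp [t2], ?_⟩
  intro x a c
  refine hf x ?_ (e.injective (by simpa using c))
  obtain ⟨c, hc⟩ := LinearMap.existsUnique_eq_smul_id_of_finrank_eq_one d1 (ρ₁ x)
  have := hc.1
  rw [MonoidHom.comp_apply, this, LinearMap.det_smul, d1, LinearMap.det_id] at a
  rw [this, show c = 1 by simpa using a, one_smul]; rfl

/-- Let G be a finite group with no subgroup of index 2 whose Sylow 2-subgroup X embeds in GL₃(F) for a finite field F of odd order. If X contains an elementary abelian subgroup of order 8, then X is abelian. -/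
theorem result {G : Type*} [Group G] [Finite G] (hG : ∀ H : Subgroup G, H.index ≠ 2) (X : Sylow 2 G)
    {F : Type*} [Field F] [Fintype F] (hF : Odd (Fintype.card F))
    (f : ↥(X : Subgroup G) →* GL (Fin 3) F) (hf : Function.Injective f)
    (E : Subgroup G) (hE : E ≤ (X : Subgroup G)) (hEa : Cfsg.IsElementaryAbelian 2 E) (hE8 : Nat.card E = 8) :
    IsMulCommutative (X : Subgroup G) := by
  have : Fact (Nat.Prime 2) := ⟨Nat.prime_two⟩
  by_contra hna
  have h2 : (2 : F) ≠ 0 := by
    intro h
    have := (FiniteField.even_card_iff_char_two (F := F)).mp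
      (ringChar.spec F 2 |>.mp (by exact_mod_cast h) |> fun hd =>
        ((Nat.dvd_prime Nat.prime_two).mp hd).resolve_left (CharP.ringChar_ne_one))
    rw [Nat.odd_iff] at hF
    omega
  have hD : commutator (X : Subgroup G) ≠ ⊥ := fun h => hna
    ⟨⟨fun a b => comm_eq_one_iff.mp (by simpa [h] using comm_mem_commutator a b)⟩⟩
  obtain ⟨t, htD, ht1, ht2, htc⟩ := exists_central_order_p X.isPGroup' hD
  let ρ : Representation F (X : Subgroup G) (Fin 3 → F) :=
    ((Matrix.toLinAlgEquiv' : Matrix (Fin 3) (Fin 3) F ≃ₐ[F] _) : Matrix (Fin 3) (Fin 3) F →* _).comp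
      ((Units.coeHom _).comp f)
  obtain ⟨l, w, hwt, hlw⟩ := exists_data h2 (by simp) ρ
    (Matrix.toLinAlgEquiv'.injective.comp (Units.val_injective.comp hf)) htD ht1
    (by rw [← sq, ht2]) htc
  have hlt := hom_commutator l htD
  have hinj : ∀ x y, l x = l y → w x = w y → x = y := fun x y a b =>
    mul_inv_eq_one.mp (hlw _ (by rw [map_mul, a, ← map_mul]; simp)
      (by rw [map_mul, b, ← map_mul]; simp))
  have hsq : ∀ a : F, a * a = 1 → a ≠ 1 → a = -1 := fun a h h1 =>
    (mul_self_eq_one_iff.mp h).resolve_left h1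
  let E' := E.subgroupOf (X : Subgroup G)
  have hE'8 : Nat.card E' = 8 := by rw [← hE8]; exact Nat.card_congr (subgroupOfEquivOfLe hE).toEquiv
  have hE2 : ∀ e ∈ E', e * e = 1 := fun e he => Subtype.ext (by
    have := hEa.2 e he; rwa [sq] at this)
  obtain ⟨z, hzE, hzt, hzd⟩ : ∃ z ∈ E', z ∉ zpowers t ∧ (w z).det = 1 := by
    have htn := normal_zpowers_of_mem_center htc
    have c0 := card_zpowers_of_pow_eq_one ht1 ht2
    obtain ⟨a, ha, ha'⟩ := SetLike.not_le_iff_exists.mp (fun h : E' ≤ zpowers t => by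
      have := card_le_of_le h; omega)
    have c1 := card_sup_zpowers (mem_normalizer_of_normal _ a) Nat.prime_two
      (by rw [sq, hE2 a ha]; exact one_mem _) ha'
    obtain ⟨b, hb, hb'⟩ := SetLike.not_le_iff_exists.mp (fun h : E' ≤ zpowers t ⊔ zpowers a => by
      have := card_le_of_le h; omega)
    have hd : ∀ e ∈ E', (w e).det * (w e).det = 1 := fun e he => by
      rw [← Matrix.det_mul, ← map_mul, hE2 e he, map_one, Matrix.det_one]
    by_cases h1 : (w a).det = 1
    · exact ⟨a, ha, ha', h1⟩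
    by_cases h3 : (w b).det = 1
    · exact ⟨b, hb, fun h => hb' (mem_sup_left h), h3⟩
    refine ⟨b * a, mul_mem hb ha, fun h => hb' ?_, ?_⟩
    · simpa using mul_mem (mem_sup_left h) (inv_mem (mem_sup_right (S := zpowers t) (mem_zpowers a)))
    · rw [map_mul, Matrix.det_mul, hsq _ (hd a ha) h1, hsq _ (hd b hb) h3]; simp
  have hz2 := hE2 z hzE
  have hwz := mat1 h2 (by rw [← map_mul, hz2, map_one]) hzd
  have hlz : l z ≠ 1 := by
    intro h
    apply hzt
    rcases hwz with h' | h'
    · rw [hlw z h h']; exact one_mem _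
    · rw [hinj z t (by rw [h, hlt]) (by rw [h', hwt])]; exact mem_zpowers t
  have hzc : z ∈ center (X : Subgroup G) := mem_center_iff.mpr fun x => hinj _ _
    (by rw [map_mul, map_mul, mul_comm]) (by rcases hwz with h | h <;> simp [h])
  refine (exists_index_two X l.toHomUnits z hz2 hzc (fun g => ?_)
    (fun h => hlz (congrArg Units.val h))).elim hG
  ext
  change l _ = l z
  set φ := conjAut le_rfl g
  have hy2 : φ z * φ z = 1 := by rw [← map_mul, hz2, map_one]
  rw [hsq _ (by rw [← map_mul, hz2, map_one]) hlz]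
  refine hsq _ (by rw [← map_mul, hy2, map_one]) fun h => hna ⟨⟨fun a b => hinj _ _
    (by rw [map_mul, map_mul, mul_comm]) ?_⟩⟩
  have hyc : ∀ x, x * φ z = φ z * x := fun x => by
    obtain ⟨x, rfl⟩ := φ.surjective x
    rw [← map_mul, ← map_mul, mem_center_iff.mp hzc]
  rw [map_mul, map_mul]
  refine mat2 (A := w (φ z)) (by rw [← map_mul, hy2, map_one]) (fun h' => ?_) (fun h' => ?_)
    (by rw [← map_mul, hyc, map_mul]) (by rw [← map_mul, hyc, map_mul])
  · have := hlw _ h h'
    rw [MulEquiv.map_eq_one_iff] at this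
    exact hlz (by rw [this, map_one])
  · have := hinj _ t (by rw [h, hlt]) (by rw [h', hwt])
    apply hlz
    have e := hom_commutator (l.comp φ.symm.toMonoidHom) htD
    rw [← this] at e
    simpa using e

end Cfsg.Agent.S1906
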