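import Cfsg.Statements.S1908
import Cfsg.Agent.L0.OddOrder
import Cfsg.Agent.L0.PSolv
import Cfsg.Agent.H2.Generation

set_option autoImplicit false
open Cfsg

namespace Cfsg.Agent.S1908

open Subgroup CfsgL0 CfsgH2

theorem hall_aux' (π : Set ℕ) (k : ℕ) : ∀ (G : Type*) [Group G] [Finite G], PiSep π G →
    Nat.card G = k → ∃ H : Subgroup G, IsPi π (Nat.card H) ∧ IsPi πᶜ H.index ∧
      ∀ K : Subgroup G, IsPi π (Nat.card K) → ∃ g : G, cj g K ≤ H := by
  induction k using Nat.strong_induction_on with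
  | _ k ih =>
  intro G _ _ hsep hk
  rcases subsingleton_or_nontrivial G with hG | hG
  · refine ⟨⊤, ?_, by simpa using isPi_one _, fun K _ => ⟨1, le_top⟩⟩
    rw [card_top, Nat.card_of_subsingleton (1 : G)]
    exact isPi_one _
  obtain ⟨N, hNn, hN, hNpi⟩ : ∃ N : Subgroup G, N.Normal ∧ N ≠ ⊥ ∧
      (IsPi π (Nat.card N) ∨ IsPi πᶜ (Nat.card N)) := by
    rcases hsep.piCore_ne_bot ⊤ top_ne_bot with h | h
    · exact ⟨piCore π G, inferInstance, by simpa using h, Or.inl (isPi_piCore _)⟩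
    · exact ⟨piCore πᶜ G, inferInstance, by simpa using h, Or.inr (isPi_piCore _)⟩
  obtain ⟨H, hH1, hH2, hH3⟩ := ih _ (hk ▸ card_quotient_lt hN) (G ⧸ N) (hsep.quotient N) rfl
  set H₁ := H.comap (QuotientGroup.mk' N) with hH₁
  have hNH : N ≤ H₁ := by
    intro n hn
    simp [hH₁, mem_comap, (QuotientGroup.eq_one_iff n).mpr hn]
  have hi : H₁.index = H.index := index_comap_of_surjective _ (QuotientGroup.mk'_surjective N)
  have hD : ∀ K : Subgroup G, IsPi π (Nat.card K) → ∃ g : G, cj g K ≤ H₁ := by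
    intro K hK
    obtain ⟨g, hg⟩ := hH3 (K.map (QuotientGroup.mk' N)) (hK.map _)
    obtain ⟨g, rfl⟩ := QuotientGroup.mk'_surjective N g
    refine ⟨g, cj_le_iff.mpr fun x hx => ?_⟩
    have := cj_le_iff.mp hg _ (mem_map_of_mem _ hx)
    simpa [hH₁, mem_comap] using this
  rcases hNpi with hNpi | hNpi'
  · refine ⟨H₁, hH1.comap _ ?_, hi ▸ hH2, hD⟩
    rwa [QuotientGroup.ker_mk']
  have hri : N.relIndex H₁ = Nat.card H := by
    have := relIndex_ker H₁ (QuotientGroup.mk' N)
    rwa [QuotientGroup.ker_mk', hH₁,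
      map_comap_eq_self_of_surjective (QuotientGroup.mk'_surjective N)] at this
  have hcop : Nat.Coprime (Nat.card (N.subgroupOf H₁)) (N.subgroupOf H₁).index := by
    rw [CfsgH2.card_subgroupOf_of_le hNH]
    change Nat.Coprime _ (N.relIndex H₁)
    rw [hri]
    exact (hH1.coprime hNpi').symm
  obtain ⟨C, hC⟩ := exists_right_complement'_of_coprime hcop
  have hCc : Nat.card (C.map H₁.subtype) = Nat.card H := by
    rw [card_map_of_injective H₁.subtype_injective, ← hC.symm.index_eq_card, ← hri]; rfl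
  refine ⟨C.map H₁.subtype, hCc ▸ hH1, ?_, fun K hK => ?_⟩
  · rw [index_map_subtype, hC.index_eq_card, CfsgH2.card_subgroupOf_of_le hNH, hi]
    exact hNpi'.mul hH2
  · obtain ⟨g, hg⟩ := hD K hK
    have hsup : N ⊔ C.map H₁.subtype = H₁ := by
      have := congrArg (map H₁.subtype) hC.sup_eq_top
      rwa [Subgroup.map_sup, map_subgroupOf_eq_of_le hNH, ← MonoidHom.range_eq_map,
        range_subtype] at this
    have hc : (Nat.card (cj g K)).Coprime (Nat.card N) := by
      rw [card_cj]; exact hK.coprime hNpi'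
    obtain ⟨n, hn, h⟩ := exists_conj_le_of_le_sup (A := C.map H₁.subtype) (N := N) (K := cj g K)
      le_normalizer_of_normal (disjoint_of_coprime_card (hCc ▸ hH1.coprime hNpi'))
      (hsup.symm ▸ hg) hc (solv_or_of_coprime hc)
    exact ⟨n * g, by rw [cj_mul]; exact cj_le_iff.mpr h⟩

theorem piSep_step {G : Type*} [Group G] [Finite G] {π : Set ℕ} {A B : Subgroup G} [A.Normal]
    (hAB : A ≤ B) (hA : PiSep π A) (h : IsPi π (A.relIndex B) ∨ IsPi πᶜ (A.relIndex B)) :
    PiSep π B := by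
  refine PiSep.extension (A.subgroupOf B)
    (hA.of_injective (subgroupOfEquivOfLe hAB).toMonoidHom (subgroupOfEquivOfLe hAB).injective) ?_
  rcases h with h | h
  · exact piSep_of_isPi h
  · exact piSep_of_isPi_compl h

/-- Let π be a set of primes and G a finite π-separable group: G has a chain of normal subgroups from 1 to G in which each successive index is divisible only by primes in π or only by primes outside π. Then G has a Hall π-subgroup, any two Hall π-subgroups of G are conjugate, and every subgroup of G whose order is divisible only by primes in π lies in some Hall π-subgroup. -/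
theorem result {G : Type*} [Group G] [Finite G] (π : Set ℕ)
    (hsep : ∃ (n : ℕ) (H : Fin (n + 1) → Subgroup G), H 0 = ⊥ ∧ H (Fin.last n) = ⊤ ∧ Monotone H ∧ (∀ i, (H i).Normal) ∧
      ∀ i : Fin n, (∀ q : ℕ, q.Prime → q ∣ (H i.castSucc).relIndex (H i.succ) → q ∈ π) ∨
        (∀ q : ℕ, q.Prime → q ∣ (H i.castSucc).relIndex (H i.succ) → q ∉ π)) :
    (∃ K : Subgroup G, Cfsg.IsPiHall π K) ∧
      (∀ K L : Subgroup G, Cfsg.IsPiHall π K → Cfsg.IsPiHall π L → ∃ g : G, L = K.map (MulAut.conj g).toMonoidHom) ∧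
      ∀ U : Subgroup G, (∀ q : ℕ, q.Prime → q ∣ Nat.card U → q ∈ π) → ∃ K : Subgroup G, Cfsg.IsPiHall π K ∧ U ≤ K := by
  obtain ⟨n, H, h0, h1, hm, hn, hs⟩ := hsep
  have key : ∀ i : Fin (n + 1), PiSep π (H i) := fun i => by
    induction i using Fin.induction with
    | zero => rw [h0]; exact piSep_of_isPi (by rw [card_bot]; exact isPi_one _)
    | succ i ih =>
      haveI := hn i.castSucc
      exact piSep_step (hm (Fin.castSucc_lt_succ).le) ih (hs i)
  have hG : PiSep π G := by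
    have := key (Fin.last n)
    rw [h1] at this
    exact this.of_surjective (⊤ : Subgroup G).subtype fun x => ⟨⟨x, mem_top x⟩, rfl⟩
  obtain ⟨K, hK1, hK2, hK3⟩ := hall_aux' π _ G hG rfl
  have hK : IsHallOf π K ⊤ := ⟨le_top, hK1, by rwa [relIndex_top_right]⟩
  have hc : ∀ L, IsHallOf π L ⊤ → ∃ g : G, cj g L = K := fun L hL => by
    obtain ⟨g, hg⟩ := hK3 L hL.2.1
    exact ⟨g, ((hL.cj_of_mem_normalizer (le_normalizer (mem_top _))).eq_of_le hK1 hg le_top).symm⟩
  refine ⟨⟨K, isPiHall_iff.2 hK⟩, fun L M hL hM => ?_, fun U hU => ?_⟩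
  · obtain ⟨g, hg⟩ := hc L (isPiHall_iff.1 hL)
    obtain ⟨h, hh⟩ := hc M (isPiHall_iff.1 hM)
    refine ⟨h⁻¹ * g, ?_⟩
    change M = cj (h⁻¹ * g) L
    rw [cj_mul, hg, ← hh, ← cj_mul, inv_mul_cancel, cj_one]
  · obtain ⟨g, hg⟩ := hK3 U hU
    refine ⟨cj g⁻¹ K, isPiHall_iff.2 (hK.cj_of_mem_normalizer (le_normalizer (mem_top _))), fun x hx => ?_⟩
    have := cj_le_iff.1 hg x hx
    exact ⟨_, this, by simp [mul_assoc]⟩

end Cfsg.Agent.S1908
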