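import Cfsg.Statements.S1924
import Cfsg.Agent.H1.Misc
import Cfsg.Agent.H2.RankOne
import Cfsg.Agent.H4.Basic

set_option autoImplicit false
open Cfsg

namespace Cfsg.Agent.S1924

open CfsgH1 Subgroup
open scoped commutatorElement
set_option maxHeartbeats 400000

theorem not_mem_res {X : Type*} [Group X] [Finite X] (T : Subgroup X) {e : X} {m : ℕ}
    (he : Even (orderOf e)) (hi : T.index = orderOf e * m) (hm : ¬ 2 ∣ m)
    (h : ∀ (j : ℕ) (g : X), g * e ^ j * g⁻¹ ∈ T → e ^ j = 1) : e ∉ Cfsg.pResidual 2 X := by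
  classical
  letI : Fintype (X ⧸ T) := Fintype.ofFinite _
  intro hK
  have h1 := pResidual_le_ker (p := 2) (Equiv.Perm.sign.comp (MulAction.toPermHom X (X ⧸ T)))
    (IsPGroup.of_card (n := 1) (by rw [Nat.card_eq_fintype_card, Fintype.card_units_int]; rfl)) hK
  set σ := MulAction.toPermHom X (X ⧸ T) e with hσ
  have hfix : ∀ (j : ℕ) (q : X ⧸ T), (σ ^ j) q = q → e ^ j = 1 := by
    intro j q hq
    obtain ⟨g, rfl⟩ := QuotientGroup.mk_surjective q
    rw [hσ, ← map_pow] at hq
    refine h j g⁻¹ ?_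
    have := QuotientGroup.eq.mp (show ((g : X) : X ⧸ T) = ((e ^ j * g : X) : X ⧸ T) from hq.symm)
    simpa [mul_assoc] using this
  have h2 : ∀ n ∈ σ.cycleType, n = orderOf e := by
    intro n hn
    refine Nat.dvd_antisymm ((Equiv.Perm.dvd_of_mem_cycleType hn).trans (orderOf_map_dvd _ _)) ?_
    obtain ⟨c, τ, h3, h4, h5, h6⟩ := Equiv.Perm.mem_cycleType_iff.mp hn
    obtain ⟨a, ha, -⟩ := id h5
    refine orderOf_dvd_of_pow_eq_one (hfix n a ?_)
    rw [h3, h4.commute.mul_pow, ← h6, ← h5.orderOf, pow_orderOf_eq_one, one_mul]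
    exact Equiv.Perm.pow_apply_eq_self_of_apply_eq_self ((h4 a).resolve_left ha) _
  have h3 : σ.support = Finset.univ := Finset.eq_univ_of_forall fun q =>
    Equiv.Perm.mem_support.mpr fun hq => by
      have := hfix 1 q (by simpa using hq)
      rw [pow_one] at this
      simp [this] at he
  have h4 := σ.sum_cycleType
  rw [h3, Finset.card_univ, ← Nat.card_eq_fintype_card, ← index_eq_card, hi,
    Multiset.eq_replicate_card.mpr h2, Multiset.sum_replicate, smul_eq_mul, mul_comm] at h4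
  have h5 := Nat.eq_of_mul_eq_mul_left (orderOf_pos e) h4
  have h6 : Equiv.Perm.sign σ = 1 := h1
  rw [Equiv.Perm.sign_of_cycleType, σ.sum_cycleType, h3, Finset.card_univ,
    ← Nat.card_eq_fintype_card, ← index_eq_card, hi, h5,
    Odd.neg_one_pow ((he.mul_right m).add_odd (Nat.odd_iff.mpr (by omega)))] at h6
  exact absurd h6 (by decide)

theorem dih {n : ℕ} (hn : 2 ≤ n) {C : Subgroup (DihedralGroup n)} (hC : IsCyclic C)
    (hi : C.index = 2) {y : DihedralGroup n} (hy : y ∉ C) : orderOf y = 2 := by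
  haveI : NeZero n := ⟨by omega⟩
  obtain ⟨z, rfl⟩ := CfsgH2.exists_zpowers_eq_of_isCyclic hC
  have h1 := (zpowers z).card_mul_index
  rw [hi, DihedralGroup.nat_card, Nat.card_zpowers] at h1
  have hr : ∀ i : ZMod n, DihedralGroup.r i ∈ zpowers (DihedralGroup.r (1 : ZMod n)) := fun i =>
    ⟨i.val, by simp only [zpow_natCast, DihedralGroup.r_one_pow, ZMod.natCast_zmod_val]⟩
  cases y with
  | sr i => exact DihedralGroup.orderOf_sr i
  | r i =>
    cases z with
    | r k =>
      refine absurd ?_ hy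
      rw [eq_of_le_of_card_ge (zpowers_le.mpr (hr k)) (by
        rw [Nat.card_zpowers, Nat.card_zpowers, DihedralGroup.orderOf_r_one]; omega)]
      exact hr i
    | sr k =>
      rw [DihedralGroup.orderOf_sr] at h1
      obtain rfl : n = 2 := by omega
      refine orderOf_eq_prime ?_ fun h => hy (h ▸ one_mem _)
      clear hy
      revert i
      decide

/-- A consequence of Thompson's transfer lemma. Let G be a finite group, L a subgroup with O²(L) = L, T a Sylow 2-subgroup of L and S a Sylow 2-subgroup of G containing T. Suppose D ≤ S is a dihedral subgroup of order at least 4 (the four-group counts) with D ∩ T = 1 and S = TD as a set of products (so |S| = |T|·|D|), and C ≤ D is cyclic of index 2 in D. If no involution of D outside C is G-conjugate to an involution of the subgroup generated by T and C, and the involution of C is not G-conjugate to any involution of T, then G has a normal subgroup K, containing every Sylow 2-subgroup of L as a Sylow 2-subgroup,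 with G = KD. -/
theorem result {G : Type*} [Group G] [Finite G] (L T S D C : Subgroup G) (hL : Cfsg.pResidual 2 ↥L = ⊤)
    (hTL : T ≤ L) (hT2 : IsPGroup 2 T) (hTsyl : ¬ 2 ∣ T.relIndex L)
    (hS2 : IsPGroup 2 S) (hSsyl : ¬ 2 ∣ S.index) (hTS : T ≤ S)
    (hDS : D ≤ S) (hDih : ∃ n : ℕ, 2 ≤ n ∧ Nonempty (↥D ≃* DihedralGroup n)) (hDT : D ⊓ T = ⊥) (hTD : T ⊔ D = S) (hTDc : Nat.card T * Nat.card D = Nat.card S)
    (hCD : C ≤ D) (hC : IsCyclic ↥C) (hCi : C.relIndex D = 2)
    (h1 : ∀ x ∈ D, x ∉ C → orderOf x = 2 → ∀ g : G, g * x * g⁻¹ ∈ T ⊔ C → False)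
    (h2 : ∀ c ∈ C, orderOf c = 2 → ∀ g : G, g * c * g⁻¹ ∈ T → False) :
    ∃ K : Subgroup G, K.Normal ∧ K ⊔ D = ⊤ ∧
      ∀ T' : Subgroup G, T' ≤ L → IsPGroup 2 T' → ¬ 2 ∣ T'.relIndex L → T' ≤ K ∧ ¬ 2 ∣ T'.relIndex K := by
  have hS : IsSylowIn 2 S ⊤ := isSylowIn_top_iff.mpr ⟨hS2, hSsyl⟩
  have hd : ∀ (X E : Subgroup G), E ≤ D → Disjoint (T.subgroupOf X) (E.subgroupOf X) :=
    fun X E hE => disjoint_def.mpr fun {x} k1 k2 => Subtype.ext (hDT.le ⟨hE k2, k1⟩)
  have hc : (T.subgroupOf S).IsComplement' (D.subgroupOf S) :=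
    isComplement'_of_card_mul_and_disjoint
      (by rw [CfsgH2.card_subgroupOf_of_le hTS, CfsgH2.card_subgroupOf_of_le hDS, hTDc])
      (hd S D le_rfl)
  have hcard : ∀ X : Subgroup G, T ≤ X → X ≤ S → T.relIndex X = Nat.card (X ⊓ D : Subgroup G) := by
    intro X k1 k2
    have := (isComplement'_of_disjoint_and_mul_eq_univ (hd X (X ⊓ D) inf_le_right)
      (Set.eq_univ_of_forall fun x => by
        obtain ⟨⟨t, d⟩, e⟩ := hc.2 ⟨x, k2 x.2⟩
        have e' : (t : G) * d = x := congrArg Subtype.val e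
        have k3 : ((d : S) : G) ∈ X := (X.mul_mem_cancel_left (k1 t.2)).mp (e' ▸ x.2)
        exact ⟨⟨_, k1 t.2⟩, t.2, ⟨_, k3⟩, ⟨k3, d.2⟩, Subtype.ext e'⟩)).card_mul_card
    rw [CfsgH2.card_subgroupOf_of_le k1, CfsgH2.card_subgroupOf_of_le inf_le_left,
      ← card_mul_relIndex k1] at this
    exact (Nat.eq_of_mul_eq_mul_left Nat.card_pos this).symm
  have hinv : ∀ y ∈ D, y ∉ C → orderOf y = 2 := by
    obtain ⟨n, hn, ⟨e⟩⟩ := hDih
    intro y hy hyC
    have := dih hn (C := (C.subgroupOf D).map e.toMonoidHom) (y := e ⟨y, hy⟩)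
      (by haveI := CfsgH2.isCyclic_of_le (H := C) le_rfl hC
          haveI := isCyclic_of_surjective _ (subgroupOfEquivOfLe hCD).symm.surjective
          exact isCyclic_of_surjective _ (e.toMonoidHom.subgroupMap_surjective _))
      (by rw [index_map_of_bijective e.bijective]; exact hCi)
      (by rintro ⟨z, hz, h⟩
          rw [e.injective h] at hz
          exact hyC hz)
    rwa [e.orderOf_eq, ← orderOf_coe] at this
  set K := Cfsg.pResidual 2 G with hK
  have hLK : L ≤ K := by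
    rw [hK, ← resIn_top]
    refine le_trans ?_ (resIn_mono (le_top : L ≤ ⊤))
    rw [← map_pResidual_subtype, hL, ← MonoidHom.range_eq_map, range_subtype]
  have hQ : (T ⊔ C).index = 2 * S.index := by
    have k1 : T ⊔ C ≤ S := sup_le hTS (hCD.trans hDS)
    have k2 : (T ⊔ C) ⊓ D = C := le_antisymm (fun y hy => by_contra fun h =>
      h1 y hy.2 h (hinv y hy.2 h) 1 (by simpa using hy.1)) (le_inf le_sup_right hCD)
    have k3 := relIndex_mul_relIndex T (T ⊔ C) S le_sup_left k1
    rw [hcard _ le_sup_left k1, hcard S hTS le_rfl, k2, inf_of_le_right hDS,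
      ← card_mul_relIndex hCD, hCi] at k3
    rw [← relIndex_mul_index k1, Nat.eq_of_mul_eq_mul_left Nat.card_pos k3]
  have hEC : K ⊓ D ≤ C := fun y hy => by_contra fun h =>
    not_mem_res (T ⊔ C) (m := S.index) (by rw [hinv y hy.2 h]; exact even_two)
      (by rw [hQ, hinv y hy.2 h]) hSsyl (fun j g hg => by
        rcases Nat.even_or_odd' j with ⟨i, rfl | rfl⟩
        · rw [pow_mul, ← hinv y hy.2 h, pow_orderOf_eq_one, one_pow]
        · rw [pow_succ, pow_mul, ← hinv y hy.2 h, pow_orderOf_eq_one, one_pow, one_mul] at hg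
          exact (h1 y hy.2 h (hinv y hy.2 h) g hg).elim) hy.1
  have hR := hS.inf_normal K
  have hTR : T ≤ S ⊓ K := le_inf hTS (hTL.trans hLK)
  have hRD : S ⊓ K ⊓ D = K ⊓ D := by
    rw [inf_comm S, inf_assoc, inf_of_le_right hDS]
  have hE : K ⊓ D = ⊥ := by
    by_contra hne
    obtain ⟨e, he⟩ := CfsgH2.exists_zpowers_eq_of_isCyclic (CfsgH2.isCyclic_of_le hEC hC)
    have heK : e ∈ K ⊓ D := he ▸ mem_zpowers e
    have hp2 : IsPGroup 2 (K ⊓ D : Subgroup G) := hS2.to_le (inf_le_right.trans hDS)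
    refine not_mem_res (T.subgroupOf K) (e := ⟨e, heK.1⟩) (m := (S ⊓ K).relIndex K) ?_ ?_
      hR.not_dvd (fun j g hg => ?_) ?_
    · obtain ⟨t, ht, h⟩ := CfsgH4.exists_involution_mem_of_isPGroup hp2 hne
      rw [← orderOf_coe, ← Nat.card_zpowers, he]
      exact CfsgH4.even_card_of_involution_mem ht h
    · rw [← orderOf_coe, ← Nat.card_zpowers, he, ← hRD, ← hcard _ hTR inf_le_left]
      exact (relIndex_mul_relIndex T (S ⊓ K) K hTR inf_le_right).symm
    · by_contra hj
      obtain ⟨k, hk⟩ := isPGroup_iff_forall.mp hp2 _ (pow_mem heK j)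
      obtain ⟨i, hi⟩ := CfsgH4.exists_involution_pow hk fun h => hj (Subtype.ext h)
      refine h2 _ (hEC (pow_mem (pow_mem heK j) i)) hi g ?_
      rw [← conj_pow]
      exact pow_mem hg i
    · have : (Cfsg.pResidual 2 K).map K.subtype = K := by
        rw [map_pResidual_subtype, hK, ← resIn_top, resIn_resIn]
      obtain ⟨y, hy, h⟩ := this.ge heK.1
      rwa [← show y = ⟨e, heK.1⟩ from Subtype.ext h]
  have hRT : S ⊓ K = T := by
    have := hcard _ hTR inf_le_left
    rw [hRD, hE, card_bot, relIndex_eq_one] at this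
    exact le_antisymm this hTR
  refine ⟨K, inferInstance, ?_, fun T' k1 k2 k3 => ⟨k1.trans hLK, ?_⟩⟩
  · rw [eq_top_iff]
    refine hS.sup_resIn.ge.trans (sup_le (hTD.ge.trans (sup_le_sup_right (hTL.trans hLK) _)) ?_)
    rw [resIn_top]
    exact le_sup_left
  · rw [hRT] at hR
    exact (hR.of_card_ge k2 (k1.trans hLK)
      ((⟨hTL, hT2, hTsyl⟩ : IsSylowIn 2 T L).card_eq ⟨k1, k2, k3⟩).le).not_dvd

end Cfsg.Agent.S1924
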