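import Cfsg.Statements.S1935
import Cfsg.Agent.H3.Lim4

set_option autoImplicit false
open Cfsg

namespace Cfsg.Agent.S1935

open Subgroup CfsgH1 CfsgH3 CfsgH3.Lim
open scoped commutatorElement IsMulCommutative

/-- Conjugation action of `G` on `V`. -/
@[reducible] def act {Ω : Type*} [Group Ω] (V G : Subgroup Ω) [IsMulCommutative V]
    (h : G ≤ normalizer (V : Set Ω)) : DistribMulAction G (Additive V) where
  smul g v := Additive.ofMul ⟨g * (v.toMul : Ω) * (g : Ω)⁻¹, ((h g.2) _).1 v.toMul.2⟩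
  one_smul v := by
    change Additive.ofMul _ = _
    simp
  mul_smul a b v := by
    change Additive.ofMul _ = Additive.ofMul _
    congr 1
    ext
    change (a : Ω) * b * _ * ((a : Ω) * b)⁻¹ = a * (b * _ * (b : Ω)⁻¹) * (a : Ω)⁻¹
    group
  smul_zero g := by
    change Additive.ofMul _ = Additive.ofMul 1
    congr 1
    ext
    simp
  smul_add g u v := by
    change Additive.ofMul _ = Additive.ofMul (_ * _)
    congr 1
    ext
    change g * ((u.toMul : Ω) * v.toMul) * (g : Ω)⁻¹ = (g * _ * (g : Ω)⁻¹) * (g * _ * (g : Ω)⁻¹)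
    group

/-- Let p ≥ 5 be a prime and, inside an ambient finite group, let G be a p-subgroup acting faithfully by conjugation on an elementary abelian p-subgroup V that it normalizes (only the identity of G centralizes V). Suppose V is an F-module for G: some nontrivial elementary abelian subgroup E of G satisfies #E · #C_V(E) ≥ #V. Then G contains such an offender A that moreover acts quadratically on V ([V, A, A] = 1) and is normal in its normal closure in G. -/
theorem result {Ω : Type*} [Group Ω] [Finite Ω] (p : ℕ) [Fact p.Prime] (hp : 5 ≤ p) (V G : Subgroup Ω) (hV : Cfsg.IsElementaryAbelian p V) (hG : IsPGroup p ↥G) (hGV : G ≤ Subgroup.normalizer (V : Set Ω)) (hfaith : G ⊓ Subgroup.centralizer (V : Set Ω) = ⊥) (hF : ∃ E : Subgroup Ω, E ≤ G ∧ E ≠ ⊥ ∧ Cfsg.IsElementaryAbelian p E ∧ Nat.card ↥V ≤ Nat.card ↥E * Nat.card ↥(V ⊓ Subgroup.centralizer (E : Set Ω))) : ∃ A : Subgroup Ω, A ≤ G ∧ A ≠ ⊥ ∧ Cfsg.IsElementaryAbelian p A ∧ Nat.card ↥V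 ≤ Nat.card ↥A * Nat.card ↥(V ⊓ Subgroup.centralizer (A : Set Ω)) ∧ ⁅⁅V, A⁆, A⁆ = ⊥ ∧ ∀ g ∈ Subgroup.closure {x : Ω | ∃ h ∈ G, ∃ a ∈ A, x = h * a * h⁻¹}, ∀ a ∈ A, g * a * g⁻¹ ∈ A := by
  obtain ⟨A, hAG, h0, ⟨hc, hpw⟩, hi⟩ := hF
  haveI := hV.1
  letI := act V G hGV
  have hs : ∀ (g : G) (v : Additive V), ((g • v).toMul : Ω) = g * (v.toMul : Ω) * (g : Ω)⁻¹ :=
    fun _ _ => rfl
  have hext : ∀ u v : Additive V, (u.toMul : Ω) = v.toMul → u = v := fun u v h =>
    Additive.toMul.injective (Subtype.ext h)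
  have hfx : ∀ (B : Subgroup G) (v : Additive V), v ∈ fx (Additive V) B ↔
      (v.toMul : Ω) ∈ centralizer (B.map G.subtype : Set Ω) := fun B v =>
    ⟨by rintro h _ ⟨a, ha, rfl⟩; exact mul_inv_eq_iff_eq_mul.1 (congrArg (fun v : Additive V => (v.toMul : Ω)) (h a ha)),
      fun h a ha => hext _ _ (mul_inv_eq_iff_eq_mul.2 (h _ ⟨a, ha, rfl⟩))⟩
  have hcard : ∀ B : Subgroup G, Nat.card (fx (Additive V) B) =
      Nat.card (V ⊓ centralizer (B.map G.subtype : Set Ω) : Subgroup Ω) := fun B =>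
    Nat.card_congr ⟨fun v => ⟨v.1.toMul, v.1.toMul.2, (hfx B _).1 v.2⟩,
      fun v => ⟨Additive.ofMul ⟨v, v.2.1⟩, (hfx B _).2 v.2.2⟩, fun _ => rfl, fun _ => rfl⟩
  have hA : (A.subgroupOf G).map G.subtype = A := map_subgroupOf_eq_of_le hAG
  obtain ⟨B, b0, bc, bp, bm, bq, bn⟩ := exists_off_normal (p := p) (H := G) (V := Additive V)
    ((Fact.out : p.Prime).odd_of_ne_two (by omega))
    (fun v => hext _ _ (by simpa using hV.2 _ v.toMul.2)) hG.isNilpotent
    (fun g hg => Subtype.ext (hfaith.le ⟨g.2, fun v hv => (mul_inv_eq_iff_eq_mul.1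
      (congrArg (fun v : Additive V => (v.toMul : Ω)) (hg (Additive.ofMul ⟨v, hv⟩)))).symm⟩))
    (A := A.subgroupOf G) (fun h => h0 (by rw [← hA, h, Subgroup.map_bot]))
    (fun a ha b hb => Subtype.ext (congrArg Subtype.val (hc.is_comm.comm ⟨a, ha⟩ ⟨b, hb⟩) :))
    (fun a ha => Subtype.ext (hpw _ ha)) (by
      refine Nat.le_of_mul_le_mul_right ?_ (Nat.card_pos (α := fx (Additive V) (A.subgroupOf G)))
      rw [AddSubgroup.index_mul_card, hcard, hA, ← card_map_of_injective G.subtype_injective, hA]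
      exact hi)
  refine ⟨B.map G.subtype, map_subtype_le _,
    fun h => b0 ((map_eq_bot_iff_of_injective _ G.subtype_injective).1 h),
    ⟨⟨⟨?_⟩⟩, ?_⟩, ?_, ?_, fun g hg => ?_⟩
  · rintro ⟨_, a, ha, rfl⟩ ⟨_, b, hb, rfl⟩
    exact Subtype.ext (congrArg Subtype.val (bc a ha b hb) :)
  · rintro _ ⟨a, ha, rfl⟩
    exact congrArg Subtype.val (bp a ha)
  · rw [card_map_of_injective G.subtype_injective, ← hcard]
    exact bm
  · rw [commutator_eq_bot_iff_le_centralizer, commutator_le]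
    rintro v hv _ ⟨a, ha, rfl⟩
    have := inv_mem ((hfx B _).1 (bq a ha (Additive.ofMul ⟨v, hv⟩)))
    rw [toMul_sub, div_eq_mul_inv, Subgroup.coe_mul, hs] at this
    simpa [commutatorElement_def, mul_assoc] using this
  · have : g ∈ normalizer (B.map G.subtype : Set Ω) := by
      refine (closure_le _).2 ?_ hg
      rintro _ ⟨h, hh, _, ⟨a, ha, rfl⟩, rfl⟩
      exact le_normalizer_map G.subtype ⟨_, bn (Normal.conj_mem inferInstance a
        (subset_normalClosure ha) ⟨h, hh⟩), rfl⟩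
    exact fun a ha => (this a).1 ha

end Cfsg.Agent.S1935
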