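import Cfsg.Statements.S1939
import Cfsg.Agent.H1.Basic

set_option autoImplicit false
open Cfsg

namespace Cfsg.Agent.S1939

open CfsgH1 Subgroup

/-- Let S be a Sylow p-subgroup of the finite group G and a an element of S that is the only G-conjugate of a lying in S. Then every power of a has the same property: for every n, the only G-conjugate of a^n lying in S is a^n. -/
theorem result {G : Type*} [Group G] [Finite G] {p : ℕ} [Fact p.Prime] (S : Sylow p G) (a : G)
    (haS : a ∈ (S : Subgroup G)) (hwc : ∀ g : G, g * a * g⁻¹ ∈ (S : Subgroup G) → g * a * g⁻¹ = a) (n : ℕ) :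
    ∀ g : G, g * a ^ n * g⁻¹ ∈ (S : Subgroup G) → g * a ^ n * g⁻¹ = a ^ n := by
  intro g hg
  set b := g * a ^ n * g⁻¹ with hb
  have haZ : ∀ y ∈ (S : Subgroup G), y * a * y⁻¹ = a :=
    fun y hy => hwc y (mul_mem (mul_mem hy haS) (inv_mem hy))
  have h1 : cj g (S : Subgroup G) ≤ centralizer {b} := by
    rw [hb, ← cj_centralizer_singleton]
    refine cj_mono g fun y hy => mem_centralizer_of_conj_eq ?_
    rintro _ rfl
    rw [← conj_pow, haZ y hy]
  have hS : IsSylowIn p (cj g (S : Subgroup G)) (centralizer {b}) :=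
    ((isSylowIn_top S).cj_of_mem (mem_top g)).of_le h1 le_top
  have h2 : zpowers a ≤ centralizer {b} := by
    rw [zpowers_le, mem_centralizer_singleton_iff]
    have := haZ b hg
    rw [mul_inv_eq_iff_eq_mul] at this
    exact this.symm
  obtain ⟨c, hc, e⟩ := hS.exists_cj_le (S.2.to_le (zpowers_le.mpr haS)) h2
  have h3 := mem_cj.mp (e (conj_mem_cj c (mem_zpowers a)))
  have h4 := hwc (g⁻¹ * c) (by simpa [mul_assoc] using h3)
  have h5 : c * a ^ n * c⁻¹ = b := by
    rw [hb]
    conv_rhs => rw [← h4, conj_pow]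
    group
  have h6 := conj_eq_of_mem_centralizer (inv_mem hc) (Set.mem_singleton b)
  rw [← h6, ← h5]
  group

end Cfsg.Agent.S1939
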