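import Cfsg.Statements.S1940
import Cfsg.Agent.H1.Misc

set_option autoImplicit false
open Cfsg

namespace Cfsg.Agent.S1940

open CfsgH1 Subgroup
open scoped commutatorElement
set_option maxHeartbeats 400000

/-- Let the finite group L act by automorphisms on the finite abelian group M, and let N be an L-invariant subgroup of M such that M/N is a p-group on which L acts trivially (every l • m lies in the coset mN). If every element of M is a product of an element of N and an element fixed by a Sylow p-subgroup T of L, then every element of M is a product of an element of N and an element fixed by all of L. -/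
theorem result {L : Type*} [Group L] [Finite L] {M : Type*} [CommGroup M] [Finite M] [MulDistribMulAction L M]
    {p : ℕ} [Fact p.Prime] (N : Subgroup M) (hN : ∀ (l : L) (m : M), m ∈ N → l • m ∈ N)
    (hquot : IsPGroup p (M ⧸ N)) (htriv : ∀ (l : L) (m : M), (l • m) * m⁻¹ ∈ N) (T : Sylow p L)
    (hT : ∀ m : M, ∃ n ∈ N, ∃ c : M, (∀ t ∈ (T : Subgroup L), t • c = c) ∧ m = n * c) :
    ∀ m : M, ∃ n ∈ N, ∃ c : M, (∀ l : L, l • c = c) ∧ m = n * c := by
  intro m
  obtain ⟨n, hn, c, hc, rfl⟩ := hT m
  letI : Fintype (L ⧸ (T : Subgroup L)) := Fintype.ofFinite _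
  let φ := MulDistribMulAction.toMulAut L M
  have h1 := pow_index_mul_relTr_inv_mem φ (T : Subgroup L) (Y := N) (m := c) (htriv · c)
  have h2 := aut_relTr φ (T : Subgroup L) (m := c) hc
  have hcop := coprime_card_of_not_dvd hquot T.not_dvd_index
  obtain ⟨k, hk⟩ := exists_pow_eq_self_of_coprime (x := (c : M ⧸ N))
    (Nat.Coprime.coprime_dvd_right (orderOf_dvd_natCard _) hcop.symm)
  refine ⟨n * c * (relTr φ (T : Subgroup L) c ^ k)⁻¹, ?_, relTr φ (T : Subgroup L) c ^ k,
    fun l => ?_, by simp⟩
  · rw [← div_eq_mul_inv, ← QuotientGroup.eq_iff_div_mem] at h1 ⊢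
    rw [QuotientGroup.mk_mul, (QuotientGroup.eq_one_iff n).mpr hn, one_mul, QuotientGroup.mk_pow, h1,
      QuotientGroup.mk_pow, hk]
  · change φ l _ = _
    rw [map_pow, h2]

end Cfsg.Agent.S1940
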