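import Cfsg.Statements.S1941
import Cfsg.Agent.L0.LayerOf

set_option autoImplicit false
open Cfsg

namespace Cfsg.Agent.S1941

open Subgroup CfsgL0
open scoped commutatorElement

/-- Let G be a finite group with no nontrivial normal subgroup of order prime to p, T a Sylow p-subgroup of G and E(G) the layer of G (the subgroup generated by its components). An automorphism of G of p-power order that fixes T and E(G) elementwise is inner. -/
theorem result {G : Type*} [Group G] [Finite G] {p : ℕ} [Fact p.Prime] (hcore : Cfsg.pPrimeCore p G = ⊥)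
    (T : Sylow p G) (α : MulAut G) (hα : ∃ j : ℕ, orderOf α = p ^ j) (hfixT : ∀ x ∈ (T : Subgroup G), α x = x)
    (hfixE : ∀ x ∈ Cfsg.layer G, α x = x) : ∃ g : G, ∀ x : G, α x = g * x * g⁻¹ := by
  classical
  set Z := pCore p G ⊓ centralizer (pCore p G : Set G) with hZ
  have hp : p.Prime := Fact.out
  have hfix : ∀ x ∈ generalizedFittingSubgroup G, α x = x := by
    have : generalizedFittingSubgroup G ≤ α.toMonoidHom.eqLocus (MonoidHom.id G) := by
      refine sup_le hfixE ?_
      rw [fitting_eq_pCore hcore]
      exact fun x hx => hfixT x (pCore_le_sylow T hx)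
    exact this
  have hc : ∀ g, α g * g⁻¹ ∈ Z := by
    intro g
    have h1 : α g * g⁻¹ ∈ centralizer (generalizedFittingSubgroup G : Set G) := by
      intro x hx
      have h2 := hfix _ ((inferInstance : (generalizedFittingSubgroup G).Normal).conj_mem x hx g⁻¹)
      rw [map_mul, map_mul, hfix x hx, inv_inv, map_inv] at h2
      calc x * (α g * g⁻¹) = α g * ((α g)⁻¹ * x * α g) * g⁻¹ := by group
        _ = α g * g⁻¹ * x := by rw [h2]; group
    refine ⟨fitting_eq_pCore hcore ▸ centralizer_genFitting_le_fitting h1,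
      centralizer_le ?_ h1⟩
    exact (pCore_le_fitting p).trans fitting_le_genFitting
  haveI : IsMulCommutative Z := isMulCommutative_inf_centralizer _
  letI : CommGroup Z := { (inferInstance : Group Z) with mul_comm := mul_comm' }
  let c : G ⧸ (T : Subgroup G) → Z := fun q => Quotient.liftOn' q (fun g => ⟨_, hc g⟩) (by
    intro a b hab
    have h1 := hfixT _ (QuotientGroup.leftRel_apply.1 hab)
    rw [map_mul, map_inv] at h1
    apply Subtype.ext
    change α a * a⁻¹ = α b * b⁻¹
    calc α a * a⁻¹ = α a * (a⁻¹ * b) * b⁻¹ := by group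
      _ = α b * b⁻¹ := by rw [← h1]; group)
  haveI := Fintype.ofFinite (G ⧸ (T : Subgroup G))
  have key : ∀ h : G, (∏ q, c q) =
      (⟨_, hc h⟩ : Z) ^ (T : Subgroup G).index * MulAut.conjNormal h (∏ q, c q) := by
    intro h
    rw [map_prod, index_eq_card, Nat.card_eq_fintype_card, ← Finset.card_univ, ← Finset.prod_const,
      ← Finset.prod_mul_distrib, ← Equiv.prod_comp (MulAction.toPerm h)]
    refine Finset.prod_congr rfl fun q _ => ?_
    induction q using QuotientGroup.induction_on with
    | _ g =>
      apply Subtype.ext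
      change α (h * g) * (h * g)⁻¹ = α h * h⁻¹ * (h * (α g * g⁻¹) * h⁻¹)
      rw [map_mul]; group
  have hZp : IsPGroup p Z := (isPGroup_pCore G p).to_inf_left
  have hco : (Nat.card Z).Coprime (T : Subgroup G).index := by
    obtain ⟨n, hn⟩ := IsPGroup.iff_card.1 hZp
    rw [hn]
    exact Nat.Coprime.pow_left _ ((Nat.Prime.coprime_iff_not_dvd hp).2 T.not_dvd_index)
  obtain ⟨z, hz⟩ := (powCoprime hco).surjective (∏ q, c q)
  rw [powCoprime_apply] at hz
  refine ⟨z, fun h => ?_⟩
  have h1 := key h
  rw [← hz, map_pow, ← mul_pow] at h1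
  have h2 := congrArg Subtype.val ((powCoprime hco).injective h1)
  change (z : G) = α h * h⁻¹ * (h * z * h⁻¹) at h2
  calc α h = (α h * h⁻¹ * (h * z * h⁻¹)) * h * (z : G)⁻¹ := by group
    _ = z * h * (z : G)⁻¹ := by rw [← h2]

end Cfsg.Agent.S1941
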