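import Cfsg.Statements.S1948
import Cfsg.Agent.H1.Misc

set_option autoImplicit false
open Cfsg

namespace Cfsg.Agent.S1948

open CfsgH1 Subgroup
open scoped commutatorElement
set_option maxHeartbeats 400000

/-- Let S be a Sylow p-subgroup of the finite group G. Then G = N_G(S)·O_{p'}(G) if and only if G is p-constrained and N_G(S) controls fusion in S, in the sense that whenever a subgroup Q of S has a conjugate g Q g⁻¹ inside S, the element g is a product n c with n normalizing S and c centralizing Q. -/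
theorem result {G : Type*} [Group G] [Finite G] {p : ℕ} [Fact p.Prime] (S : Sylow p G) :
    Subgroup.normalizer ((S : Subgroup G) : Set G) ⊔ Cfsg.pPrimeCore p G = ⊤ ↔
      (Cfsg.IsPConstrained p G ∧
        ∀ Q : Subgroup G, Q ≤ (S : Subgroup G) → ∀ g : G, Q.map (MulAut.conj g).toMonoidHom ≤ (S : Subgroup G) →
          ∃ n ∈ Subgroup.normalizer ((S : Subgroup G) : Set G), ∃ c ∈ Subgroup.centralizer (Q : Set G), g = n * c) := by
  have hS := isSylowIn_top S
  have hf : ∀ {g : G}, g ∈ normalizer ((S : Subgroup G) : Set G) ⊔ Cfsg.pPrimeCore p G ↔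
      ∃ a ∈ normalizer ((S : Subgroup G) : Set G), ∃ b ∈ Cfsg.pPrimeCore p G, a * b = g :=
    CfsgH1.mem_sup_of_le_normalizer le_normalizer_of_normal
  refine ⟨fun h => ⟨?_, fun Q hQ g hg => ?_⟩, fun ⟨h1, h2⟩ => ?_⟩
  · have hπ := QuotientGroup.mk'_surjective (Cfsg.pPrimeCore p G)
    refine CfsgL0.isPConstrained_iff.mpr (centralizer_pCore_le_of_inf_le (hS.map_top hπ)
      (CfsgL0.pPrimeCore_quotient G p) (inf_le_left.trans ?_))
    haveI : ((S : Subgroup G).map (QuotientGroup.mk' (Cfsg.pPrimeCore p G))).Normal := by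
      rw [← normalizer_eq_top_iff, eq_top_iff, ← map_top_of_surjective _ hπ, ← h, Subgroup.map_sup,
        (Subgroup.map_eq_bot_iff (Cfsg.pPrimeCore p G)).mpr (QuotientGroup.ker_mk' _).ge, sup_bot_eq]
      exact map_normalizer_le _ _
    exact CfsgL0.le_pCore (S.isPGroup'.map _)
  · obtain ⟨n, hn, d, hd, rfl⟩ := hf.mp (h.ge (mem_top g))
    refine ⟨n, hn, d, mem_centralizer_of_cj_le not_dvd_card_pPrimeCore S.isPGroup' hQ hd ?_, rfl⟩
    change cj (n * d) Q ≤ _ at hg
    rwa [← cj_cj, cj_le_iff_le_cj_inv, cj_eq_of_mem_normalizer (inv_mem hn)] at hg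
  · have hT := hS.inf_normal (Cfsg.pPrimePCore p G)
    rw [eq_top_iff]
    intro g _
    obtain ⟨d, hd, m, hm, rfl⟩ := hT.frattini_pPrimeCore g
    obtain ⟨n, hn, c, hc, rfl⟩ := h2 _ inf_le_left m
      ((cj_eq_of_mem_normalizer hm).le.trans inf_le_left)
    refine mul_mem (mem_sup_right hd) (mul_mem (mem_sup_left hn) ?_)
    have := hT.centralizer_le_pPrimePCore h1 hc
    rw [← hT.sup_pPrimeCore] at this
    exact sup_le_sup_right (inf_le_left.trans le_normalizer) _ this

end Cfsg.Agent.S1948
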