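import Cfsg.Statements.S1950
import Cfsg.Agent.H4.PCyc

set_option autoImplicit false
open Cfsg

namespace Cfsg.Agent.S1950

/-- Let G be a finite group whose Sylow p-subgroups are cyclic. Then G is p-solvable if and only if every two elements of order p of G generate a p-solvable subgroup. -/
theorem result {G : Type*} [Group G] [Finite G] {p : ℕ} [Fact p.Prime] (P : Sylow p G) (hP : IsCyclic ↥(P : Subgroup G)) :
    Cfsg.IsPSolvable p G ↔ ∀ x y : G, orderOf x = p → orderOf y = p → Cfsg.IsPSolvable p ↥(Subgroup.closure ({x, y} : Set G)) := by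
  refine ⟨fun h x y _ _ => CfsgL0.isPSolvable_subgroup h _,
    CfsgH4.cyc_pSolvable _ G rfl fun Q hQ => ?_⟩
  obtain ⟨g, -, h⟩ := (CfsgH1.isSylowIn_top P).exists_cj_le hQ le_top
  haveI := Subgroup.isCyclic_of_le h
  exact isCyclic_of_injective
    (Subgroup.equivMapOfInjective Q (MulAut.conj g).toMonoidHom (MulAut.conj g).injective).toMonoidHom
    (Subgroup.equivMapOfInjective Q (MulAut.conj g).toMonoidHom (MulAut.conj g).injective).injective

end Cfsg.Agent.S1950
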