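import Cfsg.Statements.S1952
import Cfsg.Agent.H2.LinAct

set_option autoImplicit false
open Cfsg

namespace Cfsg.Agent.S1952
open Subgroup CfsgH2 CfsgL0
open scoped commutatorElement

theorem geom_eq {R : Type*} [Ring R] {p : ℕ} [hp : Fact p.Prime] [Algebra (ZMod p) R] (σ : R) :
    ∑ i ∈ Finset.range p, σ ^ i = (σ - 1) ^ (p - 1) ∧ (σ - 1) ^ p = σ ^ p - 1 := by
  have h2 : ((Polynomial.X : Polynomial (ZMod p)) - 1) ^ p = Polynomial.X ^ p - 1 := by
    rw [sub_pow_char, one_pow]
  have h1 : ∑ i ∈ Finset.range p, (Polynomial.X : Polynomial (ZMod p)) ^ i =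
      (Polynomial.X - 1) ^ (p - 1) := by
    apply mul_right_cancel₀ (Polynomial.X_sub_C_ne_zero 1)
    rw [map_one, geom_sum_mul, ← pow_succ, Nat.sub_add_cancel hp.out.one_le, h2]
  exact ⟨by simpa using congrArg (Polynomial.aeval σ) h1,
    by simpa using congrArg (Polynomial.aeval σ) h2⟩

theorem card_ge {G : Type*} [Group G] [Finite G] {p : ℕ} [hp : Fact p.Prime] {A : Subgroup G}
    [hAn : A.Normal] (hA : Cfsg.IsElementaryAbelian p A) {x y : G} (hx : x ∈ A) (hy : y ^ p ∈ A)
    (hprod : ((List.range p).map (fun i => (y ^ i)⁻¹ * x * y ^ i)).prod ≠ 1) :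
    p ^ p ≤ Nat.card A := by
  let : CommGroup A := { (inferInstance : Group A) with mul_comm := hA.1.is_comm.comm }
  let : Module (ZMod p) (Additive A) :=
    AddCommGroup.zmodModule (n := p) fun a => Subtype.ext (hA.2 _ a.toMul.2)
  have : Module.Finite (ZMod p) (Additive A) := Module.Finite.of_finite
  let σ : Module.End (ZMod p) (Additive A) :=
    (MonoidHom.toAdditive (MulAut.conjNormal (H := A) y⁻¹).toMonoidHom).toZModLinearMap p
  have h1 : ∀ (i : ℕ) (a : Additive A), (((σ ^ i) a).toMul : G) = (y ^ i)⁻¹ * a.toMul * y ^ i := by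
    intro i a
    induction i with
    | zero => simp
    | succ i ih =>
      rw [pow_succ', Module.End.mul_apply]
      change y⁻¹ * (((σ ^ i) a).toMul : G) * y⁻¹⁻¹ = _
      rw [ih, pow_succ]; group
  have h2 : ∀ k : ℕ, ((List.range k).map (fun i => (y ^ i)⁻¹ * x * y ^ i)).prod =
      (((∑ i ∈ Finset.range k, σ ^ i) (Additive.ofMul ⟨x, hx⟩)).toMul : G) := by
    intro k
    induction k with
    | zero => simp
    | succ k ih =>
      rw [List.range_succ, List.map_append, List.prod_append, ih, Finset.sum_range_succ,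
        LinearMap.add_apply, toMul_add, coe_mul, h1]
      simp
  have h3 : σ ^ p = 1 := by
    ext a
    rw [h1, mul_assoc, isMulCommutative_iff.mp hA.1 _ a.toMul.2 _ hy, inv_mul_cancel_left]
    rfl
  obtain ⟨g1, g2⟩ := geom_eq (p := p) σ
  rw [h3, sub_self] at g2
  have h4 := (LinearMap.aeval_self_charpoly (σ - 1))
  rw [(LinearMap.isNilpotent_iff_charpoly _).mp ⟨p, g2⟩, map_pow, Polynomial.aeval_X] at h4
  rw [← Nat.card_congr (Additive.toMul (α := A)), Module.natCard_eq_pow_finrank (K := ZMod p),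
    Nat.card_zmod, pow_le_pow_iff]
  by_contra h
  apply hprod
  rw [h2, g1, pow_eq_zero_of_le (by omega) h4]
  rfl

/-- Let P be a finite p-group with a normal elementary abelian subgroup A of index p, and let x ∈ A and y ∈ P with y outside A. If the product of the p conjugates y^(-i) x y^i (i = 0, …, p−1) is not the identity, then the wreath product Z_p ≀ Z_p, realised as a Sylow p-subgroup of the symmetric group of degree p², is a homomorphic image of P. -/
theorem result {P : Type*} [Group P] [Finite P] {p : ℕ} [Fact p.Prime] (hP : IsPGroup p P) (A : Subgroup P) [A.Normal]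
    (hA : Cfsg.IsElementaryAbelian p A) (hidx : A.index = p) (x y : P) (hx : x ∈ A) (hy : y ∉ A)
    (hprod : ((List.range p).map (fun i => (y ^ i)⁻¹ * x * y ^ i)).prod ≠ 1) :
    ∃ (Q : Sylow p (Equiv.Perm (Fin (p ^ 2)))) (f : P →* ↥(Q : Subgroup (Equiv.Perm (Fin (p ^ 2))))), Function.Surjective f := by
  have hp : p.Prime := Fact.out
  have hn : ((List.range p).map (fun i => (y ^ i)⁻¹ * x * y ^ i)).prod ∈ A :=
    A.list_prod_mem (by
      intro g hg
      obtain ⟨i, -, rfl⟩ := List.mem_map.mp hg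
      exact conj_mem_of_le_normalizer' le_rfl (mem_normalizer_of_normal A _) hx)
  have hF : frattini A ≤ ⊥ := frattini_le_of_comm_pow (p := p)
    (fun a b => comm_eq_one_iff.mpr (hA.1.is_comm.comm a b)) (fun a => Subtype.ext (hA.2 a a.2))
  obtain ⟨M₀, hM₀, hnM⟩ : ∃ M₀ : Subgroup A, IsCoatom M₀ ∧ ⟨_, hn⟩ ∉ M₀ := by
    by_contra h
    push Not at h
    exact hprod (congrArg Subtype.val (mem_bot.mp (hF (mem_frattini_iff.mpr h))))
  let M := M₀.map A.subtype
  have hMi : M.index = p ^ 2 := by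
    rw [index_map_subtype, index_of_isCoatom (hP.to_subgroup A) hM₀, hidx, pow_two]
  let e : P ⧸ M ≃ Fin (p ^ 2) := Finite.equivFinOfCardEq hMi
  let f : P →* Equiv.Perm (Fin (p ^ 2)) :=
    e.permCongrHom.toMonoidHom.comp (MulAction.toPermHom P (P ⧸ M))
  have hker : f.ker = M.normalCore := by
    rw [normalCore_eq_ker, MonoidHom.ker_comp_of_injective _ _ e.permCongrHom.injective]
  have hKA : f.ker ≤ A := hker ▸ M.normalCore_le.trans (map_subtype_le _)
  have h1 := card_ge (A := A.map (QuotientGroup.mk' f.ker)) (isElementaryAbelian_map hA _)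
    (x := x) (y := y) ⟨x, hx, rfl⟩ ⟨y ^ p, hidx ▸ A.pow_index_mem y, rfl⟩ (fun h => hnM (by
      have h2 : ((List.range p).map (fun i => (y ^ i)⁻¹ * x * y ^ i)).prod ∈ f.ker := by
        rw [← QuotientGroup.eq_one_iff, ← h, ← QuotientGroup.mk'_apply, map_list_prod, List.map_map]
        rfl
      rw [hker] at h2
      exact (mem_map_iff_mem A.subtype_injective).mp (M.normalCore_le h2)))
  rw [← relIndex_ker, QuotientGroup.ker_mk'] at h1
  obtain ⟨Q, hQ⟩ := (hP.of_surjective f.rangeRestrict f.rangeRestrict_surjective).exists_le_sylow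
  have hQc : Nat.card Q = p ^ (p + 1) := by
    rw [Q.card_eq_multiplicity, Nat.card_perm, Nat.card_fin]
    congr 1
    have := sub_one_mul_padicValNat_factorial (p := p) (p ^ 2)
    rw [Nat.factorization_def _ hp]
    have hd : Nat.digits p (p ^ 2) = [0, 0, 1] := by
      rw [show p ^ 2 = p ^ 2 * 1 by ring, Nat.digits_base_pow_mul hp.one_lt one_pos,
        Nat.digits_of_lt _ _ one_ne_zero hp.one_lt]
      rfl
    rw [hd] at this
    refine Nat.eq_of_mul_eq_mul_left (Nat.sub_pos_of_lt hp.one_lt) (this.trans ?_)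
    obtain ⟨k, rfl⟩ := Nat.exists_eq_add_of_le' hp.one_le
    simp only [List.sum_cons, List.sum_nil, Nat.add_sub_cancel]
    rw [show (k + 1) ^ 2 = k * (k + 1 + 1) + 1 by ring]
    simp
  have heq : f.range = Q := eq_of_le_of_card_ge hQ (by
    rw [hQc, ← index_ker, ← relIndex_mul_index hKA, hidx, pow_succ]
    exact Nat.mul_le_mul_right p h1)
  refine ⟨Q, f.codRestrict _ fun g => hQ ⟨g, rfl⟩, fun q => ?_⟩
  obtain ⟨g, hg⟩ := heq.ge q.2
  exact ⟨g, Subtype.ext hg⟩

end Cfsg.Agent.S1952
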