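import Cfsg.Statements.S1953
import Cfsg.Agent.H3.OpF

set_option autoImplicit false
open Cfsg

namespace Cfsg.Agent.S1953

/-- Let p be an odd prime and P a Sylow p-subgroup of the finite group G, and suppose that for no p-subgroup Q of G does N_G(Q)/C_G(Q) have a section isomorphic to SL₂(p). Call a subgroup Q of P centric-radical when Z(Q) is a Sylow p-subgroup of C_G(Q) and the only normal subgroup X of N_G(Q) containing Q·C_G(Q) such that the index of Q·C_G(Q) in X is a power of p is Q·C_G(Q) itself (that is, N_G(Q)/Q·C_G(Q) has no nontrivial normal p-subgroup). Then there is a centric-radical subgroup Q of P contained in every centric-radical subgroup of P; it is normal in P, and N_G(Q) controls strong fusion in P: whenever a subgroup A of P has g A g⁻¹ ≤ P, the element g is a product h c with h in N_G(Q) and c centralizing A. -/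
theorem result {G : Type*} [Group G] [Finite G] {p : ℕ} [Fact p.Prime] (hp : p ≠ 2) (P : Sylow p G)
    (hfree : ∀ Q : Subgroup G, IsPGroup p ↥Q → ¬ ∃ (H K : Subgroup G) (_ : (K.subgroupOf H).Normal),
      Subgroup.centralizer (Q : Set G) ≤ K ∧ K ≤ H ∧ H ≤ Subgroup.normalizer (Q : Set G) ∧
      Nonempty ((↥H ⧸ K.subgroupOf H) ≃* Matrix.SpecialLinearGroup (Fin 2) (ZMod p)))
    (cr : Subgroup G → Prop)
    (hcr : ∀ Q : Subgroup G, cr Q ↔ (Q ≤ (P : Subgroup G) ∧
      (∃ R : Sylow p ↥(Subgroup.centralizer (Q : Set G)),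
        (R : Subgroup ↥(Subgroup.centralizer (Q : Set G))).map (Subgroup.centralizer (Q : Set G)).subtype = Q ⊓ Subgroup.centralizer (Q : Set G)) ∧
      ∀ X : Subgroup G, X ≤ Subgroup.normalizer (Q : Set G) →
        (∀ n ∈ Subgroup.normalizer (Q : Set G), X.map (MulAut.conj n).toMonoidHom = X) →
        Q ⊔ Subgroup.centralizer (Q : Set G) ≤ X → (∃ k : ℕ, (Q ⊔ Subgroup.centralizer (Q : Set G)).relIndex X = p ^ k) →
        X = Q ⊔ Subgroup.centralizer (Q : Set G))) :
    ∃ Q : Subgroup G, cr Q ∧ (∀ R : Subgroup G, cr R → Q ≤ R) ∧ (∀ x ∈ (P : Subgroup G), Q.map (MulAut.conj x).toMonoidHom = Q) ∧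
      ∀ A : Subgroup G, A ≤ (P : Subgroup G) → ∀ g : G, A.map (MulAut.conj g).toMonoidHom ≤ (P : Subgroup G) →
        ∃ h ∈ Subgroup.normalizer (Q : Set G), ∃ c ∈ Subgroup.centralizer (A : Set G), g = h * c := by
  have hS := CfsgH1.isSylowIn_top P
  have h1 : CfsgH3.SecStab p G := CfsgH3.secStab_of_not_isSec hp fun hs => by
    obtain ⟨Q, hQ, h⟩ := CfsgH3.exists_automizer_of_isSec_QD hs
    exact hfree Q hQ h
  have h2 := CfsgH3.sfBy_of_controlsStrongFusion hS (CfsgH3.induced_le _)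
    (CfsgH3.kinf_controls h1 P (Or.inl rfl))
  rw [CfsgH3.induced_kInfLower] at h2
  obtain ⟨Q, ⟨hQ, hPQ, hF⟩, hKQ, hmax⟩ := CfsgH3.exists_max_member
    (fun Q : Subgroup G => Q ≤ (P : Subgroup G) ∧ (P : Subgroup G) ≤ Subgroup.normalizer (Q : Set G) ∧
      CfsgH1.SFBy (Subgroup.normalizer (Q : Set G)) ⊤ P) (A := CfsgH3.kLow (P : Subgroup G))
    ⟨CfsgH3.kLow_le _, Subgroup.le_normalizer.trans (CfsgH3.normalizer_le_normalizer_kLow _), h2⟩
  have hc : CfsgH1.IsSylowIn p (Q ⊓ Subgroup.centralizer (Q : Set G))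
      (Subgroup.centralizer (Q : Set G)) := by
    have := (hS.of_le hPQ le_top).inf_of_le_normalizer (Subgroup.centralizer_le_normalizer _)
      (CfsgH2.le_normalizer_centralizer le_rfl)
    rwa [le_antisymm (le_inf (((inf_le_inf_left _ (CfsgH3.centralizer_anti hKQ)).trans
      (CfsgH3.inf_centralizer_kLow_le hS.pgroup)).trans hKQ) inf_le_right)
      (inf_le_inf_right _ hQ)] at this
  refine ⟨Q, (hcr Q).mpr ⟨hQ, ⟨hc.toSylow, hc.map_toSylow⟩, fun X k1 k2 k3 k4 => ?_⟩,
    fun R hR => ?_, fun x hx => CfsgH1.cj_eq_of_mem_normalizer (hPQ hx),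
    fun A hA g hg => CfsgH1.actsVia_iff.mp (hF A g hA (Subgroup.mem_top g) hg)⟩
  · have k2' : Subgroup.normalizer (Q : Set G) ≤ Subgroup.normalizer (X : Set G) :=
      fun n hn => CfsgH1.mem_normalizer_iff_cj.mpr (k2 n hn)
    obtain ⟨k5, k6⟩ := CfsgH3.sfBy_inf_of_radical hS hPQ hF hc hQ k1 k2' k3 k4
    rw [k6, hmax _ ⟨inf_le_left, CfsgH2.le_normalizer_inf Subgroup.le_normalizer (hPQ.trans k2'),
      k5⟩ (le_inf hQ (le_sup_left.trans k3))]
  · obtain ⟨k1, ⟨T, k2⟩, k3⟩ := (hcr R).mp hR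
    exact CfsgH3.le_of_centric_radical hS.pgroup hQ hPQ hF k1
      (k2 ▸ CfsgH1.isSylowIn_map_subtype T) k3

end Cfsg.Agent.S1953
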