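import Cfsg.Statements.S1954
import Cfsg.Agent.H1.Misc
import Cfsg.Agent.H2.Coprime2

set_option autoImplicit false
open Cfsg

namespace Cfsg.Agent.S1954

open CfsgH1 Subgroup
open scoped commutatorElement
set_option maxHeartbeats 400000

theorem normalizer_le_lcs {G : Type*} [Group G] (W : Subgroup G) (i : ℕ) :
    normalizer (W : Set G) ≤ normalizer ((W.lowerCentralSeries i : Subgroup G) : Set G) := by
  induction i with
  | zero => exact le_rfl
  | succ i ih => exact CfsgH2.le_normalizer_commutator ih le_rfl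

/-- Let N be a normal subgroup of the finite group G, P a Sylow p-subgroup of G, and V a subgroup of P ∩ N normal in P ∩ N such that N_N(V) controls strong fusion in P ∩ N with respect to N (whenever a subgroup A of P ∩ N has n A n⁻¹ ≤ P ∩ N for some n in N, then n = h c with h in N_N(V) and c in C_N(A)). Let W be the subgroup generated by the conjugates of V under N_G(P ∩ N). Then N_G(W) controls strong fusion in P with respect to G. -/
theorem result {G : Type*} [Group G] [Finite G] {p : ℕ} [Fact p.Prime] (N : Subgroup G) [N.Normal] (P : Sylow p G) (V : Subgroup G)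
    (hV : V ≤ (P : Subgroup G) ⊓ N) (hVn : ∀ x ∈ (P : Subgroup G) ⊓ N, V.map (MulAut.conj x).toMonoidHom = V)
    (hctrl : ∀ A : Subgroup G, A ≤ (P : Subgroup G) ⊓ N → ∀ n ∈ N, A.map (MulAut.conj n).toMonoidHom ≤ (P : Subgroup G) ⊓ N →
      ∃ h ∈ N ⊓ Subgroup.normalizer (V : Set G), ∃ c ∈ N ⊓ Subgroup.centralizer (A : Set G), n = h * c)
    (W : Subgroup G) (hW : W = Subgroup.closure (⋃ x ∈ Subgroup.normalizer (((P : Subgroup G) ⊓ N : Subgroup G) : Set G),
      ((V.map (MulAut.conj x).toMonoidHom : Subgroup G) : Set G))) :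
    ∀ A : Subgroup G, A ≤ (P : Subgroup G) → ∀ g : G, A.map (MulAut.conj g).toMonoidHom ≤ (P : Subgroup G) →
        ∃ h ∈ Subgroup.normalizer (W : Set G), ∃ c ∈ Subgroup.centralizer (A : Set G), g = h * c := by
  set T := (P : Subgroup G) ⊓ N with hT
  have hTs : IsSylowIn p T N := isSylowIn_inf_normal P N
  have h0 : SFBy (N ⊓ normalizer (V : Set G)) N T := fun A n hA hn hAn =>
    actsVia_iff.mpr (by
      obtain ⟨h, hh, c, hc, e⟩ := hctrl A hA n hn hAn
      exact ⟨h, hh, c, hc.2, e⟩)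
  have h1 : ∀ x ∈ normalizer (T : Set G), SFBy (N ⊓ normalizer (cj x V : Set G)) N T := by
    intro x hx A n hA hn hAn
    have := (h0 (cj x⁻¹ A) (x⁻¹ * n * x) (cj_le_of_mem_normalizer (inv_mem hx) hA)
      (by simpa using Normal.conj_mem ‹N.Normal› n hn x⁻¹) (by
        rw [cj_cj, mul_inv_cancel_right, ← cj_cj]
        exact cj_le_of_mem_normalizer (inv_mem hx) hAn)).cj x
    rwa [cj_inf, cj_normal, cj_normalizer, cj_cj_inv,
      show x * (x⁻¹ * n * x) * x⁻¹ = n by group] at this
  have hle : ∀ x ∈ normalizer (T : Set G), cj x V ≤ W := fun x hx v hv =>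
    hW ▸ subset_closure (Set.mem_biUnion hx hv)
  have hle' : ∀ X : Subgroup G, (∀ x ∈ normalizer (T : Set G), cj x V ≤ X) → W ≤ X := fun X h => by
    rw [hW, closure_le]
    exact Set.iUnion₂_subset h
  have hWT : W ≤ T := hle' T fun x hx => cj_le_of_mem_normalizer hx hV
  have hNW : normalizer (T : Set G) ≤ normalizer (W : Set G) := fun y hy =>
    mem_normalizer_of_cj_le (cj_le_iff_le_cj_inv.mpr (hle' _ fun x hx => by
      rw [← cj_le_iff_le_cj_inv, cj_cj]
      exact hle _ (mul_mem hy hx)))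
  have h2 : SFBy (N ⊓ normalizer (W : Set G)) N T := by
    obtain ⟨X, hX⟩ := (Set.toFinite {X : Subgroup G | X ≤ W ∧
      SFBy (N ⊓ normalizer (X : Set G)) N T}).exists_maximal ⟨_, hle 1 (one_mem _), h1 1 (one_mem _)⟩
    have : W = X := le_antisymm (hle' X fun x hx => le_sup_right.trans (hX.le_of_ge
      ⟨sup_le hX.prop.1 (hle x hx), hX.prop.2.sup (h1 x hx) (hX.prop.1.trans hWT)⟩ le_sup_left))
      hX.prop.1
    exact this ▸ hX.prop.2
  haveI : Group.IsNilpotent W := (hTs.pgroup.to_le hWT).isNilpotent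
  obtain ⟨n, hn⟩ := (Subgroup.isNilpotent_iff_lowerCentralSeries W).mp this
  have key := (isSylowIn_top P).sfBy_of_chain (fun i => W.lowerCentralSeries i)
    (hWT.trans inf_le_left) (fun i x hx _ g _ hg => by
      obtain ⟨k, hk, m, hm, rfl⟩ := hTs.frattini (g := g) (le_normalizer_of_normal (mem_top g))
      have h3 := (mem_normalizer_iff.mp (normalizer_le_lcs W i (hNW hm)) x).mp hx
      have h4 : m * x * m⁻¹ ∈ T := hWT (lowerCentralSeries_le_self W i h3)
      have e : k * m * x * (k * m)⁻¹ = k * (m * x * m⁻¹) * k⁻¹ := by group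
      rw [e] at hg ⊢
      obtain ⟨h, hh, e'⟩ := h2.exists_conj_eq h4 hk ⟨hg, Normal.conj_mem ‹N.Normal› _ h4.2 k⟩
      rw [← e']
      exact (mem_normalizer_iff.mp (normalizer_le_lcs W i hh.2) _).mp h3) (fun i => le_rfl) hn
  intro A hA g hg
  obtain ⟨h, hh, c, hc, e⟩ := actsVia_iff.mp (key A g hA (mem_top g) hg)
  exact ⟨h, hh.2, c, hc, e⟩

end Cfsg.Agent.S1954
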