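import Cfsg.Statements.S1956
import Cfsg.Agent.H1.Basic

set_option autoImplicit false
open Cfsg

namespace Cfsg.Agent.S1956

open CfsgH1 Subgroup

/-- Let P be a Sylow p-subgroup of the finite group G such that every element of P of order dividing p (dividing 4 when p = 2) is central in P. Then the fusion of these elements is controlled by N_G(P): if such an element a of P has g a g⁻¹ in P, then g = n c with n normalizing P and c commuting with a. -/
theorem result {G : Type*} [Group G] [Finite G] {p : ℕ} [Fact p.Prime] (P : Sylow p G)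
    (hcen : ∀ a ∈ (P : Subgroup G), (a ^ p = 1 ∨ (p = 2 ∧ a ^ 4 = 1)) → ∀ y ∈ (P : Subgroup G), a * y = y * a) :
    ∀ a ∈ (P : Subgroup G), (a ^ p = 1 ∨ (p = 2 ∧ a ^ 4 = 1)) → ∀ g : G, g * a * g⁻¹ ∈ (P : Subgroup G) →
      ∃ n ∈ Subgroup.normalizer ((P : Subgroup G) : Set G), ∃ c : G, c * a = a * c ∧ g = n * c := by
  intro a ha hord g hg
  have h1 : a ∈ centralizer (P : Set G) := fun y hy => (hcen a ha hord y hy).symm
  have hord' : (g * a * g⁻¹) ^ p = 1 ∨ (p = 2 ∧ (g * a * g⁻¹) ^ 4 = 1) := by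
    simpa only [conj_pow, conj_eq_one_iff] using hord
  have h2 : g * a * g⁻¹ ∈ centralizer (P : Set G) :=
    fun y hy => (hcen _ hg hord' y hy).symm
  obtain ⟨n, hn, e⟩ := P.conj_eq_normalizer_conj_of_mem_centralizer a g⁻¹ h1 (by simpa using h2)
  refine ⟨n⁻¹, inv_mem hn, n * g, ?_, by group⟩
  calc n * g * a = n * (g⁻¹⁻¹ * a * g⁻¹) * g := by group
    _ = a * (n * g) := by rw [e]; group

end Cfsg.Agent.S1956
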