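import Cfsg.Statements.S2001
import Cfsg.Agent.H1.WeakClosure

set_option autoImplicit false
open Cfsg

namespace Cfsg.Agent.S2001

open CfsgH1 Subgroup
open scoped commutatorElement

/-- Let p be a prime dividing the order of the finite group G, P a Sylow p-subgroup, W a conjugacy functor for p on G with Z(H) ≤ W(H) for every nontrivial p-subgroup H, and V a central functor: a conjugacy functor with V(H) ≤ Z(H), and V(H) ≤ V(K) whenever Z(H) ≤ Z(K), for nontrivial p-subgroups H, K. Say that W with V controls transfer in a subgroup L when some Sylow p-subgroup Q of L satisfies Q ∩ L' = (Q ∩ (N_L(W(Q)))')·(Q ∩ (C_L(V(Q)))') as a product of two subgroups. If W with V controls transfer in N_G(H) for every subgroup H with Z(P) ≤ H ≤ P, then W with V controls transfer in G. -/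
theorem result {G : Type*} [Group G] [Finite G] {p : ℕ} [Fact p.Prime] (hdiv : p ∣ Nat.card G) (P : Sylow p G) (W V : Subgroup G → Subgroup G) (hW : Cfsg.IsConjugacyFunctor p W) (hV : Cfsg.IsConjugacyFunctor p V) (hWZ : ∀ H : Subgroup G, IsPGroup p ↥H → H ⊓ Subgroup.centralizer ((H : Subgroup G) : Set G) ≤ W H) (hVZ : ∀ H : Subgroup G, IsPGroup p ↥H → V H ≤ H ⊓ Subgroup.centralizer ((H : Subgroup G) : Set G)) (hVmono : ∀ H K : Subgroup G, IsPGroup p ↥H → IsPGroup p ↥K → H ≠ ⊥ → K ≠ ⊥ → H ⊓ Subgroup.centralizer ((H : Subgroup G) : Set G) ≤ K ⊓ Subgroup.centralizer ((K : Subgroup G) : Set G) → V H ≤ V K) (hloc : ∀ H : Subgroup G, (P : Subgroup G) ⊓ Subgroup.centralizer (((P : Subgroup G) : Subgroup G) : Set G) ≤ H → H ≤ (P : Subgroup G) → ∃ Q : Subgroup G, Q ≤ Subgroup.normalizer ((H : Subgroup G) : Set G) ∧ IsPGroup p ↥Q ∧ ¬ p ∣ (Q).relIndex (Subgroup.normalizer ((H : Subgroup G) : Set G)) ∧ ∀ x : G, x ∈ Q ⊓ ⁅Subgroup.normalizer ((H : Subgroup G)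 : Set G), Subgroup.normalizer ((H : Subgroup G) : Set G)⁆ ↔ ∃ a ∈ Q ⊓ ⁅Subgroup.normalizer ((H : Subgroup G) : Set G) ⊓ Subgroup.normalizer ((W Q : Subgroup G) : Set G), Subgroup.normalizer ((H : Subgroup G) : Set G) ⊓ Subgroup.normalizer ((W Q : Subgroup G) : Set G)⁆, ∃ b ∈ Q ⊓ ⁅Subgroup.normalizer ((H : Subgroup G) : Set G) ⊓ Subgroup.centralizer ((V Q : Subgroup G) : Set G), Subgroup.normalizer ((H : Subgroup G) : Set G) ⊓ Subgroup.centralizer ((V Q : Subgroup G) : Set G)⁆, x = a * b) : ∃ Q : Subgroup G, IsPGroup p ↥Q ∧ ¬ p ∣ Q.index ∧ ∀ x : G, x ∈ Q ⊓ commutator G ↔ ∃ a ∈ Q ⊓ ⁅Subgroup.normalizer ((W Q : Subgroup G) : Set G), Subgroup.normalizer ((W Q : Subgroup G) : Set G)⁆, ∃ b ∈ Q ⊓ ⁅Subgroup.centralizer ((V Q : Subgroup G) : Set G), Subgroup.centralizer ((V Q : Subgroup G) : Set G)⁆, x = a * b := by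
  have hS : IsSylowIn p (P : Subgroup G) ⊤ := isSylowIn_top P
  have hb : (P : Subgroup G) ≠ ⊥ := fun h => hS.eq_bot_iff.mp h (by rwa [card_top])
  refine ⟨P, hS.pgroup, (isSylowIn_top_iff.mp hS).2, fun x => ⟨fun hx => ?_, ?_⟩⟩
  swap
  · rintro ⟨a, ha, b, hb, rfl⟩
    exact mul_mem (inf_le_inf_left _ (commutator_mono le_top le_top) ha)
      (inf_le_inf_left _ (commutator_mono le_top le_top) hb)
  set F₁ := (P : Subgroup G) ⊓ ⁅normalizer (W P : Set G), normalizer (W P : Set G)⁆ with hF₁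
  set F₂ := (P : Subgroup G) ⊓ ⁅centralizer (V P : Set G), centralizer (V P : Set G)⁆ with hF₂
  have key := wp_induction_center hW hWZ hS (fun U => (P : Subgroup G) ⊓
    ⁅normalizer (U : Set G), normalizer (U : Set G)⁆ ≤ F₁ ⊔ F₂) (by
      intro U hU hZ ih
      obtain ⟨Q, h1, h2, h3, h⟩ := hloc U hZ hU.1
      have hfn := hU.fn
      rw [FN, top_inf_eq] at hfn
      obtain ⟨y, hy, e⟩ := (⟨h1, h2, h3⟩ : IsSylowIn p Q _).exists_cj_eq hfn
      intro x hx
      have hxR : x ∈ (P : Subgroup G) ⊓ normalizer (U : Set G) :=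
        ⟨hx.1, ((commutator_le_sup _ _).trans_eq (sup_idem _)) hx.2⟩
      obtain ⟨a, ha, b, hb', e'⟩ := (h (y⁻¹ * x * y)).mp ⟨mem_cj.mp (e ▸ hxR), mem_cj.mp (by
        rw [cj_commutator, cj_eq_of_mem hy]; exact hx.2)⟩
      have ha' := conj_mem_cj y ha
      have hb'' := conj_mem_cj y hb'
      rw [cj_inf, cj_commutator, cj_inf, cj_normalizer y (W Q), ← functor_cj hW h2, e] at ha'
      rw [cj_inf, cj_commutator, cj_inf, cj_centralizer y (V Q), ← functor_cj hV h2, e] at hb''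
      rw [show x = (y * a * y⁻¹) * (y * b * y⁻¹) by
        calc x = y * (y⁻¹ * x * y) * y⁻¹ := by group
          _ = _ := by rw [e']; group]
      refine mul_mem ?_ (mem_sup_right ⟨hb''.1.1, commutator_mono ?_ ?_ hb''.2⟩)
      · have h4 := commutator_mono inf_le_right inf_le_right ha'.2
        by_cases heq : (P : Subgroup G) ⊓ normalizer (U : Set G) = P
        · rw [heq] at h4
          exact mem_sup_left ⟨ha'.1.1, h4⟩
        · exact ih heq ⟨ha'.1.1, h4⟩
      all_goals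
        refine inf_le_right.trans (centralizer_le (hVmono _ _ hS.pgroup hfn.pgroup hb ?_
          (center_le_center_of_le inf_le_left (center_le_normalizer_of_le hU.1))))
        intro h0
        have hU0 : U = ⊥ := le_bot_iff.mp (h0 ▸ le_inf hU.1 le_normalizer)
        rw [hU0, normalizer_eq_top, inf_top_eq] at h0
        exact hb h0)
  have h := hS.inf_commutator_le_of_focGood (alperin_wp_center hW hS (FocGood (F₁ ⊔ F₂))
    (fun _ _ _ => FocGood.mono) (fun _ _ _ => FocGood.mul) (fun _ _ => FocGood.inv)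
    (fun _ _ _ _ => FocGood.of_mem_centralizer) fun U hU hZ g _ hg =>
      FocGood.of_local (key U hU hZ) (le_inf hU.1 le_normalizer) hg
        (by rw [cj_eq_of_mem_normalizer hg]; exact hU.1)) hx
  obtain ⟨a, ha, b, hb, rfl⟩ := (mem_sup_of_le_normalizer (fun s hs => by
    rw [mem_normalizer_iff_cj, cj_inf, cj_commutator, cj_centralizer, cj_eq_of_mem hs.1,
      cj_eq_of_mem_normalizer (le_normalizer_functor hV hS.pgroup hs.1)])).mp h
  exact ⟨a, ha, b, hb, rfl⟩

end Cfsg.Agent.S2001
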