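import Cfsg.Statements.S2002
import Cfsg.Agent.H1.WeakClosure

set_option autoImplicit false
open Cfsg

namespace Cfsg.Agent.S2002

open CfsgH1 Subgroup
open scoped commutatorElement

/-- Let p be a prime dividing the order of the finite group G, P a Sylow p-subgroup, W a conjugacy functor for p on G with Z(H) ≤ W(H) for every nontrivial p-subgroup H, and V a central functor (a conjugacy functor with V(H) ≤ Z(H), and V(H) ≤ V(K) whenever Z(H) ≤ Z(K)). Say that W with V controls strong fusion in a subgroup L when some Sylow p-subgroup Q of L has the property: whenever X ⊆ Q and a ∈ L with a⁻¹Xa ⊆ Q, then a = c b with c ∈ C_L(X) and b = b₁ ⋯ bₙ a product of elements each in N_L(W(Q)) or in C_L(V(Q)) such that every partial conjugate (b₁ ⋯ bₖ)⁻¹ X (b₁ ⋯ bₖ) lies in Q. If W with V controls strong fusion in N_G(H) for every subgroup H with Z(P) ≤ H ≤ P, then W with V controls strong fusion in G. -/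
theorem result {G : Type*} [Group G] [Finite G] {p : ℕ} [Fact p.Prime] (hdiv : p ∣ Nat.card G) (P : Sylow p G) (W V : Subgroup G → Subgroup G) (hW : Cfsg.IsConjugacyFunctor p W) (hV : Cfsg.IsConjugacyFunctor p V) (hWZ : ∀ H : Subgroup G, IsPGroup p ↥H → H ⊓ Subgroup.centralizer ((H : Subgroup G) : Set G) ≤ W H) (hVZ : ∀ H : Subgroup G, IsPGroup p ↥H → V H ≤ H ⊓ Subgroup.centralizer ((H : Subgroup G) : Set G)) (hVmono : ∀ H K : Subgroup G, IsPGroup p ↥H → IsPGroup p ↥K → H ≠ ⊥ → K ≠ ⊥ → H ⊓ Subgroup.centralizer ((H : Subgroup G) : Set G) ≤ K ⊓ Subgroup.centralizer ((K : Subgroup G) : Set G) → V H ≤ V K) (hloc : ∀ H : Subgroup G, (P : Subgroup G) ⊓ Subgroup.centralizer (((P : Subgroup G) : Subgroup G) : Set G) ≤ H → H ≤ (P : Subgroup G) → ∃ Q : Subgroup G, Q ≤ Subgroup.normalizer ((H : Subgroup G) : Set G) ∧ IsPGroup p ↥Q ∧ ¬ p ∣ (Q).relIndex (Subgroup.normalizer ((H : Subgroup G) : Set G)) ∧ ∀ (X : Set G) (a : G), X ⊆ Q → a ∈ Subgroup.normalizer ((H : Subgroup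 G) : Set G) → (fun x => a⁻¹ * x * a) '' X ⊆ Q → ∃ c ∈ Subgroup.normalizer ((H : Subgroup G) : Set G) ⊓ Subgroup.centralizer X, ∃ (n : ℕ) (b : Fin n → G), (∀ i, b i ∈ Subgroup.normalizer ((H : Subgroup G) : Set G) ⊓ Subgroup.normalizer ((W Q : Subgroup G) : Set G) ∨ b i ∈ Subgroup.normalizer ((H : Subgroup G) : Set G) ⊓ Subgroup.centralizer ((V Q : Subgroup G) : Set G)) ∧ a = c * (List.ofFn b).prod ∧ ∀ k : ℕ, k ≤ n → (fun x => (((List.ofFn b).take k).prod)⁻¹ * x * ((List.ofFn b).take k).prod) '' ((fun x => c⁻¹ * x * c) '' X) ⊆ Q) : ∃ Q : Subgroup G, IsPGroup p ↥Q ∧ ¬ p ∣ Q.index ∧ ∀ (X : Set G) (a : G), X ⊆ Q → (fun x => a⁻¹ * x * a) '' X ⊆ Q → ∃ c ∈ Subgroup.centralizer X, ∃ (n : ℕ) (b : Fin n → G), (∀ i, b i ∈ ⊤ ⊓ Subgroup.normalizer ((W Q : Subgroup G) : Set G) ∨ b i ∈ ⊤ ⊓ Subgroup.centralizer ((V Q : Subgroup G) : Set G)) ∧ a = c * (List.ofFn b).prod ∧ ∀ k : ℕ, k ≤ n → (fun x => (((List.ofFn b).take k).prod)⁻¹ * x * ((List.ofFn b).take k).prod) '' ((fun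 x => c⁻¹ * x * c) '' X) ⊆ Q := by
  have hS : IsSylowIn p (P : Subgroup G) ⊤ := isSylowIn_top P
  have hb : (P : Subgroup G) ≠ ⊥ := fun h => hS.eq_bot_iff.mp h (by rwa [card_top])
  let R : Subgroup G → Unit → G → Prop := fun Q _ y =>
    y ∈ normalizer (W Q : Set G) ∨ y ∈ centralizer (V Q : Set G)
  have hinv : ∀ Q i y, R Q i y → R Q i y⁻¹ := fun Q i y h => h.imp inv_mem inv_mem
  let Good : Subgroup G → G → Prop := CChain (R P) fun _ => P
  have key := wp_induction_center hW hWZ hS (fun U => ∀ (A : Subgroup G) (g : G),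
    A ≤ (P : Subgroup G) ⊓ normalizer (U : Set G) → g ∈ normalizer (U : Set G) →
    cj g A ≤ (P : Subgroup G) ⊓ normalizer (U : Set G) → Good A g) (by
      intro U hU hZ ih A g hA hg hAg
      obtain ⟨Q, h1, h2, h3, h⟩ := hloc U hZ hU.1
      have hfn := hU.fn
      rw [FN, top_inf_eq] at hfn
      obtain ⟨y, hy, e⟩ := (⟨h1, h2, h3⟩ : IsSylowIn p Q _).exists_cj_eq hfn
      rw [← e] at hA hAg
      obtain ⟨c, hc, n, b, hb', e', hk⟩ := h (cj y⁻¹ A) (y⁻¹ * g * y)⁻¹ (le_cj_iff_cj_inv_le.mp hA)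
        (inv_mem (mul_mem (mul_mem (inv_mem hy) hg) hy)) (by
          rw [inv_inv]
          change cj (y⁻¹ * g * y) (cj y⁻¹ A) ≤ Q
          rw [cj_cj, mul_inv_cancel_right, ← cj_cj]
          exact le_cj_iff_cj_inv_le.mp hAg)
      have h4 : CChain (R Q) (fun _ => Q) (cj y⁻¹ A) (y⁻¹ * g * y) := by
        refine ⟨_, Chain.of_list (List.ofFn b) (fun z hz => ?_) (fun k hk' => ?_), fun a ha => ?_⟩
        · obtain ⟨i, rfl⟩ := List.mem_ofFn.mp hz
          exact ⟨(), hinv Q () _ ((hb' i).imp (fun h => h.2) fun h => h.2)⟩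
        · rintro _ ⟨a, ha, rfl⟩
          refine hk k (by simpa using hk') ⟨_, ⟨a, ha, rfl⟩, ?_⟩
          have := conj_eq_of_mem_centralizer (inv_mem hc.2) ha
          rw [inv_inv] at this
          simp [this]
        · rw [← inv_inv (y⁻¹ * g * y), e']
          conv_lhs => rw [← conj_eq_of_mem_centralizer (inv_mem hc.2) ha]
          group
      have h5 := h4.map (R' := R (cj y Q)) (D' := fun _ => cj y Q) (MulAut.conj y).toMonoidHom
        (fun i x hx => ⟨(), by
          refine hx.imp (fun h => ?_) fun h => ?_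
          · rw [functor_cj hW h2, ← cj_normalizer]; exact conj_mem_cj y h
          · rw [functor_cj hV h2, ← cj_centralizer]; exact conj_mem_cj y h, le_rfl⟩)
      change CChain _ _ (cj y (cj y⁻¹ A)) (y * (y⁻¹ * g * y) * y⁻¹) at h5
      rw [cj_cj_inv, e, show y * (y⁻¹ * g * y) * y⁻¹ = g by group] at h5
      refine CChain.good (Good := Good) (fun _ _ _ => CChain.congr)
        (fun A => CChain.of_chain (Chain.nil A)) (fun _ _ _ => CChain.mul) ?_ h5
      rintro i x B (hx | hx) hB hBx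
      · by_cases heq : (P : Subgroup G) ⊓ normalizer (U : Set G) = P
        · rw [heq] at hx hB hBx
          exact CChain.of_chain (Chain.single (i := ()) (Or.inl hx) hB hBx)
        · have hle := le_inf inf_le_left (le_normalizer_functor hW hfn.pgroup)
          exact ih heq B x (hB.trans hle) hx (hBx.trans hle)
      · refine CChain.of_chain (Chain.single (i := ()) (Or.inr ?_) (hB.trans inf_le_left)
          (hBx.trans inf_le_left))
        refine centralizer_le (hVmono _ _ hS.pgroup hfn.pgroup hb ?_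
          (center_le_center_of_le inf_le_left (center_le_normalizer_of_le hU.1))) hx
        intro h0
        have hU0 : U = ⊥ := le_bot_iff.mp (h0 ▸ le_inf hU.1 le_normalizer)
        rw [hU0, normalizer_eq_top, inf_top_eq] at h0
        exact hb h0)
  refine ⟨P, hS.pgroup, (isSylowIn_top_iff.mp hS).2, fun X a hX hXa => ?_⟩
  obtain ⟨c, hc, e⟩ := alperin_wp_center hW hS Good (fun _ _ _ => CChain.mono)
    (fun _ _ _ => CChain.mul) (fun _ _ => CChain.inv (hinv P))
    (fun _ _ _ _ => CChain.of_mem_centralizer)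
    (fun U hU hZ g _ hg => key U hU hZ U g (le_inf hU.1 le_normalizer) hg
      (by rw [cj_eq_of_mem_normalizer hg]; exact le_inf hU.1 le_normalizer))
    (closure X) a⁻¹ (closure_le_of_subset hX) (mem_top _) (cj_closure_le (by simpa using hXa))
  obtain ⟨n, T, x, h1, h2, -, h4⟩ := hc.exists_fin
  have hcA : a * c ∈ centralizer X := mem_centralizer_of_conj_eq fun z hz => by
    calc a * c * z * (a * c)⁻¹ = a * (c * z * c⁻¹) * a⁻¹ := by group
      _ = z := by rw [e z (subset_closure hz)]; group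
  refine ⟨a * c, hcA, n, x, fun i => ?_, by rw [h1]; group, fun k hk => ?_⟩
  · simpa [R] using h2 i
  · rintro _ ⟨_, ⟨z, hz, rfl⟩, rfl⟩
    have := conj_eq_of_mem_centralizer (inv_mem hcA) hz
    rw [inv_inv] at this
    simp only [this]
    cases k with
    | zero => simpa using hX hz
    | succ k =>
      have := h4 ⟨k, hk⟩ (conj_mem_cj _ (subset_closure hz))
      rwa [inv_inv] at this

end Cfsg.Agent.S2002
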