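import Cfsg.Statements.S2015
import Cfsg.Agent.H3.Sect2

set_option autoImplicit false
universe u
open Cfsg

namespace Cfsg.Agent.S2015

/-- For p ≥ 5, every finite p-group P has a characteristic subgroup K containing Z(P), depending only on P, whose normalizer controls transfer wherever P is a Sylow subgroup: for every finite group G and every embedding ι of P onto a Sylow p-subgroup of G, the intersection of ι(P) with the derived subgroup of G equals its intersection with the derived subgroup of N_G(ι(K)). -/
theorem result (p : ℕ) [Fact p.Prime] (hp : 5 ≤ p) (P : Type u) [Group P] [Finite P] (hP : IsPGroup p P) : ∃ K : Subgroup P, K.Characteristic ∧ Subgroup.center P ≤ K ∧ ∀ (G : Type u) [Group G] [Finite G] (ι : P →* G), Function.Injective ι → (∃ T : Sylow p G, (T : Subgroup G) = ι.range) → ι.range ⊓ commutator G = ι.range ⊓ (commutator ↥(Subgroup.normalizer ((K.map ι : Subgroup G) : Set G))).map (Subgroup.normalizer ((K.map ι : Subgroup G) : Set G)).subtype := by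
  refine ⟨Cfsg.kInfLower P, ?_, ?_, fun G _ _ ι hι hT => ?_⟩
  · rw [Subgroup.characteristic_iff_map_eq]
    exact fun φ => CfsgH3.isCharPFunctor_kInfLower.2 P P hP φ
  · rw [← CfsgH3.kLow_top]
    refine le_trans ?_ (CfsgH3.Zc_le_kLow ⊤)
    exact le_inf le_top (by rw [Subgroup.coe_top, Subgroup.centralizer_univ])
  · obtain ⟨T, hT⟩ := hT
    have h := CfsgH1.transfer_of_controls
      (CfsgH3.isConjugacyFunctor_induced CfsgH3.isCharPFunctor_kInfLower) (CfsgH1.isSylowIn_top T)
      (CfsgH3.kinf_transfer (G := G) hp (Or.inl rfl))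
    rw [CfsgH3.induced_kInfLower, top_inf_eq, hT, MonoidHom.range_eq_map, ← CfsgH3.map_kLow hι,
      CfsgH3.kLow_top, ← MonoidHom.range_eq_map] at h
    rw [Subgroup.map_subtype_commutator]
    exact le_antisymm (le_inf inf_le_left h)
      (inf_le_inf_left _ (Subgroup.commutator_mono le_top le_top))

end Cfsg.Agent.S2015
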