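import Cfsg.Statements.S2553
import Cfsg.Agent.H5.A8f

set_option autoImplicit false
open Cfsg

namespace Cfsg.Agent.S2553

open CfsgH5 MulAction



/-- Let H be a nontrivial subgroup of GL(4,2) (a group isomorphic to the alternating group of degree 8) whose largest normal 2-subgroup and largest normal subgroup of odd order are both trivial. Then H is isomorphic to an alternating group of degree n for some 5 ≤ n ≤ 8, to the symmetric group of degree 5 or 6, or to GL(3,2). -/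
theorem result (H : Subgroup (GL (Fin 4) (ZMod 2))) (hH : H ≠ ⊥) (hO : Cfsg.pPrimeCore 2 ↥H = ⊥) (hO2 : Cfsg.pCore 2 ↥H = ⊥) :
    (∃ n : ℕ, 5 ≤ n ∧ n ≤ 8 ∧ Nonempty (↥H ≃* alternatingGroup (Fin n))) ∨
    Nonempty (↥H ≃* Equiv.Perm (Fin 5)) ∨ Nonempty (↥H ≃* Equiv.Perm (Fin 6)) ∨ Nonempty (↥H ≃* GL (Fin 3) (ZMod 2)) := by
  obtain ⟨f, hf, hr, -⟩ := exists_L42
  have e := H.equivMapOfInjective f hf
  have hN : NoN H := by
    intro N hN h2
    rcases h2 with h2 | h2
    · exact le_bot_iff.1 (hO2 ▸ le_sSup ⟨hN, h2⟩)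
    · exact le_bot_iff.1 (hO ▸ le_sSup ⟨hN, h2⟩)
  have hG : GoodA8 (H.map f) := ⟨hr ▸ Subgroup.map_le_range f H, hN.of_equiv e⟩
  exact (hG.concl fun h => hH ((Subgroup.map_eq_bot_iff_of_injective H hf).1 h)).of_equiv e

end Cfsg.Agent.S2553
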