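import Cfsg.Statements.S2556
import Cfsg.Agent.H2.Suz3
import Cfsg.Agent.H2.Card

set_option autoImplicit false
open Cfsg

namespace Cfsg.Agent.S2556
open Subgroup CfsgH2 CfsgL0
open scoped commutatorElement



/-- Let S be a Sylow 2-subgroup of the Suzuki group Sz(q), q = 2ⁿ with n = 2m + 1 ≥ 3 (realised as 4 × 4 matrices over the field with q elements). Then the largest normal 2-subgroup of the automorphism group of S is elementary abelian of order 2^(n²), and the automorphism group of S has order 2^(n²) · n · (q − 1). -/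
theorem result {S : Type*} [Group S] [Finite S] (m : ℕ) (hm : 1 ≤ m)
    {F : Type*} [Field F] [Fintype F] (hF : Fintype.card F = 2 ^ (2 * m + 1))
    (P : Sylow 2 ↥(Cfsg.Lie.Sz F (2 ^ (m + 1)))) (hS : Nonempty (S ≃* ↥(P : Subgroup ↥(Cfsg.Lie.Sz F (2 ^ (m + 1)))))) :
    Cfsg.IsElementaryAbelian 2 (Cfsg.pCore 2 (MulAut S)) ∧ Nat.card ↥(Cfsg.pCore 2 (MulAut S)) = 2 ^ ((2 * m + 1) ^ 2) ∧
      Nat.card (MulAut S) = 2 ^ ((2 * m + 1) ^ 2) * ((2 * m + 1) * (2 ^ (2 * m + 1) - 1)) := by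
  classical
  obtain ⟨e⟩ := hS
  have hchar : CharP F 2 := by
    obtain ⟨p, hp⟩ := CharP.exists F
    obtain ⟨n, hpp, hn⟩ := FiniteField.card F p
    have : p ∣ 2 ^ (2 * m + 1) := by rw [← hF, hn]; exact dvd_pow_self _ n.pos.ne'
    have h2 : p = 2 := (Nat.prime_dvd_prime_iff_eq hpp Nat.prime_two).1 (hpp.dvd_of_dvd_pow this)
    exact h2 ▸ hp
  letI : Algebra (ZMod 2) F := ZMod.algebra F 2
  let τ : F ≃ₐ[ZMod 2] F := FiniteField.frobeniusAlgEquivOfAlgebraic (ZMod 2) F ^ (m + 1)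
  have hτe : ∀ x, τ x = x ^ 2 ^ (m + 1) := by
    intro x
    simp only [τ, AlgEquiv.coe_pow, FiniteField.coe_frobeniusAlgEquivOfAlgebraic_iterate,
      ZMod.card]
  have hτ : ∀ x, τ (τ x) = x ^ 2 := by
    intro x
    rw [hτe, hτe, ← pow_mul, ← pow_add, show m + 1 + (m + 1) = (2 * m + 1) + 1 by ring, pow_succ,
      pow_mul, ← hF, FiniteField.pow_card]
  have hτc : ∀ σ : F ≃ₐ[ZMod 2] F, σ * τ = τ * σ := fun σ => AlgEquiv.ext fun x => by
    simp only [AlgEquiv.mul_apply, hτe, map_pow]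
  have hn : Module.finrank (ZMod 2) F = 2 * m + 1 := by
    have := Module.card_eq_pow_finrank (K := ZMod 2) (V := F)
    rw [hF, ZMod.card] at this
    exact (Nat.pow_right_injective le_rfl this).symm
  have h4 : ∃ x : F, x ^ 4 ≠ x := by
    by_contra! h
    have h1 : (Polynomial.X ^ 4 - Polynomial.X : Polynomial F) = 0 := by
      refine Polynomial.eq_zero_of_natDegree_lt_card_of_eval_eq_zero _ Function.injective_id
        (fun x => by simp [h x]) ?_
      rw [FiniteField.X_pow_card_sub_X_natDegree_eq F (by norm_num), hF]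
      calc 4 < 2 ^ 3 := by norm_num
        _ ≤ 2 ^ (2 * m + 1) := Nat.pow_le_pow_right (by norm_num) (by omega)
    exact FiniteField.X_pow_card_sub_X_ne_zero F (by norm_num) h1
  have hSz := Suz.Sz_eq (τ : F →+* F) _ hτe
  revert P
  rw [hSz]
  intro P e
  obtain ⟨e2⟩ := Suz.sylow_equiv (τ : F →+* F) hτ (2 * m + 1)
    (by rw [Nat.card_eq_fintype_card, hF]) (by omega) P
  obtain ⟨h1, h2, h3⟩ := Suz.aut_main hτc hτ h4 _ hn (odd_two_mul_add_one m)
  let E := MulAut.congr (e.trans e2).symm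
  have hm := map_pCore_equiv (p := 2) E
  refine ⟨?_, ?_, ?_⟩
  · rw [← hm]
    refine ⟨?_, ?_⟩
    · haveI := h1.1
      infer_instance
    · rintro _ ⟨a, ha, rfl⟩
      rw [← map_pow, h1.2 a ha, map_one]
  · rw [← hm, ← h2]
    exact card_map_of_injective E.injective
  · rw [← h3]
    exact Nat.card_congr E.symm.toEquiv

end Cfsg.Agent.S2556
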