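import Cfsg.Statements.S4417
import Cfsg.Agent.H2.Sect

set_option autoImplicit false
open Cfsg

namespace Cfsg.Agent.S4417
open Subgroup CfsgH2 CfsgL0
open scoped commutatorElement

universe u

theorem triv_of_irred {F : Type*} [Field F] {p : ℕ} (hp : (p : F) ≠ 0) {P : Type*} [Group P]
    (hP : IsPGroup p P) (g : P) (n : ℕ)
    (h : ∀ (V : Type u) [AddCommGroup V] [Module F V] [FiniteDimensional F V] [Nontrivial V]
      (ρ : Representation F P V), Module.finrank F V ≤ n →
      (∀ W : Submodule F V, (∀ g, W ≤ W.comap (ρ g)) → W = ⊥ ∨ W = ⊤) → ρ g = 1) (m : ℕ) :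
    ∀ (V : Type u) [AddCommGroup V] [Module F V] [FiniteDimensional F V]
      (ρ : Representation F P V), Module.finrank F V = m → m ≤ n → ρ g = 1 := by
  induction m using Nat.strong_induction_on with
  | _ m ih =>
  intro V _ _ _ ρ hm hn
  rcases subsingleton_or_nontrivial V with hs | hs
  · exact Subsingleton.elim _ _
  by_cases hirr : ∀ W : Submodule F V, (∀ g, W ≤ W.comap (ρ g)) → W = ⊥ ∨ W = ⊤
  · exact h V ρ (hm ▸ hn) hirr
  push Not at hirr
  obtain ⟨W, hW, h1, h2⟩ := hirr
  have a1 := Submodule.finrank_lt h2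
  have a2 := W.finrank_quotient_add_finrank
  have a3 : 0 < Module.finrank F W := Nat.pos_of_ne_zero (by simpa using h1)
  have b1 := ih _ (hm ▸ a1) W (ρ.subrepresentation W hW) rfl (by omega)
  have b2 := ih (Module.finrank F (V ⧸ W)) (by omega) (V ⧸ W) (ρ.quotient W hW) rfl (by omega)
  have c1 : ∀ w ∈ W, ρ g w = w := fun w hw =>
    congrArg Subtype.val (LinearMap.congr_fun b1 ⟨w, hw⟩)
  have c2 : ∀ v, ρ g v - v ∈ W := fun v =>
    (Submodule.Quotient.eq W).mp (LinearMap.congr_fun b2 (Submodule.Quotient.mk v))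
  have c3 : ∀ (k : ℕ) v, ρ (g ^ k) v = v + (k : F) • (ρ g v - v) := fun k v => by
    induction k with
    | zero => simp
    | succ k ihk =>
      rw [pow_succ', map_mul, Module.End.mul_apply, ihk, map_add, map_smul, c1 _ (c2 v)]
      push_cast
      rw [add_smul, one_smul]; abel
  obtain ⟨k, hk⟩ := hP g
  ext v
  have := c3 (p ^ k) v
  rw [hk, map_one, Module.End.one_apply, left_eq_add, smul_eq_zero] at this
  exact sub_eq_zero.mp (this.resolve_left (by push_cast; exact pow_ne_zero k hp))

theorem derived_le {P : Type*} [Group P] (n : ℕ) :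
    derivedSeries P (n + 1) ≤ (derivedSeries (commutator P) n).map (commutator P).subtype := by
  induction n with
  | zero => intro x hx; exact ⟨⟨x, hx⟩, mem_top _, rfl⟩
  | succ n ih =>
    rw [derivedSeries_succ, derivedSeries_succ (commutator P), Subgroup.map_commutator]
    exact commutator_mono ih ih

theorem closed {K : Type*} [Field K] [IsAlgClosed K] {p : ℕ} [Fact p.Prime] (hp : (p : K) ≠ 0)
    (k : ℕ) : ∀ {P : Type*} [Group P] [Finite P], IsPGroup p P → ∀ g ∈ derivedSeries P (k + 1),
    ∀ (V : Type u) [AddCommGroup V] [Module K V] [FiniteDimensional K V]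
      (ρ : Representation K P V), Module.finrank K V < 2 ^ (k + 1) → ρ g = 1 := by
  induction k using Nat.strong_induction_on with
  | _ k ih =>
  intro P _ _ hP g hg V₀ _ _ _ ρ₀ hV₀
  refine triv_of_irred hp hP g (2 ^ (k + 1) - 1) ?_ _ V₀ ρ₀ rfl (by omega)
  intro V _ _ _ _ ρ hV hirr
  let u := ρ.toHomUnits
  have hu : ∀ x, u x = 1 ↔ ρ x = 1 := fun x => Units.ext_iff
  let Z := (center (P ⧸ u.ker)).comap (QuotientGroup.mk' u.ker)
  have hZ : ∀ x, x ∈ Z ↔ ∀ y, ⁅x, y⁆ ∈ u.ker := fun x => mk_mem_center_iff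
  by_cases hZt : ⊤ ≤ Z
  · rw [← hu]
    have : commutator P ≤ u.ker := by
      rw [commutator_def, commutator_le]
      exact fun x _ y _ => (hZ x).mp (hZt (mem_top x)) y
    exact this (derivedSeries_antitone P (Nat.le_add_left 1 k) hg)
  obtain ⟨a, -, haZ, -, ha⟩ := exists_central_mod' hP hZt
  have hcomm : ∀ x y, ⁅x, y⁆ ∈ u.ker → Commute (ρ x) (ρ y) := fun x y h => by
    rw [MonoidHom.mem_ker, map_commutatorElement, comm_eq_one_iff] at h
    exact congrArg Units.val h
  have hsc : ∀ c ∈ Z, ∃ ζ : K, ∀ v, ρ c v = ζ • v := fun c hc => by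
    obtain ⟨ζ, hζ⟩ := Module.End.exists_eigenvalue (ρ c)
    refine ⟨ζ, fun v => Module.End.mem_eigenspace_iff.mp ?_⟩
    rw [(hirr (Module.End.eigenspace (ρ c) ζ) fun y =>
      Module.End.mapsTo_genEigenspace_of_comm (hcomm c y ((hZ c).mp hc y)) ζ 1).resolve_left hζ]
    exact Submodule.mem_top
  choose ζ hζ using fun y => hsc _ (ha y)
  have hmap : ∀ y μ, ∀ v ∈ Module.End.eigenspace (ρ a) μ,
      ρ y v ∈ Module.End.eigenspace (ρ a) (ζ y * μ) := fun y μ v hv => by
    rw [Module.End.mem_eigenspace_iff] at hv ⊢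
    rw [← Module.End.mul_apply, ← map_mul, mul_eq_comm_mul a y, map_mul, map_mul,
      Module.End.mul_apply, Module.End.mul_apply, hv, hζ, map_smul, smul_smul]
  have htop : ⨆ μ, Module.End.eigenspace (ρ a) μ = ⊤ := by
    refine (hirr _ fun y => iSup_le fun μ v hv =>
      Submodule.mem_iSup_of_mem _ (hmap y μ v hv)).resolve_left fun h => ?_
    obtain ⟨μ, hμ⟩ := Module.End.exists_eigenvalue (ρ a)
    exact hμ (eq_bot_iff.mpr (h ▸ le_iSup (fun μ => Module.End.eigenspace (ρ a) μ) μ))
  obtain ⟨y₀, hy₀⟩ : ∃ y, ζ y ≠ 1 := by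
    by_contra h
    push Not at h
    refine haZ ((hZ a).mpr fun y => (hu _).mpr ?_)
    ext v
    rw [hζ, h, one_smul, Module.End.one_apply]
  have hinj : ∀ y, Function.Injective (ρ y) := fun y =>
    Function.LeftInverse.injective (ρ.inv_self_apply y)
  have hdim : ∀ μ, 2 * Module.finrank K (Module.End.eigenspace (ρ a) μ) ≤ Module.finrank K V := by
    intro μ
    by_cases h0 : μ = 0
    · rw [h0, Module.End.eigenspace_zero, LinearMap.ker_eq_bot.mpr (hinj a)]; simp
    have h1 := Submodule.finrank_sup_add_finrank_inf_eq (Module.End.eigenspace (ρ a) μ)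
      (Module.End.eigenspace (ρ a) (ζ y₀ * μ))
    rw [(Module.End.disjoint_genEigenspace (ρ a) (fun e => hy₀ (by
      simpa [h0] using e.symm)) 1 1).eq_bot, finrank_bot] at h1
    have h2 := LinearMap.finrank_le_finrank_of_injective (f := (ρ y₀).restrict (hmap y₀ μ))
      fun v w e => Subtype.ext (hinj y₀ (congrArg Subtype.val e))
    have h3 := Submodule.finrank_le (Module.End.eigenspace (ρ a) μ ⊔
      Module.End.eigenspace (ρ a) (ζ y₀ * μ))
    omega
  suffices h : ∀ μ, Module.End.eigenspace (ρ a) μ ≤ LinearMap.eqLocus (ρ g) 1 by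
    ext v
    exact (iSup_le h : _ ≤ LinearMap.eqLocus (ρ g) 1) (htop ▸ Submodule.mem_top)
  intro μ
  have hd := hdim μ
  rcases k with _ | k
  · rw [Submodule.finrank_eq_zero.mp (show Module.finrank K (Module.End.eigenspace (ρ a) μ) = 0 by
      omega)]
    exact bot_le
  have hX : ⁅zpowers a, (⊤ : Subgroup P)⁆ ≤ Z := by
    rw [commutator_le]
    intro x hx y _
    exact (zpowers_le.mpr (show a ∈ centralMod 0 Z from ⟨by simp, ha⟩) hx).2 y
  have hX' : ⁅⁅zpowers a, (⊤ : Subgroup P)⁆, (⊤ : Subgroup P)⁆ ≤ u.ker := by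
    rw [commutator_le]
    exact fun x hx y _ => (hZ x).mp (hX hx) y
  have h3 := three_subgroups_normal (X := ⊤) (Y := zpowers a) (Z := ⊤)
    (by rw [commutator_comm ⊤ (zpowers a)]; exact hX') hX'
  obtain ⟨g, hg', rfl⟩ := derived_le _ hg
  have h4 := ih k (by omega) (hP.to_subgroup _) g hg' _ (Representation.subrepresentation
    (ρ.comp (commutator P).subtype) (Module.End.eigenspace (ρ a) μ) fun y =>
      Module.End.mapsTo_genEigenspace_of_comm (hcomm _ _
        (h3 (commutator_mem_commutator y.2 (mem_zpowers a)))).symm μ 1)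
    (by rw [pow_succ 2 (k + 1)] at hV; have := Nat.two_pow_pos (k + 1); omega)
  exact fun v hv => congrArg Subtype.val (LinearMap.congr_fun h4 ⟨v, hv⟩)

theorem anyfield {E : Type u} [Field E] {p : ℕ} [Fact p.Prime] (hp : (p : E) ≠ 0)
    (k : ℕ) {P : Type*} [Group P] [Finite P] (hP : IsPGroup p P) {g : P}
    (hg : g ∈ derivedSeries P (k + 1)) (V : Type u) [AddCommGroup V] [Module E V]
    [FiniteDimensional E V] (ρ : Representation E P V) (hV : Module.finrank E V < 2 ^ (k + 1)) :
    ρ g = 1 := by
  have := closed (K := AlgebraicClosure E) (by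
    rw [← map_natCast (algebraMap E (AlgebraicClosure E))]
    exact (map_ne_zero _).mpr hp) k hP g hg _
    ((Module.End.baseChangeHom E (AlgebraicClosure E) V).toMonoidHom.comp ρ)
    (by rwa [Module.finrank_baseChange])
  apply LinearMap.baseChangeHom_injective E V (AlgebraicClosure E)
  exact this.trans (map_one (Module.End.baseChangeHom E (AlgebraicClosure E) V)).symm

/-- Let F be a field with q elements, p a prime not dividing q, and e the multiplicative order of q modulo p; assume e ≤ n. Then every p-subgroup of GL_n(F) has derived length at most ⌊log₂(n/e)⌋ + 1: that term of its derived series is trivial (n/e is the integer quotient). -/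
theorem result {F : Type*} [Field F] [Fintype F] (q : ℕ) (hF : Fintype.card F = q) (p : ℕ) [Fact p.Prime] (hpq : ¬ p ∣ q) (n e : ℕ) (he : e = orderOf (q : ZMod p)) (hen : e ≤ n) (P : Subgroup (GL (Fin n) F)) (hP : IsPGroup p P) : derivedSeries ↥P (Nat.log 2 (n / e) + 1) = ⊥ := by
  have hp : p.Prime := Fact.out
  have hpF : (p : F) ≠ 0 := fun h => hpq (by
    have := ringChar.dvd h
    rcases (Nat.dvd_prime hp).mp this with h1 | h1
    · exact (CharP.ringChar_ne_one h1).elim
    · rw [← hF]; exact (prime_dvd_char_iff_dvd_card p).mp h1.symm.dvd)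
  have he0 : 0 < e := by
    rw [he, ← ZMod.coe_unitOfCoprime q (hp.coprime_iff_not_dvd.mpr hpq).symm, orderOf_units]
    exact orderOf_pos _
  rw [eq_bot_iff]
  intro g hg
  let ρ₀ : Representation F P (Fin n → F) :=
    (Matrix.toLinAlgEquiv' (R := F) (n := Fin n)).toMonoidHom.comp
      ((Units.coeHom _).comp P.subtype)
  suffices h : ρ₀ g = 1 by
    have : ((g : GL (Fin n) F) : Matrix (Fin n) (Fin n) F) = 1 :=
      (Matrix.toLinAlgEquiv' (R := F) (n := Fin n)).injective (h.trans (map_one _).symm)
    exact Subtype.ext (Units.ext this)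
  refine triv_of_irred hpF hP g n ?_ _ _ ρ₀ rfl (by simp)
  intro V _ _ _ _ ρ hV hirr
  let u := ρ.toHomUnits
  by_cases hk : ⊤ ≤ u.ker
  · exact congrArg Units.val (hk (mem_top g))
  obtain ⟨z, -, hz1, hzp, hz⟩ := exists_central_mod' hP hk
  have hcomm : ∀ y, Commute (ρ z) (ρ y) := fun y => by
    have h := hz y
    rw [MonoidHom.mem_ker, map_commutatorElement, comm_eq_one_iff] at h
    exact congrArg Units.val h
  let E := Algebra.adjoin F {ρ z}
  have hE : ∀ (c : E) (y : P), Commute (c : Module.End F V) (ρ y) := fun c y =>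
    (Algebra.commute_of_mem_adjoin_singleton_of_commute c.2 (hcomm y).symm).symm
  have : Finite V := Module.finite_of_finite F
  have : Finite (Module.End F V) := Finite.of_injective _ DFunLike.coe_injective
  let : CommRing E := { (inferInstance : Ring E) with
    mul_comm := (Algebra.isMulCommutative_adjoin_singleton F (ρ z)).is_comm.comm }
  have hinj : ∀ c : E, c ≠ 0 → Function.Injective (c : Module.End F V) := fun c hc => by
    rw [← LinearMap.ker_eq_bot]
    refine (hirr _ fun y v hv => ?_).resolve_right fun h => hc (Subtype.ext (LinearMap.ker_eq_top.mp h))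
    rw [Submodule.mem_comap, LinearMap.mem_ker, ← Module.End.mul_apply, (hE c y).eq,
      Module.End.mul_apply, LinearMap.mem_ker.mp hv, map_zero]
  have : NoZeroDivisors E := ⟨fun {a b} h => by
    by_contra hcon
    push Not at hcon
    apply hcon.2
    ext v
    apply hinj a hcon.1
    rw [← Module.End.mul_apply, ← Subalgebra.coe_mul, h]; simp⟩
  have : IsDomain E := NoZeroDivisors.to_isDomain E
  let : Field E := (Finite.isField_of_domain E).toField
  have : FiniteDimensional E V := Module.Finite.of_finite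
  let ρ' : Representation E P V :=
    { toFun := fun y =>
        { toFun := ρ y
          map_add' := map_add _
          map_smul' := fun c v => (LinearMap.congr_fun (hE c y).eq v).symm }
      map_one' := by ext v; simp
      map_mul' := fun a b => by ext v; simp }
  have hd : e ≤ Module.finrank F E := by
    let z' : E := ⟨ρ z, Algebra.self_mem_adjoin_singleton F _⟩
    have h1 : z' ^ p = 1 := Subtype.ext (by
      have : ρ (z ^ p) = 1 := congrArg Units.val hzp
      rw [map_pow] at this
      exact this)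
    have h2 : z' ≠ 1 := fun h => hz1 (Units.ext (congrArg Subtype.val h))
    have h0 : z' ≠ 0 := fun h => by rw [h, zero_pow hp.ne_zero] at h1; exact zero_ne_one h1
    have h3 := orderOf_dvd_natCard (Units.mk0 z' h0)
    rw [← orderOf_units, Units.val_mk0, orderOf_eq_prime h1 h2, Nat.card_units,
      Module.natCard_eq_pow_finrank (K := F), Nat.card_eq_fintype_card, hF] at h3
    refine Nat.le_of_dvd Module.finrank_pos (he ▸ orderOf_dvd_of_pow_eq_one ?_)
    have h4 : 1 ≤ q ^ Module.finrank F E := Nat.one_le_pow _ _ (hF ▸ Fintype.card_pos)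
    have := (ZMod.natCast_eq_zero_iff _ _).mpr h3
    push_cast [h4] at this
    exact sub_eq_zero.mp this
  have hfin : Module.finrank E V ≤ n / e := by
    rw [Nat.le_div_iff_mul_le he0]
    refine le_trans ?_ hV
    rw [← Module.finrank_mul_finrank F E V, mul_comm]
    exact Nat.mul_le_mul_right _ hd
  have := anyfield (E := E) (by
    rw [← map_natCast (algebraMap F E)]; exact (map_ne_zero _).mpr hpF) _ hP hg V ρ'
    (hfin.trans_lt (Nat.lt_pow_succ_log_self one_lt_two _))
  ext v
  exact LinearMap.congr_fun this v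

end Cfsg.Agent.S4417
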