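import Cfsg.Statements.S2648
import Cfsg.Agent.S4417
import Cfsg.Agent.H1.Sp2

set_option autoImplicit false
open Cfsg

namespace Cfsg.Agent.S2648

universe u

open Subgroup Module
open scoped commutatorElement

theorem wreath {P Γ : Type*} [Group P] [Group Γ] (hP : IsPGroup 2 P) (f g : P →* Γ) (s : Γ)
    (hc : ∀ a b, Commute (f a) (g b)) (hi : ∀ a b, f a * g b = 1 → a = 1) (hs : s * s = 1)
    (hfg : ∀ a, s * f a * s = g a) {d : ℕ} (hd : derivedSeries P d ≠ ⊥) :
    IsPGroup 2 (f.range ⊔ g.range ⊔ zpowers s : Subgroup Γ) ∧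
      derivedSeries (f.range ⊔ g.range ⊔ zpowers s : Subgroup Γ) (d + 1) ≠ ⊥ := by
  have si : s⁻¹ = s := inv_eq_of_mul_eq_one_right hs
  have hgf : ∀ a, s * g a * s = f a := fun a => by
    rw [← hfg, ← mul_assoc, ← mul_assoc, hs, one_mul, mul_assoc, hs, mul_one]
  constructor
  · refine IsPGroup.to_sup_of_normal_left' (IsPGroup.to_sup_of_normal_left'
      (hP.of_surjective _ f.rangeRestrict_surjective) (hP.of_surjective _ g.rangeRestrict_surjective)
      ?_) (fun x => ⟨1, Subtype.ext ?_⟩) (zpowers_le.2 ?_)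
    · rintro _ ⟨b, rfl⟩
      refine centralizer_le_normalizer _ ?_
      rintro _ ⟨a, rfl⟩
      exact hc a b
    · obtain ⟨_, n, rfl⟩ := x
      show (s ^ n) ^ 2 ^ 1 = 1
      rw [← zpow_natCast, ← zpow_mul, mul_comm, zpow_mul, zpow_natCast, pow_one, pow_two, hs, one_zpow]
    · have key : ∀ x ∈ f.range ⊔ g.range, s * x * s ∈ f.range ⊔ g.range := fun x hx => by
        have : f.range ⊔ g.range ≤ (f.range ⊔ g.range).comap (MulAut.conj s).toMonoidHom := by
          refine sup_le ?_ ?_ <;> rintro _ ⟨a, rfl⟩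
          · exact mem_sup_right ⟨a, by simp [si, hfg]⟩
          · exact mem_sup_left ⟨a, by simp [si, hgf]⟩
        simpa [si] using this hx
      rw [mem_normalizer_iff, si]
      refine fun x => ⟨key x, fun h => ?_⟩
      have := key _ h
      rwa [← mul_assoc, ← mul_assoc, hs, one_mul, mul_assoc, hs, mul_one] at this
  · set W := f.range ⊔ g.range ⊔ zpowers s
    have key : ∀ n, ∀ a ∈ derivedSeries P n, ∃ b, f a * g b ∈ (derivedSeries W (n + 1)).map W.subtype := by
      intro n
      induction n with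
      | zero =>
        intro a _
        refine ⟨a⁻¹, ⁅(⟨f a, mem_sup_left (mem_sup_left ⟨a, rfl⟩)⟩ : W),
          ⟨s, mem_sup_right (mem_zpowers s)⟩⁆, commutator_mem_commutator (mem_top _) (mem_top _), ?_⟩
        show f a * s * (f a)⁻¹ * s⁻¹ = _
        rw [← hfg, si, map_inv]; group
      | succ n ih =>
        intro a ha
        rw [derivedSeries_succ, Subgroup.commutator_def] at ha
        induction ha using closure_induction with
        | mem x hx =>
          obtain ⟨a, ha, a', ha', rfl⟩ := hx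
          obtain ⟨b, hb⟩ := ih a ha
          obtain ⟨b', hb'⟩ := ih a' ha'
          refine ⟨⁅b, b'⁆, ?_⟩
          have := commutator_mem_commutator hb hb'
          rw [← map_commutator, ← derivedSeries_succ] at this
          convert this using 1
          have e := map_commutatorElement (f.noncommCoprod g hc) (a, b) (a', b')
          simpa [commutatorElement_def] using e
        | one => exact ⟨1, by simp⟩
        | mul x y _ _ hx hy =>
          obtain ⟨b, hb⟩ := hx
          obtain ⟨b', hb'⟩ := hy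
          refine ⟨b * b', ?_⟩
          convert mul_mem hb hb' using 1
          simpa using map_mul (f.noncommCoprod g hc) (x, b) (y, b')
        | inv x _ hx =>
          obtain ⟨b, hb⟩ := hx
          refine ⟨b⁻¹, ?_⟩
          convert inv_mem hb using 1
          simpa using map_inv (f.noncommCoprod g hc) (x, b)
    refine fun h => hd (eq_bot_iff.2 fun a ha => ?_)
    obtain ⟨b, hb⟩ := key d a ha
    rw [h, Subgroup.map_bot, mem_bot] at hb
    exact hi a b hb

/-- a symplectic space of dimension `2m` with a `2`-group of isometries of derived length `> d` -/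
def RR (F : Type u) [Field F] (m d : ℕ) : Prop :=
  ∃ (V : Type u) (_ : AddCommGroup V) (_ : Module F V) (_ : FiniteDimensional F V)
    (B : LinearMap.BilinForm F V) (W : Subgroup (V ≃ₗ[F] V)), B.IsAlt ∧
    (∀ x, (∀ y, B x y = 0) → x = 0) ∧ finrank F V = 2 * m ∧
    (∀ g ∈ W, ∀ x y, B (g x) (g y) = B x y) ∧ IsPGroup 2 W ∧ derivedSeries W d ≠ ⊥

variable {F : Type u} [Field F]

/-- orthogonal sum -/
def osum {V V' : Type u} [AddCommGroup V] [Module F V] [AddCommGroup V'] [Module F V']
    (B : LinearMap.BilinForm F V) (B' : LinearMap.BilinForm F V') : LinearMap.BilinForm F (V × V') :=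
  B.compl₁₂ (LinearMap.fst F V V') (LinearMap.fst F V V') +
    B'.compl₁₂ (LinearMap.snd F V V') (LinearMap.snd F V V')

section
variable {V V' : Type u} [AddCommGroup V] [Module F V] [AddCommGroup V'] [Module F V']
  {B : LinearMap.BilinForm F V} {B' : LinearMap.BilinForm F V'}

theorem osum_apply (x y : V × V') : osum B B' x y = B x.1 y.1 + B' x.2 y.2 := rfl

theorem osum_alt (h : B.IsAlt) (h' : B'.IsAlt) : (osum B B').IsAlt := fun x => by
  rw [osum_apply, h, h', add_zero]

theorem osum_nd (h : ∀ x, (∀ y, B x y = 0) → x = 0) (h' : ∀ x, (∀ y, B' x y = 0) → x = 0)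
    (x : V × V') (hx : ∀ y, osum B B' x y = 0) : x = 0 :=
  Prod.ext (h _ fun y => by simpa [osum_apply] using hx (y, 0))
    (h' _ fun y => by simpa [osum_apply] using hx (0, y))

variable (V') in
/-- left embedding -/
def embL (W : Subgroup (V ≃ₗ[F] V)) : W →* ((V × V') ≃ₗ[F] (V × V')) where
  toFun g := g.1.prodCongr (LinearEquiv.refl F V')
  map_one' := LinearEquiv.ext fun _ => rfl
  map_mul' _ _ := LinearEquiv.ext fun _ => rfl

variable (V') in
/-- right embedding -/
def embR (W : Subgroup (V ≃ₗ[F] V)) : W →* ((V' × V) ≃ₗ[F] (V' × V)) where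
  toFun g := (LinearEquiv.refl F V').prodCongr g.1
  map_one' := LinearEquiv.ext fun _ => rfl
  map_mul' _ _ := LinearEquiv.ext fun _ => rfl

/-- isometries -/
def isoG (B : LinearMap.BilinForm F V) : Subgroup (V ≃ₗ[F] V) where
  carrier := {g | ∀ x y, B (g x) (g y) = B x y}
  one_mem' _ _ := rfl
  mul_mem' ha hb x y := (ha _ _).trans (hb x y)
  inv_mem' {g} ha x y := by rw [← ha]; simp

end

theorem RR.dbl {m d : ℕ} (h : RR F m d) : RR F (2 * m) (d + 1) := by
  obtain ⟨V, _, _, _, B, W, h1, h2, h3, h4, h5, h6⟩ := h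
  obtain ⟨k1, k2⟩ := wreath h5 (embL V W) (embR V W) (LinearEquiv.prodComm F V V)
    (fun a b => LinearEquiv.ext fun _ => rfl)
    (fun a b h => Subtype.ext (LinearEquiv.ext fun x =>
      congrArg Prod.fst (LinearEquiv.congr_fun h (x, 0))))
    (LinearEquiv.ext fun _ => rfl) (fun a => LinearEquiv.ext fun _ => rfl) h6
  refine ⟨V × V, inferInstance, inferInstance, inferInstance, osum B B, _, osum_alt h1 h1,
    osum_nd h2 h2, by rw [finrank_prod, h3]; ring, ?_, k1, k2⟩
  refine (sup_le (sup_le ?_ ?_) (zpowers_le.2 ?_) : _ ≤ isoG (osum B B))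
  · rintro _ ⟨g, rfl⟩ x y
    exact congrArg (· + B x.2 y.2) (h4 g g.2 x.1 y.1)
  · rintro _ ⟨g, rfl⟩ x y
    exact congrArg (B x.1 y.1 + ·) (h4 g g.2 x.2 y.2)
  · exact fun x y => add_comm _ _

/-- the plane -/
def pl (F : Type u) [Field F] : LinearMap.BilinForm F (F × F) :=
  LinearMap.mk₂ F (fun x y => x.1 * y.2 - x.2 * y.1) (fun _ _ _ => by simp; ring)
    (fun _ _ _ => by simp; ring) (fun _ _ _ => by simp; ring) (fun _ _ _ => by simp; ring)

theorem pl_alt : (pl F).IsAlt := fun x => by simp [pl, mul_comm]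

theorem pl_nd (x : F × F) (h : ∀ y, pl F x y = 0) : x = 0 :=
  Prod.ext (by simpa [pl] using h (0, 1)) (by simpa [pl] using h (1, 0))

theorem RR.succ {m d : ℕ} (h : RR F m d) : RR F (m + 1) d := by
  obtain ⟨V, _, _, _, B, W, h1, h2, h3, h4, h5, h6⟩ := h
  have hi : Function.Injective (embL (F × F) W) := (injective_iff_map_eq_one _).2 fun a h =>
    Subtype.ext (LinearEquiv.ext fun x => congrArg Prod.fst (LinearEquiv.congr_fun h (x, 0)))
  refine ⟨V × (F × F), inferInstance, inferInstance, inferInstance, osum B (pl F),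
    (embL (F × F) W).range, osum_alt h1 pl_alt, osum_nd h2 pl_nd,
    by rw [finrank_prod, h3, finrank_prod, finrank_self]; ring, ?_,
    h5.of_surjective _ (embL _ W).rangeRestrict_surjective, fun h => h6 ?_⟩
  · rintro _ ⟨g, rfl⟩ x y
    exact congrArg (· + pl F x.2 y.2) (h4 g g.2 x.1 y.1)
  · have := map_derivedSeries_le_derivedSeries (embL (F × F) W).rangeRestrict d
    rwa [h, le_bot_iff, map_eq_bot_iff_of_injective _ (MonoidHom.rangeRestrict_injective_iff.2 hi)]
      at this

theorem rr_one (h2 : (2 : F) ≠ 0) {a b : F} (hab : a ^ 2 + b ^ 2 = -1) : RR F 1 1 := by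
  let i : (F × F) ≃ₗ[F] (F × F) :=
    { toFun := fun x => (-x.2, x.1)
      invFun := fun x => (x.2, -x.1)
      map_add' := fun _ _ => by ext <;> simp [add_comm]
      map_smul' := fun _ _ => by ext <;> simp
      left_inv := fun _ => by simp
      right_inv := fun _ => by simp }
  let j : (F × F) ≃ₗ[F] (F × F) :=
    { toFun := fun x => (a * x.1 + b * x.2, b * x.1 - a * x.2)
      invFun := fun x => (-(a * x.1 + b * x.2), -(b * x.1 - a * x.2))
      map_add' := fun _ _ => by ext <;> simp <;> ring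
      map_smul' := fun _ _ => by ext <;> simp <;> ring
      left_inv := fun x => by
        ext <;> dsimp only
        exacts [by linear_combination (-x.1) * hab, by linear_combination (-x.2) * hab]
      right_inv := fun x => by
        ext <;> dsimp only
        exacts [by linear_combination (-x.1) * hab, by linear_combination (-x.2) * hab] }
  have hi : ∀ x, i x = (-x.2, x.1) := fun _ => rfl
  have hj : ∀ x, j x = (a * x.1 + b * x.2, b * x.1 - a * x.2) := fun _ => rfl
  have i4 : i ^ 2 ^ 2 = 1 := LinearEquiv.ext fun x => by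
    show i (i (i (i x))) = x
    simp [hi]
  have jj : j * j = i * i := LinearEquiv.ext fun x => by
    show j (j x) = i (i x)
    simp only [hi, hj]
    ext <;> dsimp only
    exacts [by linear_combination x.1 * hab, by linear_combination x.2 * hab]
  have j4 : j ^ 2 ^ 2 = 1 := by
    rw [← i4, pow_two 2, pow_mul, pow_mul, pow_two j, jj, pow_two i]
  have ji : j * i * j⁻¹ = i⁻¹ := by
    rw [mul_inv_eq_iff_eq_mul, eq_inv_mul_iff_mul_eq]
    refine LinearEquiv.ext fun x => ?_
    show i (j (i x)) = j x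
    simp only [hi, hj]
    ext <;> dsimp only <;> ring
  have zp : ∀ x : (F × F) ≃ₗ[F] (F × F), x ^ 2 ^ 2 = 1 → IsPGroup 2 (zpowers x) := by
    rintro x hx ⟨_, n, rfl⟩
    refine ⟨2, Subtype.ext ?_⟩
    show (x ^ n) ^ 2 ^ 2 = 1
    rw [← zpow_natCast, ← zpow_mul, mul_comm, zpow_mul, zpow_natCast, hx, one_zpow]
  refine ⟨F × F, inferInstance, inferInstance, inferInstance, pl F, zpowers i ⊔ zpowers j, pl_alt,
    pl_nd, by simp, ?_, IsPGroup.to_sup_of_normal_left' (zp i i4) (zp j j4) (zpowers_le.2 ?_),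
    fun h => ?_⟩
  · refine (sup_le (zpowers_le.2 fun x y => ?_) (zpowers_le.2 fun x y => ?_) : _ ≤ isoG (pl F))
    · simp [pl, hi]; ring
    · simp only [pl, hj, LinearMap.mk₂_apply]
      linear_combination (x.2 * y.1 - x.1 * y.2) * hab
  · rw [mem_normalizer_iff_map_conj_eq, MonoidHom.map_zpowers]
    show zpowers (j * i * j⁻¹) = _
    rw [ji, zpowers_inv]
  · have := commutator_mem_commutator
      (mem_top (⟨j, mem_sup_right (mem_zpowers j)⟩ : (zpowers i ⊔ zpowers j : Subgroup _)))
      (mem_top ⟨i, mem_sup_left (mem_zpowers i)⟩)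
    change _ ∈ derivedSeries _ 1 at this
    rw [h, mem_bot] at this
    have e : j * i * j⁻¹ * i⁻¹ = 1 := congrArg Subtype.val this
    rw [ji, ← mul_inv_rev, inv_eq_one] at e
    have := congrArg Prod.fst (LinearEquiv.congr_fun e (1, 0))
    change (-1 : F) = 1 at this
    exact h2 (by linear_combination -this)

theorem rr_all (h : RR F 1 1) (n : ℕ) (hn : 1 ≤ n) : RR F n (Nat.log 2 (2 * n)) := by
  have h1 : ∀ j, RR F (2 ^ j) (j + 1) := fun j => by
    induction j with
    | zero => exact h
    | succ j ih => rw [pow_succ']; exact ih.dbl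
  have h2 : ∀ {m d}, RR F m d → ∀ k, RR F (m + k) d := fun h k => by
    induction k with
    | zero => exact h
    | succ k ih => exact ih.succ
  rw [mul_comm, Nat.log_mul_base (by norm_num) (by omega)]
  obtain ⟨k, hk⟩ := Nat.exists_eq_add_of_le (Nat.pow_log_le_self 2 (show n ≠ 0 by omega))
  have := h2 (h1 (Nat.log 2 n)) k
  rwa [← hk] at this


/-- Let q be odd, F a field with q elements and n ≥ 1. A Sylow 2-subgroup R of the symplectic group Sp_{2n}(F) has derived length exactly k + 1, where 2^k ≤ 2n < 2^{k+1}: the (k+1)-st term of its derived series is trivial and the k-th is not. -/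
theorem result {F : Type*} [Field F] [Fintype F] [DecidableEq F] (q : ℕ) (hF : Fintype.card F = q) (hq : Odd q) (n : ℕ) (hn : 1 ≤ n) (R : Sylow 2 ↥(Matrix.symplecticGroup (Fin n) F)) : derivedSeries ↥(R : Subgroup ↥(Matrix.symplecticGroup (Fin n) F)) (Nat.log 2 (2 * n) + 1) = ⊥ ∧ derivedSeries ↥(R : Subgroup ↥(Matrix.symplecticGroup (Fin n) F)) (Nat.log 2 (2 * n)) ≠ ⊥ := by
  have hq2 : ¬ 2 ∣ q := hq.not_two_dvd_nat
  constructor
  · let e : Fin n ⊕ Fin n ≃ Fin (2 * n) := finSumFinEquiv.trans (finCongr (two_mul n).symm)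
    let φ : Matrix.symplecticGroup (Fin n) F →* GL (Fin (2 * n)) F :=
      (Units.map (Matrix.reindexAlgEquiv F F e).toMonoidHom).comp (CfsgH1.spToGL n F)
    have hφ : Function.Injective φ :=
      (Units.map_injective (Matrix.reindexAlgEquiv F F e).injective).comp CfsgH1.spToGL_injective
    have h := S4417.result q hF 2 hq2 (2 * n) 1 (by
      rw [ZMod.natCast_eq_one_iff_odd.2 hq, orderOf_one]) (by omega) (R.1.map φ) (R.2.map φ)
    have := map_derivedSeries_le_derivedSeries (R.1.equivMapOfInjective φ hφ).toMonoidHom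
      (Nat.log 2 (2 * n) + 1)
    rw [Nat.div_one] at h
    rwa [h, le_bot_iff, map_eq_bot_iff_of_injective _ (MulEquiv.injective _)] at this
  · have h2 : (2 : F) ≠ 0 := fun h => hq2 (by
      rw [← hF, ← prime_dvd_char_iff_dvd_card]
      rcases (Nat.dvd_prime Nat.prime_two).1 (ringChar.dvd (R := F) (x := 2) (by exact_mod_cast h))
        with h | h
      · exact (CharP.ringChar_ne_one h).elim
      · exact h.symm.dvd)
    haveI : NeZero (ringChar F) := ⟨CharP.ringChar_ne_zero_of_finite F⟩
    obtain ⟨a, b, hab⟩ := CharP.sq_add_sq F (ringChar F) (-1)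
    obtain ⟨V, _, _, _, B, W, h1, h3, h4, h5, h6, h7⟩ :=
      rr_all (rr_one h2 (a := a) (b := b) (by exact_mod_cast hab)) n hn
    obtain ⟨φ, hφ⟩ := CfsgH1.exists_embed_Sp h1 h3 h4
      (LinearEquiv.automorphismGroup.toLinearMapMonoidHom.comp W.subtype)
      (fun a b h => Subtype.ext (LinearEquiv.toLinearMap_injective h)) fun g => h5 g g.2
    obtain ⟨S, hS⟩ := (h6.of_surjective _ φ.rangeRestrict_surjective).exists_le_sylow
    refine fun h => h7 ?_
    let ψ : W →* R := (Sylow.equiv S R).toMonoidHom.comp (φ.codRestrict S.1 fun w => hS ⟨w, rfl⟩)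
    have := map_derivedSeries_le_derivedSeries ψ (Nat.log 2 (2 * n))
    rwa [h, le_bot_iff, map_eq_bot_iff_of_injective _ ((Sylow.equiv S R).injective.comp
      ((MonoidHom.injective_codRestrict _ _ _).2 hφ))] at this

end Cfsg.Agent.S2648
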