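import Cfsg.Statements.S2688
import Cfsg.Agent.H8.CA11

set_option autoImplicit false
open Cfsg

namespace Cfsg.Agent.S2688

/-- A criterion for the failure of local balance in almost simple groups whose socle is one of the Chevalley groups of type G₂, B₂, D₄, F₄, E₆, E₇, E₈ (realised as the explicit matrix group generated by root elements over a finite field F of characteristic r, assumed simple). Let A be a group of automorphisms of that group K containing all inner automorphisms, and β ∈ A an automorphism of prime order p ≠ r that is not inner-diagonal (not induced by conjugation by an element of K times a diagonal automorphism). Then the largest normal subgroup of C_A(β) of order prime to p is nontrivial if and only if β is the composite of an inner-diagonal automorphism with an entrywise field automorphism and p does not divide the number of fixed points of β on K. -/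
theorem result (D : Cfsg.Lie.ChevalleyDatum)
    (hD : D ∈ [Cfsg.Lie.chevG2, Cfsg.Lie.chevB2, Cfsg.Lie.chevD4, Cfsg.Lie.chevF4, Cfsg.Lie.chevE6, Cfsg.Lie.chevE7, Cfsg.Lie.chevE8])
    (F : Type*) [Field F] [Fintype F] (r : ℕ) [Fact r.Prime] [CharP F r] (hK : IsSimpleGroup ↥(D.group F))
    (𝒢 : Subgroup (MulAut (↥(D.group F)))) (hinn : ∀ k : ↥(D.group F), MulAut.conj k ∈ 𝒢)
    (p : ℕ) [Fact p.Prime] (hpr : p ≠ r) (β : MulAut (↥(D.group F))) (hβ : β ∈ 𝒢) (hord : orderOf β = p)
    (hnot : ¬ D.IsInnerDiagonalAutOn (D.group F) β) :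
    Cfsg.pPrimeCore p ↥(𝒢 ⊓ Subgroup.centralizer {β}) ≠ ⊥ ↔
      ((∃ γ φ : MulAut ↥(D.group F), D.IsInnerDiagonalAutOn (D.group F) γ ∧ Cfsg.Lie.IsEntrywiseFieldAutOn (D.group F) φ ∧
          β = φ.trans γ) ∧
        Nat.Coprime p (Nat.card ↥(MonoidHom.eqLocus β.toMonoidHom (MonoidHom.id (↥(D.group F)))))) := by
  have key : ∀ {T : CfsgH8.Tab} (h : T.Ok D) (hE : ∀ (K : Type _) [Field K], (h.chev K).Extra)
      {Ls b o} (ck : T.Ck D Ls b o), (b = true → p = 3 →
        3 ∣ Nat.card (D.group F) ∧ CfsgH7.BalG 3 β) → _ := fun h hE _ _ _ ck htri =>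
    CfsgH7.BalG.balance (eq_bot_iff.2 fun z hz => h.conj_inj (hE F) (MulEquiv.ext fun k => by
      simp [← Subgroup.mem_center_iff.1 hz k])) 𝒢 hinn hord
      (h.main hE ck r hpr hord hnot htri).1 (h.main hE ck r hpr hord hnot htri).2
  simp only [List.mem_cons, List.not_mem_nil, or_false] at hD
  rcases hD with rfl | rfl | rfl | rfl | rfl | rfl | rfl
  · exact key CfsgH8.okG2 CfsgH8.extraG2' CfsgH8.ckG2' nofun
  · exact key CfsgH8.okB2 CfsgH8.extraB2' CfsgH8.ckB2' nofun
  · exact key CfsgH8.okD4 CfsgH8.extraD4' CfsgH8.ckD4' fun _ e =>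
      CfsgH8.D4.tri8 hK r (e ▸ hpr) (e ▸ hord) hnot
  · exact key CfsgH8.okF4 CfsgH8.extraF4' CfsgH8.ckF4' nofun
  · exact key CfsgH8.okE6 CfsgH8.extraE6 CfsgH8.ckE6' nofun
  · exact key CfsgH8.okE7 CfsgH8.extraE7 CfsgH8.ckE7' nofun
  · exact key CfsgH8.okE8 CfsgH8.extraE8 CfsgH8.ckE8' nofun

end Cfsg.Agent.S2688
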