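import Cfsg.Statements.S2730
import Cfsg.Agent.H7.Bal8

set_option autoImplicit false
open Cfsg

namespace Cfsg.Agent.S2730


/-- A criterion for the failure of local balance in almost simple groups whose socle is a projective symplectic group PSp_{2m}(F) (m ≥ 2, (2m, |F|) ≠ (4, 2)). Let F be a finite field of characteristic r and K the (simple) group in question; let A be a group of automorphisms of K containing all inner automorphisms, and x ∈ A an automorphism of prime order p ≠ r that is not inner-diagonal (not induced by a conformal symplectic matrix). Then the largest normal subgroup of C_A(x) of order prime to p is nontrivial if and only if x is a field automorphism of K (conjugate under Aut(K) to a non-identity standard field automorphism) and p does not divide the number of fixed points of x on K. -/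
theorem result {F : Type*} [Field F] [Fintype F] {r : ℕ} [Fact r.Prime] [CharP F r] {m : ℕ} (hm : 2 ≤ m) (hs : m = 2 → 3 ≤ Fintype.card F) (hK : IsSimpleGroup (Cfsg.PSp m F)) (A : Subgroup (MulAut (Cfsg.PSp m F))) (hinn : ∀ k : Cfsg.PSp m F, MulAut.conj k ∈ A) {p : ℕ} [Fact p.Prime] (hpr : p ≠ r) (x : MulAut (Cfsg.PSp m F)) (hxA : x ∈ A) (hord : orderOf x = p) (hnot : ¬ Cfsg.IsInnerDiagonalAutPSp x) :
    Cfsg.pPrimeCore p ↥(A ⊓ Subgroup.centralizer {x}) ≠ ⊥ ↔ (Cfsg.IsFieldAutClassPSp x ∧ Nat.Coprime p (Nat.card ↥(MonoidHom.eqLocus x.toMonoidHom (MonoidHom.id (Cfsg.PSp m F))))) := by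
  obtain ⟨g, τ, rfl⟩ := CfsgH7.psp_diag_field hm r hpr hord
  have hτ : τ ≠ 1 := by
    rintro rfl
    exact hnot (CfsgH7.isInnerDiagonalAutPSp_iff.2 ⟨g, by rw [map_one, mul_one]⟩)
  have ho := CfsgH7.df_orderOf _ _ CfsgH7.hSp
    (fun g τ h => (CfsgH7.diag_field_eq_one_Sp hm h).1) hτ hord
  have hc := CfsgH7.field_coset_Sp hm τ g (by rw [ho, ← hord, pow_orderOf_eq_one])
  refine CfsgH7.BalG.balance (CfsgH7.center_PSp hm) A hinn hord
    ((CfsgH7.balG_Sp hm r hpr ho).of_isConjUnder hc) fun _ => ?_
  obtain ⟨α, -, e⟩ := hc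
  exact ⟨α⁻¹, τ, hτ, CfsgH7.isStdFieldAutPSp_iff.2 (by rw [e]; group)⟩

end Cfsg.Agent.S2730
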