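import Cfsg.Statements.S2731
import Cfsg.Agent.H7.Bal5

set_option autoImplicit false
open Cfsg

namespace Cfsg.Agent.S2731


/-- A criterion for the failure of local balance in almost simple groups whose socle is an odd-dimensional orthogonal group Ω_{2m+1}(F) (m ≥ 3, |F| odd; the form x₀² + Σ xᵢ yᵢ). Let F be a finite field of characteristic r and K the (simple) group in question; let A be a group of automorphisms of K containing all inner automorphisms, and x ∈ A an automorphism of prime order p ≠ r that is not inner-diagonal (not induced by a similarity of the form). Then the largest normal subgroup of C_A(x) of order prime to p is nontrivial if and only if x is a field automorphism of K (conjugate under Aut(K) to a non-identity standard field automorphism) and p does not divide the number of fixed points of x on K. -/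
theorem result {F : Type*} [Field F] [Fintype F] {r : ℕ} [Fact r.Prime] [CharP F r] (hodd : Odd (Fintype.card F)) {m : ℕ} (hm : 3 ≤ m) (hK : IsSimpleGroup (Cfsg.POmega F (Cfsg.quadFormOdd m F))) (A : Subgroup (MulAut (Cfsg.POmega F (Cfsg.quadFormOdd m F)))) (hinn : ∀ k : Cfsg.POmega F (Cfsg.quadFormOdd m F), MulAut.conj k ∈ A) {p : ℕ} [Fact p.Prime] (hpr : p ≠ r) (x : MulAut (Cfsg.POmega F (Cfsg.quadFormOdd m F))) (hxA : x ∈ A) (hord : orderOf x = p) (hnot : ¬ Cfsg.IsInnerDiagonalAutPOmegaOdd m x) :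
    Cfsg.pPrimeCore p ↥(A ⊓ Subgroup.centralizer {x}) ≠ ⊥ ↔ (Cfsg.IsFieldAutClassPOmega (Cfsg.quadFormOdd m F) x ∧ Nat.Coprime p (Nat.card ↥(MonoidHom.eqLocus x.toMonoidHom (MonoidHom.id (Cfsg.POmega F (Cfsg.quadFormOdd m F)))))) := by
  have h2 := CfsgH8.two_ne_zero_of_odd hodd
  haveI := CfsgH8.big_QO (m := m) (by omega) h2
  haveI := CfsgH7.finite_POmega (CfsgH8.QO_coe m F)
  have hs := CfsgH8.Phi_surj_QO hm h2
  obtain ⟨γ, rfl⟩ := CfsgH8.PhiM_surjective (CfsgH8.QO_coe m F) hs x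
  have hγ : γ.σ ≠ 1 := fun h => hnot (by
    obtain ⟨g, h1, -, h3⟩ := CfsgH7.sim_pred (CfsgH8.QO_coe m F) h (fun _ => True) fun _ _ => trivial
    exact ⟨g, h1, h3⟩)
  obtain ⟨φ, hφ, e, ho⟩ := CfsgH7.exists_FT_PhiM _ hγ hord
  rw [← e] at hord ⊢
  have hφ1 : φ.σ ≠ 1 := fun h => (Fact.out : p.Prime).ne_one (by rw [← ho, h, orderOf_one])
  refine CfsgH7.BalG.balance (CfsgH7.center_POmega (CfsgH8.QO_coe m F)) A hinn hord
    ((CfsgH7.balG_ofield r hpr hφ ho fun y _ _ _ => hs y).PhiM _) fun _ => ?_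
  obtain ⟨D⟩ := CfsgH7.desc_QO (m := m) hφ _ (CfsgH7.fixF_spec φ.σ) (by simp; ring)
  obtain ⟨D'⟩ := CfsgH7.desc_QO (m := m) (CfsgH7.FT_frob φ.σ (CfsgH8.QO_comp _ m)) _
    (CfsgH7.fixF_spec φ.σ) (by simp; ring)
  exact CfsgH7.fieldClass_of_desc _ hφ1 _ D D'

end Cfsg.Agent.S2731
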