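import Cfsg.Statements.S2732
import Cfsg.Agent.H8.Tri7

set_option autoImplicit false
open Cfsg

namespace Cfsg.Agent.S2732

/-- A criterion for the failure of local balance in almost simple groups whose socle is a plus-type orthogonal group PΩ⁺_{2m}(F) (m ≥ 4; the form Σ xᵢ yᵢ). Let F be a finite field of characteristic r and K the (simple) group in question; let A be a group of automorphisms of K containing all inner automorphisms, and x ∈ A an automorphism of prime order p ≠ r that is not inner-diagonal (not induced by a similarity preserving the two classes of maximal totally singular subspaces). Then the largest normal subgroup of C_A(x) of order prime to p is nontrivial if and only if x is a field automorphism of K (conjugate under Aut(K) to a non-identity standard field automorphism) and p does not divide the number of fixed points of x on K. -/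
theorem result {F : Type*} [Field F] [Fintype F] {r : ℕ} [Fact r.Prime] [CharP F r] {m : ℕ} (hm : 4 ≤ m) (hK : IsSimpleGroup (Cfsg.POmega F (Cfsg.quadFormPlus m F))) (A : Subgroup (MulAut (Cfsg.POmega F (Cfsg.quadFormPlus m F)))) (hinn : ∀ k : Cfsg.POmega F (Cfsg.quadFormPlus m F), MulAut.conj k ∈ A) {p : ℕ} [Fact p.Prime] (hpr : p ≠ r) (x : MulAut (Cfsg.POmega F (Cfsg.quadFormPlus m F))) (hxA : x ∈ A) (hord : orderOf x = p) (hnot : ¬ Cfsg.IsInnerDiagonalAutPOmegaPlus m x) :
    Cfsg.pPrimeCore p ↥(A ⊓ Subgroup.centralizer {x}) ≠ ⊥ ↔ (Cfsg.IsFieldAutClassPOmega (Cfsg.quadFormPlus m F) x ∧ Nat.Coprime p (Nat.card ↥(MonoidHom.eqLocus x.toMonoidHom (MonoidHom.id (Cfsg.POmega F (Cfsg.quadFormPlus m F)))))) := by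
  haveI : Fact (3 ≤ m) := ⟨by omega⟩
  haveI := CfsgH7.finite_POmega (CfsgH8.QP_coe m F)
  obtain ⟨y, rfl⟩ := (MulAut.congr (CfsgH8.pomE (CfsgH8.QP_coe m F)).symm).surjective x
  obtain ⟨h1, h2⟩ := CfsgH8.balG_plus hm r hpr
    (((MulAut.congr (CfsgH8.pomE (CfsgH8.QP_coe m F)).symm).orderOf_eq y).symm.trans hord)
    fun γ h e => hnot (e ▸ CfsgH7.sim_pred (CfsgH8.QP_coe m F) h.1 _ fun M hM =>
      (CfsgH7.preserves_iff (CfsgH8.QP_coe m F) CfsgH8.MTS_stdE hM).2 ((CfsgH7.mem_Dg_QH h.1).1 h))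
  refine CfsgH7.BalG.balance (CfsgH7.center_POmega (CfsgH8.QP_coe m F)) A hinn hord
    (h1.congr _) fun h => ?_
  obtain ⟨φ, hφ, h3, h4, rfl⟩ := h2
    (Nat.card_congr (CfsgH8.pomE (CfsgH8.QP_coe m F)).toEquiv ▸ h)
  obtain ⟨D⟩ := CfsgH7.desc_QP (m := m) hφ _ (CfsgH7.fixF_spec φ.σ) (by simp; ring)
    CfsgH8.MTS_stdE h4
  obtain ⟨D'⟩ := CfsgH7.desc_QP (m := m) (CfsgH7.FT_frob φ.σ (CfsgH8.QH_comp _)) _
    (CfsgH7.fixF_spec φ.σ) (by simp; ring) CfsgH8.MTS_stdE (CfsgH7.cls_frob _)
  exact CfsgH7.fieldClass_of_desc _ h3 _ D D'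

end Cfsg.Agent.S2732
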