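import Cfsg.Statements.S2733
import Cfsg.Agent.H7.Bal11
import Cfsg.Agent.H8.MatAut2

set_option autoImplicit false
open Cfsg

namespace Cfsg.Agent.S2733


/-- A criterion for the failure of local balance in almost simple groups whose socle is a minus-type orthogonal group PΩ⁻_{2m+2}(F) (m ≥ 3; the form Σ xᵢ yᵢ + z₁² + a z₁ z₂ + b z₂² with anisotropic binary part). Let F be a finite field of characteristic r and K the (simple) group in question; let A be a group of automorphisms of K containing all inner automorphisms, and x ∈ A an automorphism of prime order p ≠ r that is not inner-diagonal (not induced by a class-preserving similarity, classes read over a quadratic extension). Then the largest normal subgroup of C_A(x) of order prime to p is nontrivial if and only if x is a field automorphism of K (conjugate under Aut(K) to a non-identity standard field automorphism) and p does not divide the number of fixed points of x on K. -/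
theorem result {F : Type*} [Field F] [Fintype F] {r : ℕ} [Fact r.Prime] [CharP F r] {m : ℕ} (hm : 3 ≤ m) (a b : F) (hab : (∀ z₁ z₂ : F, z₁ ^ 2 + a * z₁ * z₂ + b * z₂ ^ 2 = 0 → z₁ = 0 ∧ z₂ = 0)) (hK : IsSimpleGroup (Cfsg.POmega F (Cfsg.quadFormMinus m F a b))) (A : Subgroup (MulAut (Cfsg.POmega F (Cfsg.quadFormMinus m F a b)))) (hinn : ∀ k : Cfsg.POmega F (Cfsg.quadFormMinus m F a b), MulAut.conj k ∈ A) {p : ℕ} [Fact p.Prime] (hpr : p ≠ r) (x : MulAut (Cfsg.POmega F (Cfsg.quadFormMinus m F a b))) (hxA : x ∈ A) (hord : orderOf x = p) (hnot : ¬ Cfsg.IsInnerDiagonalAutPOmegaMinus m a b x) :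
    Cfsg.pPrimeCore p ↥(A ⊓ Subgroup.centralizer {x}) ≠ ⊥ ↔ (Cfsg.IsFieldAutClassPOmegaMinus m x ∧ Nat.Coprime p (Nat.card ↥(MonoidHom.eqLocus x.toMonoidHom (MonoidHom.id (Cfsg.POmega F (Cfsg.quadFormMinus m F a b)))))) := by
  haveI := CfsgH8.big_QM (m := m) (by omega) hab
  haveI := CfsgH7.finite_POmega (CfsgH8.QM_coe m F a b)
  have hs := CfsgH8.Phi_surj_QM hm hab
  obtain ⟨γ, rfl⟩ := CfsgH8.PhiM_surjective (CfsgH8.QM_coe m F a b) hs x
  have h2 := CfsgH7.two_dvd_POmega (CfsgH8.QM_coe m F a b)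
  by_cases hγ : γ.σ = 1
  · have hD : γ ∉ CfsgH7.Dg _ := fun h => hnot (CfsgH7.sim_pred (CfsgH8.QM_coe m F a b) hγ _
      fun M hM => by
        obtain ⟨K, _, _, hK⟩ := CfsgH7.exists_quad_ext F
        exact ⟨K, _, _, hK, (CfsgH7.preserves_ext_iff hab hK hγ hM).2 h⟩)
    obtain ⟨rfl, h⟩ := CfsgH7.balG_ograph r hpr (CfsgH8.even_QM m) hγ hD
      (((MulAut.congr (CfsgH8.pomE (CfsgH8.QM_coe m F a b)).symm).orderOf_eq _).symm.trans hord) hs
    exact CfsgH7.BalG.balance (CfsgH7.center_POmega (CfsgH8.QM_coe m F a b)) A hinn hord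
      (h.PhiM _) fun h => absurd h2 h
  obtain ⟨φ, hφ, e, ho⟩ := CfsgH7.exists_FT_PhiM _ hγ hord
  rw [← e] at hord ⊢
  have hφ1 : φ.σ ≠ 1 := fun h => (Fact.out : p.Prime).ne_one (by rw [← ho, h, orderOf_one])
  exact CfsgH7.BalG.balance (CfsgH7.center_POmega (CfsgH8.QM_coe m F a b)) A hinn hord
    ((CfsgH7.balG_ofield r hpr hφ ho fun y _ _ _ => hs y).PhiM _) fun h =>
    CfsgH7.fieldClass_minus hab hφ hφ1 (ho ▸ (Fact.out : p.Prime).odd_of_ne_two fun e => h (e ▸ h2))

end Cfsg.Agent.S2733
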