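import Cfsg.Statements.S4365
import Cfsg.Agent.H2.Sect
import Cfsg.Agent.L0.PSolv

set_option autoImplicit false
open Cfsg

namespace Cfsg.Agent.S4365
open Subgroup CfsgH2 CfsgL0
open scoped commutatorElement



/-- Let P be a finite p-group whose conjugacy class sizes are exactly 1 and pᵃ for some a ≥ 1. Then every element of P has its p-th power in the center of P (P/Z(P) has exponent p). -/
theorem result {P : Type*} [Group P] [Finite P] (p : ℕ) [Fact p.Prime]
    (hP : IsPGroup p P) (a : ℕ) (ha : 1 ≤ a)
    (hcs : {k : ℕ | ∃ x : P, (Subgroup.centralizer ({x} : Set P)).index = k} = {1, p ^ a}) (x : P) :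
    x ^ p ∈ Subgroup.center P := by
  by_contra hx
  have hp : p.Prime := Fact.out
  have hidx : ∀ y : P, y ∉ center P → (centralizer ({y} : Set P)).index = p ^ a := fun y hy => by
    have : (centralizer ({y} : Set P)).index ∈ ({1, p ^ a} : Set ℕ) := hcs ▸ ⟨y, rfl⟩
    refine this.resolve_left fun h => hy ?_
    simpa using centralizer_eq_top_iff_subset.mp (index_eq_one.mp h)
  have heq : ∀ y w : P, y ∉ center P → w ∉ center P → centralizer ({y} : Set P) ≤ centralizer {w} →
      centralizer ({y} : Set P) = centralizer {w} := fun y w hy hw h => by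
    refine eq_of_le_of_card_ge h (Nat.le_of_mul_le_mul_right (c := p ^ a) ?_ (pow_pos hp.pos a))
    conv_lhs => rw [← hidx w hw, card_mul_index]
    rw [← hidx y hy, card_mul_index]
  have mc : ∀ {y c : P}, c ∈ centralizer ({y} : Set P) ↔ Commute c y :=
    mem_centralizer_singleton_iff
  have hnc : ∀ u : P, u ^ p ∉ center P → u ∉ center P := fun u hu h => hu (pow_mem h p)
  have hpow : ∀ u : P, u ^ p ∉ center P → centralizer ({u} : Set P) = centralizer {u ^ p} :=
    fun u hu => heq _ _ (hnc u hu) hu fun c hc => mc.mpr ((mc.mp hc).pow_right p)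
  obtain ⟨z, -, hzZ, hzp, hzc⟩ := exists_central_mod' hP (N := ⊤) (K := center P)
    (fun h => hx (h (mem_top _)))
  have hbad : ∀ u : P, u ^ p ∉ center P → centralizer ({u} : Set P) = centralizer {z} := by
    intro u hu
    have h1 : Commute z u := by
      rw [← mc, hpow u hu, mc, ← comm_eq_one_iff,
        comm_pow_right (commute_of_mem_center (hzc u) _),
        ← comm_pow_left (commute_of_mem_center (hzc u) _), comm_eq_one_iff]
      exact (commute_of_mem_center hzp u).symm
    have h2 : (u * z) ^ p ∉ center P := by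
      rw [h1.symm.mul_pow, mul_mem_cancel_right hzp]; exact hu
    refine heq _ _ (hnc u hu) hzZ fun c hc => ?_
    have h3 : c ∈ centralizer ({u * z} : Set P) := by
      rw [hpow _ h2, mc, h1.symm.mul_pow]
      exact ((mc.mp hc).pow_right p).mul_right (commute_of_mem_center hzp c)
    have := (mc.mp hc).inv_right.mul_right (mc.mp h3)
    rwa [inv_mul_cancel_left, ← mc] at this
  obtain ⟨C, hC⟩ : ∃ C, C = centralizer ({z} : Set P) := ⟨_, rfl⟩
  rw [← hC] at hbad
  have hself : ∀ u : P, u ^ p ∉ center P → u ∈ C := fun u hu => hbad u hu ▸ mc.mpr (Commute.refl u)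
  have hab : ∀ y ∈ C, C ≤ centralizer {y} := by
    intro y hy
    by_cases hyp : y ^ p ∈ center P
    · have h1 : Commute y x := mc.mp (hbad x hx ▸ hy)
      have h2 : (x * y) ^ p ∉ center P := by
        rw [h1.symm.mul_pow, mul_mem_cancel_right hyp]; exact hx
      intro c hc
      have := (mc.mp (hbad x hx ▸ hc)).inv_right.mul_right (mc.mp (hbad _ h2 ▸ hc))
      rwa [inv_mul_cancel_left, ← mc] at this
    · rw [hbad y hyp]
  have hCi : C.index = p ^ a := hC ▸ hidx z hzZ
  have hCn : C.Normal := ⟨fun c hc g => by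
    rw [hC, mc] at hc ⊢
    have e : z = g * (z * ⁅z⁻¹, g⁻¹⁆) * g⁻¹ := by rw [commutatorElement_def]; group
    rw [e]
    refine (hc.mul_right (commute_of_mem_center ?_ c)).conj g
    rw [comm_inv_left (commute_of_mem_center (hzc _) _)]
    exact inv_mem (hzc _)⟩
  have hZC : center P ≤ C := hC ▸ center_le_centralizer _
  obtain ⟨y, hy⟩ : ∃ y, y ∉ C := by
    by_contra h
    push Not at h
    rw [(eq_top_iff' C).mpr h, index_top] at hCi
    exact (Nat.one_lt_pow (by omega) hp.one_lt).ne hCi
  have hyZ : y ∉ center P := fun h => hy (hZC h)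
  have hinf : centralizer {y} ⊓ C = center P := by
    refine le_antisymm (fun c hc => ?_) (le_inf (center_le_centralizer _) hZC)
    by_contra hcZ
    apply hy
    rw [hC, heq z c hzZ hcZ (hC ▸ hab c hc.2), mc]
    exact (mc.mp hc.1).symm
  have h1 : (center P).relIndex C ≤ p ^ a := by
    have e1 := card_sup_mul_card_inf (H := centralizer {y}) (K := C) le_normalizer_of_normal
    have e2 := (centralizer ({y} : Set P)).card_mul_index
    rw [hinf, ← card_mul_relIndex hZC] at e1
    rw [hidx y hyZ] at e2
    have e3 := card_le_card_group (centralizer {y} ⊔ C)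
    rw [← e2] at e3
    have e4 := Nat.mul_le_mul_right (Nat.card (center P)) e3
    rw [e1, mul_assoc, mul_comm (p ^ a)] at e4
    exact Nat.le_of_mul_le_mul_left (Nat.le_of_mul_le_mul_left e4 Nat.card_pos) Nat.card_pos
  have hxC := hself x hx
  let f : P ⧸ C → {q : C.map (QuotientGroup.mk' (center P)) // q ≠ 1} := fun q =>
    ⟨⟨QuotientGroup.mk' _ (q.out * x * q.out⁻¹), _, hCn.conj_mem x hxC _, rfl⟩, fun h => by
      have : q.out * x * q.out⁻¹ ∈ center P :=
        (QuotientGroup.eq_one_iff _).mp (congrArg Subtype.val h)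
      exact hnc x hx (by simpa using (inferInstance : (center P).Normal).mem_comm this)⟩
  have hf : Function.Injective f := by
    intro q r h
    have h2 : ((q.out * x * q.out⁻¹ : P) : P ⧸ center P) = (r.out * x * r.out⁻¹ : P) :=
      congrArg (fun w => w.1.1) h
    rw [← q.out_eq, ← r.out_eq]
    refine QuotientGroup.eq.mpr ?_
    by_contra hg
    generalize q.out = u at h2 hg
    generalize r.out = v at h2 hg
    have h3 : Commute (x : P ⧸ center P) (u⁻¹ * v : P) := by
      simp only [QuotientGroup.mk_mul, QuotientGroup.mk_inv] at h2 ⊢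
      calc (x : P ⧸ center P) * ((u : P ⧸ center P)⁻¹ * v) = (u : P ⧸ center P)⁻¹ * (u * x * (u : P ⧸ center P)⁻¹) * v := by group
        _ = (u : P ⧸ center P)⁻¹ * v * x := by rw [h2]; group
    have h4 : (u⁻¹ * v) ^ p ∈ center P := by_contra fun h => hg (hself _ h)
    have h5 : (x * (u⁻¹ * v)) ^ p ∈ center P := by_contra fun h =>
      hg ((mul_mem_cancel_left hxC).mp (hself _ h))
    rw [← QuotientGroup.eq_one_iff, QuotientGroup.mk_pow] at h4 h5 hx
    rw [QuotientGroup.mk_mul, h3.mul_pow, h4, mul_one] at h5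
    exact hx h5
  have h6 := Nat.card_le_card_of_injective f hf
  have h7 := Finite.card_subtype_lt (p := fun q : C.map (QuotientGroup.mk' (center P)) => q ≠ 1)
    (x := 1) (by simp)
  rw [← relIndex_eq_card_map] at h7
  rw [← index, hCi] at h6
  omega

end Cfsg.Agent.S4365
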