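import Cfsg.Statements.S4370
import Cfsg.Agent.H2.RankOne
import Cfsg.Agent.L0.Fitting

set_option autoImplicit false
open Cfsg

namespace Cfsg.Agent.S4370
open Subgroup CfsgH2 CfsgL0
open scoped commutatorElement



/-- Let G be a finite non-abelian nilpotent group. Then the centralizer of every non-central element of G is cyclic if and only if G is isomorphic to the direct product of a generalized quaternion group and a cyclic group of odd order. -/
theorem result {G : Type*} [Group G] [Finite G] (hG : Group.IsNilpotent G)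
    (hna : ¬ IsMulCommutative G) :
    (∀ x : G, x ∉ Subgroup.center G → IsCyclic (Subgroup.centralizer ({x} : Set G))) ↔
      ∃ (k m : ℕ), 1 ≤ k ∧ Odd m ∧ Nonempty (G ≃* QuaternionGroup (2 ^ k) × Multiplicative (ZMod m)) := by
  constructor
  · intro h
    obtain ⟨x₀, hx₀⟩ : ∃ x : G, x ∉ center G := by
      by_contra h0
      push Not at h0
      exact hna ⟨⟨fun a b => mem_center_iff.mp (h0 b) a⟩⟩
    have hab : ∀ A : Subgroup G, IsMulCommutative A → IsCyclic A := fun A hA => by
      by_cases h1 : A ≤ center G
      · exact isCyclic_of_le (h1.trans (center_le_centralizer _)) (h x₀ hx₀)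
      · obtain ⟨x, hx, hxZ⟩ := SetLike.not_le_iff_exists.mp h1
        exact isCyclic_of_le (fun a ha => mem_centralizer_singleton_iff.mpr
          (isMulCommutative_iff.mp hA a ha x hx)) (h x hxZ)
    have hr : ∀ p : ℕ, p.Prime → Cfsg.PRankLE p 1 G := fun p hp A hA he => by
      have := hab A hA
      rw [pow_one, ← IsCyclic.exponent_eq_card]
      exact Nat.le_of_dvd hp.pos
        (Monoid.exponent_dvd_of_forall_pow_eq_one fun g => Subtype.ext (he g g.2))
    have hcomm : ∀ (p : ℕ) [Fact p.Prime],
        Cfsg.pPrimeCore p G ≤ centralizer (Cfsg.pCore p G : Set G) := fun p _ =>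
      le_centralizer_iff.mp (commutator_eq_bot_iff_le_centralizer.mp (commutator_pCore_pPrimeCore G p))
    have hcent : ∀ (p : ℕ) [Fact p.Prime], IsMulCommutative (Cfsg.pCore p G) →
        Cfsg.pCore p G ≤ center G := fun p _ hc => by
      rw [← centralizer_univ, ← coe_top, le_centralizer_iff, ← pCore_sup_pPrimeCore p]
      exact sup_le (le_centralizer_iff_isMulCommutative.mpr hc) (hcomm p)
    have h2 : ¬ Cfsg.pCore 2 G ≤ center G := fun h2 => hx₀ (by
      have : Cfsg.fittingSubgroup G ≤ center G := by
        rw [fitting_eq_iSup_pCore]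
        refine iSup_le fun p => ?_
        have := Fact.mk p.2
        by_cases hp : (p : ℕ) = 2
        · rw [hp]; exact h2
        · have := isCyclic_of_rank_one hp (isPGroup_pCore G p) (PRankLE.subgroup (hr p p.2) _)
          exact hcent p inferInstance
      exact this (fitting_eq_top_iff.mpr hG ▸ mem_top x₀))
    obtain ⟨k, ⟨e₁⟩⟩ := (isCyclic_or_quaternion (isPGroup_pCore G 2)
      (PRankLE.subgroup (hr 2 Nat.prime_two) _)).resolve_left fun _ => h2 (hcent 2 inferInstance)
    obtain ⟨x, hx, hxZ⟩ := SetLike.not_le_iff_exists.mp h2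
    have hK : IsCyclic (Cfsg.pPrimeCore 2 G) := isCyclic_of_le
      ((hcomm 2).trans (centralizer_le (Set.singleton_subset_iff.mpr hx))) (h x hxZ)
    obtain ⟨e, -⟩ := exists_mulEquiv_prod (hcomm 2) (pCore_inf_pPrimeCore G 2)
      (pCore_sup_pPrimeCore 2)
    exact ⟨k + 1, Nat.card (Cfsg.pPrimeCore 2 G), by omega,
      Nat.coprime_two_right.mp (coprime_card_pPrimeCore G 2),
      ⟨e.symm.trans (e₁.prodCongr (zmodCyclicMulEquiv hK).symm)⟩⟩
  · rintro ⟨k, m, hk, hm, ⟨e⟩⟩ x hx
    obtain ⟨k, rfl⟩ := Nat.exists_eq_add_of_le' hk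
    have : NeZero m := ⟨hm.pos.ne'⟩
    have h1 : (e x).1 ∉ center _ := fun h => hx (mem_center_iff.mpr fun g => e.injective (by
      rw [map_mul, map_mul]
      exact Prod.ext (mem_center_iff.mp h _) (mul_comm _ _)))
    have h2 := isCyclic_centralizer_quaternion h1
    have h3 : IsCyclic (centralizer ({(e x).1} : Set (QuaternionGroup (2 ^ (k + 1)))) ×
        Multiplicative (ZMod m)) := by
      refine Group.isCyclic_prod_iff.mpr ⟨h2, inferInstance, ?_⟩
      refine Nat.Coprime.of_dvd_left (card_subgroup_dvd_card _) ?_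
      rw [(maxTwo_quaternion k 0).card]
      simpa using hm
    let f : centralizer ({x} : Set G) →* centralizer ({(e x).1} : Set (QuaternionGroup (2 ^ (k + 1))))
        × Multiplicative (ZMod m) :=
      { toFun := fun g => (⟨(e g).1, mem_centralizer_singleton_iff.mpr (by
          rw [← Prod.fst_mul, ← map_mul, mem_centralizer_singleton_iff.mp g.2, map_mul,
            Prod.fst_mul])⟩, (e g).2)
        map_one' := by simp
        map_mul' := fun a b => by simp }
    exact isCyclic_of_injective f fun a b h => Subtype.ext (e.injective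
      (Prod.ext (congrArg (fun w => w.1.1) h) (congrArg (fun w => w.2) h)))

end Cfsg.Agent.S4370
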