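import Cfsg.Statements.S4373
import Cfsg.Agent.H1.Base11

set_option autoImplicit false
open Pointwise
open Cfsg

namespace Cfsg.Agent.S4373

open CfsgH1 Subgroup
open scoped commutatorElement
set_option maxHeartbeats 400000

/-- Let π be a set of primes and G a finite π-solvable group: G has a chain of normal subgroups from 1 to G in which each successive index is a power of a prime in π or is divisible by no prime in π. Let H be a Hall π-subgroup of G. Then there are x, y ∈ G with H ∩ xHx⁻¹ ∩ yHy⁻¹ = O_π(G), the largest normal π-subgroup. -/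
theorem result {G : Type*} [Group G] [Finite G] (π : Set ℕ)
    (hsolv : (∃ (n : ℕ) (N : Fin (n + 1) → Subgroup G), N 0 = ⊥ ∧ N (Fin.last n) = ⊤ ∧ Monotone N ∧ (∀ i, (N i).Normal) ∧
      ∀ i : Fin n, (∃ p ∈ π, p.Prime ∧ ∃ k : ℕ, (N i.castSucc).relIndex (N i.succ) = p ^ k) ∨
        (∀ q : ℕ, q.Prime → q ∣ (N i.castSucc).relIndex (N i.succ) → q ∉ π))) (H : Subgroup G) (hH : Cfsg.IsPiHall π H) :
    ∃ x y : G, H ⊓ MulAut.conj x • H ⊓ MulAut.conj y • H = Cfsg.piCore π G := by
  obtain ⟨n, N, h0, hn, hmono, hN, hi⟩ := hsolv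
  have hsep : CfsgL0.PiSep π G := by
    refine CfsgL0.piSep_of_chain n (fun i => if h : i < n + 1 then N ⟨i, h⟩ else ⊤)
      (by simpa using h0) (by simp only [dif_pos (Nat.lt_succ_self n)]; exact hn) (fun i hi' => ?_) (fun i hi' => ?_)
    · simp only [dif_pos (Nat.lt_succ_of_lt hi')]; exact hN _
    · simp only [dif_pos (Nat.lt_succ_of_lt hi'), dif_pos (Nat.succ_lt_succ hi')]
      rcases hi ⟨i, hi'⟩ with ⟨p, hp, hpp, k, hk⟩ | h
      · left
        intro q hq hd
        erw [hk] at hd
        rwa [(Nat.prime_dvd_prime_iff_eq hq hpp).mp (hq.dvd_of_dvd_pow hd)]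
      · exact Or.inr h
  have hs : ∀ i : Fin (n + 1), Group.IsSolvable (H ⊓ N i : Subgroup G) := by
    intro i
    induction i using Fin.induction with
    | zero => rw [h0, inf_bot_eq]; infer_instance
    | succ i ih =>
      haveI := hN i.castSucc
      let g := (QuotientGroup.mk' (N i.castSucc)).comp (H ⊓ N i.succ).subtype
      have h1 : Nat.card g.range ∣ (N i.castSucc).relIndex (N i.succ) := by
        rw [CfsgL0.relIndex_eq_card_map]
        apply card_dvd_of_le
        rintro _ ⟨u, rfl⟩
        exact mem_map_of_mem _ u.2.2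
      have h2 : Nat.card g.range ∣ Nat.card H := (card_range_dvd g).trans (card_dvd_of_le inf_le_left)
      haveI : Group.IsSolvable g.range := by
        rcases hi i with ⟨p, hp, hpp, k, hk⟩ | h
        · haveI := Fact.mk hpp
          rw [hk] at h1
          obtain ⟨j, -, hj⟩ := (Nat.dvd_prime_pow hpp).mp h1
          haveI := (IsPGroup.of_card hj).isNilpotent
          infer_instance
        · have : Nat.card g.range = 1 := by
            by_contra hne
            obtain ⟨q, hq, hd⟩ := Nat.exists_prime_and_dvd hne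
            exact h q hq (hd.trans h1) (hH.1 q hq (hd.trans h2))
          haveI := (Nat.card_eq_one_iff_unique.mp this).1
          infer_instance
      refine Group.isSolvable_of_ker_le_range
        (inclusion (inf_le_inf_left H (hmono (Fin.castSucc_lt_succ (i := i)).le))) g.rangeRestrict ?_
      intro u hu
      have : (u : G) ∈ N i.castSucc := (QuotientGroup.eq_one_iff _).mp (congrArg Subtype.val hu)
      exact ⟨⟨u, u.2.1, this⟩, rfl⟩
  have hs' := hs (Fin.last n)
  rw [hn, inf_top_eq] at hs'
  obtain ⟨x, y, h⟩ := BS.hall_three hsep hs' hH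
  refine ⟨x, y, Subgroup.ext (fun g => ?_)⟩
  rw [← h g]
  simp [mem_pointwise_smul_iff_inv_smul_mem, and_assoc]

end Cfsg.Agent.S4373
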