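import Cfsg.Statements.S4375
import Cfsg.Agent.H1.Base6
import Cfsg.Agent.L0.OddOrder

set_option autoImplicit false
open Cfsg

namespace Cfsg.Agent.S4375

open CfsgH1 Subgroup
open scoped commutatorElement
set_option maxHeartbeats 400000

/-- Let the finite group A of odd order act faithfully on the finite additive group V by group automorphisms, completely reducibly (every A-invariant subgroup has an A-invariant complement). Then there are v, w ∈ V such that only the identity of A fixes both. -/
theorem result {A V : Type*} [Group A] [Finite A]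
    [AddCommGroup V] [Finite V] [DistribMulAction A V] [FaithfulSMul A V] (hA : Odd (Nat.card A))
    (hcr : (∀ U : AddSubgroup V, (∀ a : A, ∀ v ∈ U, a • v ∈ U) → ∃ W : AddSubgroup V, (∀ a : A, ∀ w ∈ W, a • w ∈ W) ∧ U ⊓ W = ⊥ ∧ U ⊔ W = ⊤)) :
    ∃ v w : V, ∀ a : A, a • v = v → a • w = w → a = 1 := by
  obtain ⟨b, hb⟩ := BS.base_of_TT BS.TT_odd A V
    ⟨CfsgL0.odd_solvable hA, Nat.coprime_two_right.mpr hA⟩ (fun v => zero_smul _ v) hcr
  refine ⟨b 0, b 1, fun a h0 h1 => ?_⟩
  have := hb a (fun i => by fin_cases i; exacts [h0, h1])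
  exact FaithfulSMul.eq_of_smul_eq_smul (α := V) (fun v => by rw [this, one_smul])

end Cfsg.Agent.S4375
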