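import Cfsg.Statements.S4376
import Cfsg.Agent.H9.OrdData
-- import your own Cfsg.Agent.* helpers here

set_option autoImplicit false
open Cfsg

namespace Cfsg.Agent.S4376
open CfsgH9
open CfsgH5 CfsgH9.OT in
theorem not_solv : ¬ Group.IsSolvable (chG cL).T := by
  intro h
  have hok : okC cL = true := by decide +kernel
  have hm := CP.mem_iff_memC (okC_spec hok).1 (okC_spec hok).2
  have hcert : allL (gens cL) (fun s => certL.any fun x => band (Nat.beq x.1 s)
      (band (band (isPerm 5 31 24 x.2.1) (memC ops24 cL x.2.1)) (band (band (isPerm 5 31 24 x.2.2)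
        (memC ops24 cL x.2.2)) (Nat.beq s (mul24 (mul24 (mul24 x.2.1 x.2.2) (inv24 x.2.1)) (inv24 x.2.2)))))) =
      true := by decide +kernel
  have hperf : CP.grp (gens cL) ≤ ⁅CP.grp (gens cL), CP.grp (gens cL)⁆ := by
    refine CP.grp_le fun s hs => ?_
    have h1 := (allL_iff _ _).1 hcert s hs
    simp only [List.any_eq_true, band_eq, Bool.and_eq_true, beq_true_iff] at h1
    obtain ⟨x, -, -, ⟨h2, h3⟩, ⟨h4, h5⟩, h6⟩ := h1
    obtain ⟨a, -, ha⟩ := (Enc.fin 24).in_top24 h2
    obtain ⟨b, -, hb⟩ := (Enc.fin 24).in_top24 h4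
    have ha' : CP.code a = x.2.1 := ha
    have hb' : CP.code b = x.2.2 := hb
    refine ⟨a * b * a⁻¹ * b⁻¹, Subgroup.commutator_mem_commutator ((hm a).2 (ha' ▸ h3)) ((hm b).2 (hb' ▸ h5)), ?_⟩
    rw [CP.code_mul, CP.code_mul, CP.code_mul, CP.code_inv, CP.code_inv, ha', hb', h6]; rfl
  have hcard : Nat.card (chG cL).T = 168 := by
    rw [card_chG hok]; decide +kernel
  have hnt : Nontrivial (chG cL).T := by
    rw [← Finite.one_lt_card_iff_nontrivial, hcard]; decide
  have hlt := Group.IsSolvable.commutator_lt_top_of_nontrivial (chG cL).T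
  apply hlt.ne
  apply Subgroup.map_injective (CP.grp (gens cL)).subtype_injective
  refine le_antisymm (Subgroup.map_mono le_top) ?_
  exact (Subgroup.map_subtype_le _).trans (hperf.trans (Subgroup.map_subtype_commutator _).ge)

/-- There are finite groups G and H having the same number of elements of each order (the same order type) with G solvable and H not solvable. -/
theorem result :
    ∃ (G : Type) (_ : Group G) (_ : Finite G) (H : Type) (_ : Group H) (_ : Finite H),
      Group.IsSolvable G ∧ ¬ Group.IsSolvable H ∧ ∀ n : ℕ, Nat.card {g : G // orderOf g = n} = Nat.card {h : H // orderOf h = n} := by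
  refine ⟨(bigC OT.LG).T, inferInstance, inferInstance, (bigC OT.LH).T, inferInstance, inferInstance, ?_, ?_, ?_⟩
  · refine FGp.solvable_big fun x hx => ?_
    obtain ⟨y, hy, rfl⟩ := List.mem_map.1 hx
    exact OT.solvG y hy
  · exact FGp.not_solvable_big not_solv 11 _
  · refine FGp.orderType_eq fun d => ?_
    obtain ⟨i, hi⟩ := exists_div d
    rw [sol_bigC OT.dataG d i hi, sol_bigC OT.dataH d i hi]
    clear hi
    revert i
    decide +kernel

end Cfsg.Agent.S4376
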