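import Cfsg.Statements.S4377
import Cfsg.Agent.H4.StrEmb

set_option autoImplicit false
open Cfsg

namespace Cfsg.Agent.S4377

open CfsgH4

theorem aux (G : Type*) [Group G] [Finite G] (n : ℕ) (hn : n ≠ 0) :
    Nat.card {g : G // g ^ n = 1} = ∑ d ∈ n.divisors, Nat.card {g : G // orderOf g = d} := by
  classical
  have := Fintype.ofFinite G
  simp only [card_subtype_eq_card_filter]
  rw [Finset.card_eq_sum_card_fiberwise (f := orderOf) (t := n.divisors)]
  · refine Finset.sum_congr rfl fun d hd => ?_
    congr 1
    ext g
    simp only [Finset.mem_filter, Finset.mem_univ, true_and, and_iff_right_iff_imp]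
    rintro rfl
    exact orderOf_dvd_iff_pow_eq_one.1 (Nat.dvd_of_mem_divisors hd)
  · intro g hg
    simp only [Finset.coe_filter, Finset.mem_univ, true_and, Set.mem_setOf_eq] at hg
    simp [hn, orderOf_dvd_of_pow_eq_one hg]

/-- Two finite groups have the same number of elements of each order if and only if, for every n, they have the same number of elements g with gⁿ = 1. -/
theorem result {G H : Type*} [Group G] [Finite G] [Group H] [Finite H] :
    (∀ n : ℕ, Nat.card {g : G // orderOf g = n} = Nat.card {h : H // orderOf h = n}) ↔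
      ∀ n : ℕ, Nat.card {g : G // g ^ n = 1} = Nat.card {h : H // h ^ n = 1} := by
  constructor
  · intro h n
    let e : G ≃ H := Equiv.ofFiberEquiv (f := orderOf) (g := orderOf)
      (fun c => (Finite.card_eq.1 (h c)).some)
    refine Nat.card_congr (e.subtypeEquiv fun a => ?_)
    rw [← orderOf_dvd_iff_pow_eq_one, ← orderOf_dvd_iff_pow_eq_one,
      Equiv.ofFiberEquiv_map (f := orderOf) (g := orderOf)]
  · intro h n
    induction n using Nat.strong_induction_on with
    | _ n ih =>
      rcases Nat.eq_zero_or_pos n with rfl | hn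
      · rw [Nat.card_eq_zero.2 (Or.inl ⟨fun g => (orderOf_pos g.1).ne' g.2⟩),
          Nat.card_eq_zero.2 (Or.inl ⟨fun g => (orderOf_pos g.1).ne' g.2⟩)]
      · have := h n
        rw [aux G n hn.ne', aux H n hn.ne', ← Nat.cons_self_properDivisors hn.ne',
          Finset.sum_cons, Finset.sum_cons,
          Finset.sum_congr rfl (fun d hd => ih d (Nat.mem_properDivisors.1 hd).2)] at this
        omega

end Cfsg.Agent.S4377
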