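import Cfsg.Statements.S4381
import Cfsg.Agent.H4.Maschke

set_option autoImplicit false
open Pointwise
open Cfsg

namespace Cfsg.Agent.S4381

open Subgroup CfsgH4

/-- Let the finite group A act by automorphisms on the finite group G with the orders of A and G coprime, and assume that A or G is solvable. Call a proper A-invariant subgroup of G maximal A-invariant when no A-invariant subgroup lies strictly between it and G. Then all maximal A-invariant subgroups of G are conjugate under elements of the fixed-point subgroup C_G(A) if and only if G is a p-group for some prime p and A leaves invariant no subgroup strictly between the Frattini subgroup of G and G. In that case, if G is nontrivial, the Frattini subgroup is the only maximal A-invariant subgroup (a trivial G has none). -/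
theorem result {A G : Type*} [Group A] [Finite A]
    [Group G] [Finite G] [MulDistribMulAction A G] (hcop : (Nat.card A).Coprime (Nat.card G)) (hsol : Group.IsSolvable A ∨ Group.IsSolvable G) :
    ((∀ M N : Subgroup G, (M ≠ ⊤ ∧ (∀ a : A, ∀ x ∈ M, a • x ∈ M) ∧ ∀ L : Subgroup G, M < L → (∀ a : A, ∀ x ∈ L, a • x ∈ L) → L = ⊤) → (N ≠ ⊤ ∧ (∀ a : A, ∀ x ∈ N, a • x ∈ N) ∧ ∀ L : Subgroup G, N < L → (∀ a : A, ∀ x ∈ L, a • x ∈ L) → L = ⊤) →
        ∃ c : G, (∀ a : A, a • c = c) ∧ N = MulAut.conj c • M) ↔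
      ((∃ p : ℕ, p.Prime ∧ IsPGroup p G) ∧ ∀ L : Subgroup G, frattini G < L → (∀ a : A, ∀ x ∈ L, a • x ∈ L) → L = ⊤)) ∧
    (((∃ p : ℕ, p.Prime ∧ IsPGroup p G) ∧ ∀ L : Subgroup G, frattini G < L → (∀ a : A, ∀ x ∈ L, a • x ∈ L) → L = ⊤) →
      ∀ M : Subgroup G, (M ≠ ⊤ ∧ (∀ a : A, ∀ x ∈ M, a • x ∈ M) ∧ ∀ L : Subgroup G, M < L → (∀ a : A, ∀ x ∈ L, a • x ∈ L) → L = ⊤) ↔ (M = frattini G ∧ M ≠ ⊤)) := by
  let φ : A →* MulAut G := MulDistribMulAction.toMulAut A G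
  have hφ : ∀ a x, φ a x = a • x := fun _ _ => rfl
  have hΦ : ∀ a : A, ∀ x ∈ frattini G, a • x ∈ frattini G := fun a x hx =>
    (characteristic_iff_le_comap.1 frattini_characteristic (φ a)) hx
  have hsup : ∀ M N : Subgroup G, (∀ a : A, ∀ x ∈ M, a • x ∈ M) → (∀ a : A, ∀ x ∈ N, a • x ∈ N) →
      ∀ a : A, ∀ x ∈ M ⊔ N, a • x ∈ M ⊔ N := fun M N hM hN a =>
    show M ⊔ N ≤ (M ⊔ N).comap (φ a).toMonoidHom from
      sup_le (fun x hx => mem_sup_left (hM a x hx)) (fun x hx => mem_sup_right (hN a x hx))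
  have hle : ∀ M : Subgroup G, (M ≠ ⊤ ∧ (∀ a : A, ∀ x ∈ M, a • x ∈ M) ∧ ∀ L : Subgroup G, M < L →
      (∀ a : A, ∀ x ∈ L, a • x ∈ L) → L = ⊤) → frattini G ≤ M := by
    intro M ⟨h1, h2, h3⟩
    by_contra h
    exact h1 (frattini_nongenerating (h3 _ (left_lt_sup.2 h) (hsup _ _ h2 hΦ)))
  have hex : ∀ K : Subgroup G, K ≠ ⊤ → (∀ a : A, ∀ x ∈ K, a • x ∈ K) → ∃ M : Subgroup G, K ≤ M ∧
      (M ≠ ⊤ ∧ (∀ a : A, ∀ x ∈ M, a • x ∈ M) ∧ ∀ L : Subgroup G, M < L →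
      (∀ a : A, ∀ x ∈ L, a • x ∈ L) → L = ⊤) := by
    intro K h1 h2
    obtain ⟨M, hM⟩ := (Set.toFinite {M : Subgroup G | K ≤ M ∧ M ≠ ⊤ ∧
      ∀ a : A, ∀ x ∈ M, a • x ∈ M}).exists_maximal ⟨K, le_rfl, h1, h2⟩
    refine ⟨M, hM.prop.1, hM.prop.2.1, hM.prop.2.2, fun L h3 h4 => ?_⟩
    by_contra h5
    exact h3.not_ge (hM.le_of_ge ⟨hM.prop.1.trans h3.le, h5, h4⟩ h3.le)
  have h2 : ((∃ p : ℕ, p.Prime ∧ IsPGroup p G) ∧ ∀ L : Subgroup G, frattini G < L →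
      (∀ a : A, ∀ x ∈ L, a • x ∈ L) → L = ⊤) →
      ∀ M : Subgroup G, (M ≠ ⊤ ∧ (∀ a : A, ∀ x ∈ M, a • x ∈ M) ∧ ∀ L : Subgroup G, M < L →
      (∀ a : A, ∀ x ∈ L, a • x ∈ L) → L = ⊤) ↔ (M = frattini G ∧ M ≠ ⊤) := by
    rintro ⟨-, h⟩ M
    constructor
    · intro hM
      refine ⟨?_, hM.1⟩
      by_contra hne
      exact hM.1 (h M (lt_of_le_of_ne (hle M hM) (Ne.symm hne)) hM.2.1)
    · rintro ⟨rfl, h1⟩
      exact ⟨h1, hΦ, h⟩
  refine ⟨⟨fun h => ?_, fun h M N hM hN => ⟨1, fun a => smul_one a, ?_⟩⟩, h2⟩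
  swap
  · rw [((h2 h M).1 hM).1, ((h2 h N).1 hN).1, map_one, one_smul]
  obtain ⟨p, hp, hG⟩ : ∃ p : ℕ, p.Prime ∧ IsPGroup p G := by
    rcases subsingleton_or_nontrivial G with hG | hG
    · exact ⟨2, Nat.prime_two, fun g => ⟨0, Subsingleton.elim _ _⟩⟩
    obtain ⟨M, -, hM⟩ := hex ⊥ bot_ne_top (fun a x hx => by rw [mem_bot.1 hx, smul_one]; exact one_mem _)
    obtain ⟨p, hp, hpM⟩ := Nat.exists_prime_and_dvd (index_eq_one.not.2 hM.1)
    have := Fact.mk hp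
    obtain ⟨P, hP⟩ := exists_invariant_sylow_ext φ hcop hsol p
    refine ⟨p, hp, ?_⟩
    by_cases hPt : (P : Subgroup G) = ⊤
    · exact (hPt ▸ P.isPGroup').of_equiv topEquiv
    exfalso
    obtain ⟨N, hPN, hN⟩ := hex P hPt hP
    obtain ⟨c, -, hc⟩ := h M N hM hN
    apply P.not_dvd_index
    refine hpM.trans (dvd_trans ?_ (index_dvd_of_le hPN))
    rw [hc]
    exact dvd_of_eq (index_map_equiv M (MulAut.conj c)).symm
  refine ⟨⟨p, hp, hG⟩, fun L hL hLi => ?_⟩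
  have := Fact.mk hp
  by_contra hLt
  obtain ⟨M, hLM, hM⟩ := hex L hLt hLi
  have hΦM := hle M hM
  have hMn : M.Normal := Normal.of_commutator_le _ ((CfsgH2.commutator_le_frattini hG).trans hΦM)
  have hcomm : IsMulCommutative (G ⧸ frattini G) :=
    Normal.quotient_commutative_iff_commutator_le.2 (CfsgH2.commutator_le_frattini hG)
  obtain ⟨N, hN⟩ := exists_isCompl_of_exponent hp (fun v : G ⧸ frattini G => by
    obtain ⟨v, rfl⟩ := QuotientGroup.mk_surjective v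
    rw [← QuotientGroup.mk_pow, QuotientGroup.eq_one_iff]
    exact CfsgH2.pow_mem_frattini hG v) (M.map (QuotientGroup.mk' _))
  obtain ⟨K, hK, hKi⟩ := maschke (CfsgH2.quotAut φ (frattini G) hΦ)
    (hcop.coprime_dvd_right (card_quotient_dvd_card _)) (by
      rintro a _ ⟨x, hx, rfl⟩
      exact ⟨_, hM.2.1 a x hx, rfl⟩) hN
  obtain ⟨M', hKM, hM'⟩ := hex (K.comap (QuotientGroup.mk' _)) (by
    intro h1
    obtain ⟨x, hx, hx'⟩ := SetLike.exists_of_lt hL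
    have : (x : G ⧸ frattini G) ∈ M.map (QuotientGroup.mk' _) ⊓ K :=
      ⟨⟨x, hLM hx, rfl⟩, (h1 ▸ mem_top x : x ∈ K.comap (QuotientGroup.mk' _))⟩
    rw [hK.inf_eq_bot, mem_bot, QuotientGroup.eq_one_iff] at this
    exact hx' this) (fun a x hx => hKi a _ hx)
  obtain ⟨c, -, hc⟩ := h M M' hM hM'
  rw [hMn.conj_smul_eq_self] at hc
  subst hc
  apply hM.1
  have h3 : K ≤ M'.map (QuotientGroup.mk' (frattini G)) := by
    intro k hk
    obtain ⟨k, rfl⟩ := QuotientGroup.mk_surjective k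
    exact ⟨k, hKM hk, rfl⟩
  have h4 := hK.sup_eq_top
  rw [sup_eq_left.2 h3] at h4
  have h5 := congrArg (comap (QuotientGroup.mk' (frattini G))) h4
  rwa [comap_map_eq, QuotientGroup.ker_mk', sup_eq_left.2 hΦM, comap_top] at h5

end Cfsg.Agent.S4381
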