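import Cfsg.Statements.S4383
import Cfsg.Agent.H2.Generation

set_option autoImplicit false
open Pointwise
open Cfsg

namespace Cfsg.Agent.S4383

universe u

section aux
open Subgroup MulAction

theorem count {P Ω : Type*} [Group P] [MulAction P Ω] [Finite Ω] (a₀ : Ω) (h0 : ∀ g : P, g • a₀ = a₀)
    (m : ℕ) (h : ∀ a, a ≠ a₀ → m ∣ (stabilizer P a).index) : m ∣ Nat.card Ω - 1 := by
  classical
  haveI := Fintype.ofFinite (orbitRel.Quotient P Ω)
  have h1 : orbit P a₀ = {a₀} := by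
    ext x
    exact ⟨fun ⟨g, hg⟩ => hg.symm.trans (h0 g), fun hx => ⟨1, (one_smul P a₀).trans hx.symm⟩⟩
  rw [Nat.card_congr (selfEquivSigmaOrbits' P Ω), Nat.card_sigma,
    ← Finset.add_sum_erase _ _ (Finset.mem_univ (Quotient.mk'' a₀ : orbitRel.Quotient P Ω)),
    orbitRel.Quotient.orbit_mk, h1, Nat.card_unique, Nat.add_sub_cancel_left]
  refine Finset.dvd_sum fun ω hω => ?_
  induction ω using Quotient.inductionOn' with
  | h a =>
    rw [orbitRel.Quotient.orbit_mk, Nat.card_coe_set_eq, ← index_stabilizer]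
    exact h a fun e => (Finset.mem_erase.1 hω).1 (by rw [e])

variable {G : Type*} [Group G]

/-- `H` fixes a coset of `M` -/
def Fx (H M : Subgroup G) : Prop := ∃ α : G ⧸ M, H ≤ stabilizer G α

theorem fx_iff {H M : Subgroup G} : Fx H M ↔ ∃ g : G, ∀ h ∈ H, g⁻¹ * (h * g) ∈ M := by
  have e : ∀ g h : G, h ∈ stabilizer G (g : G ⧸ M) ↔ g⁻¹ * (h * g) ∈ M := fun g h => by
    rw [mem_stabilizer_iff, MulAction.Quotient.smul_mk, eq_comm, QuotientGroup.eq, smul_eq_mul]
  refine ⟨fun ⟨α, h⟩ => ?_, fun ⟨g, h⟩ => ⟨g, fun x hx => (e g x).2 (h x hx)⟩⟩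
  obtain ⟨g, rfl⟩ := QuotientGroup.mk_surjective α
  exact ⟨g, fun x hx => (e g x).1 (h hx)⟩

/-- every proper subgroup is conjugate into `M₁` or `M₂` -/
def Two (M₁ M₂ : Subgroup G) : Prop := ∀ H : Subgroup G, H ≠ ⊤ → Fx H M₁ ∨ Fx H M₂

theorem Two.symm {M₁ M₂ : Subgroup G} (h : Two M₁ M₂) : Two M₂ M₁ := fun H hH => (h H hH).symm

theorem index_stab {M : Subgroup G} (α : G ⧸ M) : (stabilizer G α).index = M.index := by
  rw [index_stabilizer_of_transitive]; rfl

theorem Fx.index_dvd {H M : Subgroup G} (h : Fx H M) : M.index ∣ H.index := by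
  obtain ⟨α, h⟩ := h
  rw [← index_stab α]; exact index_dvd_of_le h

variable [Finite G]

theorem Fx.card_dvd {H M : Subgroup G} (h : Fx H M) : Nat.card H ∣ Nat.card M := by
  obtain ⟨α, h⟩ := h
  have h1 := (stabilizer G α).card_mul_index
  rw [index_stab, ← M.card_mul_index, Nat.mul_left_inj index_ne_zero_of_finite] at h1
  rw [← h1]; exact card_dvd_of_le h

theorem exists_norm {p : ℕ} [Fact p.Prime] {R P : Subgroup G} (hP : IsPGroup p P) (h : R < P) :
    R < P ⊓ normalizer (R : Set G) := by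
  haveI := hP.isNilpotent
  have h1 := Group.normalizerCondition_of_isNilpotent (G := P) (R.subgroupOf P)
    (lt_top_iff_ne_top.2 fun e => h.not_ge (subgroupOf_eq_top.1 e))
  obtain ⟨y, hy, hy'⟩ := SetLike.exists_of_lt h1
  rw [← subgroupOf_normalizer_eq h.le] at hy
  exact lt_of_le_of_ne (le_inf h.le le_normalizer) fun e => hy' (by
    show (y : G) ∈ R
    rw [e]; exact ⟨y.2, hy⟩)

theorem uniq [IsSimpleGroup G] {p : ℕ} [Fact p.Prime] (hG : ¬ IsPGroup p G) {M₁ M₂ : Subgroup G}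
    (h : Two M₁ M₂) (h2 : ¬ p ∣ M₂.index) (k : ℕ) : ∀ R : Subgroup G, IsPGroup p R →
    ¬ Nat.card R ∣ Nat.card M₁ → R.index = k → ∀ α β : G ⧸ M₂, R ≤ stabilizer G α →
    R ≤ stabilizer G β → α = β := by
  induction k using Nat.strong_induction_on with
  | _ k ih =>
  intro R hR hc hk
  have hN : normalizer (R : Set G) ≠ ⊤ := fun e => by
    rcases (normalizer_eq_top_iff.1 e).eq_bot_or_eq_top with e | e
    · exact hc (by simp [e])
    · exact hG ((e ▸ hR :).of_equiv topEquiv)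
  obtain ⟨γ, hγ⟩ := (h _ hN).resolve_left fun h1 =>
    hc ((card_dvd_of_le le_normalizer).trans h1.card_dvd)
  suffices H : ∀ α : G ⧸ M₂, R ≤ stabilizer G α → α = γ from
    fun α β h1 h2 => (H α h1).trans (H β h2).symm
  intro α hα
  by_cases hp : p ∣ R.index
  · obtain ⟨Q, hQ⟩ := (hR.comap_subtype (K := stabilizer G α)).exists_le_sylow
    have h3 : R ≤ (Q : Subgroup (stabilizer G α)).map (stabilizer G α).subtype := fun x hx =>
      ⟨⟨x, hα hx⟩, hQ hx, rfl⟩
    have h4 : R ≠ (Q : Subgroup (stabilizer G α)).map (stabilizer G α).subtype := fun e => by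
      rw [e, index_map_subtype, index_stab] at hp
      exact ((Fact.out : p.Prime).dvd_mul.1 hp).elim Q.not_dvd_index h2
    have h5 := exists_norm (Q.2.map _) (lt_of_le_of_ne h3 h4)
    refine ih _ (hk ▸ index_strictAnti h5) _ ((Q.2.map _).to_le inf_le_left)
      (fun h6 => hc ((card_dvd_of_le h5.le).trans h6)) rfl α γ
      (inf_le_left.trans (map_subtype_le _)) (inf_le_right.trans hγ)
  · set P := hR.toSylow hp
    obtain ⟨x, rfl⟩ := exists_smul_eq G α γ
    have h3 : (P : Subgroup G) ≤ stabilizer G (x • α) := le_normalizer.trans hγ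
    have h4 : ((x • P : Sylow p G) : Subgroup G) ≤ stabilizer G (x • α) := by
      rw [stabilizer_smul_eq_stabilizer_map_conj]
      exact map_mono hα
    obtain ⟨t, ht⟩ := exists_smul_eq (stabilizer G (x • α)) ((x • P).subtype h4) (P.subtype h3)
    rw [Sylow.smul_subtype] at ht
    have h5 : ((t : G) * x) • P = P := by rw [mul_smul]; exact Sylow.subtype_injective ht
    have h6 : (t : G) * x ∈ stabilizer G (x • α) := hγ (Sylow.smul_eq_iff_mem_normalizer.1 h5)
    have h7 : x • x • α = x • α := (mul_mem_cancel_left t.2).1 h6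
    exact (smul_left_cancel x h7).symm

theorem index_dvd [IsSimpleGroup G] (hG : ∀ p : ℕ, p.Prime → ¬ IsPGroup p G) {M₁ M₂ : Subgroup G}
    (h : Two M₁ M₂) : M₁.index ∣ M₂.index - 1 := by
  refine (Nat.dvd_iff_prime_pow_dvd_dvd _ _).2 fun p k hp hk => ?_
  rcases Nat.eq_zero_or_pos k with rfl | k0
  · simp
  haveI := Fact.mk hp
  obtain ⟨P⟩ := (inferInstance : Nonempty (Sylow p G))
  have h1 : (P : Subgroup G) ≠ ⊤ := fun e => hG p hp ((e ▸ P.2 :).of_equiv topEquiv)
  have h2 := (h _ h1).resolve_left fun h2 =>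
    P.not_dvd_index (((dvd_pow_self p k0.ne').trans hk).trans h2.index_dvd)
  have h3 : ¬ p ∣ M₂.index := fun h3 => P.not_dvd_index (h3.trans h2.index_dvd)
  obtain ⟨α, hα⟩ := h2
  refine count (P := (P : Subgroup G)) α (fun g => hα g.2) _ fun a ha => ?_
  have h4 : IsPGroup p ((P : Subgroup G) ⊓ stabilizer G a : Subgroup G) := P.2.to_le inf_le_left
  have h5 : Nat.card ((P : Subgroup G) ⊓ stabilizer G a : Subgroup G) ∣ Nat.card M₁ := by
    by_contra h5
    exact ha (uniq (hG p hp) h h3 _ _ h4 h5 rfl a α inf_le_right (inf_le_left.trans hα))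
  have h6 : (stabilizer (P : Subgroup G) a).index =
      ((P : Subgroup G) ⊓ stabilizer G a).relIndex P := by
    rw [inf_relIndex_left]; rfl
  have h7 := Nat.mul_dvd_mul h5 hk
  rw [card_mul_index, ← (P : Subgroup G).card_mul_index,
    ← CfsgH2.card_mul_relIndex (inf_le_left : (P : Subgroup G) ⊓ stabilizer G a ≤ P), mul_assoc,
    Nat.mul_dvd_mul_iff_left Nat.card_pos] at h7
  rw [h6]
  exact ((hp.coprime_iff_not_dvd.2 P.not_dvd_index).pow_left k).dvd_of_dvd_mul_right h7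

theorem not_simple [IsSimpleGroup G] (hG : ∀ p : ℕ, p.Prime → ¬ IsPGroup p G) {M₁ M₂ : Subgroup G}
    (h1 : M₁ ≠ ⊤) (h2 : M₂ ≠ ⊤) (h : Two M₁ M₂) : False := by
  have k1 := index_dvd hG h
  have k2 := index_dvd hG h.symm
  have k3 := one_lt_index_of_ne_top h1
  have k4 := one_lt_index_of_ne_top h2
  have k5 := Nat.le_of_dvd (by omega) k1
  have k6 := Nat.le_of_dvd (by omega) k2
  omega

omit [Finite G] in
theorem Fx.le {N M : Subgroup G} [hN : N.Normal] (h : Fx N M) : N ≤ M := fun n hn => by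
  obtain ⟨g, h⟩ := fx_iff.1 h
  simpa [mul_assoc] using h _ (hN.conj_mem n hn g)

omit [Finite G] in
theorem Fx.sup {N K M : Subgroup G} [hN : N.Normal] (h : N ≤ M) (hK : Fx K M) (e : K ⊔ N = ⊤) :
    M = ⊤ := by
  obtain ⟨α, hα⟩ := hK
  obtain ⟨g, rfl⟩ := QuotientGroup.mk_surjective α
  have : N ≤ stabilizer G (g : G ⧸ M) := fun n hn => by
    rw [mem_stabilizer_iff, MulAction.Quotient.smul_mk, eq_comm, QuotientGroup.eq, smul_eq_mul]
    simpa [mul_assoc] using h (hN.conj_mem n hn g⁻¹)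
  rw [← index_eq_one, ← index_stab (g : G ⧸ M), index_eq_one, eq_top_iff, ← e]
  exact sup_le hα this

theorem frat {N M₁ M₂ : Subgroup G} [N.Normal] (hN : ¬ Group.IsSolvable N)
    (hmin : ∀ K : Subgroup G, K.Normal → K ≠ ⊥ → K ≤ N → N ≤ K) (h1 : M₁ ≠ ⊤) (h2 : M₂ ≠ ⊤)
    (h : Two M₁ M₂) (hle : N ≤ M₁) : False := by
  have key : ∀ p : ℕ, p.Prime → p ∣ Nat.card N → ∀ P : Sylow p N,
      Fx (normalizer (((P : Subgroup N).map N.subtype : Subgroup G) : Set G)) M₂ ∧
      normalizer (((P : Subgroup N).map N.subtype : Subgroup G) : Set G) ⊔ N = ⊤ :=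
    fun p hp hd P => by
      haveI := Fact.mk hp
      have e := P.normalizer_sup_eq_top
      refine ⟨(h _ fun e1 => hN ?_).resolve_left fun k => h1 (k.sup hle e), e⟩
      have k1 := hmin _ (normalizer_eq_top_iff.1 e1) (fun k => P.ne_bot_of_dvd_card hd
        ((map_eq_bot_iff_of_injective _ N.subtype_injective).1 k)) (map_subtype_le _)
      haveI := ((P.2.map N.subtype).to_le k1).isNilpotent
      infer_instance
  have k2 : Nat.card N ∣ Nat.card (M₂ ⊓ N : Subgroup G) := by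
    refine (Nat.dvd_iff_prime_pow_dvd_dvd _ _).2 fun p k hp hk => ?_
    rcases Nat.eq_zero_or_pos k with rfl | k0
    · simp
    haveI := Fact.mk hp
    obtain ⟨P⟩ := (inferInstance : Nonempty (Sylow p N))
    obtain ⟨g, hg⟩ := fx_iff.1 (key p hp ((dvd_pow_self p k0.ne').trans hk) P).1
    have : Fx ((P : Subgroup N).map N.subtype) (M₂ ⊓ N) := fx_iff.2 ⟨g, fun x hx =>
      ⟨hg x (le_normalizer hx), by
        simpa [mul_assoc] using (inferInstance : N.Normal).conj_mem x (map_subtype_le _ hx) g⁻¹⟩⟩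
    refine (P.pow_dvd_card_of_pow_dvd_card hk).trans ?_
    rw [← card_map_of_injective N.subtype_injective]
    exact this.card_dvd
  have k3 : N ≤ M₂ := by
    rw [← eq_of_le_of_card_ge (inf_le_right : M₂ ⊓ N ≤ N) (Nat.le_of_dvd Nat.card_pos k2)]
    exact inf_le_left
  have k4 : Nat.card N ≠ 1 := fun e => hN (by
    haveI := (Nat.card_eq_one_iff_unique.1 e).1
    infer_instance)
  obtain ⟨p, hp, hd⟩ := Nat.exists_prime_and_dvd k4
  obtain ⟨P⟩ := (inferInstance : Nonempty (Sylow p N))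
  exact h2 ((key p hp hd P).1.sup k3 (key p hp hd P).2)

theorem solv (k : ℕ) : ∀ (G : Type u) [Group G] [Finite G] (M₁ M₂ : Subgroup G), Nat.card G = k →
    M₁ ≠ ⊤ → M₂ ≠ ⊤ → Two M₁ M₂ → Group.IsSolvable G := by
  induction k using Nat.strong_induction_on with
  | _ k ih =>
  intro G _ _ M₁ M₂ hk h1 h2 h
  have hb : (⊤ : Subgroup G) ≠ ⊥ := fun e => h1 (top_le_iff.1 (e.le.trans bot_le))
  obtain ⟨N, hN⟩ := exists_minimal_of_wellFoundedLT (fun K : Subgroup G => K.Normal ∧ K ≠ ⊥)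
    ⟨⊤, inferInstance, hb⟩
  haveI := hN.prop.1
  have hmin : ∀ K : Subgroup G, K.Normal → K ≠ ⊥ → K ≤ N → N ≤ K := fun K a b c => hN.2 ⟨a, b⟩ c
  have hlt : Nat.card (G ⧸ N) < k := by
    rw [← hk, ← N.card_mul_index]
    exact lt_mul_of_one_lt_left (Nat.pos_of_ne_zero index_ne_zero_of_finite)
      ((one_lt_card_iff_ne_bot N).2 hN.prop.2)
  have q1 : ∀ M : Subgroup G, M ≠ ⊤ → N ≤ M → M.map (QuotientGroup.mk' N) ≠ ⊤ := fun M a b e =>
    a (by rw [← comap_map_eq_self (f := QuotientGroup.mk' N) (H := M) (by rwa [QuotientGroup.ker_mk']), e,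
      comap_top])
  have q2 : ∀ (M : Subgroup G) (H : Subgroup (G ⧸ N)), Fx (H.comap (QuotientGroup.mk' N)) M →
      N ≤ M ∧ Fx H (M.map (QuotientGroup.mk' N)) := fun M H f => by
    obtain ⟨g, hg⟩ := fx_iff.1 f
    refine ⟨Fx.le (fx_iff.2 ⟨g, fun x hx => hg x ?_⟩), fx_iff.2 ⟨g, fun x hx => ?_⟩⟩
    · rw [mem_comap, QuotientGroup.mk'_apply, (QuotientGroup.eq_one_iff x).2 hx]; exact one_mem _
    · obtain ⟨x, rfl⟩ := QuotientGroup.mk_surjective x
      exact ⟨_, hg x hx, rfl⟩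
  have q3 : ∀ H : Subgroup (G ⧸ N), H ≠ ⊤ → (N ≤ M₁ ∧ Fx H (M₁.map (QuotientGroup.mk' N))) ∨
      (N ≤ M₂ ∧ Fx H (M₂.map (QuotientGroup.mk' N))) := fun H hH =>
    (h _ fun e => hH (comap_injective (QuotientGroup.mk'_surjective N) (e.trans (comap_top _).symm))).imp
      (q2 _ H) (q2 _ H)
  haveI hQ : Group.IsSolvable (G ⧸ N) := by
    by_cases a : N ≤ M₁ <;> by_cases b : N ≤ M₂
    · exact ih _ hlt _ _ _ rfl (q1 _ h1 a) (q1 _ h2 b) fun H hH => (q3 H hH).imp And.right And.right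
    · exact ih _ hlt _ _ _ rfl (q1 _ h1 a) (q1 _ h1 a) fun H hH =>
        Or.inl ((q3 H hH).resolve_right fun c => b c.1).2
    · exact ih _ hlt _ _ _ rfl (q1 _ h2 b) (q1 _ h2 b) fun H hH =>
        Or.inl ((q3 H hH).resolve_left fun c => a c.1).2
    · have : (⊥ : Subgroup (G ⧸ N)) = ⊤ := by
        by_contra c
        exact (q3 _ c).elim (fun c => a c.1) fun c => b c.1
      haveI : Subsingleton (G ⧸ N) := subsingleton_iff.1 (subsingleton_of_bot_eq_top this)
      infer_instance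
  by_cases hs : Group.IsSolvable N
  · exact Group.isSolvable_of_ker_le_range N.subtype (QuotientGroup.mk' N) (by simp)
  exfalso
  by_cases ht : N = ⊤
  · haveI := (nontrivial_iff_ne_bot ⊤).2 hb
    haveI : Nontrivial G := (topEquiv (G := G)).injective.nontrivial
    haveI : IsSimpleGroup G := ⟨fun K hK => or_iff_not_imp_left.2 fun e =>
      top_le_iff.1 (ht ▸ hmin K hK e (ht ▸ le_top))⟩
    refine not_simple (fun p hp hG => hs ?_) h1 h2 h
    haveI := Fact.mk hp
    haveI := (hG.to_subgroup N).isNilpotent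
    infer_instance
  · rcases h N ht with f | f
    exacts [frat hs hmin h1 h2 h f.le, frat hs hmin h2 h1 h.symm f.le]

end aux


/-- A finite group with exactly two conjugacy classes of maximal subgroups is solvable and its order has exactly two prime divisors. -/
theorem result {G : Type*} [Group G] [Finite G]
    (M₁ M₂ : Subgroup G) (h1 : IsCoatom M₁) (h2 : IsCoatom M₂) (hne : ∀ g : G, M₂ ≠ MulAut.conj g • M₁)
    (hall : ∀ M : Subgroup G, IsCoatom M → ∃ g : G, M = MulAut.conj g • M₁ ∨ M = MulAut.conj g • M₂) :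
    Group.IsSolvable G ∧ (Nat.card G).primeFactors.card = 2 := by
  have fx : ∀ (H M : Subgroup G) (g : G), H ≤ MulAut.conj g • M → Fx H M := fun H M g h =>
    fx_iff.2 ⟨g, fun x hx => by
      have := Subgroup.mem_pointwise_smul_iff_inv_smul_mem.1 (h hx)
      simpa [mul_assoc] using this⟩
  have two : Two M₁ M₂ := fun H hH => by
    obtain ⟨M, hM, hle⟩ := (eq_top_or_exists_le_coatom H).resolve_left hH
    obtain ⟨g, rfl | rfl⟩ := hall M hM
    exacts [Or.inl (fx _ _ g hle), Or.inr (fx _ _ g hle)]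
  haveI hs := solv _ G M₁ M₂ rfl h1.1 h2.1 two
  refine ⟨hs, le_antisymm ?_ ?_⟩
  · have key : ∀ p ∈ (Nat.card G).primeFactors, (∀ q : ℕ, q.Prime → q ∣ M₁.index → q = p) ∨
        ∀ q : ℕ, q.Prime → q ∣ M₂.index → q = p := fun p hp => by
      obtain ⟨H, k1, k2, -⟩ := CfsgH2.hall_aux {p}ᶜ _ G rfl
      have hH : H ≠ ⊤ := fun e => k1 p (Nat.prime_of_mem_primeFactors hp) (by
        rw [e, Subgroup.card_top]; exact Nat.dvd_of_mem_primeFactors hp) rfl
      exact (two H hH).imp (fun f q a b => by simpa using k2 q a (b.trans f.index_dvd))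
        fun f q a b => by simpa using k2 q a (b.trans f.index_dvd)
    obtain ⟨p, hp, dp⟩ := Nat.exists_prime_and_dvd (mt Subgroup.index_eq_one.1 h1.1)
    obtain ⟨q, hq, dq⟩ := Nat.exists_prime_and_dvd (mt Subgroup.index_eq_one.1 h2.1)
    refine le_trans (Finset.card_le_card (t := {p, q}) fun r hr => ?_) Finset.card_le_two
    rcases key r hr with k | k
    · simp [k p hp dp]
    · simp [k q hq dq]
  · by_contra hc
    obtain ⟨p, hp, dp⟩ := Nat.exists_prime_and_dvd (mt Subgroup.index_eq_one.1 h1.1)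
    haveI := Fact.mk hp
    have hpm : p ∈ (Nat.card G).primeFactors :=
      Nat.mem_primeFactors.2 ⟨hp, dp.trans M₁.index_dvd_card, Nat.card_pos.ne'⟩
    have hG : IsPGroup p G := IsPGroup.of_card (Nat.eq_prime_pow_of_unique_prime_dvd
      Nat.card_pos.ne' fun {d} a b => Finset.card_le_one.1 (by omega) d
        (Nat.mem_primeFactors.2 ⟨a, b, Nat.card_pos.ne'⟩) p hpm)
    haveI := hG.isNilpotent
    have nm : ∀ M : Subgroup G, IsCoatom M → M.Normal := fun M hM =>
      Subgroup.NormalizerCondition.normal_of_coatom M Group.normalizerCondition_of_isNilpotent hM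
    haveI := nm _ h1
    haveI := nm _ h2
    have h12 : M₂ ≠ M₁ := by simpa using hne 1
    obtain ⟨x, x1, x2⟩ := SetLike.not_le_iff_exists.1 fun h : M₁ ≤ M₂ =>
      h12 ((h1.le_iff.1 h).resolve_left h2.1)
    obtain ⟨y, y2, y1⟩ := SetLike.not_le_iff_exists.1 fun h : M₂ ≤ M₁ =>
      h12 ((h2.le_iff.1 h).resolve_left h1.1).symm
    have hcyc : Subgroup.zpowers (x * y) = ⊤ := by
      by_contra e
      obtain ⟨M, hM, hle⟩ := (eq_top_or_exists_le_coatom _).resolve_left e
      haveI := nm M hM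
      have hm := hle (Subgroup.mem_zpowers _)
      rcases two M hM.1 with f | f
      · exact y1 ((mul_mem_cancel_left x1).1 (f.le hm))
      · exact x2 ((mul_mem_cancel_right y2).1 (f.le hm))
    generalize hg : x * y = g at hcyc
    have dv : ∀ (M : Subgroup G) (a : ℤ), M ≠ ⊤ → g ^ a ∈ M → (p : ℤ) ∣ a := fun M a hM ha => by
      by_contra hn
      obtain ⟨n, hn'⟩ := hG g
      have hco : IsCoprime ((p : ℤ) ^ n) a :=
        ((Nat.prime_iff_prime_int.1 hp).coprime_iff_not_dvd.2 hn).pow_left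
      obtain ⟨u, v, huv⟩ := hco
      refine hM (top_le_iff.1 (hcyc ▸ (Subgroup.zpowers_le_of_mem ?_)))
      rw [← zpow_one g, ← huv, zpow_add, mul_comm u, mul_comm v, zpow_mul, zpow_mul,
        ← Nat.cast_pow, zpow_natCast, hn', one_zpow, one_mul]
      exact zpow_mem ha v
    obtain ⟨a, ha⟩ := Subgroup.mem_zpowers_iff.1 (hcyc ▸ Subgroup.mem_top x)
    obtain ⟨b, hb⟩ := Subgroup.mem_zpowers_iff.1 (hcyc ▸ Subgroup.mem_top y)
    have d1 := dv M₁ a h1.1 (ha ▸ x1)
    have d2 := dv M₂ b h2.1 (hb ▸ y2)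
    have d3 := dv ⊥ (a + b - 1) (fun e => h1.1 (top_le_iff.1 (e ▸ bot_le))) (by
      rw [Subgroup.mem_bot, zpow_sub, zpow_add, ha, hb, hg]; simp)
    have d4 : (p : ℤ) ∣ 1 := by
      have := (d1.add d2).sub d3
      simpa using this
    exact hp.one_lt.ne' (by exact_mod_cast Int.eq_one_of_dvd_one (by positivity) d4)

end Cfsg.Agent.S4383
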