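import Cfsg.Statements.S4385
import Cfsg.Agent.H3.PB4

set_option autoImplicit false
open Pointwise
open Cfsg

namespace Cfsg.Agent.S4385

/-- Let H be a subgroup of a finite group G whose largest normal 2-subgroup O_2(H) is nontrivial and such that H/O_2(H) is a dihedral group of order at least 4. Let P be a Sylow 2-subgroup of H and S a Sylow 2-subgroup of G containing P. Suppose y ∈ S lies outside P, normalizes P, has y² in the product of P with the centralizer of P in G, and normalizes no non-identity normal subgroup of H contained in P. Then P has order 4, 8 or 16, and H modulo its largest normal subgroup of odd order is isomorphic to the four-group, to the symmetric group of degree 4, or to the direct product of the symmetric group of degree 4 with a group of order 2. -/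
theorem result {G : Type*} [Group G] [Finite G]
    (H : Subgroup G) (hO : Cfsg.pCore 2 ↥H ≠ ⊥) (n : ℕ) (hn : 2 ≤ n) (hdih : Nonempty (↥H ⧸ Cfsg.pCore 2 ↥H ≃* DihedralGroup n))
    (P : Subgroup G) (hPH : P ≤ H) (hP : IsPGroup 2 P) (hPsyl : ¬ 2 ∣ P.relIndex H)
    (S : Sylow 2 G) (hPS : P ≤ (S : Subgroup G)) (y : G) (hyS : y ∈ (S : Subgroup G)) (hyP : y ∉ P)
    (hy2 : y ^ 2 ∈ P ⊔ Subgroup.centralizer (P : Set G)) (hyN : MulAut.conj y • P = P)
    (hyQ : ∀ Q : Subgroup G, Q ≤ P → (Q.subgroupOf H).Normal → MulAut.conj y • Q = Q → Q = ⊥) :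
    (Nat.card P = 4 ∨ Nat.card P = 8 ∨ Nat.card P = 16) ∧
    (Nonempty (↥H ⧸ Cfsg.oddCore ↥H ≃* Multiplicative (ZMod 2) × Multiplicative (ZMod 2)) ∨
     Nonempty (↥H ⧸ Cfsg.oddCore ↥H ≃* Equiv.Perm (Fin 4)) ∨
     Nonempty (↥H ⧸ Cfsg.oddCore ↥H ≃* Equiv.Perm (Fin 4) × Multiplicative (ZMod 2))) := by
  obtain ⟨e⟩ := hdih
  let g : H →* DihedralGroup n := e.toMonoidHom.comp (QuotientGroup.mk' _)
  have hg : Function.Surjective g := e.surjective.comp (QuotientGroup.mk'_surjective _)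
  have hk : g.ker = Cfsg.pCore 2 H :=
    (MonoidHom.ker_mulEquiv_comp _ e).trans (QuotientGroup.ker_mk' _)
  have hQ : IsPGroup 2 g.ker := hk ▸ CfsgL0.isPGroup_pCore H 2
  have hodd : Odd n := by
    by_contra hev
    obtain ⟨m, rfl⟩ := Nat.not_odd_iff_even.1 hev
    haveI : NeZero (m + m) := ⟨by omega⟩
    have h2 : ((m : ZMod (m + m))) + m = 0 := by
      rw [← Nat.cast_add, ZMod.natCast_self]
    have hc : DihedralGroup.r (m : ZMod (m + m)) ∈ Subgroup.center _ :=
      Subgroup.mem_center_iff.2 fun a => by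
        rcases a with i | i
        · simp [add_comm]
        · simp [sub_eq_add_neg, neg_eq_of_add_eq_zero_right h2]
    haveI : (Subgroup.zpowers (DihedralGroup.r (m : ZMod (m + m)))).Normal := ⟨fun a ha b => by
      rwa [Subgroup.mem_center_iff.1 (Subgroup.zpowers_le.2 hc ha) b, mul_inv_cancel_right]⟩
    have h3 : (Subgroup.zpowers (DihedralGroup.r (m : ZMod (m + m)))).comap g ≤ Cfsg.pCore 2 H :=
      CfsgL0.le_pCore (IsPGroup.comap_of_ker_isPGroup (CfsgH1.isPGroup_zpowers (k := 1)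
        (by simp [sq, h2])) _ hQ)
    obtain ⟨x, hx⟩ := hg (DihedralGroup.r (m : ZMod (m + m)))
    have h4 : g x = 1 := (hk ▸ h3 (by
      rw [Subgroup.mem_comap, hx]; exact Subgroup.mem_zpowers _) : x ∈ g.ker)
    rw [hx, DihedralGroup.one_def, DihedralGroup.r.injEq, ZMod.natCast_eq_zero_iff] at h4
    have := Nat.le_of_dvd (by omega) h4
    omega
  obtain ⟨d, hd⟩ := CfsgH3.PB.exists_dih hodd g hg hQ
  have hS : CfsgH1.IsSylowIn 2 (P.subgroupOf H) ⊤ :=
    CfsgH1.isSylowIn_top_iff.2 ⟨hP.comap_subtype, hPsyl⟩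
  have hy : y ∈ Subgroup.normalizer (P : Set G) := CfsgH1.mem_normalizer_iff_cj.2 hyN
  let i : P.subgroupOf H ≃* P := Subgroup.subgroupOfEquivOfLe hPH
  let σ : MulAut (P.subgroupOf H) := i.trans ((P.normalizerMonoidHom ⟨y, hy⟩).trans i.symm)
  have hσ : ∀ x : P.subgroupOf H, ((σ x : H) : G) = y * x * y⁻¹ := fun _ => rfl
  rw [← CfsgL0.card_subgroupOf_of_le hPH]
  refine hd.main (hk ▸ hO) hS σ (fun W hW => ?_) fun W h1 h2 => ?_
  · refine Subgroup.eq_of_le_of_card_ge ?_ (by
      rw [Subgroup.card_map_of_injective σ.injective, Subgroup.card_map_of_injective σ.injective])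
    rintro _ ⟨_, ⟨x, hx, rfl⟩, rfl⟩
    obtain ⟨a, ha, c, hc, e⟩ := (CfsgH1.mem_sup_of_le_normalizer
      (Subgroup.le_normalizer.trans (CfsgH2.le_normalizer_centralizer le_rfl))).1 hy2
    have := hW.conj_mem x hx ⟨⟨a, hPH ha⟩, ha⟩
    refine (congrArg (· ∈ W) (Subtype.ext (Subtype.ext ?_))).mp this
    change a * x * a⁻¹ = y * (y * x * y⁻¹) * y⁻¹
    calc a * x * a⁻¹ = a * (c * x * c⁻¹) * a⁻¹ := by
          rw [CfsgH1.conj_eq_of_mem_centralizer hc (a := ((x : H) : G)) x.2]
      _ = (a * c) * x * (a * c)⁻¹ := by group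
      _ = _ := by rw [e, sq]; group
  · have := hyQ ((W.map (P.subgroupOf H).subtype).map H.subtype) (by
      rintro _ ⟨_, ⟨x, -, rfl⟩, rfl⟩; exact x.2) (by
        rwa [Subgroup.subgroupOf, Subgroup.comap_map_eq_self_of_injective H.subtype_injective])
      (CfsgH1.cj_eq_of_mem_normalizer (CfsgL0.mem_normalizer_of_conj_mem (by
        rintro _ ⟨_, ⟨x, hx, rfl⟩, rfl⟩
        exact ⟨_, ⟨σ x, h2 ▸ Subgroup.mem_map_of_mem σ.toMonoidHom hx, rfl⟩, rfl⟩)))
    rwa [Subgroup.map_eq_bot_iff_of_injective _ H.subtype_injective,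
      Subgroup.map_eq_bot_iff_of_injective _ (Subgroup.subtype_injective _)] at this

end Cfsg.Agent.S4385
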