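import Cfsg.Statements.S4387
import Cfsg.Agent.H4.StrEmb

set_option autoImplicit false
open Pointwise
open Cfsg

namespace Cfsg.Agent.S4387

open CfsgH4

/-- Let G be a non-trivial finite group in which any two maximal subgroups are conjugate. Then G is cyclic of prime-power order. -/
theorem result {G : Type*} [Group G] [Finite G] [Nontrivial G]
    (h : ∀ M N : Subgroup G, IsCoatom M → IsCoatom N → ∃ g : G, N = MulAut.conj g • M) :
    IsCyclic G ∧ IsPrimePow (Nat.card G) := by
  obtain ⟨M, hM, -⟩ := (eq_top_or_exists_le_coatom (⊥ : Subgroup G)).resolve_left bot_ne_top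
  obtain ⟨x, hx⟩ := exists_not_conj_mem hM.1
  have h1 : Subgroup.zpowers x = ⊤ := by
    rcases eq_top_or_exists_le_coatom (Subgroup.zpowers x) with h1 | ⟨N, hN, h1⟩
    · exact h1
    · obtain ⟨g, rfl⟩ := h M N hM hN
      exact absurd ((mem_conj_smul _ _ _).1 (h1 (Subgroup.mem_zpowers x))) (hx g)
  have hc : IsCyclic G := (isCyclic_iff_exists_zpowers_eq_top).2 ⟨x, h1⟩
  refine ⟨hc, ?_⟩
  have key : ∀ p : ℕ, p.Prime → p ∣ Nat.card G → p = M.index := by
    intro p hp hd
    have h2 : (Subgroup.zpowers (x ^ p)).index = p := by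
      have h3 := (Subgroup.zpowers (x ^ p)).index_mul_card
      have h4 : orderOf x = Nat.card G := by rw [← Nat.card_zpowers, h1, Subgroup.card_top]
      rw [Nat.card_zpowers, orderOf_pow' _ hp.ne_zero, h4, Nat.gcd_eq_right hd] at h3
      obtain ⟨k, hk⟩ := hd
      have hk0 : 0 < k := Nat.pos_of_ne_zero (by
        rintro rfl; exact (Nat.card_pos (α := G)).ne' (by simpa using hk))
      rw [hk, Nat.mul_div_cancel_left _ hp.pos] at h3
      exact Nat.eq_of_mul_eq_mul_right hk0 h3
    obtain ⟨g, hg⟩ := h M _ hM (isCoatom_of_index_prime (h2.symm ▸ hp))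
    rw [← h2, hg]
    exact Subgroup.index_map_equiv M (MulAut.conj g)
  rw [isPrimePow_iff_unique_prime_dvd]
  obtain ⟨p, hp, hd⟩ := Nat.exists_prime_and_dvd (Finite.one_lt_card (α := G)).ne'
  exact ⟨p, ⟨hp, hd⟩, fun q hq => (key q hq.1 hq.2).trans (key p hp hd).symm⟩

end Cfsg.Agent.S4387
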