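import Cfsg.Statements.S4392
import Cfsg.Agent.H4.NilFpf

set_option autoImplicit false
open Cfsg

namespace Cfsg.Agent.S4392

/-- Let a finite nilpotent group F act faithfully by automorphisms on a finite group G so that F fixes only the identity of G, and let N be an F-invariant normal subgroup of G. Then F fixes only the identity coset of G/N: an element g with g⁻¹·f(g) ∈ N for every f ∈ F lies in N. (The orders of F and G need not be coprime.) -/
theorem result {G F : Type*} [Group G] [Finite G] [Group F] [Finite F] [MulDistribMulAction F G] [FaithfulSMul F G]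
    (hF : Group.IsNilpotent F) (hCF : ∀ g : G, (∀ f : F, f • g = g) → g = 1) (N : Subgroup G) [N.Normal] (hN : ∀ (f : F) (n : G), n ∈ N → f • n ∈ N)
    (g : G) (hg : ∀ f : F, g⁻¹ * f • g ∈ N) : g ∈ N := by
  let φ := MulDistribMulAction.toMulAut F G
  have cj : ∀ (f : F) (x : G), (SemidirectProduct.inr f * SemidirectProduct.inl x *
      (SemidirectProduct.inr f)⁻¹ : G ⋊[φ] F) = SemidirectProduct.inl (f • x) := fun f x => by
    rw [← map_inv, ← SemidirectProduct.inl_aut]
    rfl
  haveI : Finite (G ⋊[φ] F) := Finite.of_equiv _ SemidirectProduct.equivProd.symm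
  have nf : CfsgH4.NilFpf.NF (SemidirectProduct.inl : G →* G ⋊[φ] F).range
      (SemidirectProduct.inr : F →* G ⋊[φ] F).range := by
    refine ⟨Group.nilpotent_of_surjective _ (MonoidHom.rangeRestrict_surjective _), ?_, ?_, ?_⟩
    · rintro _ ⟨f, rfl⟩ _ ⟨x, rfl⟩
      exact ⟨_, (cj f x).symm⟩
    · rintro _ ⟨f, rfl⟩ ⟨x, e⟩
      have : (1 : F) = f := congrArg SemidirectProduct.right e
      rw [← this, map_one]
    · rintro _ ⟨x, rfl⟩ k
      rw [hCF x fun f => SemidirectProduct.inl_injective (φ := φ) (by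
        rw [← cj, ← k _ ⟨f, rfl⟩, mul_inv_cancel_right]), map_one]
  obtain ⟨n, hn, e⟩ := CfsgH4.NilFpf.quot_fix (M := N.map SemidirectProduct.inl)
    (CfsgH4.NilFpf.gs _) nf (Subgroup.map_le_range _ _) (by
      rintro _ ⟨f, rfl⟩ _ ⟨x, hx, rfl⟩
      exact ⟨_, hN f x hx, (cj f x).symm⟩) (c := SemidirectProduct.inl g⁻¹) ⟨_, rfl⟩ (by
      rintro _ ⟨f, rfl⟩
      refine ⟨_, hg f, ?_⟩
      rw [map_mul, ← cj, map_inv, inv_inv]
      simp only [mul_assoc])
  rw [SemidirectProduct.inl_injective e] at hn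
  exact N.inv_mem_iff.1 hn

end Cfsg.Agent.S4392
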