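import Cfsg.Statements.S4396
import Cfsg.Agent.L0.Fitting
import Cfsg.Agent.H2.FreeMod

set_option autoImplicit false
open Cfsg

namespace Cfsg.Agent.S4396
open Subgroup CfsgH2 CfsgL0
open scoped commutatorElement



/-- Let the finite group A act faithfully and linearly on a finite-dimensional vector space V over a field k, and suppose A is a Frobenius group with nilpotent kernel F (every Frobenius kernel is nilpotent) and complement H such that F fixes no nonzero vector. Then V is free as a module for H: there is a subspace W with V the direct sum of the translates hW, h ∈ H. (No assumption on the characteristic of k.) -/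
theorem result {k V A : Type*} [Field k] [AddCommGroup V] [Module k V] [FiniteDimensional k V] [Group A] [Finite A] [DecidableEq A]
    (ρ : Representation k A V) (hρ : Function.Injective ρ)
    (Fk Hc : Subgroup A) [Fk.Normal] (hHc : Cfsg.IsFrobeniusComplement Hc) (hker : Cfsg.frobeniusKernel Hc = (Fk : Set A)) (hnil : Group.IsNilpotent ↥Fk)
    (hCF : ∀ v : V, (∀ f ∈ Fk, ρ f v = v) → v = 0) :
    ∃ W : Submodule k V, DirectSum.IsInternal (fun h : ↥Hc => W.map (ρ (h : A))) := by
  obtain ⟨N, hNn, hNF, hN, hN0⟩ : ∃ N : Subgroup A, N.Normal ∧ N ≤ Fk ∧ (Nat.card N : k) ≠ 0 ∧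
      ∀ v : V, (∀ f ∈ N, ρ f v = v) → v = 0 := by
    obtain ⟨p, hp⟩ := CharP.exists k
    rcases CharP.char_is_prime_or_zero k p with h | rfl
    · haveI := Fact.mk h
      refine ⟨(pPrimeCore p Fk).map Fk.subtype, inferInstance, map_subtype_le _, ?_, fun v hv => ?_⟩
      · rw [card_map_of_injective Fk.subtype_injective, Ne, CharP.cast_eq_zero_iff k p]
        exact not_dvd_card_pPrimeCore Fk p
      let W : Submodule k V := ⨅ f : pPrimeCore p Fk, LinearMap.eqLocus (ρ f) LinearMap.id
      have hW : ∀ w, w ∈ W ↔ ∀ f ∈ pPrimeCore p Fk, ρ f w = w := fun w => by simp [W]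
      by_contra h0
      obtain ⟨w, hw, hw0, hw1⟩ := exists_fixed_vector (isPGroup_pCore Fk p)
        (ρ.comp (Fk.subtype.comp (pCore p Fk).subtype)) W (fun g w hw => (hW _).mpr fun f hf => by
          have := (hW w).mp hw _ (Normal.conj_mem' inferInstance f hf g)
          conv_rhs => rw [← this]
          simp [← Module.End.mul_apply, ← map_mul, ← mul_assoc])
        (fun w _ => by rw [← Nat.cast_smul_eq_nsmul k, CharP.cast_eq_zero, zero_smul])
        fun e => h0 ((Submodule.eq_bot_iff _).mp e v ((hW v).mpr fun f hf => hv _ ⟨f, hf, rfl⟩))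
      refine hw0 (hCF w fun f hf => ?_)
      obtain ⟨a, ha, b, hb, e⟩ := (mem_sup_of_le_normalizer le_normalizer_of_normal).mp
        (pCore_sup_pPrimeCore (G := Fk) p ▸ mem_top (⟨f, hf⟩ : Fk))
      rw [← show (a : A) * b = f from congrArg Subtype.val e, map_mul, Module.End.mul_apply,
        (hW w).mp hw b hb]
      exact hw1 ⟨a, ha⟩
    · haveI := CharP.charP_to_charZero k
      exact ⟨Fk, inferInstance, le_rfl, Nat.cast_ne_zero.mpr Nat.card_pos.ne', hCF⟩
  haveI := Fintype.ofFinite N
  haveI := Fintype.ofFinite Hc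
  haveI := isNilpotent_of_le hNF hnil
  refine frob_free (MulAut.conjNormal.comp Hc.subtype) (fun h h1 f hf => ?_)
    (by rwa [← Nat.card_eq_fintype_card]) (ρ.comp N.subtype) (ρ.comp Hc.subtype)
    (fun h f => by simp [← map_mul]) (LinearMap.ext fun v => hN0 _ fun g hg => ?_)
  · have h2 : (f : A) ∈ frobeniusKernel Hc := hker ▸ hNF f.2
    refine Subtype.ext (h2.resolve_right fun h3 => h1 (Subtype.ext (mem_bot.mp
      ((hHc.2.2 f (by simpa using h3 1)).le (mem_inf.mpr ⟨h.2,
        (mem_smul_pointwise_iff_exists _ _ _).mpr ⟨h, h.2, ?_⟩⟩)))))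
    have e : (h : A) * f * (h : A)⁻¹ = f := congrArg Subtype.val hf
    change (f : A) * h * (f : A)⁻¹ = h
    rw [mul_inv_eq_iff_eq_mul] at e ⊢
    exact e.symm
  · rw [LinearMap.sum_apply, map_sum]
    conv_rhs => rw [← Equiv.sum_comp (Equiv.mulLeft (⟨g, hg⟩ : N))]
    simp

end Cfsg.Agent.S4396
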