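import Cfsg.Statements.S4397
import Cfsg.Agent.H2.PCentral
import Cfsg.Agent.H2.Extra2
import Cfsg.Agent.L0.Cores

set_option autoImplicit false
open Cfsg

namespace Cfsg.Agent.S4397
open Subgroup CfsgH2 CfsgL0
open scoped commutatorElement

theorem exists_two_gen {G : Type*} [Group G] [Finite G] {p : ℕ} [hp : Fact p.Prime]
    (hG : IsPGroup p G) (h : (frattini G).index ≤ p ^ 2) :
    ∃ a b : G, zpowers a ⊔ zpowers b = ⊤ := by
  have key : ∀ a b : G, frattini G ⊔ zpowers a ⊔ zpowers b = ⊤ → zpowers a ⊔ zpowers b = ⊤ := by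
    intro a b h
    apply frattini_nongenerating
    rw [← h]
    ac_rfl
  by_cases h1 : frattini G = ⊤
  · exact ⟨1, 1, key 1 1 (by rw [h1]; simp)⟩
  obtain ⟨a, -, ha⟩ := SetLike.exists_of_lt (lt_top_iff_ne_top.mpr h1)
  by_cases h2 : frattini G ⊔ zpowers a = ⊤
  · exact ⟨a, 1, key a 1 (by rw [h2]; simp)⟩
  obtain ⟨b, -, hb⟩ := SetLike.exists_of_lt (lt_top_iff_ne_top.mpr h2)
  refine ⟨a, b, key a b ?_⟩
  have : (frattini G ⊔ zpowers a).Normal := normal_sup_zpowers (comm_mem_frattini hG a)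
  have c1 := card_sup_zpowers (mem_normalizer_of_normal _ a) hp.out (pow_mem_frattini hG a) ha
  have c2 := card_sup_zpowers (mem_normalizer_of_normal _ b) hp.out
    (mem_sup_left (pow_mem_frattini hG b)) hb
  apply eq_top_of_le_card
  rw [c2, c1, ← (frattini G).card_mul_index, mul_assoc, ← sq]
  exact Nat.mul_le_mul_left _ h

theorem sectional_quot {G : Type*} [Group G] [Finite G] {p k : ℕ} (h : SectionalPRankLE p k G)
    (N : Subgroup G) [N.Normal] : SectionalPRankLE p k (G ⧸ N) := by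
  intro H M _
  let f : H.comap (QuotientGroup.mk' N) →* H ⧸ M :=
    (QuotientGroup.mk' M).comp ((QuotientGroup.mk' N).subgroupComap H)
  have hf : Function.Surjective f := (QuotientGroup.mk'_surjective M).comp
    (MonoidHom.subgroupComap_surjective_of_surjective _ _ (QuotientGroup.mk'_surjective N))
  have e := QuotientGroup.quotientKerEquivOfSurjective f hf
  intro A hA hAp
  have := h _ f.ker (A.map e.symm.toMonoidHom) inferInstance (by
    rintro _ ⟨a, ha, rfl⟩
    rw [← map_pow, hAp a ha, map_one])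
  rwa [card_map_of_injective e.symm.injective] at this

theorem class_two {G : Type*} [Group G] [Finite G] (h2 : IsPGroup 2 G) (hr : PRankLE 2 2 G)
    {z : G} (hz1 : z ≠ 1) (hz2 : z ^ 2 = 1) (hzc : z ∈ center G)
    (hD : commutator G ≤ zpowers z) (hna : ¬ commutator G ≤ ⊥)
    (hex : ∃ a b : G, zpowers a ⊔ zpowers b = ⊤) :
    ∃ a b : G, z ∈ zpowers a ∧ zpowers a ⊔ zpowers b = ⊤ := by
  classical
  have : Fact (Nat.Prime 2) := ⟨Nat.prime_two⟩
  by_contra hne
  push Not at hne
  have hne' : ∀ a b : G, zpowers a ⊔ zpowers b = ⊤ → z ∉ zpowers a := fun a b h h' => hne a b h' h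
  have hcz : ∀ x y : G, ⁅x, y⁆ ∈ zpowers z := fun x y => hD (comm_mem_commutator x y)
  have hcc : ∀ x y w : G, Commute w ⁅x, y⁆ := fun x y w =>
    mem_center_iff.mp ((zpowers_le.mpr hzc) (hcz x y)) w
  have hnc : ∀ a b : G, zpowers a ⊔ zpowers b = ⊤ → ⁅a, b⁆ = z := by
    intro a b h
    refine (eq_or_eq_of_mem_zpowers_two hz2 (hcz a b)).resolve_left fun h1 => hna ?_
    refine commutator_le_of_generators (s := {a, b}) ?_ ?_
    · rw [← h, zpowers_eq_closure, zpowers_eq_closure, ← Subgroup.closure_union]; rfl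
    · rintro x (rfl | rfl) y (rfl | rfl)
      · simp
      · simp [h1]
      · rw [← commutatorElement_inv, h1]; simp
      · simp
  have hsq : ∀ x : G, x ^ 2 ∈ center G := fun x => mem_center_of_comm fun g => by
    rw [comm_pow_left (hcc _ _ _)]
    exact pow_eq_one_of_mem_zpowers hz2 _ (hcz _ _)
  obtain ⟨⟨a, b⟩, hab, hmin⟩ := Set.exists_min_image {q : G × G | zpowers q.1 ⊔ zpowers q.2 = ⊤}
    (fun q => orderOf q.2) (Set.toFinite _) (by obtain ⟨a, b, h⟩ := hex; exact ⟨(a, b), h⟩)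
  replace hab : zpowers a ⊔ zpowers b = ⊤ := hab
  replace hmin : ∀ x y : G, zpowers x ⊔ zpowers y = ⊤ → orderOf b ≤ orderOf y :=
    fun x y h => hmin (x, y) h
  have hba : zpowers b ⊔ zpowers a = ⊤ := by rw [sup_comm, hab]
  obtain ⟨m, hm⟩ := IsPGroup.iff_orderOf.mp h2 a
  obtain ⟨n, hn⟩ := IsPGroup.iff_orderOf.mp h2 b
  have hnm : n ≤ m := by
    have := hmin b a hba
    rw [hm, hn] at this
    exact (Nat.pow_le_pow_iff_right (by norm_num)).mp this
  have hn0 : n ≠ 0 := by
    rintro rfl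
    have hb : b = 1 := orderOf_eq_one_iff.mp hn
    exact hz1 (by rw [← hnc a b hab, hb]; simp)
  obtain ⟨n, rfl⟩ := Nat.exists_eq_succ_of_ne_zero hn0
  obtain ⟨d, rfl⟩ := Nat.exists_eq_add_of_le hnm
  have gen : ∀ c : G, c ∈ zpowers a → zpowers a ⊔ zpowers (b * c) = ⊤ := by
    intro c hc
    rw [eq_top_iff, ← hab]
    refine sup_le le_sup_left (zpowers_le.mpr ?_)
    simpa using mul_mem (mem_sup_right (mem_zpowers (b * c)))
      (inv_mem (mem_sup_left (T := zpowers (b * c)) hc))
  have hb2 : (b ^ 2 ^ n) ^ 2 = 1 := by rw [← pow_mul, ← pow_succ, ← hn, pow_orderOf_eq_one]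
  have ha2 : (a ^ 2 ^ (n + d)) ^ 2 = 1 := by
    rw [← pow_mul, ← pow_succ, show n + d + 1 = n.succ + d by omega, ← hm, pow_orderOf_eq_one]
  have hb1 : b ^ 2 ^ n ≠ 1 := pow_ne_one_of_lt_orderOf (by positivity)
    (by rw [hn]; exact Nat.pow_lt_pow_right (by norm_num) (by omega))
  have ha1 : a ^ 2 ^ (n + d) ≠ 1 := pow_ne_one_of_lt_orderOf (by positivity)
    (by rw [hm]; exact Nat.pow_lt_pow_right (by norm_num) (by omega))
  by_cases h0 : n + d = 0
  · obtain ⟨rfl, rfl⟩ : n = 0 ∧ d = 0 := by omega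
    simp only [add_zero, pow_zero, pow_one] at ha2 hb2
    apply hne' (b * a) a (by rw [sup_comm]; exact gen a (mem_zpowers a))
    have : (b * a) ^ 2 = z := by
      rw [mul_pow_class_two (hcc _ _ _) (hcc _ _ _), ha2, hb2, hnc a b hab]; simp
    rw [← this]
    exact npow_mem_zpowers _ _
  set α := a ^ 2 ^ (n + d) with hα
  set β := b ^ 2 ^ n with hβ
  have hαc : α ∈ center G := by
    obtain ⟨k, hk⟩ := Nat.exists_eq_succ_of_ne_zero h0
    rw [hα, hk, pow_succ, pow_mul]
    exact hsq _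
  have hαz : α ∉ zpowers z := fun h => by
    rcases eq_or_eq_of_mem_zpowers_two hz2 h with h | h
    · exact ha1 h
    · exact hne' a b hab (h ▸ npow_mem_zpowers _ _)
  have hβz : β ∉ zpowers z := fun h => by
    rcases eq_or_eq_of_mem_zpowers_two hz2 h with h | h
    · exact hb1 h
    · exact hne' b a hba (h ▸ npow_mem_zpowers _ _)
  have hle : zpowers z ⊔ zpowers α ≤ center G := sup_le (zpowers_le.mpr hzc) (zpowers_le.mpr hαc)
  have hzn := normal_zpowers_of_mem_center hzc
  have hn' := normal_of_le_center hle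
  have c1 := card_sup_zpowers (K := zpowers z) (mem_normalizer_of_normal _ α) Nat.prime_two
    (ha2 ▸ one_mem _) hαz
  rw [card_zpowers_of_pow_eq_one hz1 hz2] at c1
  have hcen : ∀ x : G, x ∈ centralizer ((zpowers z ⊔ zpowers α : Subgroup G) : Set G) :=
    fun x y hy => (mem_center_iff.mp (hle hy) x).symm
  have hβm : β ∈ zpowers z ⊔ zpowers α := by
    by_contra hβm
    have c2 := card_sup_zpowers (mem_normalizer_of_normal _ β) Nat.prime_two
      (hb2 ▸ one_mem _) hβm
    have := hr (zpowers z ⊔ zpowers α ⊔ zpowers β)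
      (isMulCommutative_sup_zpowers (isMulCommutative_of_le hle inferInstance) (hcen β))
      (pow_eq_one_of_mem_sup (zpowers_le.mpr (hcen β))
        (pow_eq_one_of_mem_sup (zpowers_le.mpr fun y hy =>
          (mem_center_iff.mp hαc y)) (pow_eq_one_of_mem_zpowers hz2)
          (pow_eq_one_of_mem_zpowers ha2)) (pow_eq_one_of_mem_zpowers hb2))
    rw [c2, c1] at this
    norm_num at this
  have hβα : β * α ∈ zpowers z := by
    obtain ⟨k, hk, l, hl, e⟩ := (mem_sup_of_le_normalizer le_normalizer_of_normal).mp hβm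
    rcases eq_or_eq_of_mem_zpowers_two ha2 hl with rfl | rfl
    · exact absurd (by rw [← e]; simpa using hk) hβz
    · rw [← e, mul_assoc, ← sq, ha2, mul_one]; exact hk
  have hp : (b * a ^ 2 ^ d) ^ 2 ^ n ∈ zpowers z := by
    rw [mul_pow_class_two (hcc _ _ _) (hcc _ _ _), ← pow_mul, ← pow_add, add_comm d]
    exact mul_mem hβα (pow_mem (hcz _ _) _)
  have hg := gen (a ^ 2 ^ d) (npow_mem_zpowers _ _)
  rcases eq_or_eq_of_mem_zpowers_two hz2 hp with h | h
  · have h1 := hmin _ _ hg
    have h2 := Nat.le_of_dvd (by positivity) (orderOf_dvd_of_pow_eq_one h)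
    rw [hn] at h1
    have := (Nat.pow_le_pow_iff_right (by norm_num)).mp (h1.trans h2)
    omega
  · exact hne' _ a (by rw [sup_comm, hg]) (h ▸ npow_mem_zpowers _ _)

universe u in
theorem main (n : ℕ) : ∀ (G : Type u) [Group G] [Finite G], Nat.card G = n → IsPGroup 2 G →
    SectionalPRankLE 2 2 G →
    ∃ a b : G, b * a * b⁻¹ ∈ zpowers a ∧ zpowers a ⊔ zpowers b = ⊤ := by
  induction n using Nat.strong_induction_on with
  | _ n ih =>
  intro G _ _ hn h2 hr
  have : Fact (Nat.Prime 2) := ⟨Nat.prime_two⟩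
  have hfr : (frattini G).index ≤ 2 ^ 2 := by
    rw [← relIndex_top_right]
    exact relIndex_le_of_sectional hr le_normalizer_of_normal
      (fun x _ y _ => comm_mem_frattini h2 x y) (fun x _ => pow_mem_frattini h2 x)
  by_cases hna : commutator G = ⊥
  · obtain ⟨a, b, h⟩ := exists_two_gen h2 hfr
    refine ⟨a, b, ?_, h⟩
    have : ⁅b, a⁆ = 1 := by simpa [hna] using comm_mem_commutator b a
    rw [(comm_eq_one_iff.mp this).eq, mul_inv_cancel_right]
    exact mem_zpowers a
  obtain ⟨z, hzD, hz1, hz2, hzc⟩ := exists_central_order_p h2 hna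
  have hzn := normal_zpowers_of_mem_center hzc
  obtain ⟨a, b, h1, hab⟩ := ih _ (hn ▸ card_quotient_lt (N := zpowers z) (by simpa using hz1))
    (G ⧸ zpowers z) rfl (h2.to_quotient _) (sectional_quot hr _)
  obtain ⟨a, rfl⟩ := QuotientGroup.mk_surjective a
  obtain ⟨b, rfl⟩ := QuotientGroup.mk_surjective b
  have hab' : zpowers a ⊔ zpowers b = ⊤ := by
    apply frattini_nongenerating
    rw [eq_top_iff]
    have := congrArg (comap (QuotientGroup.mk' (zpowers z))) hab
    rw [← QuotientGroup.mk'_apply, ← QuotientGroup.mk'_apply, ← MonoidHom.map_zpowers,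
      ← MonoidHom.map_zpowers, ← Subgroup.map_sup, comap_map_eq, QuotientGroup.ker_mk',
      comap_top] at this
    rw [← this]
    exact sup_le_sup_left (zpowers_le.mpr (commutator_le_frattini h2 hzD)) _
  obtain ⟨r, hr'⟩ := h1
  have h3 : (a ^ r)⁻¹ * (b * a * b⁻¹) ∈ zpowers z := by
    rw [← QuotientGroup.eq]
    simpa using hr'
  by_cases hza : z ∈ zpowers a
  · refine ⟨a, b, ?_, hab'⟩
    simpa using mul_mem (zpow_mem_zpowers a r) (zpowers_le.mpr hza h3)
  rcases eq_or_eq_of_mem_zpowers_two hz2 h3 with h | h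
  · refine ⟨a, b, ⟨r, ?_⟩, hab'⟩
    exact inv_mul_eq_one.mp h
  have h4 : b * a * b⁻¹ = a ^ r * z := by rw [← h]; group
  have hcz : ∀ x : G, Commute x z := fun x => mem_center_iff.mp hzc x
  set c := a ^ (r - 1) * z with hc
  have hcab : ⁅b, a⁆ = c := by
    rw [commutatorElement_def, h4, hc, mul_assoc, ← (hcz a⁻¹).eq]; group
  have hcp : ∀ k : ℤ, c ^ k = a ^ ((r - 1) * k) * z ^ k := fun k => by
    rw [hc, (hcz _).mul_zpow, zpow_mul]
  have hcn : (zpowers c).Normal := by
    rw [← normalizer_eq_top_iff, eq_top_iff, ← hab']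
    refine sup_le (zpowers_le.mpr (mem_normalizer_zpowers ?_))
      (zpowers_le.mpr (mem_normalizer_zpowers ?_))
    · have : Commute a c := Commute.mul_right (Commute.self_zpow _ _) (hcz a)
      rw [this.eq, mul_inv_cancel_right]
      exact mem_zpowers c
    · refine ⟨r, ?_⟩
      have e1 : b * c * b⁻¹ = (b * a * b⁻¹) ^ (r - 1) * z := by
        rw [conj_zpow, hc, mul_assoc (b * _), ← (hcz b⁻¹).eq.symm]; group
      change c ^ r = _
      rw [e1, h4, hcp, (hcz _).mul_zpow, ← zpow_mul, mul_comm r]; group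
  have hD : commutator G ≤ zpowers c := by
    refine commutator_le_of_generators (s := {a, b}) ?_ ?_
    · rw [← hab', zpowers_eq_closure, zpowers_eq_closure, ← Subgroup.closure_union]; rfl
    · rintro x (rfl | rfl) y (rfl | rfl)
      · simp
      · rw [← commutatorElement_inv, hcab]; exact inv_mem (mem_zpowers c)
      · rw [hcab]; exact mem_zpowers c
      · simp
  obtain ⟨k, hk⟩ := hD hzD
  replace hk : c ^ k = z := hk
  have hz2' : z ^ (2 : ℤ) = 1 := by exact_mod_cast hz2
  have hko : ¬ ((2 : ℕ) : ℤ) ∣ k := by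
    rintro ⟨j, rfl⟩
    apply hza
    rw [hcp, Nat.cast_ofNat, zpow_mul z, hz2', one_zpow, mul_one] at hk
    exact ⟨_, hk⟩
  have hcz' : c ∈ zpowers z := by
    obtain ⟨m, hm⟩ := h2 c
    by_contra hcz'
    obtain ⟨j, hj1, hj2⟩ := exists_pow_not_mem hm hcz'
    refine hj1 (mem_of_zpow_mem hj2 (k := k) ?_ hko)
    rw [← zpow_natCast, ← zpow_mul, mul_comm, zpow_mul, hk]
    exact zpow_mem_zpowers _ _
  have hD' := hD.trans (zpowers_le.mpr hcz')
  obtain ⟨x, y, h5, h6⟩ := class_two h2 (fun A hA hAp => by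
    simpa using card_le_of_sectional hr (N := ⊥) (H := A) bot_le le_normalizer_of_normal
      (fun x hx y hy => mem_bot.mpr (comm_eq_one_iff.mpr (isMulCommutative_iff.mp hA x hx y hy)))
      (by simpa using hAp)) hz1 hz2 hzc hD' (by simpa using hna) ⟨a, b, hab'⟩
  refine ⟨x, y, ?_, h6⟩
  simpa [commutatorElement_def] using
    mul_mem (zpowers_le.mpr h5 (hD' (comm_mem_commutator y x))) (mem_zpowers x)

/-- A finite 2-group of sectional 2-rank at most 2 (every section has no elementary abelian subgroup of order 8) is metacyclic: it has a cyclic normal subgroup with cyclic quotient. -/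
theorem result {S : Type*} [Group S] [Finite S] (h2 : IsPGroup 2 S) (hr : Cfsg.SectionalPRankLE 2 2 S) : Cfsg.IsMetacyclic S := by
  obtain ⟨a, b, h1, h⟩ := main _ S rfl h2 hr
  have hn : (zpowers a).Normal := by
    rw [← normalizer_eq_top_iff, eq_top_iff, ← h]
    exact sup_le le_normalizer (zpowers_le.mpr (mem_normalizer_zpowers h1))
  refine ⟨zpowers a, hn, inferInstance, ⟨⟨(b : S ⧸ zpowers a), fun x => ?_⟩⟩⟩
  obtain ⟨x, rfl⟩ := QuotientGroup.mk_surjective x
  obtain ⟨k, hk, i, rfl⟩ := (mem_sup_zpowers_iff (mem_normalizer_of_normal _ b)).mp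
    (h ▸ mem_top x)
  refine ⟨i, ?_⟩
  simp [(QuotientGroup.eq_one_iff k).mpr hk]

end Cfsg.Agent.S4397
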