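import Cfsg.Statements.S4398
import Cfsg.Agent.H2.Sect
import Cfsg.Agent.S0112

set_option autoImplicit false
open Cfsg

namespace Cfsg.Agent.S4398
open Subgroup CfsgH2 CfsgL0
open scoped commutatorElement



/-- Let S be a finite 2-group of sectional 2-rank at most 2 that contains a subgroup isomorphic to the dihedral group of order 8 or to the quaternion group of order 8. Then S is dihedral of order at least 8, semidihedral of order at least 16 (order 2^(k+4) with an element a of order 2^(k+3) and an involution b with b a b⁻¹ = a^(2^(k+2)−1)), or generalized quaternion of order at least 8. -/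
theorem result {S : Type*} [Group S] [Finite S] (h2 : IsPGroup 2 S) (hr : Cfsg.SectionalPRankLE 2 2 S)
    (hsub : ∃ H : Subgroup S, Nonempty (↥H ≃* DihedralGroup 4) ∨ Nonempty (↥H ≃* QuaternionGroup 2)) :
    ((∃ k : ℕ, Nonempty (S ≃* DihedralGroup (2 ^ (k + 2)))) ∨
      (∃ k : ℕ, Nat.card S = 2 ^ (k + 4) ∧ ∃ a b : S, orderOf a = 2 ^ (k + 3) ∧ orderOf b = 2 ∧ b * a * b⁻¹ = a ^ (2 ^ (k + 2) - 1)) ∨
      (∃ k : ℕ, Nonempty (S ≃* QuaternionGroup (2 ^ (k + 1))))) := by
  obtain ⟨H, hH⟩ := hsub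
  obtain ⟨z₀, hz₀, hc⟩ : ∃ z : H, Sympl 2 z ⊤ ∧ Nat.card H = 8 := by
    rcases hH with ⟨⟨e⟩⟩ | ⟨⟨e⟩⟩
    · exact ⟨_, sympl_dihedral.of_mulEquiv e.symm,
        by rw [Nat.card_congr e.toEquiv, DihedralGroup.nat_card]⟩
    · exact ⟨_, sympl_quaternion.of_mulEquiv e.symm,
        by rw [Nat.card_congr e.toEquiv, Nat.card_eq_fintype_card, QuaternionGroup.card]⟩
  have hz1 : (z₀ : S) ≠ 1 := fun e => hz₀.ne_one (Subtype.ext e)
  have hz2 : (z₀ : S) ^ 2 = 1 := congrArg Subtype.val hz₀.pow_eq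
  have hZ := card_zpowers_of_pow_eq_one hz1 hz2
  have hnd : H ⊓ centralizer (H : Set S) ≤ zpowers (z₀ : S) := fun x hx => by
    obtain ⟨k, hk⟩ := hz₀.nondeg (x := ⟨x, hx.1⟩) ⟨mem_top _, fun y _ => Subtype.ext (hx.2 y y.2)⟩
    exact ⟨k, congrArg Subtype.val hk⟩
  have hzc : (z₀ : S) ∈ centralizer (H : Set S) := fun y hy =>
    congrArg Subtype.val (mem_center_iff.mp hz₀.central ⟨y, hy⟩)
  have hel : ElemMod 2 (zpowers (z₀ : S)) H := by
    refine ⟨(le_centralizer_iff.mp (zpowers_le.mpr hzc)).trans (centralizer_le_normalizer _),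
      fun x hx y hy => ?_, fun x hx => ?_⟩
    · obtain ⟨k, hk⟩ := hz₀.comm ⟨x, hx⟩ (mem_top _) ⟨y, hy⟩ (mem_top _)
      exact ⟨k, congrArg Subtype.val hk⟩
    · obtain ⟨k, hk⟩ := hz₀.pow ⟨x, hx⟩ (mem_top _)
      exact ⟨k, congrArg Subtype.val hk⟩
  have hC : centralizer (H : Set S) ≤ H := by
    by_contra hcon
    obtain ⟨c, hc1, hc2, hc3⟩ := exists_not_mem_pow_mem h2 hcon
    have h1 := (hel.sup (elemMod_zpowers (c := c) (centralizer_le_normalizer _
      (centralizer_le (zpowers_le.mpr z₀.2) hc1)) (hnd ⟨hc3, pow_mem hc1 2⟩)) (fun x hx y hy => by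
        rw [comm_eq_one_iff.mpr (zpowers_le.mpr hc1 hy x hx)]; exact one_mem _)).card_le hr
      ((zpowers_le.mpr z₀.2).trans le_sup_left)
    rw [card_sup_zpowers (centralizer_le_normalizer _ hc1) Nat.prime_two hc3 hc2, hc, hZ] at h1
    omega
  obtain ⟨n, hn⟩ := IsPGroup.iff_card.mp h2
  have h3 : 3 ≤ n := by
    have := card_le_card_group H
    rwa [hc, hn, show 8 = 2 ^ 3 from rfl, pow_le_pow_iff] at this
  obtain ⟨n, rfl⟩ := Nat.exists_eq_add_of_le' h3
  have : Nontrivial S := Finite.one_lt_card_iff_nontrivial.mp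
    (hn ▸ Nat.one_lt_two_pow (by omega))
  have := h2.isNilpotent
  have hZle : center S ≤ zpowers (z₀ : S) :=
    (le_inf ((center_le_centralizer _).trans hC) (center_le_centralizer _)).trans hnd
  obtain ⟨w, hw, hw1⟩ := (center S).ne_bot_iff_exists_ne_one.mp (Group.IsNilpotent.center_ne_bot S)
    |>.elim fun w h => (⟨w, w.2, fun e => h (Subtype.ext e)⟩ : ∃ w ∈ center S, w ≠ 1)
  have hZe : center S = zpowers (z₀ : S) :=
    le_antisymm hZle (le_of_card_prime hZ (hZle hw) hw hw1)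
  have hs := hz₀.map_subtype (hZe ▸ mem_zpowers _)
  have hZH : center S ≤ H := (center_le_centralizer _).trans hC
  have hcl := Cfsg.Agent.S0112.result (p := 2) (X := S ⧸ center S) (n + 2) (by
      have := card_eq_card_quotient_mul_card_subgroup (center S)
      rw [hn, hZe, hZ, ← hZe, pow_succ] at this
      omega) (H.map (QuotientGroup.mk' (center S))) (by
      have := card_map_mk_mul (center S) hZH
      rw [hc, show Nat.card (center S) = 2 by rw [hZe, hZ]] at this
      omega) (by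
      apply le_antisymm
      · intro g hg
        obtain ⟨g, rfl⟩ := QuotientGroup.mk_surjective g
        obtain ⟨k, hk, hgk⟩ := hs.exists_mul_mem_centralizer (g := g) fun k hk =>
          hZe ▸ comm_mem_iff_commute_mk.mpr (Commute.symm (hg _ ⟨k, hk, rfl⟩))
        exact ⟨g, (H.mul_mem_cancel_right hk).mp (hC hgk), rfl⟩
      · rintro _ ⟨x, hx, rfl⟩ _ ⟨y, hy, rfl⟩
        exact comm_mem_iff_commute_mk.mp (hZe ▸ hs.comm y hy x hx))
  have hcl2 : Group.nilpotencyClass S = n + 2 := by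
    rw [Group.nilpotencyClass_eq_quotient_center_plus_one, hcl]; rfl
  obtain ⟨a, b, h⟩ := exists_maxTwo hn (index_commutator_of_maxClass hn hcl2).1
  rcases h.cases with e | ⟨k, rfl, c, h1, h2⟩ | e
  · exact Or.inl ⟨n, e⟩
  · exact Or.inr (Or.inl ⟨k, hn, a, c, h.ord, h1, h2⟩)
  · exact Or.inr (Or.inr ⟨n, e⟩)

end Cfsg.Agent.S4398
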