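import Cfsg.Statements.S4400
import Cfsg.Agent.H2.Sect

set_option autoImplicit false
open Cfsg

namespace Cfsg.Agent.S4400
open Subgroup CfsgH2 CfsgL0
open scoped commutatorElement

theorem disj {S : Type*} [Group S] [Finite S] (h2 : IsPGroup 2 S) {X P Q : Subgroup S}
    (hPX : P ≤ X) (hQX : Q ≤ X) (nP : X ≤ normalizer (P : Set S)) (nQ : X ≤ normalizer (Q : Set S))
    (hZP : Nat.card (P ⊓ centralizer (P : Set S) : Subgroup S) = 2)
    (hZQ : Nat.card (Q ⊓ centralizer (Q : Set S) : Subgroup S) = 2)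
    (hne : P ⊓ centralizer (P : Set S) ≠ Q ⊓ centralizer (Q : Set S)) :
    P ⊓ Q = ⊥ ∧ Q ≤ centralizer (P : Set S) := by
  have h1 : P ⊓ Q = ⊥ := by
    by_contra h
    obtain ⟨z, hz, hz1, -, hzc⟩ := exists_mem_centralizer_of_ne_bot (h2.to_subgroup X)
      (inf_le_left.trans hPX) (le_normalizer_inf nP nQ) h
    have a1 : z ∈ P ⊓ centralizer (P : Set S) := ⟨hz.1, centralizer_le hPX hzc⟩
    have a2 : z ∈ Q ⊓ centralizer (Q : Set S) := ⟨hz.2, centralizer_le hQX hzc⟩
    exact hne (le_antisymm (le_of_card_prime hZP a1 a2 hz1) (le_of_card_prime hZQ a2 a1 hz1))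
  refine ⟨h1, fun y hy x hx => comm_eq_one_iff.mp ?_⟩
  have := comm_mem_inf_of_normalizer hx hy (nQ (hPX hx)) (nP (hQX hy))
  rwa [h1, mem_bot] at this

theorem not_isCyclic {S : Type*} [Group S] {P : Subgroup S} (hP : ¬ IsMulCommutative P) :
    ¬ IsCyclic P := fun _ => hP inferInstance

theorem cent {S : Type*} [Group S] [Finite S] (h2 : IsPGroup 2 S)
    (hr : Cfsg.SectionalPRankLE 2 4 S) {P Q : Subgroup S} (hP : ¬ IsMulCommutative P)
    (hQ : ¬ IsMulCommutative Q)
    (hZP : Nat.card (P ⊓ centralizer (P : Set S) : Subgroup S) = 2)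
    (hZQ : Nat.card (Q ⊓ centralizer (Q : Set S) : Subgroup S) = 2)
    (hd : P ⊓ Q = ⊥) (hc : Q ≤ centralizer (P : Set S)) :
    centralizer ((P ⊔ Q : Subgroup S) : Set S) ≤ frattiniOf P ⊔ frattiniOf Q := by
  have hc' : P ≤ centralizer (Q : Set S) := le_centralizer_iff.mp hc
  have fP := center_le_frattiniOf (h2.to_subgroup P) hP hZP
  have fQ := center_le_frattiniOf (h2.to_subgroup Q) hQ hZQ
  have key : (P ⊔ Q) ⊓ centralizer ((P ⊔ Q : Subgroup S) : Set S) ≤
      frattiniOf P ⊔ frattiniOf Q := by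
    rintro c ⟨hc1, hc2⟩
    obtain ⟨x, hx, y, hy, rfl⟩ :=
      (mem_sup_of_le_normalizer (hc.trans (centralizer_le_normalizer _))).mp hc1
    rw [centralizer_sup] at hc2
    exact mul_mem (mem_sup_left (fP ⟨hx, (mul_mem_cancel_right (hc hy)).mp hc2.1⟩))
      (mem_sup_right (fQ ⟨hy, (mul_mem_cancel_left (hc' hx)).mp hc2.2⟩))
  suffices h : centralizer ((P ⊔ Q : Subgroup S) : Set S) ≤ P ⊔ Q from
    (le_inf h le_rfl).trans key
  by_contra hcon
  obtain ⟨c, hc1, hc2, hc3⟩ := exists_not_mem_pow_mem h2 hcon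
  have hN : frattiniOf P ⊔ frattiniOf Q ≤ P ⊔ Q := sup_le_sup (frattiniOf_le P) (frattiniOf_le Q)
  have eP : ElemMod 2 (frattiniOf P ⊔ frattiniOf Q) P :=
    (elemMod_frattiniOf (h2.to_subgroup P)).mono le_sup_left (le_normalizer_sup
      (le_normalizer_frattiniOf le_normalizer)
      (le_normalizer_frattiniOf (hc'.trans (centralizer_le_normalizer _))))
  have eQ : ElemMod 2 (frattiniOf P ⊔ frattiniOf Q) Q :=
    (elemMod_frattiniOf (h2.to_subgroup Q)).mono le_sup_right (le_normalizer_sup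
      (le_normalizer_frattiniOf (hc.trans (centralizer_le_normalizer _)))
      (le_normalizer_frattiniOf le_normalizer))
  have h1 := ((eP.sup eQ fun x hx y hy => by
    rw [comm_eq_one_iff.mpr (hc hy x hx)]; exact one_mem _).sup
    (elemMod_zpowers (c := c) (centralizer_le_normalizer _ (centralizer_le hN hc1))
      (key ⟨hc3, pow_mem hc1 2⟩)) (fun x hx y hy => by
        rw [comm_eq_one_iff.mpr (zpowers_le.mpr hc1 hy x hx)]; exact one_mem _)).card_le hr
      (hN.trans le_sup_left)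
  rw [card_sup_zpowers (centralizer_le_normalizer _ hc1) Nat.prime_two hc3 hc2,
    card_sup_of_disjoint (hc'.trans (centralizer_le_normalizer _)) hd,
    card_sup_of_disjoint ((frattiniOf_le P).trans
      (le_normalizer_frattiniOf (hc'.trans (centralizer_le_normalizer _))))
      (eq_bot_iff.mpr (hd ▸ inf_le_inf (frattiniOf_le P) (frattiniOf_le Q)))] at h1
  have a1 := card_frattiniOf_mul_le (h2.to_subgroup P) (not_isCyclic hP)
  have a2 := card_frattiniOf_mul_le (h2.to_subgroup Q) (not_isCyclic hQ)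
  have a3 := Nat.mul_le_mul a1 a2
  have b1 : 0 < Nat.card (frattiniOf P) * Nat.card (frattiniOf Q) :=
    Nat.mul_pos Nat.card_pos Nat.card_pos
  nlinarith

/-- Let S be a finite 2-group of sectional 2-rank at most 4, and let P and Q be normal non-abelian subgroups of S whose centres have order 2 and are different. Then P and Q commute elementwise and intersect trivially, and PQ contains its own centralizer in S. -/
theorem result {S : Type*} [Group S] [Finite S] (h2 : IsPGroup 2 S) (hr : Cfsg.SectionalPRankLE 2 4 S)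
    (P Q : Subgroup S) [P.Normal] [Q.Normal] (hP : ¬ IsMulCommutative ↥P) (hQ : ¬ IsMulCommutative ↥Q)
    (hZP : Nat.card ↥(Subgroup.center ↥P) = 2) (hZQ : Nat.card ↥(Subgroup.center ↥Q) = 2)
    (hne : (Subgroup.center ↥P).map P.subtype ≠ (Subgroup.center ↥Q).map Q.subtype) :
    ⁅P, Q⁆ = ⊥ ∧ P ⊓ Q = ⊥ ∧ Subgroup.centralizer ((P ⊔ Q : Subgroup S) : Set S) ≤ P ⊔ Q := by
  rw [map_center_subtype, map_center_subtype] at hne
  rw [card_center_eq] at hZP hZQ
  obtain ⟨h1, h3⟩ := disj h2 (X := ⊤) le_top le_top le_normalizer_of_normal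
    le_normalizer_of_normal hZP hZQ hne
  exact ⟨commutator_eq_bot_iff_le_centralizer.mpr (le_centralizer_iff.mp h3), h1,
    (cent h2 hr hP hQ hZP hZQ h1 h3).trans (sup_le_sup (frattiniOf_le P) (frattiniOf_le Q))⟩

end Cfsg.Agent.S4400
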