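import Cfsg.Statements.S4401
import Cfsg.Agent.H2.Sect
import Cfsg.Agent.S4400

set_option autoImplicit false
open Cfsg

namespace Cfsg.Agent.S4401
open Subgroup CfsgH2 CfsgL0
open scoped commutatorElement

theorem cj_centralizer {S : Type*} [Group S] (g : S) (P : Subgroup S) :
    cj g (centralizer (P : Set S)) = centralizer (cj g P : Set S) := by
  ext x
  rw [mem_cj, mem_centralizer_iff, mem_centralizer_iff]
  constructor
  · intro h y hy
    have := h _ (mem_cj.mp hy)
    calc y * x = g * (g⁻¹ * y * g * (g⁻¹ * x * g)) * g⁻¹ := by group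
      _ = x * y := by rw [this]; group
  · intro h y hy
    have := h _ (conj_mem_cj g hy)
    calc y * (g⁻¹ * x * g) = g⁻¹ * (g * y * g⁻¹ * x) * g := by group
      _ = g⁻¹ * x * g * y := by rw [this]; group

theorem cj_center {S : Type*} [Group S] (g : S) {P : Subgroup S} {z : S}
    (h : P ⊓ centralizer (P : Set S) = zpowers z) :
    cj g P ⊓ centralizer (cj g P : Set S) = zpowers (g * z * g⁻¹) := by
  rw [← cj_centralizer, ← map_inf _ _ _ (MulAut.conj g).injective, h, MonoidHom.map_zpowers]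
  rfl

theorem zpowers_ne {S : Type*} [Group S] {z w : S} (hz : z ≠ 1) (hw : w ^ 2 = 1) (h : z ≠ w) :
    zpowers z ≠ zpowers w := fun e =>
  (eq_or_eq_of_mem_zpowers_two hw (e ▸ mem_zpowers z)).elim hz h

/-- Let S be a finite 2-group of sectional 2-rank at most 4 and P a proper non-abelian subgroup whose centre has order 2. Let S₀ be the centralizer in S of Z(P) and suppose P is normal in S₀. Then either S₀ = S, or P has sectional 2-rank at most 2 and S₀ has index 2 in S. -/
theorem result {S : Type*} [Group S] [Finite S] (h2 : IsPGroup 2 S) (hr : Cfsg.SectionalPRankLE 2 4 S)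
    (P : Subgroup S) (hPlt : P ≠ ⊤) (hP : ¬ IsMulCommutative ↥P) (hZP : Nat.card ↥(Subgroup.center ↥P) = 2)
    (S₀ : Subgroup S) (hS₀ : S₀ = Subgroup.centralizer (((Subgroup.center ↥P).map P.subtype : Subgroup S) : Set S))
    (hPn : ∀ s ∈ S₀, ∀ x ∈ P, s * x * s⁻¹ ∈ P) :
    S₀ = ⊤ ∨ (Cfsg.SectionalPRankLE 2 2 ↥P ∧ S₀.index = 2) := by
  rw [map_center_subtype] at hS₀
  rw [card_center_eq] at hZP
  by_cases htop : S₀ = ⊤
  · exact Or.inl htop
  right
  obtain ⟨z, hzP, hz1, hz2, hzc⟩ := exists_mem_centralizer_of_ne_bot (h2.to_subgroup P)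
    (N := P ⊓ centralizer (P : Set S)) inf_le_left
    (le_normalizer_inf le_normalizer (le_normalizer_centralizer le_normalizer))
    (by rw [← one_lt_card_iff_ne_bot, hZP]; omega)
  have hZ : P ⊓ centralizer (P : Set S) = zpowers z :=
    le_antisymm (le_of_card_prime hZP hzP (mem_zpowers z) hz1) (zpowers_le.mpr hzP)
  rw [hZ, centralizer_zpowers] at hS₀
  have mem0 : ∀ g, g ∈ S₀ ↔ g * z * g⁻¹ = z := fun g => by
    rw [hS₀, mem_centralizer_singleton_iff, mul_inv_eq_iff_eq_mul]
  have hPS : P ≤ S₀ := fun x hx => by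
    rw [hS₀, mem_centralizer_singleton_iff]; exact hzc x hx
  have nP : S₀ ≤ normalizer (P : Set S) := le_normalizer_iff.mpr hPn
  have hnil := h2.isNilpotent
  have grow : ∀ X : Subgroup S, X ≠ ⊤ → ∃ u ∈ normalizer (X : Set S), u ∉ X := fun X hX =>
    SetLike.exists_of_lt (Group.normalizerCondition_of_isNilpotent X (lt_top_iff_ne_top.mpr hX))
  have c1 : ∀ u : S, u * z * u⁻¹ ≠ 1 := fun u h => hz1 (by simpa using h)
  have c2 : ∀ u : S, (u * z * u⁻¹) ^ 2 = 1 := fun u => by rw [conj_pow, hz2]; simp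
  have cZ : ∀ u : S,
      Nat.card (cj u P ⊓ centralizer (cj u P : Set S) : Subgroup S) = 2 := fun u => by
    rw [cj_center u hZ, card_zpowers_of_pow_eq_one (c1 u) (c2 u)]
  have cna : ∀ u : S, ¬ IsMulCommutative (cj u P) := fun u h => hP (by
    have := isMulCommutative_map h (MulAut.conj u⁻¹).toMonoidHom
    rwa [show (cj u P).map (MulAut.conj u⁻¹).toMonoidHom = P from cj_inv_cj u P] at this)
  have cle : ∀ u ∈ normalizer (S₀ : Set S), cj u P ≤ S₀ := fun u hu =>
    (cj_mono u hPS).trans (cj_eq_iff.mpr hu).le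
  have cn : ∀ u ∈ normalizer (S₀ : Set S), S₀ ≤ normalizer (cj u P : Set S) := fun u hu =>
    (cj_eq_iff.mpr hu).ge.trans (le_normalizer_cj nP u)
  have dj : ∀ u ∈ normalizer (S₀ : Set S), ∀ v ∈ normalizer (S₀ : Set S),
      u * z * u⁻¹ ≠ v * z * v⁻¹ → cj u P ⊓ cj v P = ⊥ ∧ cj v P ≤ centralizer (cj u P : Set S) :=
    fun u hu v hv h => Cfsg.Agent.S4400.disj h2 (cle u hu) (cle v hv) (cn u hu) (cn v hv) (cZ u)
      (cZ v) (by rw [cj_center u hZ, cj_center v hZ]; exact zpowers_ne (c1 u) (c2 v) h)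
  obtain ⟨t, ht, ht0⟩ := grow S₀ htop
  obtain ⟨w, hw⟩ : ∃ w, w = t * z * t⁻¹ := ⟨_, rfl⟩
  have hzw : z ≠ w := fun h => ht0 ((mem0 t).mpr (hw ▸ h.symm))
  obtain ⟨hd, hc⟩ := dj 1 (one_mem _) t ht (by simpa [← hw] using hzw)
  rw [cj_one] at hd hc
  have hZQ := cj_center t hZ
  rw [← hw] at hZQ
  obtain ⟨Q, hQ⟩ : ∃ Q, Q = cj t P := ⟨_, rfl⟩
  rw [← hQ] at hd hc hZQ
  have hc' : P ≤ centralizer (Q : Set S) := le_centralizer_iff.mp hc
  have hwQ : w ∈ Q := (hZQ.ge (mem_zpowers w)).1
  have hw1 : w ≠ 1 := hw ▸ c1 t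
  have hw2 : w ^ 2 = 1 := hw ▸ c2 t
  have hCle : centralizer ((P ⊔ Q : Subgroup S) : Set S) ≤ P ⊔ Q :=
    (Cfsg.Agent.S4400.cent h2 hr hP (hQ ▸ cna t) hZP (hQ ▸ cZ t) hd hc).trans
      (sup_le_sup (frattiniOf_le P) (frattiniOf_le Q))
  have factA : ∀ c ∈ centralizer ((P ⊔ Q : Subgroup S) : Set S),
      c = 1 ∨ c = z ∨ c = w ∨ c = z * w := by
    intro c hc2
    obtain ⟨x, hx, y, hy, rfl⟩ :=
      (mem_sup_of_le_normalizer (hc.trans (centralizer_le_normalizer _))).mp (hCle hc2)
    rw [centralizer_sup] at hc2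
    have e1 := eq_or_eq_of_mem_zpowers_two hz2
      (hZ.le ⟨hx, (mul_mem_cancel_right (hc hy)).mp hc2.1⟩)
    have e2 := eq_or_eq_of_mem_zpowers_two hw2
      (hZQ.le ⟨hy, (mul_mem_cancel_left (hc' hx)).mp hc2.2⟩)
    rcases e1 with rfl | rfl <;> rcases e2 with rfl | rfl <;> simp
  have factB : ∀ u ∈ normalizer (S₀ : Set S), u ∉ S₀ → u * z * u⁻¹ = w := by
    intro u hu hu0
    by_contra hne
    have a1 := (dj 1 (one_mem _) u hu (fun h => hu0 ((mem0 u).mpr (by simpa using h.symm)))).2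
    have a2 := (dj t ht u hu (fun h => hne (hw ▸ h.symm))).2
    rw [cj_one] at a1
    rw [← hQ] at a2
    have a3 : cj u P ≤ centralizer ((P ⊔ Q : Subgroup S) : Set S) := by
      rw [centralizer_sup]; exact le_inf a1 a2
    exact cna u (le_centralizer_iff_isMulCommutative.mp
      (a3.trans (centralizer_le (a3.trans hCle))))
  have factC : ∀ u : S, u * z * u⁻¹ = w → t⁻¹ * u ∈ S₀ := fun u h => by
    rw [mem0]
    calc t⁻¹ * u * z * (t⁻¹ * u)⁻¹ = t⁻¹ * (u * z * u⁻¹) * t := by group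
      _ = z := by rw [h, hw]; group
  have hzw' : Commute z w := hc hwQ z hzP.1
  refine ⟨sectional_of_card_le fun N H hNH hHP hcm hpw => ?_, ?_⟩
  · have eH : ElemMod 2 N H := ⟨le_normalizer_iff_commutator_le_left.mpr (by
      rw [commutator_le]; exact fun x hx y hy => hcm x (hNH hx) y hy), hcm, hpw⟩
    have hHQ : H ≤ centralizer (Q : Set S) := hHP.trans hc'
    have hQN : Q ≤ centralizer (N : Set S) := hc.trans (centralizer_le (hNH.trans hHP))
    have h1 := ((eH.mono (N' := N ⊔ frattiniOf Q) le_sup_left (le_normalizer_sup eH.norm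
      (le_normalizer_frattiniOf (hHQ.trans (centralizer_le_normalizer _))))).sup
      ((elemMod_frattiniOf (h2.to_subgroup Q)).mono le_sup_right (le_normalizer_sup
        (hQN.trans (centralizer_le_normalizer _)) (le_normalizer_frattiniOf le_normalizer)))
      (fun x hx y hy => by
        rw [comm_eq_one_iff.mpr (hc hy x (hHP hx))]; exact one_mem _)).card_le hr
      (sup_le_sup hNH (frattiniOf_le Q))
    rw [card_sup_of_disjoint (hHQ.trans (centralizer_le_normalizer _))
      (eq_bot_iff.mpr (hd ▸ inf_le_inf_right Q hHP)),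
      card_sup_of_disjoint (le_normalizer_frattiniOf
        ((hNH.trans hHQ).trans (centralizer_le_normalizer _)))
      (eq_bot_iff.mpr (hd ▸ inf_le_inf (hNH.trans hHP) (frattiniOf_le Q)))] at h1
    have a2 := card_frattiniOf_mul_le (h2.to_subgroup Q)
      (Cfsg.Agent.S4400.not_isCyclic (hQ ▸ cna t))
    have b1 : 0 < Nat.card (frattiniOf Q) := Nat.card_pos
    have a3 := (Nat.mul_le_mul_left (Nat.card H) a2).trans h1
    refine Nat.le_of_mul_le_mul_right ?_ (Nat.mul_pos b1 (show 0 < 2 ^ 2 by norm_num))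
    calc _ ≤ _ := a3
      _ = _ := by ring
  have hN : normalizer (S₀ : Set S) = ⊤ := by
    by_contra hne
    obtain ⟨u, hu, hu1⟩ := grow _ hne
    have hwS : S₀ ≤ centralizer {w} := fun g hg => by
      have := (mem0 _).mp (conj_mem_of_le_normalizer' le_rfl ht hg)
      rw [mem_centralizer_singleton_iff, hw]
      calc g * (t * z * t⁻¹) = t * (t⁻¹ * g * t * z * (t⁻¹ * g * t)⁻¹) * t⁻¹ * g := by group
        _ = _ := by rw [this]
    have htw : t * w * t⁻¹ = z := by
      rw [← factB t⁻¹ (inv_mem ht) (fun h => ht0 (by simpa using inv_mem h))]; group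
    have hy : ∀ g ∈ normalizer (S₀ : Set S), g * (z * w) * g⁻¹ = z * w := by
      intro g hg
      have h0 : ∀ s ∈ S₀, s * (z * w) * s⁻¹ = z * w := fun s hs => by
        calc s * (z * w) * s⁻¹ = s * z * s⁻¹ * (s * w) * s⁻¹ := by group
          _ = z * w := by
            rw [(mem0 s).mp hs, mem_centralizer_singleton_iff.mp (hwS hs)]; group
      by_cases hg0 : g ∈ S₀
      · exact h0 g hg0
      · calc g * (z * w) * g⁻¹ = t * (t⁻¹ * g * (z * w) * (t⁻¹ * g)⁻¹) * t⁻¹ := by group
          _ = t * z * t⁻¹ * (t * w * t⁻¹) := by rw [h0 _ (factC g (factB g hg hg0))]; group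
          _ = z * w := by rw [← hw, htw, hzw'.eq]
    have hPQ : P ⊔ Q ≤ normalizer (S₀ : Set S) :=
      (sup_le hPS (hQ ▸ cle t ht)).trans le_normalizer
    have hzw1 : z * w ≠ 1 := fun h => hzw (by
      rw [eq_inv_of_mul_eq_one_left h, inv_eq_of_mul_eq_one_left (pow_two w ▸ hw2)])
    have huy : u * (z * w) * u⁻¹ = z * w := by
      have h0 : ∀ g ∈ normalizer (S₀ : Set S), g * (u * (z * w) * u⁻¹) * g⁻¹ = u * (z * w) * u⁻¹ :=
        fun g hg => by
          have := hy _ (conj_mem_of_le_normalizer' le_rfl hu hg)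
          calc _ = u * (u⁻¹ * g * u * (z * w) * (u⁻¹ * g * u)⁻¹) * u⁻¹ := by group
            _ = _ := by rw [this]
      rcases factA (u * (z * w) * u⁻¹) (fun g hg => mul_inv_eq_iff_eq_mul.mp (h0 g (hPQ hg)))
        with e | e | e | e
      · exact (hzw1 (by simpa using e)).elim
      · have := h0 t ht
        rw [e, ← hw] at this
        exact (hzw this.symm).elim
      · have := h0 t ht
        rw [e, htw] at this
        exact (hzw this).elim
      · exact e
    have hzS : z ∈ S₀ := hPS hzP.1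
    have hv : u * z * u⁻¹ ∈ normalizer (S₀ : Set S) :=
      conj_mem_of_le_normalizer le_rfl hu (le_normalizer hzS)
    have hcomm : ∀ g ∈ normalizer (S₀ : Set S),
        ⁅g, u * z * u⁻¹⁆ = 1 ∨ ⁅g, u * z * u⁻¹⁆ = z * w := by
      intro g hg
      have hg' := conj_mem_of_le_normalizer' le_rfl hu hg
      have e : ⁅g, u * z * u⁻¹⁆ = u * (u⁻¹ * g * u * z * (u⁻¹ * g * u)⁻¹ * z⁻¹) * u⁻¹ := by
        rw [commutatorElement_def]; group
      by_cases hg0 : u⁻¹ * g * u ∈ S₀
      · left; rw [e, (mem0 _).mp hg0]; group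
      · right
        rw [e, factB _ hg' hg0, inv_eq_of_mul_eq_one_left (pow_two z ▸ hz2), ← hzw'.eq, huy]
    by_cases hv0 : u * z * u⁻¹ ∈ S₀
    · have a1 : u * z * u⁻¹ ∈ centralizer ((P ⊔ Q : Subgroup S) : Set S) := by
        rw [centralizer_sup]
        refine ⟨fun x hx => comm_eq_one_iff.mp ?_, fun x hx => comm_eq_one_iff.mp ?_⟩
        · refine (hcomm x (hPQ (mem_sup_left hx))).resolve_right fun e => hw1 ?_
          have : ⁅x, u * z * u⁻¹⁆ ∈ P := by
            rw [commutatorElement_def, mul_assoc x, mul_assoc x]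
            exact mul_mem hx (conj_mem_of_le_normalizer nP hv0 (inv_mem hx))
          rw [e, P.mul_mem_cancel_left hzP.1] at this
          exact mem_bot.mp (hd ▸ ⟨this, hwQ⟩)
        · refine (hcomm x (hPQ (mem_sup_right hx))).resolve_right fun e => hz1 ?_
          have : ⁅x, u * z * u⁻¹⁆ ∈ Q := by
            rw [commutatorElement_def, mul_assoc x, mul_assoc x]
            exact mul_mem hx (conj_mem_of_le_normalizer (hQ ▸ cn t ht) hv0 (inv_mem hx))
          rw [e, Q.mul_mem_cancel_right hwQ] at this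
          exact mem_bot.mp (hd ▸ ⟨hzP.1, this⟩)
      rcases factA _ a1 with e | e | e | e
      · exact c1 u e
      · exact hu1 (le_normalizer ((mem0 u).mpr e))
      · exact hu1 ((mul_mem_cancel_left (inv_mem ht)).mp (le_normalizer (factC u e)))
      · rw [← huy] at e
        exact hw1 (by simpa using e)
    · have hvP : ∀ x ∈ P, u * z * u⁻¹ * x * (u * z * u⁻¹)⁻¹ ∈ Q := fun x hx => by
        have := conj_mem_cj t (conj_mem_of_le_normalizer nP (factC _ (factB _ hv hv0)) hx)
        rw [← hQ] at this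
        convert this using 1; group
      refine hP (isMulCommutative_of_le (L := zpowers z) (fun x hx => ?_) inferInstance)
      refine mem_zpowers_of_eq_or ((hcomm x (hPQ (mem_sup_left hx))).imp (fun e => ?_) fun e => ?_)
      · have : x ∈ Q := by
          have h3 := hvP x hx
          rwa [← (comm_eq_one_iff.mp e).eq, mul_inv_cancel_right] at h3
        exact mem_bot.mp (hd ▸ ⟨hx, this⟩)
      · have : z⁻¹ * x ∈ Q := by
          have h3 := mul_mem hwQ (hvP x hx)
          convert h3 using 1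
          rw [inv_mul_eq_iff_eq_mul, ← mul_assoc, ← e, commutatorElement_def]; group
        have h5 : z⁻¹ * x ∈ P := mul_mem (inv_mem (show z ∈ P from hzP.1)) hx
        have h4 : z⁻¹ * x = 1 := mem_bot.mp (hd ▸ ⟨h5, this⟩)
        exact (inv_mul_eq_one.mp h4).symm
  rw [index_eq_two_iff']
  refine ⟨t⁻¹, fun b => ?_⟩
  by_cases hb : b ∈ S₀
  · exact Or.inr ⟨hb, fun h => ht0 (by
      have := mul_mem hb (inv_mem h)
      rwa [mul_inv_rev, mul_inv_cancel_left, inv_inv] at this)⟩
  · exact Or.inl ⟨factC b (factB b (hN ▸ mem_top b) hb), hb⟩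

end Cfsg.Agent.S4401
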