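import Cfsg.Statements.S4402
import Cfsg.Agent.H2.Wr128

set_option autoImplicit false
open Cfsg

namespace Cfsg.Agent.S4402
open Subgroup CfsgH2 CfsgL0
open scoped commutatorElement

open CfsgH2W

section
variable {S : Type*} [Group S] [Finite S] {P : Subgroup S} {ι : Wr →* S}
  {φ : normalizer (P : Set S) →* MulAut Wr}

theorem norm_iff (hι : Function.Injective ι)
    (hφ : ∀ t m, ι (φ t m) = t * ι m * (t : S)⁻¹) (V : Subgroup Wr) (t : normalizer (P : Set S)) :
    (t : S) ∈ normalizer (V.map ι : Set S) ↔ ∀ x, φ t x ∈ V ↔ x ∈ V := by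
  constructor
  · intro h x
    rw [← mem_map_iff_mem hι, hφ, ← mem_normalizer_iff.1 h, mem_map_iff_mem hι]
  · intro h
    refine mem_normalizer_fintype ?_
    rintro _ ⟨x, hx, rfl⟩
    rw [← hφ]
    exact mem_map_of_mem _ ((h x).2 hx)

theorem mem_of_fix (h2 : IsPGroup 2 S) (hr : SectionalPRankLE 2 4 S) (hι : Function.Injective ι)
    (hP : ι.range = P) (hφ : ∀ t m, ι (φ t m) = t * ι m * (t : S)⁻¹)
    (t : normalizer (P : Set S)) (ht : Fix (φ t)) : (t : S) ∈ P := by
  refine (?_ : normalizer (P : Set S) ⊓ normalizer (V1.map ι : Set S) ≤ P)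
    ⟨t.2, (norm_iff hι hφ V1 t).2 ht.1⟩
  by_contra hle
  obtain ⟨c, hc, hcP, hc2⟩ := exists_not_mem_pow_mem h2 hle
  have h1 := (norm_iff hι hφ V1 ⟨c, hc.1⟩).1 hc.2
  have hf : Fix (φ ⟨c, hc.1⟩) := (fix_or_swap _).resolve_right fun hs =>
    absurd ((hs.2 u).1 ((h1 u).2 (by decide))) (by decide)
  obtain ⟨m, hm⟩ := hf.exists
  set β := MulAut.conj m * φ ⟨c, hc.1⟩ with hβ
  have hmP : ι m ∈ P := hP ▸ ⟨m, rfl⟩
  set d := ι m * c with hd
  have hdβ : ∀ x, ι (β x) = d * ι x * d⁻¹ := fun x => by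
    simp [hβ, hd, hφ, mul_assoc]
  have hdP : d ∉ P := fun h => hcP ((mul_mem_cancel_left hmP).1 h)
  obtain ⟨n, hn⟩ : d ^ 2 ∈ ι.range := by
    rw [hP, show d ^ 2 = ι m * (c * ι m * c⁻¹) * c ^ 2 by rw [hd, sq, sq]; group]
    exact mul_mem (mul_mem hmP ((mem_normalizer_iff.1 hc.1 _).1 hmP)) hc2
  have hn' : n ∈ V1 ⊓ V2 := cent_W n fun g hg => hι (by
    conv_rhs => rw [← (hm g hg).2, hdβ, hdβ]
    rw [map_mul, map_mul, map_inv, hn, sq]; group)
  have hW' : V1 ⊓ V2 ≤ W := fun x hx => hx.1.1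
  have hdn : d ∈ normalizer ((V1 ⊓ V2).map ι : Set S) := by
    refine mem_normalizer_fintype ?_
    rintro _ ⟨x, hx, rfl⟩
    rw [← hdβ]
    exact mem_map_of_mem _ ((mul_mem_cancel_right (inv_mem hx)).1 (hm x (hW' hx)).1)
  have e1 : ElemMod 2 ((V1 ⊓ V2).map ι) (W.map ι) := by
    refine ⟨(map_mono le_normalizer_of_normal).trans (le_normalizer_map _), ?_, ?_⟩
    · rintro _ ⟨x, hx, rfl⟩ _ ⟨y, hy, rfl⟩
      rw [← map_commutatorElement]
      exact mem_map_of_mem _ ((elem_W x hx).2 y hy)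
    · rintro _ ⟨x, hx, rfl⟩
      rw [← map_pow]
      exact mem_map_of_mem _ (elem_W x hx).1
  have e2 := e1.sup (elemMod_zpowers hdn ⟨n, hn', hn⟩) (by
    rintro _ ⟨x, hx, rfl⟩ y hy
    rw [← inv_mem_iff, commutatorElement_inv]
    obtain ⟨k, rfl⟩ := mem_powers_iff_mem_zpowers.2 hy
    induction k with
    | zero => simp
    | succ k ih =>
      rw [show ⁅d ^ (k + 1), ι x⁆ = d * ⁅d ^ k, ι x⁆ * d⁻¹ * ι (β x * x⁻¹) by
        rw [map_mul, hdβ, map_inv, pow_succ']; simp [commutatorElement_def, mul_assoc]]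
      exact mul_mem ((mem_normalizer_iff.1 hdn _).1 (ih (pow_mem (mem_zpowers _) _)))
        (mem_map_of_mem _ (hm x hx).1))
  have e3 := e2.card_le hr ((map_mono hW').trans le_sup_left)
  rw [card_map_of_injective hι, card_W'] at e3
  have e4 := eq_of_le_of_card_ge (le_sup_left : W.map ι ≤ W.map ι ⊔ zpowers d)
    (by rw [card_map_of_injective hι, card_W]; exact e3)
  exact hdP (hP ▸ map_le_range ι W (e4 ▸ mem_sup_right (mem_zpowers d)))

end

/-- Let S be a finite 2-group of sectional 2-rank at most 4 and P a proper subgroup isomorphic to the wreath product of the dihedral group of order 8 by a group of order 2 (equivalently, to a Sylow 2-subgroup of the symmetric group of degree 8; order 128). Then Z(S) = Z(P) has order 2, P has index 2 in its normalizer N_S(P), N_S(P)/Z(S) is again isomorphic to that wreath product, and every elementary abelian subgroup V of order 16 that is normal in P satisfies N_S(V) = P. -/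
theorem result {S : Type*} [Group S] [Finite S] (h2 : IsPGroup 2 S) (hr : Cfsg.SectionalPRankLE 2 4 S)
    (P : Subgroup S) (hPlt : P ≠ ⊤) (hP : ∃ T : Sylow 2 (Equiv.Perm (Fin 8)), Nonempty (↥P ≃* ↥(T : Subgroup (Equiv.Perm (Fin 8))))) :
    Subgroup.center S = (Subgroup.center ↥P).map P.subtype ∧ Nat.card ↥(Subgroup.center S) = 2 ∧
    P.relIndex (Subgroup.normalizer (P : Set S)) = 2 ∧
    (∃ (_ : ((Subgroup.center S).subgroupOf (Subgroup.normalizer (P : Set S))).Normal) (T : Sylow 2 (Equiv.Perm (Fin 8))),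
      Nonempty (↥(Subgroup.normalizer (P : Set S)) ⧸ (Subgroup.center S).subgroupOf (Subgroup.normalizer (P : Set S)) ≃*
        ↥(T : Subgroup (Equiv.Perm (Fin 8))))) ∧
    ∀ V : Subgroup S, V ≤ P → (∀ g ∈ P, ∀ v ∈ V, g * v * g⁻¹ ∈ V) → Cfsg.IsElementaryAbelian 2 V → Nat.card ↥V = 16 →
      Subgroup.normalizer (V : Set S) = P := by
  haveI : Fact (Nat.Prime 2) := ⟨Nat.prime_two⟩
  obtain ⟨T, ⟨e0⟩⟩ := hP
  obtain ⟨e1⟩ := sylow_Wr T
  let e : P ≃* Wr := e0.trans e1.symm
  let ι : Wr →* S := P.subtype.comp e.symm.toMonoidHom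
  have hι : Function.Injective ι := P.subtype_injective.comp e.symm.injective
  have hP : ι.range = P := by
    ext x
    exact ⟨fun ⟨m, hm⟩ => hm ▸ (e.symm m).2, fun hx => ⟨e ⟨x, hx⟩, by simp [ι]⟩⟩
  let φ : normalizer (P : Set S) →* MulAut Wr :=
    (MulAut.congr e).toMonoidHom.comp P.normalizerMonoidHom
  have hφ : ∀ t m, ι (φ t m) = t * ι m * (t : S)⁻¹ := fun t m => by
    simp [ι, φ, MulAut.congr, normalizerMonoidHom]; rfl
  have hfix := mem_of_fix h2 hr hι hP hφ
  have hPn : ∀ V : Subgroup Wr, V.Normal → P ≤ normalizer (V.map ι : Set S) := fun V _ => by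
    rw [← hP, MonoidHom.range_eq_map]
    exact (map_mono le_normalizer_of_normal).trans (le_normalizer_map _)
  have hN : ∀ V : Subgroup Wr, V = V1 ∨ V = V2 → normalizer (V.map ι : Set S) = P := by
    intro V hV
    have h1 := hPn V (by rcases hV with rfl | rfl <;> infer_instance)
    by_contra hne
    obtain ⟨t, ht, htP⟩ := SetLike.exists_of_lt
      (CfsgH1.lt_inf_normalizer (h2.to_subgroup _) (lt_of_le_of_ne h1 (Ne.symm hne)))
    have h3 := (norm_iff hι hφ V ⟨t, ht.2⟩).1 ht.1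
    refine htP (hfix ⟨t, ht.2⟩ ((fix_or_swap _).resolve_right fun hs => ?_))
    rcases hV with rfl | rfl
    · exact absurd ((hs.2 u).1 ((h3 u).2 (by decide))) (by decide)
    · exact absurd ((hs.1 v).1 ((h3 v).2 (by decide))) (by decide)
  have hZ1 : center S ≤ (center Wr).map ι := fun z hz => by
    have : z ∈ ι.range := by
      rw [hP, ← hN V1 (Or.inl rfl)]; exact center_le_normalizer _ hz
    obtain ⟨m, rfl⟩ := this
    exact mem_map_of_mem _ (mem_center_iff.2 fun g => hι (by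
      rw [map_mul, map_mul, mem_center_iff.1 hz]))
  have hnt : Nontrivial S := by
    by_contra h
    rw [not_nontrivial_iff_subsingleton] at h
    exact hPlt (Subsingleton.elim _ _)
  have hZ2 : center S = (center Wr).map ι := eq_of_le_of_card_ge hZ1 (by
    rw [card_map_of_injective hι, card_center_Wr]
    have := h2.center_nontrivial
    exact Finite.one_lt_card)
  have hZc : Nat.card (center S) = 2 := by rw [hZ2, card_map_of_injective hι, card_center_Wr]
  have hidx : P.relIndex (normalizer (P : Set S)) = 2 := by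
    obtain ⟨t, ht, htP⟩ := SetLike.exists_of_lt
      (CfsgH1.lt_inf_normalizer (h2.to_subgroup ⊤) (lt_top_iff_ne_top.2 hPlt))
    refine relIndex_eq_two_iff.2 ⟨t, ht.2, fun b hb => ?_⟩
    by_cases hbP : b ∈ P
    · exact Or.inr ⟨hbP, fun h => htP ((mul_mem_cancel_left hbP).1 h)⟩
    · refine Or.inl ⟨hfix (⟨b, hb⟩ * ⟨t, ht.2⟩) ?_, hbP⟩
      have a1 := (fix_or_swap _).resolve_left (mt (hfix ⟨b, hb⟩) hbP)
      have a2 := (fix_or_swap _).resolve_left (mt (hfix ⟨t, ht.2⟩) htP)
      rw [map_mul]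
      exact ⟨fun x => (a1.2 _).trans (a2.1 x), fun x => (a1.1 _).trans (a2.2 x)⟩
  refine ⟨?_, hZc, hidx, ⟨inferInstance, T, ?_⟩, fun V hVP hVn hV h16 => ?_⟩
  · refine eq_of_le_of_card_ge (fun z hz => ?_) ?_
    · have hzP : z ∈ P := hP ▸ map_le_range ι _ (hZ1 hz)
      exact ⟨⟨z, hzP⟩, mem_center_iff.2 fun g => Subtype.ext (mem_center_iff.1 hz g), rfl⟩
    · rw [card_map_of_injective P.subtype_injective, hZc, ← card_center_Wr]
      exact (Nat.card_congr (centerCongr e).toEquiv).le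
  · let ψ := (MulAction.toPermHom (MulAut Wr) Om).comp φ
    have hker : (center S).subgroupOf (normalizer (P : Set S)) = ψ.ker := by
      ext t
      have : t ∈ ψ.ker ↔ ∀ g ∈ Om, φ t g = g := by
        simp [ψ, Equiv.ext_iff, Subtype.ext_iff]
      rw [this, mem_subgroupOf]
      constructor
      · intro h g _
        exact hι (by rw [hφ, ← mem_center_iff.1 h, mul_inv_cancel_right])
      · intro h
        obtain ⟨m, hm⟩ : (t : S) ∈ ι.range := hP.ge (hfix t (fix_of_Om h))
        rw [hZ2, ← hm]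
        exact mem_map_of_mem _ (center_of_Om m fun g hg => hι (by
          rw [map_mul, map_mul, map_inv, hm, ← hφ, h g hg]))
    refine sylow_of_inj card_Om (QuotientGroup.lift _ ψ hker.le) ?_ ?_ T
    · rw [injective_iff_map_eq_one]
      intro x hx
      induction x using QuotientGroup.induction_on with
      | H x => exact (QuotientGroup.eq_one_iff x).2 (hker.ge hx)
    · have a1 := card_eq_card_quotient_mul_card_subgroup
        ((center S).subgroupOf (normalizer (P : Set S)))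
      rw [card_subgroupOf_of_le (center_le_normalizer _), hZc,
        ← card_mul_relIndex (le_normalizer : P ≤ _), hidx, Nat.card_congr e.toEquiv, card_Wr] at a1
      omega
  · have hV' : (V.comap ι).map ι = V := map_comap_eq_self (hP ▸ hVP)
    haveI : (V.comap ι).Normal := ⟨fun n hn g => by
      rw [mem_comap, map_mul, map_mul, map_inv]
      exact hVn _ (hP ▸ ⟨g, rfl⟩) _ hn⟩
    rw [← hV']
    refine hN _ (eq_V ⟨CfsgH2.isMulCommutative_iff.2 fun x hx y hy => hι ?_, fun x hx => hι ?_⟩ ?_)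
    · rw [map_mul, map_mul]; exact CfsgH2.isMulCommutative_iff.1 hV.1 _ hx _ hy
    · rw [map_pow, map_one]; exact hV.2 _ hx
    · rw [← card_map_of_injective hι, hV', h16]

end Cfsg.Agent.S4402
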