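import Cfsg.Statements.S4403
import Cfsg.Agent.L0.KBalance

set_option autoImplicit false
open Cfsg

namespace Cfsg.Agent.S4403

open Subgroup CfsgL0
open scoped commutatorElement

theorem aux1 {G : Type*} [Group G] [Finite G] {p : ℕ} [hp : Fact p.Prime] {P : Subgroup G}
    (hP : IsPGroup p P) [IsCyclic P] {z x : G} (hz : z ∈ P) (hz1 : z ≠ 1)
    (hx : x ∈ normalizer (P : Set G)) (hxz : x * z = z * x) (ho : (orderOf x).Coprime p) :
    x ∈ centralizer (P : Set G) := by
  have hc : (Nat.card P).Coprime (Nat.card (zpowers x)) := CfsgH2.coprime_card_of_isPGroup hP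
    (by rw [Nat.card_zpowers]; exact (Nat.Prime.coprime_iff_not_dvd hp.out).1 ho.symm)
  rcases hP.commutator_eq_bot_or_commutator_eq_self (zpowers_le.2 hx) hc with h | h
  · exact commutator_eq_bot_iff_le_centralizer.1 h (mem_zpowers x)
  · have h1 := CfsgH2.commutator_inf_centralizer_eq_bot (zpowers_le.2 hx) hc.symm inferInstance
    rw [commutator_comm, h, centralizer_zpowers] at h1
    exact absurd (h1.le ⟨hz, mem_centralizer_singleton_iff.2 hxz.symm⟩) hz1

theorem aux2 {G : Type*} [Group G] [Finite G] {p : ℕ} [hp : Fact p.Prime] (P : Sylow p G)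
    [IsCyclic (P : Subgroup G)] {H : Subgroup G} (Q : Sylow p H) : IsCyclic (Q : Subgroup H) := by
  obtain ⟨g, -, hg⟩ := (CfsgH2.isSylowOf_top P).exists_cj_le (Q.2.map H.subtype) le_top
  haveI := isCyclic_of_le hg
  haveI : IsCyclic ((Q : Subgroup H).map H.subtype) := isCyclic_of_surjective _
    (equivMapOfInjective _ (MulAut.conj g).toMonoidHom (MulAut.conj g).injective).symm.surjective
  exact isCyclic_of_surjective _ (equivMapOfInjective _ _ H.subtype_injective).symm.surjective

theorem aux3 {G : Type*} [Group G] [Finite G] {p : ℕ} [hp : Fact p.Prime] (P : Sylow p G)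
    [IsCyclic (P : Subgroup G)] {L Q : Subgroup G} (hL : ⁅L, L⁆ = L) (hpL : p ∣ Nat.card L)
    (hQ : IsPGroup p Q) (hc : IsMulCommutative Q) (hQL : Q ≤ normalizer (L : Set G)) : Q ≤ L := by
  obtain ⟨T⟩ : Nonempty (Sylow p ↥(Q ⊔ L)) := inferInstance
  haveI := aux2 P T
  have e : commutator ↥(Q ⊔ L) = L.subgroupOf (Q ⊔ L) := by
    apply map_injective (Q ⊔ L).subtype_injective
    rw [map_subtype_commutator, map_subgroupOf_eq_of_le le_sup_right]
    refine le_antisymm (commutator_le.2 fun x hx y hy => ?_)
      (hL.ge.trans (commutator_mono le_sup_right le_sup_right))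
    obtain ⟨a, ha, b, hb, rfl⟩ := (CfsgH2.mem_sup_of_le_normalizer' hQL).1 hx
    obtain ⟨c, hc', d, hd, rfl⟩ := (CfsgH2.mem_sup_of_le_normalizer' hQL).1 hy
    have h1 := CfsgH2.isMulCommutative_iff.1 hc a ha c hc'
    have e : ⁅a * b, c * d⁆ = (a * b * a⁻¹) * ((a * c) * (d * b⁻¹) * (a * c)⁻¹) *
      (c * d⁻¹ * c⁻¹) := by
      rw [commutatorElement_def]
      calc _ = a * b * c * d * b⁻¹ * (c * a)⁻¹ * c * d⁻¹ * c⁻¹ := by group
        _ = _ := by rw [← h1]; group
    rw [e]
    exact mul_mem (mul_mem (CfsgH2.conj_mem_of_le_normalizer hQL ha hb)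
      (CfsgH2.conj_mem_of_le_normalizer hQL (mul_mem ha hc') (mul_mem hd (inv_mem hb))))
      (CfsgH2.conj_mem_of_le_normalizer hQL hc' (inv_mem hd))
  rcases T.not_dvd_card_commutator_or_not_dvd_index_commutator with h | h
  · rw [e, card_subgroupOf_of_le le_sup_right] at h; exact absurd hpL h
  · rw [e] at h
    obtain ⟨n, hn⟩ := IsPGroup.iff_card.1 hQ
    have h1 := relIndex_sup_dvd_card hQL
    rw [hn] at h1
    exact le_sup_left.trans (relIndex_eq_one.1 (Nat.Coprime.eq_one_of_dvd (Nat.Coprime.pow_right _
      ((Nat.Prime.coprime_iff_not_dvd hp.out).2 h).symm) h1))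

/-- Let K be a finite group, p a prime dividing its order with O_{p'}(K) = 1 (no nontrivial normal subgroup of order prime to p), and P a cyclic Sylow p-subgroup of K. Then either P is normal and self-centralizing in K with K/P cyclic of order dividing p − 1 (so K is the semidirect product of P by a group of automorphisms of P of order dividing p − 1), or the generalized Fitting subgroup F*(K) is a non-abelian simple group and p does not divide the index of F*(K) in K. -/
theorem result {K : Type*} [Group K] [Finite K] (p : ℕ) [Fact p.Prime] (hp : p ∣ Nat.card K) (hO : Cfsg.pPrimeCore p K = ⊥)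
    (P : Sylow p K) (hP : IsCyclic ↥(P : Subgroup K)) :
    ((P : Subgroup K).Normal ∧ Subgroup.centralizer ((P : Subgroup K) : Set K) = (P : Subgroup K) ∧
      (∀ (_ : (P : Subgroup K).Normal), IsCyclic (K ⧸ (P : Subgroup K))) ∧ (P : Subgroup K).index ∣ p - 1) ∨
    (IsSimpleGroup ↥(Cfsg.generalizedFittingSubgroup K) ∧ ¬ IsMulCommutative ↥(Cfsg.generalizedFittingSubgroup K) ∧
      ¬ p ∣ (Cfsg.generalizedFittingSubgroup K).index) := by
  have hpp : p.Prime := Fact.out
  have hpL : ∀ L : Subgroup K, IsComponent L → p ∣ Nat.card L := fun L hL => by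
    have := not_isPi_component (π := {p}ᶜ) (by rwa [← pPrimeCore_eq_piCore]) hL
    rwa [isPi_compl_singleton_iff' hpp, not_not] at this
  by_cases h0 : pCore p K = ⊥
  · right
    have hF : fittingSubgroup K = ⊥ := (fitting_eq_pCore hO).trans h0
    haveI : Nontrivial K := Finite.one_lt_card_iff_nontrivial.1
      (lt_of_lt_of_le hpp.one_lt (Nat.le_of_dvd Nat.card_pos hp))
    obtain ⟨L, hL⟩ : ∃ L : Subgroup K, IsComponent L := by
      by_contra hc
      push Not at hc
      apply genFitting_ne_bot (G := K)
      rw [generalizedFittingSubgroup, layer_eq_bot_iff.2 hc, hF, bot_sup_eq]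
    have hZ : L ⊓ centralizer (L : Set K) = ⊥ :=
      eq_bot_iff.2 (hF ▸ component_inf_centralizer_le_fitting hL)
    have hE : generalizedFittingSubgroup K = L := by
      rw [generalizedFittingSubgroup, hF, sup_bot_eq]
      refine le_antisymm (layer_le_iff.2 fun L' hL' => ?_) (component_le_layer hL)
      by_contra hne
      have h1 := component_le_centralizer hL hL' fun e => hne e.ge
      obtain ⟨x, hx⟩ := exists_prime_orderOf_dvd_card' p (hpL L hL)
      obtain ⟨y, hy⟩ := exists_prime_orderOf_dvd_card' p (hpL L' hL')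
      have hx' : (x : K) ^ p = 1 := congrArg Subtype.val (hx ▸ pow_orderOf_eq_one x)
      have hy' : (y : K) ^ p = 1 := congrArg Subtype.val (hy ▸ pow_orderOf_eq_one y)
      have hc : zpowers (y : K) ≤ centralizer (zpowers (x : K) : Set K) :=
        (zpowers_le.2 (h1 y.2)).trans (centralizer_le (zpowers_le.2 x.2))
      have hA : IsElementaryAbelian p (zpowers (x : K) ⊔ zpowers (y : K)) :=
        ⟨CfsgH2.isMulCommutative_sup inferInstance inferInstance hc,
          CfsgH2.pow_eq_one_of_mem_sup hc (CfsgH2.pow_eq_one_of_mem_zpowers hx')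
            (CfsgH2.pow_eq_one_of_mem_zpowers hy')⟩
      refine not_isCyclic_of_elementary hA ?_ ?_
      · rw [CfsgH2.card_sup_zpowers (centralizer_le_normalizer _ (hc (mem_zpowers _))) hpp
          (hy' ▸ one_mem _) fun h => ?_, Nat.card_zpowers, orderOf_coe, hx, sq]
        have : (y : K) = 1 := hZ.le ⟨zpowers_le.2 x.2 h, h1 y.2⟩
        rw [show y = 1 from Subtype.ext this, orderOf_one] at hy
        exact hpp.one_lt.ne hy
      · obtain ⟨g, -, hg⟩ := (CfsgH2.isSylowOf_top P).exists_cj_le (isPGroup_of_elementary hA) le_top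
        haveI := isCyclic_of_le hg
        exact isCyclic_of_surjective _
          (equivMapOfInjective _ (MulAut.conj g).toMonoidHom (MulAut.conj g).injective).symm.surjective
    have hn : L.Normal := hE ▸ inferInstance
    rw [hE]
    refine ⟨?_, fun h => qs_not_solvable hL.2 (CfsgH2.isSolvable_of_isMulCommutative h), ?_⟩
    · obtain ⟨-, h1, h2⟩ := isQuasisimple_iff.1 hL.2
      have hZ' : center L = ⊥ := by
        rw [← map_center_subtype, Subgroup.map_eq_bot_iff, ker_subtype, le_bot_iff] at hZ
        exact hZ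
      exact ⟨fun N hN => (h2 N hN).imp_left fun h => eq_bot_iff.2 (hZ' ▸ h)⟩
    · exact fun h => P.not_dvd_index (h.trans (index_dvd_of_le (aux3 P (qs_perfect hL.2) (hpL L hL)
        P.2 inferInstance (by rw [normalizer_eq_top]; exact le_top))))
  · left
    obtain ⟨⟨z, hz⟩, hz1⟩ := ne_bot_iff_exists_ne_one.1 h0
    have hz1' : z ≠ 1 := fun e => hz1 (Subtype.ext e)
    haveI : IsCyclic (pCore p K) := isCyclic_of_le (pCore_le_sylow P)
    have hE : layer K = ⊥ := by
      refine layer_eq_bot_iff.2 fun L hL => ?_
      have h1 : L ≤ centralizer (pCore p K : Set K) :=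
        (component_le_layer hL).trans (layer_le_centralizer_pCore p)
      have h2 := aux3 P (qs_perfect hL.2) (hpL L hL) (isPGroup_pCore K p) inferInstance
        (le_normalizer_of_le_centralizer (le_centralizer_symm h1))
      obtain ⟨T⟩ : Nonempty (Sylow p L) := inferInstance
      haveI := aux2 P T
      have hzT : (⟨z, h2 hz⟩ : L) ∈ (T : Subgroup L) :=
        pCore_le_sylow T (pCore_subgroupOf_le L hz)
      have h3 : normalizer ((T : Subgroup L) : Set L) ≤ centralizer ((T : Subgroup L) : Set L) := by
        have h4 := pResidual_sup_sylow (T.subtype (le_normalizer (H := (T : Subgroup L))))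
        have h5 := congrArg (map (normalizer ((T : Subgroup L) : Set L)).subtype) h4
        rw [Subgroup.map_sup, ← MonoidHom.range_eq_map, range_subtype, Sylow.coe_subtype,
          map_subgroupOf_eq_of_le le_normalizer] at h5
        refine h5.ge.trans (sup_le ?_ (le_centralizer _))
        rw [← pResidualOf_def, pResidualOf_eq_piResidualOf, piResidualOf_eq_closure, closure_le]
        rintro x ⟨hx, ho⟩
        exact aux1 T.2 hzT (fun e => hz1' (congrArg Subtype.val e)) hx
          (Subtype.ext (h1 x.2 z hz).symm) ((isPi_compl_singleton_iff hpp).1 ho)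
      have h4 := MonoidHom.not_dvd_card_ker_transferSylow T h3
      have h5 : commutator L ≤ (MonoidHom.transferSylow T h3).ker := by
        letI : CommGroup (T : Subgroup L) := IsCyclic.commGroup
        exact Abelianization.commutator_subset_ker _
      rw [hL.2.1.commutator_eq_top, top_le_iff] at h5
      rw [h5, card_top] at h4
      exact h4 (hpL L hL)
    have hC := centralizer_fitting_le_of_layer_eq_bot hE
    rw [fitting_eq_pCore hO] at hC
    have hPe : (P : Subgroup K) = pCore p K := le_antisymm
      (((le_centralizer _).trans (centralizer_le (pCore_le_sylow P))).trans hC) (pCore_le_sylow P)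
    have hn : (P : Subgroup K).Normal := hPe ▸ inferInstance
    have hCP : centralizer ((P : Subgroup K) : Set K) = P :=
      le_antisymm (by rw [hPe]; exact hC) (le_centralizer _)
    obtain ⟨w, hw⟩ := exists_prime_orderOf_dvd_card' p (P.dvd_card_of_dvd_card hp)
    have hw1 : (w : K) ≠ 1 := fun e => by
      rw [show w = 1 from Subtype.ext e, orderOf_one] at hw; exact hpp.one_lt.ne hw
    have hwp : w ^ p = 1 := orderOf_dvd_iff_pow_eq_one.1 hw.dvd
    haveI : (zpowers w).Characteristic := by
      letI : CommGroup (P : Subgroup K) := IsCyclic.commGroup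
      have e : zpowers w = (powMonoidHom p : (P : Subgroup K) →* (P : Subgroup K)).ker := by
        refine eq_of_le_of_card_ge (zpowers_le.2 hwp) ?_
        rw [IsCyclic.card_powMonoidHom_ker, Nat.card_zpowers, hw]
        exact Nat.gcd_le_right _ hpp.pos
      rw [characteristic_iff_map_le]
      intro φ
      rw [MonoidHom.map_zpowers, zpowers_le, e]
      change φ w ^ p = 1
      rw [← map_pow, hwp, map_one]
    set Z := (zpowers w).map (P : Subgroup K).subtype with hZ
    have hZc : Nat.card Z = p := by rw [card_map_subtype, Nat.card_zpowers, hw]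
    haveI : IsCyclic Z := isCyclic_of_prime_card hZc
    have hker : (MulAut.conjNormal : K →* MulAut Z).ker = P := by
      have e : (MulAut.conjNormal : K →* MulAut Z).ker = centralizer (Z : Set K) := by
        ext g
        rw [MonoidHom.mem_ker, mem_centralizer_iff]
        exact ⟨fun h x hx => (mul_inv_eq_iff_eq_mul.1 (by
          exact congrArg Subtype.val (DFunLike.congr_fun h (⟨x, hx⟩ : Z)))).symm, fun h => MulEquiv.ext fun x =>
            Subtype.ext (mul_inv_eq_iff_eq_mul.2 (h x x.2).symm)⟩
      rw [e]
      have h1 : (P : Subgroup K) ≤ centralizer (Z : Set K) :=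
        (le_centralizer _).trans (centralizer_le (map_subtype_le _))
      refine (P.3 ?_ h1)
      rw [← pResidual_eq_bot_iff, eq_bot_iff, ← map_subtype_le_map_subtype, ← pResidualOf_def,
        pResidualOf_eq_piResidualOf, piResidualOf_eq_closure, closure_le, Subgroup.map_bot]
      rintro x ⟨hx, ho⟩
      have h2 := aux1 P.2 w.2 hw1 (by rw [normalizer_eq_top]; exact mem_top x)
        (hx w ⟨w, mem_zpowers w, rfl⟩).symm ((isPi_compl_singleton_iff hpp).1 ho)
      rw [hCP] at h2
      obtain ⟨k, hk⟩ := P.2 ⟨x, h2⟩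
      exact orderOf_eq_one_iff.1 (Nat.Coprime.eq_one_of_dvd
        (((isPi_compl_singleton_iff hpp).1 ho).pow_right k)
        (orderOf_dvd_of_pow_eq_one (congrArg Subtype.val hk)))
    have hinj := QuotientGroup.kerLift_injective (MulAut.conjNormal : K →* MulAut Z)
    haveI : IsCyclic (MulAut Z) := by
      haveI : IsCyclic (ZMod (Nat.card Z))ˣ := by rw [hZc]; infer_instance
      exact isCyclic_of_surjective _ (IsCyclic.mulAutMulEquiv Z).symm.surjective
    refine ⟨hn, hCP, fun _ => ?_, ?_⟩
    · haveI := isCyclic_of_injective _ hinj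
      exact isCyclic_of_surjective _ (QuotientGroup.quotientMulEquivOfEq hker).surjective
    · have := card_dvd_of_injective _ hinj
      rwa [← index, hker, IsCyclic.card_mulAut, hZc, Nat.totient_prime hpp] at this

end Cfsg.Agent.S4403
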