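import Cfsg.Statements.S4405
import Cfsg.Agent.H2.Minus32
import Cfsg.Agent.L0.Fitting

set_option autoImplicit false
open Cfsg

namespace Cfsg.Agent.S4405
open Subgroup CfsgH2 CfsgL0
open scoped commutatorElement



/-- Let G be a finite group of order 320 = 64·5 whose largest normal 2-subgroup H = O₂(G) equals the Fitting subgroup F(G) and is extraspecial of order 32 containing no elementary abelian subgroup of order 8 (so H is the central product of a quaternion group and a dihedral group of order 8). If T is an involution of G outside H whose centralizer in H contains an elementary abelian subgroup of order 4, then C_H(T) itself is elementary abelian of order 4. -/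
theorem result {G : Type*} [Group G] [Finite G]
    (hG : Nat.card G = 320) (hHF : Cfsg.pCore 2 G = Cfsg.fittingSubgroup G)
    (hex : Cfsg.IsExtraspecial 2 ↥(Cfsg.pCore 2 G)) (h32 : Nat.card ↥(Cfsg.pCore 2 G) = 32)
    (hminus : ∀ A : Subgroup G, A ≤ Cfsg.pCore 2 G → Cfsg.IsElementaryAbelian 2 A → Nat.card ↥A ≤ 4)
    (T : G) (hT : orderOf T = 2) (hTH : T ∉ Cfsg.pCore 2 G)
    (V : Subgroup G) (hV : V ≤ Cfsg.pCore 2 G ⊓ Subgroup.centralizer ({T} : Set G)) (hV4 : Nat.card ↥V = 4) (hVe : Cfsg.IsElementaryAbelian 2 V) :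
    Nat.card ↥(Cfsg.pCore 2 G ⊓ Subgroup.centralizer ({T} : Set G)) = 4 ∧
      Cfsg.IsElementaryAbelian 2 (Cfsg.pCore 2 G ⊓ Subgroup.centralizer ({T} : Set G)) := by
  classical
  set H := pCore 2 G with hH
  obtain ⟨π, h1, h2, h3⟩ := exists_out_hom hex h32 fun A hA => by
    rw [← card_map_of_injective H.subtype_injective]
    exact hminus _ (map_subtype_le A) ⟨have := hA.1; inferInstance, by
      rintro _ ⟨a, ha, rfl⟩
      rw [← map_pow, hA.2 a ha, map_one]⟩
  have hi : H.index = 10 := by
    have := H.card_mul_index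
    rw [h32, hG] at this
    omega
  have hs : Group.IsSolvable G := by
    have : IsZGroup (G ⧸ H) := IsZGroup.of_squarefree (by
      rw [← index_eq_card, hi]; decide +kernel)
    have := isSolvable_of_isPGroup (isPGroup_pCore G 2)
    exact Group.isSolvable_of_ker_le_range H.subtype (QuotientGroup.mk' H) (by simp)
  let ψ : G →* MulAut H := MulAut.conjNormal
  have hk : (π.comp ψ).ker = H := by
    rw [← MonoidHom.comap_ker, h2]
    ext g
    constructor
    · rintro ⟨h, hh⟩
      have : (h : G)⁻¹ * g ∈ H := by
        have hC : centralizer (H : Set G) ≤ H := by rw [hHF]; exact centralizer_fitting_le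
        apply hC
        intro x hx
        have : (h : G) * x * (h : G)⁻¹ = g * x * g⁻¹ :=
          by simpa [ψ] using congrArg Subtype.val (DFunLike.congr_fun hh (⟨x, hx⟩ : H))
        calc _ = (h : G)⁻¹ * (h * x * (h : G)⁻¹) * g := by group
          _ = _ := by rw [this]; group
      simpa using mul_mem h.2 this
    · intro hg
      exact ⟨⟨g, hg⟩, MulEquiv.ext fun x => rfl⟩
  have hr : Nat.card (π.comp ψ).range = 10 := by rw [← index_ker, hk, hi]
  obtain ⟨h4, h5⟩ := h3 (ψ T) (by rw [← map_mul, ← sq, ← hT, pow_orderOf_eq_one, map_one])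
    (fun h => hTH (hk ▸ h)) (fun h => by
      have := Equiv.Perm.subgroup_eq_top_of_swap_mem (H := (π.comp ψ).range)
        (by simpa using Nat.prime_five)
        (by rw [← Nat.card_eq_fintype_card (α := (π.comp ψ).range), hr]; simp) ⟨T, rfl⟩ h
      rw [this, card_top, Nat.card_perm] at hr
      simp [Nat.factorial] at hr)
  have key : ∀ x : H, ψ T x = x ↔ (x : G) ∈ centralizer {T} := fun x => by
    rw [mem_centralizer_singleton_iff, Subtype.ext_iff]
    change T * x * T⁻¹ = x ↔ _
    rw [mul_inv_eq_iff_eq_mul, eq_comm]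
  have c4 : Nat.card (H ⊓ centralizer {T} : Subgroup G) = 4 := by
    rw [← h4]
    exact Nat.card_congr
      { toFun := fun x => ⟨⟨x, x.2.1⟩, (key _).mpr x.2.2⟩
        invFun := fun x => ⟨x.1, x.1.2, (key _).mp x.2⟩
        left_inv := fun _ => rfl
        right_inv := fun _ => rfl }
  exact ⟨c4, eq_of_le_of_card_ge hV (by omega) ▸ hVe⟩

end Cfsg.Agent.S4405
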