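import Cfsg.Statements.S4406
import Cfsg.Agent.H2.Extra2
import Cfsg.Agent.H2.Sect
import Cfsg.Agent.L0.Cores

set_option autoImplicit false
open Cfsg

namespace Cfsg.Agent.S4406
open Subgroup CfsgH2 CfsgL0
open scoped commutatorElement

abbrev A4 := ↥(alternatingGroup (Fin 4))

theorem two_or_three : ∀ a : A4, a ^ 2 = 1 ∨ a ^ 3 = 1 := by decide +kernel

theorem key : ∀ a : A4, a ^ 2 = 1 → a ≠ 1 → ∀ b : A4, b ^ 2 = 1 → b ≠ 1 → a * b ≠ 1 →
    ∀ d : A4, d ^ 3 = 1 → d ≠ 1 →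
      (d * a * d⁻¹ = b ∧ d * b * d⁻¹ = a * b) ∨ (d⁻¹ * a * d⁻¹⁻¹ = b ∧ d⁻¹ * b * d⁻¹⁻¹ = a * b) := by
  decide +kernel

theorem comm_of_sq : ∀ a : A4, a ^ 2 = 1 → ∀ b : A4, b ^ 2 = 1 → a * b = b * a := by
  decide +kernel

theorem card_A4 : Nat.card A4 = 12 := by
  rw [Nat.card_eq_fintype_card]
  decide +kernel

theorem exists_ker {G H : Type*} [Group G] [Finite G] [Group H] [Finite H] (f : G →* H)
    (hH : Nat.card H = 12) {Q : Subgroup G} (hQ : Nat.card Q = 9) :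
    ∃ x ∈ Q, x ≠ 1 ∧ f x = 1 := by
  by_contra h
  push Not at h
  have : Function.Injective (f.comp Q.subtype) := (injective_iff_map_eq_one _).mpr fun x hx =>
    Subtype.ext (by by_contra h1; exact h x x.2 h1 hx)
  have := card_dvd_of_injective _ this
  rw [hH, hQ] at this
  omega

/-- In the direct product P = A₄ × A₄, let X be the Sylow 2-subgroup, X₁ and X₂ its intersections with the two direct factors, Q a Sylow 3-subgroup and Q₁, Q₂ its intersections with the two factors. Then every subgroup B of X of order 4 either meets X₁ or X₂ nontrivially, or is normalized by one of the two subgroups of Q of order 3 other than Q₁ and Q₂. -/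
theorem result
    (X : Sylow 2 (↥(alternatingGroup (Fin 4)) × ↥(alternatingGroup (Fin 4))))
    (Q : Sylow 3 (↥(alternatingGroup (Fin 4)) × ↥(alternatingGroup (Fin 4))))
    (B : Subgroup (↥(alternatingGroup (Fin 4)) × ↥(alternatingGroup (Fin 4)))) (hBX : B ≤ (X : Subgroup _)) (hB4 : Nat.card ↥B = 4) :
    B ⊓ ((X : Subgroup _) ⊓ Subgroup.prod ⊤ ⊥) ≠ ⊥ ∨ B ⊓ ((X : Subgroup _) ⊓ Subgroup.prod ⊥ ⊤) ≠ ⊥ ∨
      ∃ R : Subgroup (↥(alternatingGroup (Fin 4)) × ↥(alternatingGroup (Fin 4))), R ≤ (Q : Subgroup _) ∧ Nat.card ↥R = 3 ∧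
        R ≠ (Q : Subgroup _) ⊓ Subgroup.prod ⊤ ⊥ ∧ R ≠ (Q : Subgroup _) ⊓ Subgroup.prod ⊥ ⊤ ∧ R ≤ Subgroup.normalizer (B : Set _) := by
  have : Fact (Nat.Prime 3) := ⟨Nat.prime_three⟩
  by_contra hne
  push Not at hne
  obtain ⟨h1, h2, h3⟩ := hne
  have hsq : ∀ x ∈ B, x.1 ^ 2 = 1 ∧ x.2 ^ 2 = 1 := by
    intro x hx
    obtain ⟨k, hk⟩ := IsPGroup.exists_pow_eq_one X.isPGroup' (hBX hx)
    have hc : Nat.Coprime (2 ^ k) 3 := Nat.Coprime.pow_left _ (by norm_num)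
    exact ⟨(two_or_three _).elim id fun h => by
        rw [eq_one_of_pow_coprime (congrArg Prod.fst hk) h hc, one_pow],
      (two_or_three _).elim id fun h => by
        rw [eq_one_of_pow_coprime (congrArg Prod.snd hk) h hc, one_pow]⟩
  have hne : ∀ x ∈ B, x ≠ 1 → x.1 ≠ 1 ∧ x.2 ≠ 1 := fun x hx h =>
    ⟨fun e => h (mem_bot.mp (h2 ▸ ⟨hx, hBX hx, e, mem_top _⟩)),
      fun e => h (mem_bot.mp (h1 ▸ ⟨hx, hBX hx, mem_top _, e⟩))⟩
  have hQ9 : Nat.card (Q : Subgroup (A4 × A4)) = 9 := by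
    rw [Q.card_eq_multiplicity, Nat.card_prod, card_A4]
    decide +kernel
  have hcube : ∀ x ∈ (Q : Subgroup (A4 × A4)), x.1 ^ 3 = 1 ∧ x.2 ^ 3 = 1 := by
    intro x hx
    obtain ⟨k, hk⟩ := IsPGroup.exists_pow_eq_one Q.isPGroup' hx
    have hc : Nat.Coprime (3 ^ k) 2 := Nat.Coprime.pow_left _ (by norm_num)
    exact ⟨(two_or_three _).elim (fun h => by
        rw [eq_one_of_pow_coprime (congrArg Prod.fst hk) h hc, one_pow]) id,
      (two_or_three _).elim (fun h => by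
        rw [eq_one_of_pow_coprime (congrArg Prod.snd hk) h hc, one_pow]) id⟩
  obtain ⟨⟨d, _⟩, hd, hd1, rfl⟩ := exists_ker (MonoidHom.snd A4 A4) card_A4 hQ9
  obtain ⟨⟨_, d'⟩, hd', hd1', rfl⟩ := exists_ker (MonoidHom.fst A4 A4) card_A4 hQ9
  obtain ⟨u, hu, hu1⟩ := SetLike.not_le_iff_exists.mp (fun h : B ≤ ⊥ => by
    have := card_le_of_le h; rw [card_bot] at this; omega)
  have hu2 : u ^ 2 = 1 := Prod.ext (hsq u hu).1 (hsq u hu).2
  have c1 := card_zpowers_of_pow_eq_one hu1 hu2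
  obtain ⟨w, hw, hw1⟩ := SetLike.not_le_iff_exists.mp (fun h : B ≤ zpowers u => by
    have := card_le_of_le h; omega)
  have hw2 : w ^ 2 = 1 := Prod.ext (hsq w hw).1 (hsq w hw).2
  have huw : w * u = u * w := Prod.ext (comm_of_sq _ (hsq w hw).1 _ (hsq u hu).1)
    (comm_of_sq _ (hsq w hw).2 _ (hsq u hu).2)
  have c2 := card_sup_zpowers (K := zpowers u) (x := w) (mem_normalizer_zpowers (by
    rw [huw, mul_inv_cancel_right]; exact mem_zpowers u)) Nat.prime_two (hw2 ▸ one_mem _) hw1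
  have hB : zpowers u ⊔ zpowers w = B :=
    eq_of_le_of_card_ge (sup_le (zpowers_le.mpr hu) (zpowers_le.mpr hw)) (by omega)
  have n1 := hne u hu hu1
  have n2 := hne w hw fun e => hw1 (e ▸ one_mem _)
  have n3 := hne (u * w) (mul_mem hu hw) fun e => hw1 (by
    rw [eq_inv_of_mul_eq_one_right e]; exact inv_mem (mem_zpowers u))
  have k1 := key _ (hsq u hu).1 n1.1 _ (hsq w hw).1 n2.1 n3.1 d (hcube _ hd).1
    (fun e => hd1 (Prod.ext e rfl))
  have k2 := key _ (hsq u hu).2 n1.2 _ (hsq w hw).2 n2.2 n3.2 d' (hcube _ hd').2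
    (fun e => hd1' (Prod.ext rfl e))
  obtain ⟨e, he, he1, e1, e2⟩ : ∃ e : A4, (e, 1) ∈ (Q : Subgroup (A4 × A4)) ∧ e ≠ 1 ∧
      e * u.1 * e⁻¹ = w.1 ∧ e * w.1 * e⁻¹ = u.1 * w.1 :=
    k1.elim (fun h => ⟨d, hd, fun e => hd1 (Prod.ext e rfl), h⟩)
      (fun h => ⟨d⁻¹, inv_mem hd, fun e => hd1 (Prod.ext (inv_eq_one.mp e) rfl), h⟩)
  obtain ⟨e', he', he1', e1', e2'⟩ : ∃ e : A4, (1, e) ∈ (Q : Subgroup (A4 × A4)) ∧ e ≠ 1 ∧
      e * u.2 * e⁻¹ = w.2 ∧ e * w.2 * e⁻¹ = u.2 * w.2 :=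
    k2.elim (fun h => ⟨d', hd', fun e => hd1' (Prod.ext rfl e), h⟩)
      (fun h => ⟨d'⁻¹, inv_mem hd', fun e => hd1' (Prod.ext rfl (inv_eq_one.mp e)), h⟩)
  have hr : (e, e') ∈ (Q : Subgroup (A4 × A4)) := by simpa using mul_mem he he'
  refine h3 (zpowers (e, e')) (zpowers_le.mpr hr) (card_zpowers_of_pow_eq_one
    (fun h => he1 (congrArg Prod.fst h)) (Prod.ext (hcube _ hr).1 (hcube _ hr).2))
    (fun h => he1' (h.le (mem_zpowers _)).2.2) (fun h => he1 (h.le (mem_zpowers _)).2.1)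
    (zpowers_le.mpr ?_)
  rw [← cj_eq_iff]
  refine eq_of_le_of_card_ge ?_ (card_cj _ _).ge
  conv_lhs => rw [← hB]
  rw [cj, Subgroup.map_sup, MonoidHom.map_zpowers, MonoidHom.map_zpowers]
  refine sup_le (zpowers_le.mpr ?_) (zpowers_le.mpr ?_)
  · have : (MulAut.conj (e, e')).toMonoidHom u = w := Prod.ext e1 e1'
    exact this ▸ hw
  · have : (MulAut.conj (e, e')).toMonoidHom w = u * w := Prod.ext e2 e2'
    exact this ▸ mul_mem hu hw

end Cfsg.Agent.S4406
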