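import Cfsg.Statements.S4407
import Cfsg.Agent.L0.Cores
import Cfsg.Agent.H2.Sect

set_option autoImplicit false
open Cfsg

namespace Cfsg.Agent.S4407
open Subgroup CfsgH2 CfsgL0
open scoped commutatorElement

section
variable {S : Type*} [Group S] {M : Type*} [AddCommGroup M] [Module (ZMod 2) M]
  (ρ : Representation (ZMod 2) S M)

theorem add_self (m : M) : m + m = 0 := by
  rw [← two_smul (ZMod 2), show (2 : ZMod 2) = 0 from rfl, zero_smul]

theorem add_eq_zero {m n : M} : m + n = 0 ↔ m = n :=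
  ⟨fun h => by rw [← add_zero m, ← add_self n, ← add_assoc, h, zero_add],
    fun h => h ▸ add_self m⟩

theorem ap (x y : S) (m : M) : ρ x (ρ y m) = ρ (x * y) m := by rw [map_mul]; rfl

theorem fix2 {σ : S} (hσ : σ * σ = 1) (Q : M → Prop) (h1 : ∀ m n, Q m → Q n → Q (m + n))
    (h2 : ∀ m, Q m → Q (ρ σ m)) {m : M} (hm : Q m) (h0 : m ≠ 0) :
    ∃ u, u ≠ 0 ∧ Q u ∧ ρ σ u = u := by
  by_cases h : ρ σ m = m
  · exact ⟨m, h0, hm, h⟩
  · exact ⟨m + ρ σ m, fun e => h (add_eq_zero.mp e).symm, h1 _ _ hm (h2 _ hm), by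
      rw [map_add, ap, hσ, map_one, add_comm]; rfl⟩

theorem nfix {x : S} (hx : x * x * x = 1) (m : M) :
    ρ x (m + ρ x m + ρ (x * x) m) = m + ρ x m + ρ (x * x) m := by
  rw [map_add, map_add, ap, ap, ← mul_assoc, hx, map_one, Module.End.one_apply]
  abel

theorem core [Finite S] [Finite M] {s t z a b : S} (hs : s * s = 1) (ht : t * t = 1)
    (hz : z * z = 1) (hts : s * t = t * (s * z)) (hzs : z * s = s * z) (hzt : z * t = t * z)
    (ha : a * a * a = 1) (hsa : s * a = a * s) (hza : z * a = a * a * z) (hb : t * a * t = b)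
    (hab : a * b = b * a) (hgen : closure {a, s, t} = ⊤)
    (hirr : ∀ N : Submodule (ZMod 2) M, (∀ s : S, ∀ m ∈ N, ρ s m ∈ N) → N = ⊥ ∨ N = ⊤)
    (h0 : ∀ m, ρ a m = m → ρ b m = m → m = 0) {m : M} (hm : ρ a m = m) (hm0 : m ≠ 0) :
    Nat.card M = 16 ∧ Nat.card {m : M // ρ s m = m ∧ ρ z m = m} ≠ 2 ∧
      Nat.card {m : M // ρ t m = m ∧ ρ z m = m} = 2 := by
  have haz : a * z = z * (a * a) := by
    rw [← mul_assoc, hza, mul_assoc, hza, ← mul_assoc, ← mul_assoc, ha, one_mul]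
  obtain ⟨m, hm0, hm, hmz⟩ := fix2 ρ hz (fun m => ρ a m = m)
    (fun m n h1 h2 => by rw [map_add, h1, h2]) (fun m h => by rw [ap, haz, ← ap, ← ap, h, h]) hm hm0
  obtain ⟨u, hu0, ⟨hua, huz⟩, hus⟩ := fix2 ρ hs (fun m => ρ a m = m ∧ ρ z m = m)
    (fun m n h1 h2 => by rw [map_add, map_add, h1.1, h2.1, h1.2, h2.2]; exact ⟨rfl, rfl⟩)
    (fun m h => ⟨by rw [ap, ← hsa, ← ap, h.1], by rw [ap, hzs, ← ap, h.2]⟩) ⟨hm, hmz⟩ hm0
  have htb : t * b = a * t := by rw [← hb, ← mul_assoc, ← mul_assoc, ht, one_mul]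
  have hta : t * a = b * t := by rw [← hb, mul_assoc, ht, mul_one]
  have tt : ∀ m, ρ t (ρ t m) = m := fun m => by rw [ap, ht, map_one]; rfl
  obtain ⟨v, hv⟩ : ∃ v, v = ρ t u := ⟨_, rfl⟩
  obtain ⟨v', hv'⟩ : ∃ v', v' = ρ a v := ⟨_, rfl⟩
  obtain ⟨u', hu'⟩ : ∃ u', u' = ρ b u := ⟨_, rfl⟩
  have bv : ρ b v = v := by rw [hv, ap, ← hta, ← ap, hua]
  have tu' : ρ t u' = v' := by rw [hu', hv', hv, ap, ap, htb]
  have tv : ρ t v = u := by rw [hv, tt]
  have tv' : ρ t v' = u' := by rw [← tu', tt]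
  have au' : ρ a u' = u' := by rw [hu', ap, hab, ← ap, hua]
  have bv' : ρ b v' = v' := by rw [hv', ap, ← hab, ← ap, bv]
  have av' : ρ a v' = v + v' := by
    have := h0 _ (nfix ρ ha v) (by
      rw [← ap, ← hv', map_add, map_add, bv, bv', ap, ← hab, ← ap, bv'])
    rw [← ap, ← hv'] at this
    exact (add_eq_zero.mp this).symm
  have zv : ρ z v = v := by rw [hv, ap, hzt, ← ap, huz]
  have zv' : ρ z v' = v + v' := by rw [hv', ap, hza, ← ap, ← ap, zv, ← hv', av']
  have zu' : ρ z u' = u + u' := by rw [← tv', ap, hzt, ← ap, zv', map_add, tv]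
  have sv : ρ s v = v := by rw [hv, ap, hts, ← ap, ← ap, huz, hus]
  have sv' : ρ s v' = v' := by rw [hv', ap, hsa, ← ap, sv]
  have su' : ρ s u' = u + u' := by
    rw [← tv', ap, hts, ← hzs, ← ap, ← ap, sv', zv', map_add, tv]
  have two : ∀ c : ZMod 2, c = 0 ∨ c = 1 := by decide
  have ind : ∀ {x : S} {w : M}, w ≠ 0 → ρ x w ≠ w → ∀ c d : ZMod 2, c • w + d • ρ x w = 0 →
      c = 0 ∧ d = 0 := fun {x w} h1 h2 c d h => by
    rcases two c with rfl | rfl <;> rcases two d with rfl | rfl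
    · exact ⟨rfl, rfl⟩
    · rw [zero_smul, one_smul, zero_add] at h
      exact absurd (by rw [← Module.End.one_apply (R := ZMod 2) w, ← map_one ρ, ← inv_mul_cancel x,
        ← ap, h, map_zero]) h1
    · exact absurd (by simpa using h) h1
    · rw [one_smul, one_smul] at h
      exact absurd (add_eq_zero.mp h).symm h2
  have hv0 : v ≠ 0 := fun e => hu0 (by rw [← tv, e, map_zero])
  let f : (ZMod 2 × ZMod 2) × ZMod 2 × ZMod 2 →ₗ[ZMod 2] M :=
    ((LinearMap.toSpanSingleton _ _ u).coprod (LinearMap.toSpanSingleton _ _ u')).coprod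
      ((LinearMap.toSpanSingleton _ _ v).coprod (LinearMap.toSpanSingleton _ _ v'))
  have hf : ∀ c, f c = c.1.1 • u + c.1.2 • u' + (c.2.1 • v + c.2.2 • v') := fun c => rfl
  have finj : Function.Injective f := (injective_iff_map_eq_zero f).mpr fun c hc => by
    have e := add_eq_zero.mp ((hf c).symm.trans hc)
    have e1 := h0 (c.1.1 • u + c.1.2 • u') (by simp only [map_add, map_smul, hua, au'])
      (by simp only [e, map_add, map_smul, bv, bv'])
    have e2 := ind hv0 (fun h => hv0 (h0 v h bv)) _ _ (hv' ▸ e ▸ e1)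
    have e3 := ind hu0 (fun h => hu0 (h0 u hua h)) _ _ (hu' ▸ e1)
    exact Prod.ext (Prod.ext e3.1 e3.2) (Prod.ext e2.1 e2.2)
  have fs : ∀ c, ρ s (f c) = f ((c.1.1 + c.1.2, c.1.2), c.2) := fun c => by
    simp only [hf, map_add, map_smul, hus, su', sv, sv']; module
  have fz : ∀ c, ρ z (f c) = f ((c.1.1 + c.1.2, c.1.2), (c.2.1 + c.2.2, c.2.2)) := fun c => by
    simp only [hf, map_add, map_smul, huz, zu', zv, zv']; module
  have fa : ∀ c, ρ a (f c) = f (c.1, (c.2.2, c.2.1 + c.2.2)) := fun c => by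
    simp only [hf, map_add, map_smul, hua, au', ← hv', av']; module
  have ft : ∀ c, ρ t (f c) = f (c.2, c.1) := fun c => by
    simp only [hf, map_add, map_smul, ← hv, tu', tv, tv']; module
  have fsur : Function.Surjective f := by
    refine LinearMap.range_eq_top.mp ((hirr _ fun g => ?_).resolve_left fun e => hu0 ?_)
    · have hg : g ∈ Submonoid.closure {a, s, t} := by
        rw [← closure_toSubmonoid_of_finite, hgen]; trivial
      induction hg using Submonoid.closure_induction with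
      | mem x hx =>
        rintro _ ⟨c, rfl⟩
        rcases hx with rfl | rfl | rfl
        exacts [⟨_, (fa c).symm⟩, ⟨_, (fs c).symm⟩, ⟨_, (ft c).symm⟩]
      | one => simp
      | mul x y _ _ h1 h2 => exact fun m hm => ap ρ x y m ▸ h1 _ (h2 _ hm)
    · exact (Submodule.eq_bot_iff _).mp e u ⟨((1, 0), 0), by simp [hf]⟩
  let e := Equiv.ofBijective f ⟨finj, fsur⟩
  refine ⟨by rw [← Nat.card_congr e]; simp, ?_, ?_⟩
  · rw [← Nat.card_congr (e.subtypeEquiv (p := fun c => c.1.2 = 0 ∧ c.2.2 = 0) fun c => ?_),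
      Nat.card_eq_fintype_card]
    · decide
    · change _ ↔ ρ s (f c) = f c ∧ ρ z (f c) = f c
      rw [fs, fz, finj.eq_iff, finj.eq_iff]
      revert c; decide
  · rw [← Nat.card_congr (e.subtypeEquiv (p := fun c => c.2 = c.1 ∧ c.2.2 = 0) fun c => ?_),
      Nat.card_eq_fintype_card]
    · decide
    · change _ ↔ ρ t (f c) = f c ∧ ρ z (f c) = f c
      rw [ft, fz, finj.eq_iff, finj.eq_iff]
      revert c; decide
end

open DihedralGroup in
def Bi (i : ZMod 4) : Subgroup (DihedralGroup 4) where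
  carrier := {x | x = r 0 ∨ x = r 2 ∨ x = sr i ∨ x = sr (i + 2)}
  one_mem' := Or.inl rfl
  mul_mem' := by simp only [Set.mem_ofPred_eq]; revert i; decide
  inv_mem' := by simp only [Set.mem_ofPred_eq]; revert i; decide

open DihedralGroup in
instance decBi (i : ZMod 4) : DecidablePred (· ∈ Bi i) :=
  fun x => decidable_of_iff (x = r 0 ∨ x = r 2 ∨ x = sr i ∨ x = sr (i + 2)) Iff.rfl

theorem card_Bi (i : ZMod 4) : Nat.card (Bi i) = 4 := by
  rw [Nat.card_eq_fintype_card]; revert i; decide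

theorem le_Bi {B : Subgroup (DihedralGroup 4)} (h : ∀ b ∈ B, b ^ 2 = 1) : B ≤ Bi 0 ∨ B ≤ Bi 1 := by
  by_contra hc
  obtain ⟨⟨x, hx, h1⟩, y, hy, h2⟩ := (not_or.mp hc).imp SetLike.not_le_iff_exists.mp
    SetLike.not_le_iff_exists.mp
  have := h x hx
  have := h y hy
  have := h _ (mul_mem hx hy)
  clear hx hy hc h
  revert x y
  decide

/-- Let S be a finite group with a normal elementary abelian subgroup A of order 9 that is self-centralizing (C_S(A) = A), and a dihedral subgroup X of order 8 with S = AX. Let M be a finite-dimensional module for S over the field with two elements that is faithful and irreducible. Then M has 16 elements, and X contains exactly one subgroup B of order 4 and exponent 2 whose fixed points on M form a subspace with exactly 2 elements (equivalently, M is free of rank one over the group algebra of B). -/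
theorem result {S : Type*} [Group S] [Finite S]
    (A : Subgroup S) [A.Normal] (hA : Cfsg.IsElementaryAbelian 3 A) (hA9 : Nat.card ↥A = 9)
    (hAC : Subgroup.centralizer (A : Set S) = A) (X : Subgroup S) (hX : Nonempty (↥X ≃* DihedralGroup 4)) (hAX : A ⊔ X = ⊤)
    {M : Type*} [AddCommGroup M] [Module (ZMod 2) M] [Finite M] (ρ : Representation (ZMod 2) S M)
    (hfaith : Function.Injective ρ)
    (hirr : ∀ N : Submodule (ZMod 2) M, (∀ s : S, ∀ m ∈ N, ρ s m ∈ N) → N = ⊥ ∨ N = ⊤) (hM : Nontrivial M) :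
    Nat.card M = 16 ∧
      ∃! B : Subgroup S, B ≤ X ∧ Nat.card ↥B = 4 ∧ (∀ b ∈ B, b ^ 2 = 1) ∧
        Nat.card {m : M // ∀ b ∈ B, ρ b m = m} = 2 := by
  obtain ⟨e⟩ := hX
  haveI : Fact (Nat.Prime 3) := ⟨Nat.prime_three⟩
  let ψ : DihedralGroup 4 →* S := X.subtype.comp e.symm.toMonoidHom
  have hψ : Function.Injective ψ := X.subtype_injective.comp e.symm.injective
  have hψr : ψ.range = X := by
    rw [MonoidHom.range_comp, MonoidHom.range_eq_top.mpr e.symm.surjective,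
      ← MonoidHom.range_eq_map, range_subtype]
  have hc : ∀ x ∈ A, ∀ y ∈ A, x * y = y * x := isMulCommutative_iff.mp hA.1
  have h3 : ∀ x ∈ A, x * x * x = 1 := fun x hx => by rw [← hA.2 x hx, pow_three']
  have hcj : ∀ g : S, ∀ x ∈ A, g * x * g⁻¹ ∈ A := fun g x hx => Normal.conj_mem ‹_› x hx g
  have hf : ∀ x, x ≠ 1 → ∃ w ∈ A, ψ x * w * (ψ x)⁻¹ ≠ w := fun x hx => by
    by_contra h
    push Not at h
    have h1 : ψ x ∈ A := hAC ▸ fun w hw => (mul_inv_eq_iff_eq_mul.mp (h w hw)).symm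
    have h2 := h3 _ h1
    rw [← map_mul, ← map_mul, ← map_one ψ, hψ.eq_iff] at h2
    clear h h1
    revert x; decide
  have gen : ∀ x ∈ A, ∀ y ∈ A, x ≠ 1 → y ∉ zpowers x → zpowers x ⊔ zpowers y = A :=
    fun x hx y hy h1 h2 => eq_of_le_of_card_ge (sup_le (zpowers_le.mpr hx) (zpowers_le.mpr hy)) (by
      rw [card_sup_zpowers (mem_normalizer_of_comm fun k hk => by
        rw [comm_eq_one_iff.mpr (hc _ hy _ (zpowers_le.mpr hx hk))]; exact one_mem _)
        Nat.prime_three (by rw [hA.2 y hy]; exact one_mem _) h2,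
        card_zpowers_of_pow_eq_one h1 (hA.2 x hx), hA9])
  have zp : ∀ x ∈ A, ∀ y ∈ zpowers x, y = 1 ∨ y = x ∨ y = x⁻¹ := fun x hx y hy => by
    obtain ⟨k, rfl⟩ := hy
    have hx3 : x ^ (3 : ℤ) = 1 := by exact_mod_cast hA.2 x hx
    change x ^ k = 1 ∨ x ^ k = x ∨ x ^ k = x⁻¹
    rcases (by omega : k = 3 * (k / 3) ∨ k = 3 * (k / 3) + 1 ∨ k = 3 * (k / 3 + 1) - 1) with
      h | h | h <;> rw [h] <;> simp [zpow_add_one, zpow_sub_one, zpow_mul, hx3]
  have ninv : ∀ x ∈ A, x ≠ 1 → x⁻¹ ≠ x := fun x hx h1 h2 => h1 (by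
    rw [← h3 x hx, ← inv_mul_eq_one, ← mul_assoc, ← mul_assoc, inv_mul_cancel, one_mul]
    nth_rewrite 1 [← h2]; exact inv_mul_cancel x)
  obtain ⟨s, hs⟩ : ∃ s, s = ψ (.sr 0) := ⟨_, rfl⟩
  obtain ⟨t, ht⟩ : ∃ t, t = ψ (.sr 1) := ⟨_, rfl⟩
  obtain ⟨z, hz⟩ : ∃ z, z = ψ (.r 2) := ⟨_, rfl⟩
  have ss : s * s = 1 := by rw [hs, ← map_mul, ← map_one ψ]; rfl
  have tt : t * t = 1 := by rw [ht, ← map_mul, ← map_one ψ]; rfl
  have zz : z * z = 1 := by rw [hz, ← map_mul, ← map_one ψ]; rfl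
  have st : s * t = t * (s * z) := by simp only [hs, ht, hz, ← map_mul]; rfl
  have ts : t * s = s * (t * z) := by simp only [hs, ht, hz, ← map_mul]; rfl
  have zs : z * s = s * z := by simp only [hs, hz, ← map_mul]; rfl
  have zt : z * t = t * z := by simp only [ht, hz, ← map_mul]; rfl
  have stz : s * t * (s * t) = z := by simp only [hs, ht, hz, ← map_mul]; rfl
  have si := inv_eq_of_mul_eq_one_left ss
  have ti := inv_eq_of_mul_eq_one_left tt
  have zi := inv_eq_of_mul_eq_one_left zz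
  have hinv : ∀ g : S, g * g = 1 → ∀ w ∈ A,
      g * (w⁻¹ * (g * w * g⁻¹)) * g⁻¹ = (w⁻¹ * (g * w * g⁻¹))⁻¹ := fun g hg w _ => by
    rw [inv_eq_of_mul_eq_one_left hg]
    calc g * (w⁻¹ * (g * w * g)) * g = g * w⁻¹ * g * w * (g * g) := by group
      _ = _ := by rw [hg, mul_one, mul_inv_rev, mul_inv_rev, mul_inv_rev, inv_inv,
        inv_eq_of_mul_eq_one_left hg, mul_assoc g]
  have zA : ∀ w ∈ A, z * w * z⁻¹ = w⁻¹ := by
    obtain ⟨w, hw, hw1⟩ := hf (.r 2) (by decide)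
    rw [← hz] at hw1
    have hd := hinv z zz w hw
    have hdA : w⁻¹ * (z * w * z⁻¹) ∈ A := mul_mem (inv_mem hw) (hcj z w hw)
    have hd1 : w⁻¹ * (z * w * z⁻¹) ≠ 1 := fun e => hw1 (inv_mul_eq_one.mp e).symm
    generalize w⁻¹ * (z * w * z⁻¹) = d at hd hdA hd1
    have hzr : z * (s * t) = s * t * z := by rw [← stz]; group
    have hd' : z * (s * t * d * (s * t)⁻¹) * z⁻¹ = (s * t * d * (s * t)⁻¹)⁻¹ := by
      calc _ = z * (s * t) * d * (z * (s * t))⁻¹ := by group
        _ = s * t * (z * d * z⁻¹) * (s * t)⁻¹ := by rw [hzr]; group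
        _ = _ := by rw [hd]; group
    have hn : s * t * d * (s * t)⁻¹ ∉ zpowers d := fun h => by
      have e : z * d * z⁻¹ = s * t * (s * t * d * (s * t)⁻¹) * (s * t)⁻¹ := by rw [← stz]; group
      rcases zp d hdA _ h with h | h | h
      · exact hd1 (conj_eq_one_iff.mp h)
      · exact ninv d hdA hd1 (by rw [← hd, e, h, h])
      · exact ninv d hdA hd1 (by rw [← hd, e, h, ← conj_inv, h, inv_inv])
    intro x hx
    have hA' := gen d hdA _ (hcj _ d hdA) hd1 hn
    obtain ⟨_, ⟨i, rfl⟩, j, rfl⟩ := (mem_sup_zpowers_iff (mem_normalizer_of_comm fun k hk => by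
      rw [comm_eq_one_iff.mpr (hc _ (hcj _ d hdA) _ (zpowers_le.mpr hdA hk))]
      exact one_mem _)).mp (hA' ▸ hx)
    rw [← conj_mul, ← conj_zpow, ← conj_zpow (a := z), hd, hd', inv_zpow, inv_zpow, ← mul_inv_rev]
    exact congrArg _ (hc _ (zpow_mem (hcj _ d hdA) _) _ (zpow_mem hdA _))
  obtain ⟨a, haA, ha1, sa⟩ : ∃ a ∈ A, a ≠ 1 ∧ s * a = a * s := by
    obtain ⟨w, hw, hw1⟩ := hf (.sr 2) (by decide)
    rw [show ψ (.sr 2) = s * z by rw [hs, hz, ← map_mul]; rfl] at hw1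
    refine ⟨w * (s * w * s⁻¹), mul_mem hw (hcj s w hw), fun e => hw1 ?_, ?_⟩
    · calc _ = s * (z * w * z⁻¹) * s⁻¹ := by group
        _ = (s * w * s⁻¹)⁻¹ := by rw [zA w hw]; group
        _ = w := (eq_inv_of_mul_eq_one_left e).symm
    · calc _ = s * (s * w * s⁻¹ * w) := by rw [hc w hw _ (hcj s w hw)]
        _ = s * s * w * s * w := by rw [si]; group
        _ = _ := by rw [ss]; group
  obtain ⟨b, hb⟩ : ∃ b, t * a * t = b := ⟨_, rfl⟩
  have hbA : b ∈ A := by rw [← hb]; nth_rewrite 2 [← ti]; exact hcj t a haA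
  have za : ∀ w ∈ A, z * w = w * w * z := fun w hw => by
    rw [← mul_inv_eq_iff_eq_mul, zA w hw, inv_eq_of_mul_eq_one_left (h3 w hw)]
  have sb : s * b * s = b * b := by
    calc s * b * s = s * t * a * (t * s) := by rw [← hb]; group
      _ = t * (s * z) * a * (s * (t * z)) := by rw [← st, ← ts]
      _ = t * s * (z * a) * s * t * z := by group
      _ = t * (s * a) * a * (z * s * t * z) := by rw [za a haA]; group
      _ = t * (a * s) * a * (s * z * t * z) := by rw [sa, zs]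
      _ = t * a * (s * a) * (s * (z * t * z)) := by simp only [mul_assoc]
      _ = t * a * a * (s * s) * t * (z * z) := by rw [sa, zt]; simp only [mul_assoc]
      _ = t * a * (t * t) * a * t := by rw [ss, zz, tt]; group
      _ = _ := by rw [← hb]; group
  have hab := hc a haA b hbA
  have tab : t * (a * b) = a * b * t := by
    calc t * (a * b) = t * a * (t * t) * b := by rw [tt]; group
      _ = b * (t * (t * a * t)) := by rw [← hb]; group
      _ = b * (t * t) * a * t := by group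
      _ = _ := by rw [tt, mul_one, hab]
  have sab : s * (a * b) * s = a * (b * b) := by rw [← mul_assoc, sa, ← sb]; group
  have hA' : zpowers a ⊔ zpowers b = A := gen a haA b hbA ha1 fun h => by
    have h1 : s * b = b * s := (zpowers_le.mpr (show a ∈ centralizer {s} from
      mem_centralizer_singleton_iff.mpr sa.symm) h s rfl)
    rw [h1, mul_assoc, ss, mul_one, left_eq_mul] at sb
    rw [sb, mul_eq_one_iff_eq_inv, ti, mul_eq_left] at hb
    exact ha1 hb
  have hgen : ∀ K : Subgroup S, a ∈ K → s ∈ K → t ∈ K → K = ⊤ := fun K h1 h2 h4 => by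
    rw [eq_top_iff, ← hAX, ← hA', ← hψr]
    refine sup_le (sup_le (zpowers_le.mpr h1) (zpowers_le.mpr (hb ▸ mul_mem (mul_mem h4 h1) h4))) ?_
    rintro _ ⟨x, rfl⟩
    have hr : ψ (.r 1) ∈ K := by
      rw [show ψ (.r 1) = s * t by rw [hs, ht, ← map_mul]; rfl]; exact mul_mem h2 h4
    have hr' : ∀ i : ZMod 4, ψ (.r i) ∈ K := fun i => by
      rw [← ZMod.natCast_zmod_val i, ← DihedralGroup.r_one_pow, map_pow]; exact pow_mem hr _
    rcases x with i | i
    · exact hr' i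
    · rw [show DihedralGroup.sr i = .sr 0 * .r i by simp, map_mul, ← hs]
      exact mul_mem h2 (hr' i)
  have h0 : ∀ m, (∀ w ∈ A, ρ w m = m) → m = 0 := by
    let N : Submodule (ZMod 2) M := ⨅ w : A, LinearMap.eqLocus (ρ w) LinearMap.id
    have hN : ∀ m, m ∈ N ↔ ∀ w ∈ A, ρ w m = m := fun m => by simp [N]
    rcases hirr N (fun g m hm => (hN _).mpr fun w hw => by
      rw [ap, show w * g = g * (g⁻¹ * w * g⁻¹⁻¹) by group, ← ap, (hN m).mp hm _ (hcj _ w hw)])
      with h | h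
    · exact fun m hm => (Submodule.eq_bot_iff _).mp h m ((hN m).mpr hm)
    · exact absurd (hfaith (LinearMap.ext fun m => by
        rw [(hN m).mp (h ▸ Submodule.mem_top) a haA, map_one]; rfl)) ha1
  have hst : ∀ m, ∀ x y : S, ρ x m = m → ρ y m = m → ∀ w ∈ zpowers x ⊔ zpowers y, ρ w m = m :=
    fun m x y h1 h2 w hw => by
      rw [zpowers_eq_closure, zpowers_eq_closure, ← Subgroup.closure_union, ← mem_toSubmonoid,
        closure_toSubmonoid_of_finite] at hw
      induction hw using Submonoid.closure_induction with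
      | mem x hx => rcases hx with rfl | rfl <;> assumption
      | one => simp
      | mul x y _ _ h1 h2 => rw [← ap, h2, h1]
  have h1 : ∀ m, ρ a m = m → ρ b m = m → m = 0 := fun m h1 h2 => h0 m (hA' ▸ hst m a b h1 h2)
  have h2 : ∀ m, ρ (a * b) m = m → ρ (a * (b * b)) m = m → m = 0 := fun m h2 h4 => by
    have h5 : ρ b m = m := by
      rw [← mul_assoc, ← hc b hbA _ (mul_mem haA hbA), ← ap, h2] at h4; exact h4
    exact h1 m (by rwa [← ap, h5] at h2) h5
  have fin : ∀ i j : ZMod 4, (∀ B : Subgroup (DihedralGroup 4), (∀ b ∈ B, b ^ 2 = 1) →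
      B ≤ Bi i ∨ B ≤ Bi j) → Nat.card {m : M // ρ (ψ (.sr i)) m = m ∧ ρ z m = m} ≠ 2 →
      Nat.card {m : M // ρ (ψ (.sr j)) m = m ∧ ρ z m = m} = 2 →
      ∃! B : Subgroup S, B ≤ X ∧ Nat.card ↥B = 4 ∧ (∀ b ∈ B, b ^ 2 = 1) ∧
        Nat.card {m : M // ∀ b ∈ B, ρ b m = m} = 2 := fun i j hij hi hj => by
    have hfx : ∀ i, Nat.card {m : M // ∀ b ∈ (Bi i).map ψ, ρ b m = m} =
        Nat.card {m : M // ρ (ψ (.sr i)) m = m ∧ ρ z m = m} := fun i =>
      Nat.card_congr (Equiv.subtypeEquivRight fun m => ⟨fun h => ⟨h _ ⟨_, Or.inr (Or.inr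
        (Or.inl rfl)), rfl⟩, h _ ⟨_, Or.inr (Or.inl rfl), hz.symm⟩⟩, fun h => by
          rintro _ ⟨x, rfl | rfl | rfl | rfl, rfl⟩
          · rw [← DihedralGroup.one_def, map_one, map_one]; rfl
          · exact hz ▸ h.2
          · exact h.1
          · rw [← DihedralGroup.sr_mul_r, map_mul, ← ap, ← hz, h.2, h.1]⟩)
    have hcd : ∀ i, Nat.card ((Bi i).map ψ) = 4 := fun i => by
      rw [card_map_of_injective hψ, card_Bi]
    refine ⟨(Bi j).map ψ, ⟨hψr ▸ map_le_range _ _, hcd j, ?_, hfx j ▸ hj⟩, ?_⟩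
    · rintro _ ⟨x, hx, rfl⟩
      rw [← map_pow, ← map_one ψ, hψ.eq_iff]
      exact (by decide : ∀ j, ∀ x ∈ Bi j, x ^ 2 = 1) j x hx
    · rintro B ⟨b1, b2, b3, b4⟩
      have b5 : ∀ k, B.comap ψ ≤ Bi k → B = (Bi k).map ψ := fun k hk =>
        eq_of_le_of_card_ge (map_comap_eq_self (hψr ▸ b1 : B ≤ ψ.range) ▸ map_mono hk)
          (by rw [hcd, b2])
      rcases hij (B.comap ψ) (fun x hx => hψ (by rw [map_pow, b3 _ hx, map_one])) with h | h
      · exact absurd (hfx i ▸ b5 i h ▸ b4) hi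
      · exact b5 j h
  by_cases hm : ∃ m, m ≠ 0 ∧ ρ a m = m
  · obtain ⟨m, hm0, hm⟩ := hm
    obtain ⟨c1, c2, c3⟩ := core ρ ss tt zz st zs zt (h3 a haA) sa (za a haA) hb hab
      (hgen _ (subset_closure (by simp)) (subset_closure (by simp)) (subset_closure (by simp)))
      hirr h1 hm hm0
    exact ⟨c1, fin 0 1 (fun _ => le_Bi) (hs ▸ c2) (ht ▸ c3)⟩
  by_cases hm' : ∃ m, m ≠ 0 ∧ ρ (a * b) m = m
  · obtain ⟨m, hm0, hm⟩ := hm'
    have habA := mul_mem haA hbA
    have k1 : a * b ∈ closure {a * b, t, s} := subset_closure (by simp)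
    have k2 : s ∈ closure {a * b, t, s} := subset_closure (by simp)
    obtain ⟨c1, c2, c3⟩ := core ρ tt ss zz ts zt zs (h3 _ habA) tab (za _ habA) sab
      (hc _ habA _ (mul_mem haA (mul_mem hbA hbA))) (hgen _ (by
        have k3 := mul_mem (inv_mem k1) (mul_mem (mul_mem k2 k1) k2)
        rw [sab, ← mul_assoc a, inv_mul_cancel_left] at k3
        exact (mul_mem_cancel_right k3).mp k1) k2 (subset_closure (by simp)))
      hirr h2 hm hm0
    exact ⟨c1, fin 1 0 (fun _ h => (le_Bi h).symm) (ht ▸ c2) (hs ▸ c3)⟩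
  exfalso
  push Not at hm hm'
  obtain ⟨m, hm0⟩ := exists_ne (0 : M)
  have cj0 : ∀ g x : S, g * g = 1 → (∀ m, m ≠ 0 → ρ x m ≠ m) → ∀ m, ρ (g * x * g) m = m → m = 0 :=
    fun g x hg hx m h => by
      have : ρ g m = 0 := by_contra fun e => hx _ e (by
        nth_rewrite 2 [← h]; rw [ap, ap, ← mul_assoc, ← mul_assoc, hg, one_mul])
      rw [← Module.End.one_apply (R := ZMod 2) m, ← map_one ρ, ← hg, ← ap, this, map_zero]
  have n1 := by_contra fun e => hm _ e (nfix ρ (h3 a haA) m)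
  have n2 := cj0 t a tt hm _ (hb ▸ nfix ρ (h3 b hbA) m)
  have n3 := by_contra fun e => hm' _ e (nfix ρ (h3 _ (mul_mem haA hbA)) m)
  have n4 := cj0 s _ ss hm' _ (sab ▸ nfix ρ (h3 _ (mul_mem haA (mul_mem hbA hbA))) m)
  have n5 := by_contra fun e => hm _ e (nfix ρ (h3 a haA) (m + ρ b m + ρ (b * b) m))
  simp only [map_add, ap] at n5
  rw [hb] at n2
  rw [sab] at n4
  rw [show a * b * (a * b) = a * a * (b * b) by rw [mul_assoc, ← mul_assoc b, ← hab]; group] at n3
  rw [show a * (b * b) * (a * (b * b)) = a * a * b by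
    rw [mul_assoc, ← mul_assoc (b * b), ← hc a haA _ (mul_mem hbA hbA)]
    calc _ = a * a * b * (b * b * b) := by group
      _ = _ := by rw [h3 b hbA, mul_one]] at n4
  apply hm0
  linear_combination (norm := abel1) n1 + n2 + n3 + n4 - n5 - add_self m

end Cfsg.Agent.S4407
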