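import Cfsg.Statements.S4408
import Cfsg.Agent.H2.Invol

set_option autoImplicit false
open Cfsg

namespace Cfsg.Agent.S4408
open Subgroup CfsgH2 CfsgL0
open scoped commutatorElement



/-- Let S be a finite solvable group whose Fitting subgroup F(S) has odd order, and let I be an elementary abelian 2-subgroup of S of order 2ⁿ with n ≥ 1. Then F(S) contains subgroups A₁, …, Aₙ of prime order, each normalized by I, pairwise commuting and generating a subgroup A of order |A₁|⋯|Aₙ| (their internal direct product), such that no non-identity element of I centralizes A. -/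
theorem result {S : Type*} [Group S] [Finite S]
    [Group.IsSolvable S] (hF : Odd (Nat.card ↥(Cfsg.fittingSubgroup S)))
    (I : Subgroup S) (hI : Cfsg.IsElementaryAbelian 2 I) (n : ℕ) (hn : 1 ≤ n) (hIn : Nat.card ↥I = 2 ^ n) :
    ∃ f : Fin n → Subgroup S, (∀ i, (Nat.card ↥(f i)).Prime) ∧ (∀ i, f i ≤ Cfsg.fittingSubgroup S) ∧
      (∀ i, I ≤ Subgroup.normalizer ((f i) : Set S)) ∧ (∀ i j, i ≠ j → ∀ a ∈ f i, ∀ b ∈ f j, a * b = b * a) ∧
      Nat.card ↥(⨆ i, f i) = ∏ i, Nat.card ↥(f i) ∧ I ⊓ Subgroup.centralizer ((⨆ i, f i : Subgroup S) : Set S) = ⊥ := by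
  have hc : Nat.Coprime (Nat.card I) (Nat.card (Cfsg.fittingSubgroup S)) := by
    rw [hIn]; exact (Nat.coprime_two_left.mpr hF).pow_left n
  obtain ⟨A, h1, h2, -, h4, h5⟩ := exists_invariant_abelian_faithful hI le_normalizer_of_normal hc
    isNilpotent_fitting
  have hf : I ⊓ centralizer (A : Set S) = ⊥ := eq_bot_iff.mpr
    ((le_inf inf_le_left (h5.trans centralizer_fitting_le)).trans
      (disjoint_of_coprime_card hc).le_bot)
  obtain ⟨f, a1, a2, a3, a4, a5⟩ := exists_independent_prime hI h4 (coprime_mono hc le_rfl h1) h2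
    hf n hIn.ge
  refine ⟨f, a1, fun i => (a2 i).trans h1, a3, fun i j _ a ha b hb =>
    isMulCommutative_iff.mp h2 a (a2 i ha) b (a2 j hb), a4, card_eq_one.mp ?_⟩
  rw [hIn] at a5
  exact Nat.eq_of_mul_eq_mul_right (Nat.two_pow_pos n) (by rw [a5, one_mul])

end Cfsg.Agent.S4408
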