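import Cfsg.Statements.S4409
import Cfsg.Agent.L0.Fitting
import Cfsg.Agent.H2.Small2

set_option autoImplicit false
open Cfsg

namespace Cfsg.Agent.S4409
open Subgroup CfsgH2 CfsgL0
open scoped commutatorElement

variable {G : Type*} [Group G]

theorem q8_facts {Y : Type*} [Group Y] (e : Y ≃* QuaternionGroup 2) : Nat.card Y = 8 ∧
    ∃ z : Y, Sympl 2 z ⊤ ∧ ∀ y : Y, y ^ 2 = 1 → y ∈ zpowers z := by
  refine ⟨by rw [Nat.card_congr e.toEquiv, Nat.card_eq_fintype_card, QuaternionGroup.card],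
    _, sympl_quaternion.of_mulEquiv e.symm, fun y hy => mem_zpowers_of_eq_or ?_⟩
  have : ∀ u : QuaternionGroup 2, u ^ 2 = 1 → u = 1 ∨ u = .a 2 := by decide
  rcases this (e y) (by rw [← map_pow, hy, map_one]) with h | h
  · exact Or.inl (by simpa using h)
  · exact Or.inr (by rw [← h]; simp)

/-- ambient form of the quaternion facts -/
theorem q8_amb [Finite G] {Y : Subgroup G} (e : Y ≃* QuaternionGroup 2) : Nat.card Y = 8 ∧
    ∃ z ∈ Y, z ≠ 1 ∧ z ^ 2 = 1 ∧ (∀ y ∈ Y, y ^ 2 = 1 → y ∈ zpowers z) ∧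
      (∀ y ∈ Y, y ^ 2 ∈ zpowers z) ∧ Y ⊓ centralizer (Y : Set G) ≤ zpowers z := by
  obtain ⟨h8, z, hz, hu⟩ := q8_facts e
  have tr : ∀ y : Y, y ∈ zpowers z → (y : G) ∈ zpowers (z : G) := by
    rintro _ ⟨k, rfl⟩
    exact ⟨k, by simp⟩
  exact ⟨h8, z, z.2, fun h => hz.ne_one (Subtype.ext h), congrArg Subtype.val hz.pow_eq,
    fun y hy h => tr ⟨y, hy⟩ (hu _ (Subtype.ext h)), fun y hy => tr _ (hz.pow ⟨y, hy⟩ (mem_top _)),
    fun y hy => tr ⟨y, hy.1⟩ (hz.nondeg ⟨mem_top _, fun w _ => Subtype.ext (hy.2 w w.2)⟩)⟩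

theorem card_le_two [Finite G] {Y E : Subgroup G} {z : G} (hz : z ^ 2 = 1)
    (hu : ∀ y ∈ Y, y ^ 2 = 1 → y ∈ zpowers z) (hE : E ≤ Y) (h : ∀ y ∈ E, y ^ 2 = 1) :
    Nat.card E ≤ 2 :=
  (card_le_of_le (fun y hy => hu y (hE hy) (h y hy))).trans
    ((Nat.card_zpowers z).trans_le (orderOf_le_of_pow_eq_one two_pos hz))

theorem not_small [Finite G] {Y : Subgroup G} (h : IsV4 Y ∨ Nonempty (Y ≃* QuaternionGroup 2))
    {c : G} (hc : c ∈ centralizer (Y : Set G)) (h1 : c ∉ Y) (h2 : c ^ 2 ∈ Y) :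
    ¬ Sm8 (Y ⊔ zpowers c) := fun hs => by
  rcases h with h | ⟨⟨e⟩⟩
  · exact h1 (hs.not_sup le_sup_left h.1.1 h.2 (mem_sup_right (mem_zpowers c)) hc h2 (by
      rw [show 4 = 2 * 2 from rfl, pow_mul, h.1.2 _ h2]))
  obtain ⟨h8, z, hz, hz1, hz2, hu, hsq, hnd⟩ := q8_amb e
  obtain ⟨i, hi, hi2⟩ : ∃ i ∈ Y, i ^ 2 ≠ 1 := by
    by_contra hh
    push Not at hh
    have := card_le_two hz2 hu le_rfl hh
    omega
  have h3 : i ^ 2 = z := (eq_or_eq_of_mem_zpowers_two hz2 (hsq i hi)).resolve_left hi2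
  have h4 : c ^ 2 ∈ zpowers z := hnd ⟨h2, pow_mem hc 2⟩
  exact h1 (zpowers_le.mpr hi (hs.not_sup (B := zpowers i) ((zpowers_le.mpr hi).trans le_sup_left)
    inferInstance (by
      rw [Nat.card_zpowers]
      exact orderOf_eq_prime_pow (p := 2) (n := 1) hi2 (by rw [pow_succ, pow_mul, pow_one, h3, hz2]))
    (mem_sup_right (mem_zpowers c)) (centralizer_le (zpowers_le.mpr hi) hc)
    (zpowers_le.mpr (h3 ▸ npow_mem_zpowers i 2) h4) (by
      rw [show 4 = 2 * 2 from rfl, pow_mul, pow_eq_one_of_mem_zpowers hz2 _ h4])))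

theorem exists_elt [Finite G] {X H : Subgroup G} (hX : IsPGroup 2 X)
    (hn : H ≤ normalizer (X : Set G)) (ho : Odd (Nat.card H)) (hs : Sm8 ⁅X, H⁆)
    (h0 : ⁅X, H⁆ ≠ ⊥) : (IsV4 ⁅X, H⁆ ∨ Nonempty (↥⁅X, H⁆ ≃* QuaternionGroup 2)) ∧ (⁅X, H⁆ ≠ X →
      ∃ c ∈ X, c ∈ centralizer (H : Set G) ∧ c ∈ centralizer ((⁅X, H⁆ : Subgroup G) : Set G) ∧
        c ∉ ⁅X, H⁆ ∧ c ^ 2 ∈ ⁅X, H⁆) := by
  have hYX : ⁅X, H⁆ ≤ X := le_normalizer_iff_commutator_le_left.mp hn
  have hY := hX.to_le hYX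
  have hc := coprime_of_odd_two ho hX
  have hsol := Or.inr (a := Group.IsSolvable H) (isSolvable_of_isPGroup hX)
  have hYn : H ≤ normalizer ((⁅X, H⁆ : Subgroup G) : Set G) := normalizer_commutator_ge_right X H
  have hvq := hs.v4_or_q8 hY hYn ho (commutator_commutator_eq hn hc hsol) h0
  refine ⟨hvq, fun hne => ?_⟩
  set Y := ⁅X, H⁆
  set C := X ⊓ centralizer (H : Set G)
  have hCY : C ≤ centralizer (Y : Set G) := by
    set D := Y ⊓ centralizer (C : Set G)
    have hDn : H ≤ normalizer (D : Set G) := le_normalizer_inf hYn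
      (le_normalizer_centralizer ((le_centralizer_iff.mp inf_le_right).trans
        (centralizer_le_normalizer _)))
    have hD := hY.to_le (inf_le_left : D ≤ Y)
    have hDD : ⁅D, H⁆ ≤ D := le_normalizer_iff_commutator_le_left.mp hDn
    have h1 : ⁅D, H⁆ ≠ ⊥ := fun h => h0 (by
      refine (commutator_commutator_eq hn hc hsol).symm.trans
        (commutator_eq_bot_iff_le_centralizer.mpr ?_)
      exact thompson_PxQ hX.to_inf_left hY ho.not_two_dvd_nat
        (inf_le_left.trans (normalizer_commutator_ge_left X H)) hYn inf_le_right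
        (commutator_eq_bot_iff_le_centralizer.mp h))
    have h2 := (hs.mono (hDD.trans inf_le_left)).v4_or_q8 (hD.to_le hDD)
      (normalizer_commutator_ge_right D H) ho (commutator_commutator_eq hDn
        (coprime_of_odd_two ho hD) (Or.inr (isSolvable_of_isPGroup hD))) h1
    have h3 : ⁅D, H⁆ = Y := eq_of_le_of_card_ge (hDD.trans inf_le_left) (by
      rcases hvq with h | ⟨⟨e⟩⟩ <;> rcases h2 with h' | ⟨⟨e'⟩⟩
      · rw [h.2, h'.2]
      · rw [h.2, (q8_facts e').1]; decide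
      · obtain ⟨-, z, -, -, hz2, hu, -⟩ := q8_amb e
        have := card_le_two hz2 hu (hDD.trans inf_le_left) h'.1.2
        have := h'.2
        omega
      · rw [(q8_facts e).1, (q8_facts e').1])
    exact le_centralizer_iff.mp ((h3 ▸ hDD).trans inf_le_right)
  have h4 : ¬ C ≤ Y := fun h => hne (by
    rw [← commutator_sup_centralizer hn hc hsol]; exact (sup_eq_left.mpr h).symm)
  obtain ⟨x, hx, hxY⟩ := SetLike.not_le_iff_exists.mp h4
  obtain ⟨m, hm⟩ := IsPGroup.exists_pow_eq_one hX hx.1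
  obtain ⟨j, h5, h6⟩ := exists_pow_not_mem hm hxY
  have h7 := pow_mem hx (2 ^ j)
  exact ⟨_, h7.1, h7.2, hCY h7, h5, h6⟩

theorem four_le [Finite G] {O Z A : Subgroup G} [O.Normal] [Z.Normal] (hZ : Z ≤ O)
    (h4 : Nat.card O = 4 * Nat.card Z) (hc : ∀ x ∈ O, ∀ y ∈ O, ⁅x, y⁆ ∈ Z)
    (hp : ∀ x ∈ O, x ^ 2 ∈ Z) (h : ∀ g, (∀ x ∈ O, ⁅g, x⁆ ∈ Z) → g ∈ O) (hA : Nat.card A = 8) :
    4 ≤ Nat.card (A ⊓ O : Subgroup G) := by
  have h1 := relIndex_centralizer_dvd_glCard (p := 2) (d := 2) (A := A.map (QuotientGroup.mk' Z))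
    (E := O.map (QuotientGroup.mk' Z)) le_normalizer_of_normal
    ⟨isMulCommutative_iff.mpr (by
      rintro _ ⟨x, hx, rfl⟩ _ ⟨y, hy, rfl⟩
      exact comm_mem_iff_commute_mk.mp (hc x hx y hy)), by
      rintro _ ⟨x, hx, rfl⟩
      rw [← map_pow]
      exact (QuotientGroup.eq_one_iff _).mpr (hp x hx)⟩ (by
      have := card_map_mk_mul Z hZ
      rw [h4] at this
      exact Nat.eq_of_mul_eq_mul_right Nat.card_pos this)
  rw [← relIndex_comap, glCard_two_two] at h1
  have h2 := (relIndex_dvd_of_le_left A (fun g hg => h g fun x hx =>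
    comm_mem_iff_commute_mk.mpr (hg _ ⟨x, hx, rfl⟩).symm)).trans h1
  have h3 := card_inf_mul_relIndex A O
  have h5 := Nat.le_of_dvd two_pos (Nat.dvd_gcd h2 (hA ▸ relIndex_dvd_card O A) : _ ∣ Nat.gcd 6 8)
  nlinarith

theorem not_vq [Finite G] {O A : Subgroup G} [hO : O.Normal] (hC : centralizer (O : Set G) ≤ O)
    (h : IsV4 O ∨ Nonempty (O ≃* QuaternionGroup 2)) (hA : IsMulCommutative A)
    (hA8 : Nat.card A = 8) : IsCyclic A := by
  by_contra hnc
  have hAc := CfsgH2.isMulCommutative_iff.mp hA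
  rcases h with h | ⟨⟨e⟩⟩
  · have h1 := four_le (Z := ⊥) bot_le (by simp [h.2])
      (fun x hx y hy => mem_bot.mpr (comm_eq_one_iff.mpr (isMulCommutative_iff.mp h.1.1 x hx y hy)))
      (fun x hx => mem_bot.mpr (h.1.2 x hx))
      (fun g hg => hC fun x hx => (comm_eq_one_iff.mp (mem_bot.mp (hg x hx))).symm) hA8
    have h2 : A ⊓ O = O := eq_of_le_of_card_ge inf_le_right (h.2 ▸ h1)
    have := card_le_of_le (show A ≤ O from fun a ha => hC fun x hx =>
      hAc x (inf_eq_right.mp h2 hx) a ha)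
    have := h.2
    omega
  obtain ⟨h8, z, hs, hu⟩ := q8_facts e
  have hzc : (z : G) ∈ center G := mem_center_iff.mpr fun g => by
    have h1 := eq_or_eq_of_mem_zpowers_two hs.pow_eq (hu ⟨g * z * g⁻¹, hO.conj_mem _ z.2 g⟩
      (Subtype.ext (by
        have : (z : G) ^ 2 = 1 := congrArg Subtype.val hs.pow_eq
        simp [this])))
    rcases h1 with h1 | h1
    · exact (hs.ne_one (Subtype.ext (by simpa using congrArg Subtype.val h1))).elim
    · exact mul_inv_eq_iff_eq_mul.mp (congrArg Subtype.val h1)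
  have hS := hs.map_subtype hzc
  haveI := normal_zpowers_of_mem_center hzc
  have hu' : ∀ y ∈ O, y ^ 2 = 1 → y ∈ zpowers (z : G) := fun y hy h => by
    obtain ⟨k, hk⟩ := hu ⟨y, hy⟩ (Subtype.ext h)
    exact ⟨k, by simpa using congrArg Subtype.val hk⟩
  have key : ∀ g, (∀ x ∈ O, ⁅g, x⁆ ∈ zpowers (z : G)) → g ∈ O := fun g hg => by
    obtain ⟨k, hk, h1⟩ := hS.exists_mul_mem_centralizer hg
    exact (mul_mem_cancel_right hk).mp (hC h1)
  have h1 := four_le hS.zpowers_le (by rw [h8, hS.card_zpowers]) hS.comm hS.pow key hA8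
  obtain ⟨i, hi, hi2⟩ : ∃ i ∈ A ⊓ O, i ^ 2 ≠ 1 := by
    by_contra hh
    push Not at hh
    have := card_le_two hS.pow_eq hu' inf_le_right hh
    omega
  have h3 : i ^ 2 = z := (hS.sq_eq_or hi.2).resolve_left hi2
  have ho : Nat.card (zpowers i) = 4 := by
    rw [Nat.card_zpowers]
    exact orderOf_eq_prime_pow (p := 2) (n := 1) hi2
      (by rw [pow_succ, pow_mul, pow_one, h3, hS.pow_eq])
  have hzi : zpowers (z : G) ≤ zpowers i := zpowers_le.mpr (h3 ▸ npow_mem_zpowers i 2)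
  obtain ⟨t, ht, ht2, hti⟩ : ∃ t ∈ A, t ^ 2 = 1 ∧ t ∉ zpowers (z : G) := by
    by_contra hh
    push Not at hh
    refine hnc (isCyclic_of_comm_of_rank_one (p := 2) (IsPGroup.of_card (n := 3) hA8) hA
      fun E _ hE => ?_)
    rw [← card_map_of_injective A.subtype_injective]
    refine card_le_two hS.pow_eq hh (map_subtype_le E) ?_
    rintro _ ⟨y, hy, rfl⟩
    rw [← map_pow, hE y hy, map_one]
  have hi' : (zpowers i).relIndex O = 2 := by
    have := card_mul_relIndex (zpowers_le.mpr hi.2)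
    rw [ho, h8] at this
    omega
  have htc : t ∈ centralizer (zpowers i : Set G) := by
    rw [centralizer_zpowers]; exact mem_centralizer_singleton_iff.mpr (hAc t ht i hi.1)
  refine hti (hu' t (key t fun x hx => ?_) ht2)
  have h4 : ⁅t, x⁆ ∈ zpowers i := comm_mem_symm (commutator_le_of_relIndex_two hi'
    (H := zpowers t) le_normalizer_of_normal (zpowers_le.mpr (centralizer_le_normalizer _ htc))
      (commutator_mem_commutator hx (mem_zpowers t)))
  refine hu' _ (zpowers_le.mpr hi.2 h4) ?_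
  rw [← comm_pow_left (htc _ h4).symm, ht2, commutatorElement_one_left]


/-- Let S be a finite solvable group with O_{2'}(S) = 1 that contains a non-cyclic abelian subgroup of order 8, while no proper subgroup of S of 2-power index contains one. Then a Sylow 2-subgroup X of S is normal in S, and one of the following holds: X is abelian; X is extraspecial of order at least 32; X has a generalized quaternion subgroup X₀ of index 2 with X = X₀·C_X(X₀); or X is special with centre of order 4. -/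
theorem result {S : Type*} [Group S] [Finite S]
    [Group.IsSolvable S] (hO : Cfsg.pPrimeCore 2 S = ⊥)
    (h8 : ∃ A : Subgroup S, IsMulCommutative ↥A ∧ ¬ IsCyclic ↥A ∧ Nat.card ↥A = 8)
    (hmin : ∀ R : Subgroup S, R ≠ ⊤ → (∃ k : ℕ, R.index = 2 ^ k) →
      ¬ ∃ A : Subgroup S, A ≤ R ∧ IsMulCommutative ↥A ∧ ¬ IsCyclic ↥A ∧ Nat.card ↥A = 8)
    (X : Sylow 2 S) :
    (X : Subgroup S).Normal ∧
      (IsMulCommutative ↥X ∨
        (Cfsg.IsExtraspecial 2 ↥X ∧ 32 ≤ Nat.card ↥X) ∨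
        (∃ (X₀ : Subgroup S) (k : ℕ), X₀ ≤ (X : Subgroup S) ∧ X₀.relIndex (X : Subgroup S) = 2 ∧
          Nonempty (↥X₀ ≃* QuaternionGroup (2 ^ (k + 1))) ∧ X₀ ⊔ ((X : Subgroup S) ⊓ Subgroup.centralizer (X₀ : Set S)) = (X : Subgroup S)) ∨
        (Cfsg.IsSpecial 2 ↥X ∧ Nat.card ↥(Subgroup.center ↥X) = 4)) := by
  obtain ⟨A, hA, hnc, hA8⟩ := h8
  obtain ⟨H, -, h1, h2⟩ := exists_isHallOf {2}ᶜ (H := (⊤ : Subgroup S)) inferInstance
  have ho : Odd (Nat.card H) := Nat.coprime_two_right.mp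
    ((isPi_compl_singleton_iff Nat.prime_two).mp h1)
  rw [compl_compl, relIndex_top_right] at h2
  obtain ⟨k, hk⟩ := (isPi_singleton_iff Nat.prime_two index_ne_zero_of_finite).mp h2
  have hP : ∀ U : Subgroup S, U ⊔ H ≠ ⊤ → Sm8 U := fun U hU B hB hc h8 => by
    by_contra hh
    obtain ⟨j, -, hj⟩ := (Nat.dvd_prime_pow Nat.prime_two).mp
      (hk ▸ index_dvd_of_le (le_sup_right : H ≤ U ⊔ H))
    exact hmin _ hU ⟨j, hj⟩ ⟨B, hB.trans le_sup_left, hc, hh, h8⟩
  have hC := centralizer_fitting_le (G := S)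
  rw [fitting_eq_pCore hO] at hC
  set O := Cfsg.pCore 2 S
  have hOp : IsPGroup 2 O := isPGroup_pCore S 2
  have hOH : O ⊔ H = ⊤ := by
    by_contra hne
    have hs := hP O hne
    have hYO : ⁅O, H⁆ ≤ O := commutator_le_left O H
    by_cases h0 : ⁅O, H⁆ = ⊥
    · have h3 : H = ⊥ := (disjoint_of_coprime_card (coprime_of_odd_two ho hOp)).eq_bot_of_le
        ((le_centralizer_iff.mp (commutator_eq_bot_iff_le_centralizer.mp h0)).trans hC)
      rw [h3, index_bot] at hk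
      exact hne (eq_top_iff.mpr ((le_pCore ((IsPGroup.of_card hk).to_subgroup ⊤)).trans le_sup_left))
    obtain ⟨hvq, h3⟩ := exists_elt hOp le_normalizer_of_normal ho (hs.mono hYO) h0
    by_cases he : ⁅O, H⁆ = O
    · exact hnc (not_vq hC (he ▸ hvq) hA hA8)
    obtain ⟨c, c1, -, c3, c4, c5⟩ := h3 he
    exact not_small hvq c3 c4 c5 (hs.mono (sup_le hYO (zpowers_le.mpr c1)))
  have hXO : (X : Subgroup S) = O := by
    refine le_antisymm ?_ (hOp.le_sylow_of_normal X)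
    rw [← relIndex_eq_one]
    refine Nat.eq_one_of_dvd_coprimes (coprime_of_odd_two ho X.2) ?_ (relIndex_dvd_card _ _)
    refine (relIndex_dvd_index_of_normal O X).trans ?_
    rw [← relIndex_top_right, ← hOH, relIndex_sup_left]
    exact relIndex_dvd_card _ _
  refine ⟨hXO ▸ inferInstance, ?_⟩
  rw [← hXO] at hOH
  haveI : (X : Subgroup S).Normal := hXO ▸ inferInstance
  have hn : H ≤ normalizer ((X : Subgroup S) : Set S) := le_normalizer_of_normal
  have hQ : ∀ U ≤ (X : Subgroup S), H ≤ normalizer (U : Set S) → U ≠ X → Sm8 U :=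
    fun U hU hUn hne => hP U fun e => hne (eq_of_le_of_card_ge hU (by
      have e1 := card_sup_of_disjoint hUn
        (disjoint_of_coprime_card (coprime_of_odd_two ho (X.2.to_le hU))).eq_bot
      have e2 := card_sup_of_disjoint hn
        (disjoint_of_coprime_card (coprime_of_odd_two ho X.2)).eq_bot
      rw [sup_comm, e] at e1
      rw [sup_comm, hOH, e1] at e2
      exact (Nat.eq_of_mul_eq_mul_left Nat.card_pos e2).ge))
  have hAX : A ≤ X := sup_eq_right.mp (X.3 ((IsPGroup.of_card (n := 3) hA8).to_sup_of_normal_right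
    X.2) le_sup_right)
  refine or_iff_not_imp_left.mpr fun hna => ?_
  change ¬ IsMulCommutative (X : Subgroup S) at hna
  have hAne : A ≠ X := fun e => hna (e ▸ hA)
  by_cases he : ⁅(X : Subgroup S), H⁆ = X
  · obtain ⟨hs, h3 | h3⟩ := special_of_small X.2 hn ho he hna hQ
    · refine Or.inl ⟨⟨hs, h3⟩, ?_⟩
      obtain ⟨m, -, hm, -⟩ := extraspecial_two_count ⟨hs, h3⟩
      have h4 := card_le_of_le hAX
      change 32 ≤ Nat.card (X : Subgroup S)
      have h5 : Nat.card (X : Subgroup S) ≠ 8 := fun e => hAne (eq_of_le_of_card_ge hAX (by rw [e, hA8]))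
      rw [hm] at h4 h5 ⊢
      rcases m with _ | _ | m
      · omega
      · omega
      · exact Nat.pow_le_pow_right two_pos (show 5 ≤ _ by omega)
    · exact Or.inr (Or.inr ⟨hs, h3⟩)
  have hYX : ⁅(X : Subgroup S), H⁆ ≤ X := commutator_le_left _ H
  have h0 : ⁅(X : Subgroup S), H⁆ ≠ ⊥ := fun h0 => hnc (hQ A hAX
    ((le_centralizer_iff.mp (hAX.trans (commutator_eq_bot_iff_le_centralizer.mp h0))).trans
      (centralizer_le_normalizer _)) hAne A le_rfl hA hA8)
  have hYn := normalizer_commutator_ge_right (X : Subgroup S) H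
  obtain ⟨hvq, h3⟩ := exists_elt X.2 hn ho (hQ _ hYX hYn he) h0
  obtain ⟨c, c1, c2, c3, c4, c5⟩ := h3 he
  have h4 : ⁅(X : Subgroup S), H⁆ ⊔ zpowers c = X := by
    by_contra hne
    exact not_small hvq c3 c4 c5 (hQ _ (sup_le hYX (zpowers_le.mpr c1)) (le_normalizer_sup hYn
      ((le_centralizer_iff.mp (zpowers_le.mpr c2)).trans (centralizer_le_normalizer _))) hne)
  rcases hvq with hv | hq
  · exact (hna (h4 ▸ isMulCommutative_sup_zpowers hv.1.1 c3)).elim
  refine Or.inr (Or.inl ⟨_, 0, hYX, ?_, hq, le_antisymm (sup_le hYX inf_le_left) ?_⟩)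
  · have := relIndex_sup_zpowers (centralizer_le_normalizer _ c3) Nat.prime_two c5 c4
    rwa [h4] at this
  · exact h4.ge.trans (sup_le_sup_left (zpowers_le.mpr (mem_inf.mpr ⟨c1, c3⟩)) _)

end Cfsg.Agent.S4409
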