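import Cfsg.Statements.S4410
import Cfsg.Agent.H2.LinAct
import Cfsg.Agent.H2.Invol

set_option autoImplicit false
open Cfsg

namespace Cfsg.Agent.S4410
open Subgroup CfsgH2 CfsgL0
open scoped commutatorElement



theorem z3 : ∀ a : ZMod 3, a * a + 1 ≠ 0 := by decide

theorem z7 : ∀ a : ZMod 7, a * a + 1 ≠ 0 := by decide

/-- Let V be a finite-dimensional vector space over the field with two elements and S a solvable group of linear automorphisms of V with O₂(S) = 1. If P ∈ S has order 4 and (P − 1)³ = 0 on V, then the image of (P − 1)² has at least 4 elements; equivalently, in the decomposition of V into indecomposable modules for the cyclic group generated by P, at least two summands have dimension 3. -/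
theorem result
    {V : Type*} [AddCommGroup V] [Module (ZMod 2) V] [Finite V]
    (S : Subgroup (V ≃ₗ[ZMod 2] V)) (hS : Group.IsSolvable ↥S) (hO2 : Cfsg.pCore 2 ↥S = ⊥)
    (P : V ≃ₗ[ZMod 2] V) (hPS : P ∈ S) (hP4 : orderOf P = 4)
    (hcub : ((P : V →ₗ[ZMod 2] V) - LinearMap.id) ^ 3 = 0) :
    4 ≤ Nat.card ↥(LinearMap.range (((P : V →ₗ[ZMod 2] V) - LinearMap.id) ^ 2)) := by
  by_contra hlt
  have : Finite (V ≃ₗ[ZMod 2] V) := Finite.of_injective (fun f : V ≃ₗ[ZMod 2] V => (f : V → V))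
    DFunLike.coe_injective
  have : Module.Finite (ZMod 2) V := Module.Finite.of_finite
  obtain ⟨R, hR⟩ : ∃ R, R = LinearMap.range (((P : V →ₗ[ZMod 2] V) - LinearMap.id) ^ 2) := ⟨_, rfl⟩
  rw [← hR] at hlt
  have hR1 : Module.finrank (ZMod 2) R ≤ 1 := by
    rw [Module.natCard_eq_pow_finrank (K := ZMod 2), Nat.card_zmod, show 4 = 2 ^ 2 from rfl,
      pow_le_pow_iff] at hlt
    omega
  have two : ∀ v : V, v + v = 0 := fun v => by
    rw [← two_smul (ZMod 2), show (2 : ZMod 2) = 0 from rfl, zero_smul]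
  have neg : ∀ v : V, -v = v := fun v => neg_eq_of_add_eq_zero_left (two v)
  let p₀ : S := ⟨P, hPS⟩
  obtain ⟨t, ht⟩ : ∃ t : S, t = p₀ ^ 2 := ⟨_, rfl⟩
  have ho : orderOf p₀ = 4 := by rw [← hP4, ← Subgroup.orderOf_coe]
  have ht2 : t ^ 2 = 1 := by rw [ht, ← pow_mul, ← orderOf_dvd_iff_pow_eq_one, ho]
  have ht1 : t ≠ 1 := by rw [ht, Ne, ← orderOf_dvd_iff_pow_eq_one, ho]; decide
  have htR : ∀ v, (t : V ≃ₗ[ZMod 2] V) v - v ∈ R := fun v => by
    rw [hR]
    refine ⟨v, ?_⟩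
    rw [ht]
    change P (P v - v) - (P v - v) = P (P v) - v
    rw [map_sub, sub_sub, ← add_sub_assoc, two, zero_sub, neg]
  have hodd := not_dvd_card_fitting hO2
  have hc : Nat.Coprime (Nat.card (zpowers t)) (Nat.card (Cfsg.fittingSubgroup S)) := by
    rw [card_zpowers_of_pow_eq_one ht1 ht2]
    exact (Nat.Prime.coprime_iff_not_dvd Nat.prime_two).mpr hodd
  obtain ⟨x, hxF, hq, htx, -⟩ := exists_inverted_prime (I := zpowers t)
    (A := Cfsg.fittingSubgroup S) ⟨inferInstance, pow_eq_one_of_mem_zpowers ht2⟩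
    le_normalizer_of_normal hc (mem_zpowers t) fun h => ht1 (mem_bot.mp
      ((disjoint_of_coprime_card hc).eq_bot ▸ ⟨mem_zpowers t, centralizer_fitting_le h⟩))
  obtain ⟨q, hqx⟩ : ∃ q, q = orderOf x := ⟨_, rfl⟩
  rw [← hqx] at hq
  have := Fact.mk hq
  have hq2 : q ≠ 2 := fun h => hodd (by
    have := (Cfsg.fittingSubgroup S).orderOf_dvd_natCard hxF
    rwa [← hqx, h] at this)
  have hxq : x ^ q = 1 := hqx ▸ pow_orderOf_eq_one x
  obtain ⟨m, hm⟩ := hq.odd_of_ne_two hq2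
  have key : ∀ w : S, t * w * t⁻¹ = w⁻¹ → w ^ q = 1 →
      w = t * ((w ^ (m + 1))⁻¹ * t * w ^ (m + 1)) := fun w h1 h2 => by
    have e0 : t * w⁻¹ * t⁻¹ = w := by rw [← conj_inv, h1, inv_inv]
    have e : t * (w ^ (m + 1))⁻¹ * t⁻¹ = w ^ (m + 1) := by rw [← inv_pow, ← conj_pow, e0]
    calc w = w ^ (m + 1) * t ^ 2 * w ^ (m + 1) := by
          rw [ht2, mul_one, ← pow_add, show m + 1 + (m + 1) = q + 1 by omega, pow_succ, h2, one_mul]
      _ = t * (w ^ (m + 1))⁻¹ * t⁻¹ * t ^ 2 * w ^ (m + 1) := by rw [e]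
      _ = _ := by rw [pow_two]; group
  obtain ⟨x', hx'⟩ : ∃ x' : S, x' = p₀ * x * p₀⁻¹ := ⟨_, rfl⟩
  have hx'q : x' ^ q = 1 := by rw [hx', conj_pow, hxq]; group
  have htx' : t * x' * t⁻¹ = x'⁻¹ := by
    have : Commute t p₀ := ht ▸ (Commute.refl p₀).pow_left 2
    calc t * x' * t⁻¹ = (t * p₀) * x * (t * p₀)⁻¹ := by rw [hx']; group
      _ = p₀ * (t * x * t⁻¹) * p₀⁻¹ := by rw [this.eq]; group
      _ = x'⁻¹ := by rw [htx, hx']; group
  let L : S → (V →ₗ[ZMod 2] V) := fun g => ((g : V ≃ₗ[ZMod 2] V) : V →ₗ[ZMod 2] V)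
  obtain ⟨U, hU⟩ : ∃ U, U = R ⊔ R.map (L (x ^ (m + 1))⁻¹) ⊔ R.map (L (x' ^ (m + 1))⁻¹) := ⟨_, rfl⟩
  have hU3 : Module.finrank (ZMod 2) U ≤ 3 := by
    have a1 := Submodule.finrank_add_le_finrank_add_finrank (R ⊔ R.map (L (x ^ (m + 1))⁻¹))
      (R.map (L (x' ^ (m + 1))⁻¹))
    have a2 := Submodule.finrank_add_le_finrank_add_finrank R (R.map (L (x ^ (m + 1))⁻¹))
    have a3 := Submodule.finrank_map_le (L (x ^ (m + 1))⁻¹) R
    have a4 := Submodule.finrank_map_le (L (x' ^ (m + 1))⁻¹) R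
    rw [hU]
    omega
  let M : Subgroup S :=
    { carrier := {g | ∀ v, L g v - v ∈ U}
      one_mem' := fun v => by simp [L]
      mul_mem' := fun {g h} hg hh v => by
        have := U.add_mem (hg (L h v)) (hh v)
        rwa [sub_add_sub_cancel] at this
      inv_mem' := fun {g} hg v => by
        have := U.neg_mem (hg (L g⁻¹ v))
        simpa [L] using this }
  have htM : t ∈ M := fun v => hU ▸ Submodule.mem_sup_left (Submodule.mem_sup_left (htR v))
  have hconj : ∀ y : S, R.map (L y⁻¹) ≤ U → y⁻¹ * t * y ∈ M := fun y hy v =>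
    hy ⟨_, htR (L y v), by simp [L]⟩
  have hxM : x ∈ M := by
    rw [key x htx hxq]
    exact mul_mem htM (hconj _ (hU ▸ le_sup_right.trans le_sup_left))
  have hx'M : x' ∈ M := by
    rw [key x' htx' hx'q]
    exact mul_mem htM (hconj _ (hU ▸ le_sup_right))
  have hxO : x ∈ Cfsg.pCore q S := mem_pCore_of_mem_fitting hxF (k := 1) (by rwa [pow_one])
  have hx'O : x' ∈ Cfsg.pCore q S := hx' ▸ Normal.conj_mem inferInstance x hxO p₀
  have hT : IsPGroup q (M ⊓ Cfsg.pCore q S : Subgroup S) := (isPGroup_pCore S q).to_inf_right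
  have hinv : ∀ g : (M ⊓ Cfsg.pCore q S : Subgroup S), ∀ u ∈ U, L g u ∈ U := fun g u hu => by
    have := U.add_mem (g.2.1 u) hu
    rwa [sub_add_cancel] at this
  let ρ : (M ⊓ Cfsg.pCore q S : Subgroup S) →* Module.End (ZMod 2) U :=
    { toFun := fun g => (L g).restrict (hinv g)
      map_one' := rfl
      map_mul' := fun _ _ => rfl }
  have hρ : Function.Injective ρ := (injective_iff_map_eq_one ρ).mpr fun g hg => by
    have h1 : ∀ u ∈ U, L g u = u := fun u hu =>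
      congrArg Subtype.val (LinearMap.congr_fun hg ⟨u, hu⟩)
    have h2 : g ^ 2 = 1 := by
      ext v
      have := h1 _ (g.2.1 v)
      rw [map_sub, sub_eq_iff_eq_add, sub_add_eq_add_sub, two, zero_sub, neg] at this
      exact this
    obtain ⟨k, hk⟩ := hT g
    exact eq_one_of_pow_coprime h2 hk
      ((Nat.coprime_primes Nat.prime_two hq).mpr hq2.symm |>.pow_right k)
  have hdvd : Nat.card (M ⊓ Cfsg.pCore q S : Subgroup S) ∣ 168 := by
    have := card_dvd_glCard_of_end ρ hρ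
    rw [Nat.card_zmod] at this
    refine this.trans ?_
    generalize Module.finrank (ZMod 2) U = d at hU3
    interval_cases d <;> decide
  have hle : zpowers x ≤ M ⊓ Cfsg.pCore q S := zpowers_le.mpr ⟨hxM, hxO⟩
  have hq37 : q = 3 ∨ q = 7 := by
    have h1 := (card_dvd_of_le hle).trans hdvd
    rw [Nat.card_zpowers, ← hqx, show 168 = 2 ^ 3 * (3 * 7) from rfl] at h1
    rcases (Nat.Prime.dvd_mul hq).mp h1 with h | h
    · exact (hq2 ((Nat.prime_dvd_prime_iff_eq hq Nat.prime_two).mp (hq.dvd_of_dvd_pow h))).elim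
    · exact ((Nat.Prime.dvd_mul hq).mp h).imp
        (Nat.prime_dvd_prime_iff_eq hq Nat.prime_three).mp
        (Nat.prime_dvd_prime_iff_eq hq Nat.prime_seven).mp
  have hmem : x' ∈ zpowers x := by
    by_contra h
    have h1 := card_mul_le_of_lt hT (lt_of_le_not_ge hle fun e => h (e ⟨hx'M, hx'O⟩))
    obtain ⟨k, hk⟩ := IsPGroup.iff_card.mp hT
    rw [Nat.card_zpowers, ← hqx, hk, ← pow_two, pow_le_pow_iff] at h1
    have h2 := (pow_dvd_pow q h1).trans (hk ▸ hdvd)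
    rcases hq37 with rfl | rfl <;> norm_num at h2
  obtain ⟨k, hk⟩ := mem_zpowers_iff.mp hmem
  have h1 : x ^ (k * k + 1) = 1 := by
    rw [zpow_add_one, ← conj_zpow_eq (hx' ▸ hk.symm) k, hk, hx',
      show p₀ * (p₀ * x * p₀⁻¹) * p₀⁻¹ = p₀ ^ 2 * x * (p₀ ^ 2)⁻¹ by rw [pow_two]; group, ← ht, htx,
      inv_mul_cancel]
  rw [← orderOf_dvd_iff_zpow_eq_one, ← hqx, ← ZMod.intCast_zmod_eq_zero_iff_dvd] at h1
  push_cast at h1
  rcases hq37 with rfl | rfl
  · exact z3 _ h1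
  · exact z7 _ h1

end Cfsg.Agent.S4410
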