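import Cfsg.Statements.S4411
import Cfsg.Agent.L0.LBalance
import Cfsg.Agent.H2.Fact2
import Cfsg.Agent.H1.Centric

set_option autoImplicit false
open Cfsg

namespace Cfsg.Agent.S4411
open Subgroup CfsgH2 CfsgL0
open scoped commutatorElement

universe u
variable {p q : ℕ} [hp : Fact p.Prime] [hq : Fact q.Prime]

def AQ (q : ℕ) {G : Type*} [Group G] (H : Subgroup G) : Prop :=
  ∃ g ∈ normalizer (H : Set G), g ∉ centralizer (H : Set G) ∧ ∃ k, g ^ q ^ k = 1

def Sol (p : ℕ) (G : Type*) [Group G] : Prop := ∀ H : Subgroup G, IsPGroup p H →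
  IsPSolvable p (normalizer (H : Set G) ⧸ (centralizer (H : Set G)).subgroupOf (normalizer (H : Set G)))

theorem exists_qpart {G : Type*} [Group G] [Finite G] {M : Subgroup G} {x : G} (hx : x ∉ M) {k : ℕ}
    (hk : x ^ q ^ k ∈ M) : ∃ y ∈ zpowers x, y ∉ M ∧ ∃ j, y ^ q ^ j = 1 := by
  obtain ⟨a, b, ha, ⟨i, rfl⟩, h1, h2, e⟩ := CfsgH1.exists_pPart (p := q) x
  refine ⟨a, ha, fun h => hx (e ▸ mul_mem h (CfsgH1.mem_of_pow_mem_of_coprime
    (h2.pow_right k) ?_)), h1⟩
  rw [← zpow_natCast, ← zpow_mul, mul_comm, zpow_mul, zpow_natCast]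
  exact zpow_mem hk i

theorem aq_iff {G : Type*} [Group G] [Finite G] {H : Subgroup G} : AQ q H ↔
    q ∣ ((centralizer (H : Set G)).subgroupOf (normalizer (H : Set G))).index := by
  constructor
  · rintro ⟨g, hg, h1, k, hk⟩
    by_contra h
    refine h1 ((QuotientGroup.eq_one_iff (⟨g, hg⟩ : normalizer (H : Set G))).mp
      (CfsgH1.eq_one_of_pow_of_coprime (p := q) (k := k) ?_ (Nat.Coprime.coprime_dvd_left
        (_root_.orderOf_dvd_natCard _) ((Nat.Prime.coprime_iff_not_dvd hq.out).mpr h).symm)))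
    rw [← QuotientGroup.mk_pow, show (⟨g, hg⟩ : normalizer (H : Set G)) ^ q ^ k = 1 from
      Subtype.ext hk, QuotientGroup.mk_one]
  · intro h
    obtain ⟨x, hx⟩ := exists_prime_orderOf_dvd_card' q h
    obtain ⟨x, rfl⟩ := QuotientGroup.mk_surjective x
    obtain ⟨y, hy, h1, h2⟩ := exists_qpart (q := q) (M := centralizer (H : Set G)) (x := (x : G))
      (k := 1) (fun e => hq.out.ne_one (by
        rw [← hx, (QuotientGroup.eq_one_iff x).mpr e, orderOf_one]))
      ((QuotientGroup.eq_one_iff (N := (centralizer (H : Set G)).subgroupOf _) (x ^ q ^ 1)).mp (by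
        rw [QuotientGroup.mk_pow, pow_one, ← hx, pow_orderOf_eq_one]))
    exact ⟨y, zpowers_le.mpr x.2 hy, h1, h2⟩

theorem key {X : Type*} [Group X] [Finite X] (hpq : p ≠ q)
    (h23 : ¬ ((p = 2 ∧ q = 3) ∨ (p = 3 ∧ q = 2))) (hX : IsPSolvable p X) {H S : Subgroup X}
    [H.Normal] (hHS : H ≤ S) (hC : centralizer (H : Set X) ≤ H) (hS : CfsgH1.IsSylowIn p S ⊤)
    (hqX : q ∣ Nat.card X) : ∃ g : X, g ≠ 1 ∧ g ^ q = 1 ∧
      (g ∈ normalizer (CfsgH3.JJ p S : Set X) ∨
        g ∈ centralizer (omegaOne p (CfsgH3.Zc S) : Set X)) := by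
  obtain ⟨L, hSL, hqL, hL⟩ := exists_two_primes_ge hpq _ X rfl hX hqX S hS
  have hS' := (hS.of_le hSL le_top).subgroupOf_top
  have hH' : H.subgroupOf L ≤ pCore p L := le_pCore (hS.pgroup.to_le hHS).comap_subtype
  have hc : CfsgH3.Constr p L := fun c hc => hH' (hC fun h hh => congrArg Subtype.val
    (hc ⟨h, hSL (hHS hh)⟩ (hH' hh)))
  have hJ : CfsgH3.JJ p (S.subgroupOf L) ≤ centralizer (CfsgH3.VZ p (S.subgroupOf L) : Set L) := by
    by_cases h2 : p = 2
    · subst h2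
      refine JJ_le_centralizer_VZ_two (isPSolvable_subgroup hX L) (fun h => ?_) hS' hc
      rcases hL 3 Nat.prime_three h with h | h
      exacts [absurd h (by decide), h23 (Or.inl ⟨rfl, h.symm⟩)]
    refine CfsgH3.JJ_le_centralizer_VZ hS' ((CfsgH3.pStab_of_not_isSec h2 ?_).nStab _) hc
    by_cases h3 : p = 3
    · refine CfsgH3.not_isSec_QD_of_abSyl h2 fun T hT => ?_
      have : T = ⊥ := by
        rw [← CfsgH1.inf_eq_bot_of_pgroup_of_not_dvd (K := ⊤) hT fun h => ?_, inf_top_eq]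
        rcases hL 2 Nat.prime_two (card_top (G := L) ▸ h) with h | h
        exacts [h2 h.symm, h23 (Or.inr ⟨h3, h.symm⟩)]
      rw [this]; infer_instance
    · haveI := CfsgH1.isSolvable_of_two_primes hp.out hq.out _ L rfl hL
      exact CfsgH3.not_isSec_QD_of_isSolvable (by
        have := hp.out.five_le_of_ne_two_of_ne_three h2 h3; omega)
  have e : normalizer (CfsgH3.JJ p (S.subgroupOf L) : Set L) ⊔
      centralizer (CfsgH3.VZ p (S.subgroupOf L) : Set L) = ⊤ := eq_top_iff.mpr fun g _ => by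
    obtain ⟨a, ha, c, hc, rfl⟩ := CfsgH3.factorization_of_le hS' hJ g
    exact mul_mem (mem_sup_left ha) (mem_sup_right hc)
  have := card_sup_dvd_of_normal (normalizer (CfsgH3.JJ p (S.subgroupOf L) : Set L))
    (centralizer (CfsgH3.VZ p (S.subgroupOf L) : Set L))
  rw [e, card_top] at this
  have aux : ∀ K : Subgroup L, q ∣ Nat.card K → ∃ g ∈ K, (g : X) ≠ 1 ∧ (g : X) ^ q = 1 :=
    fun K hK => by
      obtain ⟨g, hg⟩ := exists_prime_orderOf_dvd_card' q hK
      rw [← Subgroup.orderOf_coe, ← Subgroup.orderOf_coe] at hg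
      exact ⟨g, g.2, fun e => hq.out.ne_one (by rw [← hg, e, orderOf_one]),
        hg ▸ pow_orderOf_eq_one _⟩
  rcases hq.out.dvd_mul.mp (hqL.trans this) with h | h
  · obtain ⟨g, hg, h1, h2⟩ := aux _ h
    refine ⟨g, h1, h2, Or.inl ?_⟩
    rw [← map_subgroupOf_eq_of_le hSL, ← CfsgH3.map_JJ L.subtype_injective]
    exact le_normalizer_map _ ⟨g, hg, rfl⟩
  · obtain ⟨g, hg, h1, h2⟩ := aux _ h
    refine ⟨g, h1, h2, Or.inr (zpowers_le.mp (le_centralizer_iff.mp
      (CfsgH3.omegaOne_le_iff.mpr fun w hw hw' => ?_)))⟩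
    rw [CfsgH2.centralizer_zpowers, mem_centralizer_singleton_iff]
    exact congrArg Subtype.val (hg ⟨w, hSL hw.1⟩ (CfsgH3.le_VZ _ (CfsgH3.mem_omegaOne
      (mem_inf.mpr ⟨hw.1, fun s hs => Subtype.ext (hw.2 s hs)⟩) (Subtype.ext hw'))))

theorem loc {G : Type*} [Group G] [Finite G] (hpq : p ≠ q)
    (h23 : ¬ ((p = 2 ∧ q = 3) ∨ (p = 3 ∧ q = 2))) (hG : Sol p G) {H P : Subgroup G} (hHP : H ≤ P)
    (hP : CfsgH1.IsSylowIn p P (normalizer (H : Set G))) (hC : P ⊓ centralizer (H : Set G) ≤ H)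
    (h : AQ q H) : AQ q (CfsgH3.JJ p P) ∨ ∃ y ∈ normalizer (H : Set G),
      y ∉ centralizer (H : Set G) ∧ (∃ k, y ^ q ^ k = 1) ∧
        y ∈ centralizer (omegaOne p (CfsgH3.Zc P) : Set G) := by
  set N := normalizer (H : Set G)
  set C := centralizer (H : Set G)
  have hCN : C ≤ N := centralizer_le_normalizer _
  have hNC : N ≤ normalizer (C : Set G) := CfsgH1.normalizer_le_normalizer_centralizer H
  have hZ := hP.inf_of_le_normalizer hCN hNC
  have hn : CfsgH1.PNil p C := hZ.pNil_of_central (centralizer_le hC)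
  set D := CfsgH1.resIn p C
  have hDC : D ≤ C := CfsgH1.resIn_le C
  haveI : (D.subgroupOf N).Normal := Subgroup.normal_subgroupOf_of_le_normalizer
    (hNC.trans (CfsgH1.normalizer_le_normalizer_resIn C))
  have hD : (Nat.card (D.subgroupOf N)).Coprime p := by
    rw [CfsgH2.card_subgroupOf_of_le (hDC.trans hCN)]; exact hn.coprime
  let π := QuotientGroup.mk' (D.subgroupOf N)
  have hπ : Function.Surjective π := QuotientGroup.mk'_surjective _
  have hP' := hP.subgroupOf_top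
  have hH' : IsPGroup p (H.subgroupOf N) := (hP.pgroup.to_le hHP).comap_subtype
  have hCH : ∀ c : N, (c : G) ∈ C → π c ∈ (H.subgroupOf N).map π := fun c hc => by
    obtain ⟨a, ha, b, hb, e⟩ := hZ.exists_mul_resIn hc
    refine ⟨⟨a, hCN ha.2⟩, hC ha, QuotientGroup.eq.mpr ?_⟩
    change a⁻¹ * c ∈ D
    rwa [← e, inv_mul_cancel_left]
  haveI := Normal.map (inferInstance : (H.subgroupOf N).Normal) π hπ
  have hle : D.subgroupOf N ≤ C.subgroupOf N := comap_mono hDC
  have hX : IsPSolvable p (N ⧸ D.subgroupOf N) := by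
    refine isPSolvable_extension ((C.subgroupOf N).map π) (isPSolvable_of_isPGroup
      ((hH'.map π).to_le ?_)) (isPSolvable_of_injective (hG H (hP.pgroup.to_le hHP)) _
        (QuotientGroup.quotientQuotientEquivQuotient _ _ hle).injective)
    rintro _ ⟨c, hc, rfl⟩
    exact hCH c hc
  obtain ⟨g, h1, h2, h3⟩ := key hpq h23 hX (H := (H.subgroupOf N).map π)
    (map_mono (comap_mono hHP)) (by
      rw [CfsgL0.centralizer_map_mk hH' hD]
      rintro _ ⟨c, hc, rfl⟩
      exact hCH c fun h hh => congrArg Subtype.val (hc ⟨h, le_normalizer hh⟩ hh))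
    (hP'.map_top hπ) ((aq_iff.mp h).trans (index_dvd_of_le hle))
  have main : ∀ x : N, π x = g → ∃ y ∈ zpowers (x : G), y ∉ C ∧ ∃ j, y ^ q ^ j = 1 :=
    fun x hx => exists_qpart (k := 1) (fun hc => by
      obtain ⟨k, hk⟩ := IsPGroup.exists_pow_eq_one (hH'.map π) (hx ▸ hCH x hc)
      exact h1 (eq_one_of_pow_coprime hk h2
        (((Nat.coprime_primes hp.out hq.out).mpr hpq).pow_left k)))
      (hle ((QuotientGroup.eq_one_iff (x ^ q ^ 1)).mp (by
        rw [pow_one]; exact (map_pow π x q).trans (hx ▸ h2))))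
  have hPN : (P.subgroupOf N).map N.subtype = P := map_subgroupOf_eq_of_le hP.le
  rcases h3 with h3 | h3
  · have e : (CfsgH3.JJ p (P.subgroupOf N)).map π = CfsgH3.JJ p ((P.subgroupOf N).map π) := by
      rw [← CfsgH3.map_JJ_top, Subgroup.map_map, CfsgH3.map_JJ, ← Subgroup.map_map,
        ← MonoidHom.range_eq_map, range_subtype]
      exact (injective_iff_map_eq_one _).mpr fun a ha => Subtype.ext (mem_bot.mp
        ((disjoint_of_coprime_card (coprime_card_of_coprime_p hP'.pgroup hD)).le_bot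
          (mem_inf.mpr ⟨(QuotientGroup.eq_one_iff _).mp ha, a.2⟩)))
    replace h3 : g ∈ normalizer (CfsgH3.JJ p ((P.subgroupOf N).map π) : Set _) := h3
    rw [← e, CfsgL0.normalizer_map_mk (hP'.pgroup.to_le (CfsgH3.JJ_le _)) hD] at h3
    obtain ⟨x, hx, rfl⟩ := h3
    obtain ⟨y, hy, y1, y2⟩ := main x rfl
    have hyJ : y ∈ normalizer (CfsgH3.JJ p P : Set G) := zpowers_le.mpr (by
      rw [← hPN, ← CfsgH3.map_JJ N.subtype_injective]
      exact le_normalizer_map _ ⟨x, hx, rfl⟩) hy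
    by_cases hyC : y ∈ centralizer (CfsgH3.JJ p P : Set G)
    · exact Or.inr ⟨y, zpowers_le.mpr x.2 hy, y1, y2, centralizer_le
        (CfsgH3.omegaOne_le_iff.mpr fun w hw hw' => (CfsgH3.mem_Zc_JJ hw hw').1) hyC⟩
    · exact Or.inl ⟨y, hyJ, hyC, y2⟩
  · have hW : omegaOne p (CfsgH3.Zc P) ≤ CfsgH3.Zc P := CfsgH3.omegaOne_le _
    have := centralizer_le (show ((omegaOne p (CfsgH3.Zc P)).subgroupOf N).map π ≤ _ from by
      rintro _ ⟨w, hw, rfl⟩
      refine CfsgH3.mem_omegaOne (mem_inf.mpr ⟨⟨w, (hW hw).1, rfl⟩, ?_⟩) ?_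
      · rintro _ ⟨s, hs, rfl⟩
        rw [← map_mul, ← map_mul]
        exact congrArg π (Subtype.ext ((hW hw).2 s hs))
      · rw [← map_pow, show w ^ p = 1 from Subtype.ext
          (CfsgH3.omegaOne_pow_of_comm (CfsgH3.isMulCommutative_Zc _) _ hw), map_one]) h3
    rw [CfsgL0.centralizer_map_mk (R := Subgroup.subgroupOf _ N) (hP.pgroup.to_le (hW.trans inf_le_left)).comap_subtype hD] at this
    obtain ⟨x, hx, rfl⟩ := this
    obtain ⟨y, hy, y1, y2⟩ := main x rfl
    exact Or.inr ⟨y, zpowers_le.mpr x.2 hy, y1, y2, zpowers_le.mpr (show (x : G) ∈ centralizer _ from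
      fun w hw => congrArg Subtype.val (hx ⟨w, hP.le (hW hw).1⟩ hw)) hy⟩

theorem Sol.sec {G Y : Type*} [Group G] [Finite G] [Group Y] (h : Sol p G) (M : Subgroup G)
    (π : M →* Y) (hπ : Function.Surjective π) (hk : IsPGroup p π.ker) : Sol p Y := fun K hK => by
  set H := (K.comap π).map M.subtype
  set R := (normalizer (K : Set Y)).comap π
  have hR : ∀ x : R, ((x : M) : G) ∈ normalizer (H : Set G) := fun x =>
    le_normalizer_map _ ⟨x, le_normalizer_comap π x.2, rfl⟩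
  let f := (QuotientGroup.mk' ((centralizer (H : Set G)).subgroupOf _)).comp
    ((M.subtype.comp R.subtype).codRestrict _ hR)
  let g := (QuotientGroup.mk' ((centralizer (K : Set Y)).subgroupOf _)).comp
    (π.subgroupComap (normalizer (K : Set Y)))
  have hg : Function.Surjective g :=
    (QuotientGroup.mk'_surjective _).comp (π.subgroupComap_surjective_of_surjective _ hπ)
  have hfg : f.ker ≤ g.ker := fun x hx => (QuotientGroup.eq_one_iff _).mpr fun y hy => by
    obtain ⟨y, rfl⟩ := hπ y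
    exact (map_mul π _ _).symm.trans ((congrArg π (Subtype.ext ((QuotientGroup.eq_one_iff _).mp hx _
      ⟨y, hy, rfl⟩))).trans (map_mul π _ _))
  exact isPSolvable_of_surjective (isPSolvable_of_injective
    (h H ((hK.comap_of_ker_isPGroup π hk).map _)) _ (QuotientGroup.kerLift_injective f))
    (QuotientGroup.lift _ g hfg) (QuotientGroup.lift_surjective_of_surjective _ g hg hfg)

theorem main (hpq : p ≠ q) (h23 : ¬ ((p = 2 ∧ q = 3) ∨ (p = 3 ∧ q = 2))) (n : ℕ) :
    ∀ (G : Type u) [Group G] [Finite G], Nat.card G = n → Sol p G → ∀ H : Subgroup G,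
      IsPGroup p H → AQ q H → ∀ S : Subgroup G, CfsgH1.IsSylowIn p S ⊤ →
        ∃ K ≤ S, S ≤ normalizer (K : Set G) ∧ AQ q K := by
  induction n using Nat.strong_induction_on with
  | _ n ih =>
  intro G _ _ hn hG H₀ hH₀ h₀ S hS
  obtain ⟨P, ⟨hP, H₁, h1, h2, h3⟩, hmax⟩ := Set.exists_max_image
    {P : Subgroup G | IsPGroup p P ∧ ∃ H ≤ P, P ≤ normalizer (H : Set G) ∧ AQ q H}
    (fun P => Nat.card P) (Set.toFinite _) ⟨H₀, hH₀, H₀, le_rfl, le_normalizer, h₀⟩
  have hsyl : ∀ H ≤ P, P ≤ normalizer (H : Set G) → AQ q H →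
      CfsgH1.IsSylowIn p P (normalizer (H : Set G)) := fun H a b c =>
    CfsgH1.isSylowIn_of_maximal hP b fun Q hQ hPQ hQN =>
      (eq_of_le_of_card_ge hPQ (hmax Q ⟨hQ, H, a.trans hPQ, hQN, c⟩)).ge
  obtain ⟨T, hT, hPT⟩ := CfsgH1.exists_isSylowIn_ge hP (le_top : P ≤ ⊤)
  rcases hPT.eq_or_lt with rfl | hlt
  · obtain ⟨g, -, rfl⟩ := hT.exists_cj_eq hS
    obtain ⟨y, y1, y2, k, y3⟩ := h3
    refine ⟨_, CfsgH1.cj_mono g h1, le_normalizer_cj h2 g, g * y * g⁻¹, ?_, ?_, k, by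
      rw [conj_pow, y3, mul_one, mul_inv_cancel]⟩
    · rwa [← CfsgH1.cj_normalizer, CfsgH1.conj_mem_cj_iff]
    · rwa [← CfsgH1.cj_centralizer, CfsgH1.conj_mem_cj_iff]
  exfalso
  have hlt' := CfsgH1.lt_inf_normalizer hT.pgroup hlt
  set P₁ := T ⊓ normalizer (P : Set G)
  have hP₁ : IsPGroup p P₁ := hT.pgroup.to_le inf_le_left
  set M := H₁ ⊔ centralizer (H₁ : Set G)
  have hNM : normalizer (H₁ : Set G) ≤ normalizer (M : Set G) :=
    le_normalizer_sup le_rfl (le_normalizer_centralizer le_rfl)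
  have hM := (hsyl H₁ h1 h2 h3).inf_of_le_normalizer
    (sup_le le_normalizer (centralizer_le_normalizer _) : M ≤ _) hNM
  set H := P ⊓ M
  have hH₁ : H₁ ≤ H := le_inf h1 le_sup_left
  have hCM : centralizer (H : Set G) ≤ M := (centralizer_le hH₁).trans le_sup_right
  have hPH : P ≤ normalizer (H : Set G) := le_normalizer_inf le_normalizer (h2.trans hNM)
  have hH : AQ q H := by
    obtain ⟨g, g1, g2, k, g3⟩ := h3
    obtain ⟨m, hm, x, hx, rfl⟩ := hM.frattini (hNM g1)
    have hxM : x ∈ normalizer (M : Set G) := (mul_mem_cancel_left (le_normalizer hm)).mp (hNM g1)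
    have e : ∀ j : ℕ, ∃ m' ∈ M, (m * x) ^ j = m' * x ^ j := fun j => by
      induction j with
      | zero => exact ⟨1, one_mem _, by simp⟩
      | succ j ih =>
        obtain ⟨m', hm', e⟩ := ih
        exact ⟨m * (x * m' * x⁻¹), mul_mem hm ((mem_normalizer_iff.mp hxM _).mp hm'), by
          rw [pow_succ', e, pow_succ']; group⟩
    obtain ⟨m', hm', e⟩ := e (q ^ k)
    obtain ⟨y, hy, y1, y2⟩ := exists_qpart (q := q) (M := M) (x := x) (k := k) (fun h => g2 (by
      obtain ⟨a, ha, c, hc, e⟩ := (mem_sup_of_le_normalizer' (le_normalizer_centralizer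
        le_normalizer)).mp (mul_mem hm h)
      obtain ⟨j, hj⟩ := IsPGroup.exists_pow_eq_one (hP.to_le h1) ha
      refine CfsgH1.mem_of_pow_mem_of_coprime (n := p ^ j) ((((Nat.coprime_primes hq.out hp.out).mpr
        hpq.symm).pow k j).coprime_dvd_left (orderOf_dvd_of_pow_eq_one g3)) ?_
      rw [← e, Commute.mul_pow (hc a ha), hj, one_mul]
      exact pow_mem hc _)) (by
        rw [eq_inv_of_mul_eq_one_right (e.symm.trans g3)]; exact inv_mem hm')
    exact ⟨y, zpowers_le.mpr hx hy, fun h => y1 (hCM h), y2⟩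
  have hP₁N : P₁ ≤ normalizer (P : Set G) := inf_le_right
  have big : ∀ K Q : Subgroup G, IsPGroup p Q → P₁ ≤ Q → K ≤ Q → Q ≤ normalizer (K : Set G) →
      ¬ AQ q K := fun K Q a b c d e =>
    (CfsgH1.card_lt_of_lt (hlt'.trans_le b)).not_ge (hmax Q ⟨a, K, c, d, e⟩)
  rcases loc hpq h23 hG inf_le_left (hsyl H inf_le_left hPH hH) (inf_le_inf_left P hCM) hH with
    h | ⟨y, y1, y2, ⟨k, y3⟩, y4⟩
  · exact big _ _ hP₁ le_rfl ((CfsgH3.JJ_le P).trans hlt'.le)
      (hP₁N.trans (CfsgH3.normalizer_le_normalizer_JJ P)) h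
  set W := omegaOne p (CfsgH3.Zc P)
  have hWZ : W ≤ CfsgH3.Zc P := CfsgH3.omegaOne_le _
  have hWH : W ≤ H := hWZ.trans (inf_le_inf_left P ((centralizer_le inf_le_left).trans hCM))
  have hW : IsPGroup p W := hP.to_le (hWZ.trans inf_le_left)
  have hW0 : W ≠ ⊥ := by
    obtain ⟨z, z1, z2, z3, z4⟩ := exists_mem_centralizer_of_ne_bot hP le_rfl le_normalizer
      fun e => y2 fun h hh => by rw [mem_bot.mp (e ▸ hh.1 : h ∈ (⊥ : Subgroup G))]; simp
    exact fun e => z2 (mem_bot.mp (e ▸ CfsgH3.mem_omegaOne (mem_inf.mpr ⟨z1, z4⟩) z3))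
  set N := normalizer (W : Set G)
  have hP₁W : P₁ ≤ N := fun g hg => mem_normalizer_fintype fun w hw =>
    (CfsgH3.omegaOne_le_iff.mpr fun w hw hw' => CfsgH3.mem_omegaOne
      ((mem_normalizer_iff.mp (CfsgH3.le_normalizer_Zc hP₁N hg) w).mp hw)
      (by rw [MulEquiv.coe_toMonoidHom, MulAut.conj_apply, conj_pow, hw', mul_one, mul_inv_cancel]) :
      W ≤ W.comap (MulAut.conj g).toMonoidHom) hw
  have hHN : H ≤ N := inf_le_left.trans (hlt'.le.trans hP₁W)
  let π := QuotientGroup.mk' (W.subgroupOf N)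
  have hπ : Function.Surjective π := QuotientGroup.mk'_surjective _
  have hk : π.ker = W.subgroupOf N := QuotientGroup.ker_mk' _
  have hkp : IsPGroup p π.ker := by rw [hk]; exact hW.comap_subtype
  obtain ⟨S₁, hS₁, hPS⟩ := CfsgH1.exists_isSylowIn_ge ((hP₁.comap_subtype (K := N)).map π) le_top
  have hyN : y ∈ N := centralizer_le_normalizer _ y4
  obtain ⟨K, k1, k2, g, g1, g2, j, g3⟩ := ih _ (hn ▸ (card_quotient_lt (fun e => hW0 (by
      rw [← map_subgroupOf_eq_of_le (le_normalizer : W ≤ N), e, Subgroup.map_bot]))).trans_le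
      (card_le_card_group N)) (N ⧸ W.subgroupOf N) rfl (hG.sec N π hπ hkp) ((H.subgroupOf N).map π)
    (((hP.to_le inf_le_left).comap_subtype).map π)
    ⟨π ⟨y, hyN⟩, le_normalizer_map π ⟨_, le_normalizer_comap N.subtype y1, rfl⟩, fun hc => y2 (by
      have := le_centralizer_of_commutator_le (A := zpowers y) (N := W) (H := H)
        (CfsgH3.coprime_card_zpowers ((((Nat.coprime_primes hq.out hp.out).mpr
          hpq.symm).pow_left k).coprime_dvd_left (orderOf_dvd_of_pow_eq_one y3)) hW)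
        (Or.inl inferInstance) (le_centralizer_iff.mp (zpowers_le.mpr y4))
        (CfsgH3.commutator_zpowers_right_le hyN fun b hb =>
          (comm_mem_iff_commute_mk (Z := W.subgroupOf N) (x := ⟨b, hHN hb⟩) (y := ⟨y, hyN⟩)).mpr
            (hc _ ⟨⟨b, hHN hb⟩, hb, rfl⟩))
      exact le_centralizer_iff.mp this (mem_zpowers y)),
      k, by rw [← map_pow, show (⟨y, hyN⟩ : N) ^ q ^ k = 1 from Subtype.ext y3, map_one]⟩ S₁ hS₁
  obtain ⟨g, rfl⟩ := hπ g
  obtain ⟨x, hx, x1, i, x2⟩ := exists_qpart (q := q) (M := (centralizer (K : Set (N ⧸ W.subgroupOf N))).comap π)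
    (x := g) g2 (k := j) (by rw [mem_comap, map_pow, g3]; exact one_mem _)
  refine big ((K.comap π).map N.subtype) ((S₁.comap π).map N.subtype)
    ((hS₁.pgroup.comap_of_ker_isPGroup π hkp).map _)
    (map_subgroupOf_eq_of_le hP₁W ▸ map_mono (map_le_iff_le_comap.mp hPS))
    (map_mono (comap_mono k1)) ((map_mono ((comap_mono k2).trans (le_normalizer_comap π))).trans
      (le_normalizer_map _)) ⟨x, le_normalizer_map _ ⟨x, zpowers_le.mpr
        (le_normalizer_comap π g1) hx, rfl⟩, fun hc => x1 fun z hz => ?_, i, congrArg Subtype.val x2⟩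
  obtain ⟨z, rfl⟩ := hπ z
  exact (map_mul π _ _).symm.trans ((congrArg π (Subtype.ext (hc _ ⟨z, hz, rfl⟩))).trans
    (map_mul π _ _))

/-- Let p and q be distinct primes with {p, q} ≠ {2, 3}, and let G be a finite group such that for every p-subgroup H of G the automizer N_G(H)/C_G(H) is p-solvable. If q divides the order of N_G(H)/C_G(H) for some p-subgroup H, then a Sylow p-subgroup of G has a normal subgroup K (normal in the Sylow subgroup) such that q divides the order of N_G(K)/C_G(K). -/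
theorem result {G : Type*} [Group G] [Finite G]
    (p q : ℕ) [Fact p.Prime] [Fact q.Prime] (hpq : p ≠ q) (h23 : ¬ ((p = 2 ∧ q = 3) ∨ (p = 3 ∧ q = 2)))
    (hsol : ∀ H : Subgroup G, IsPGroup p ↥H →
      Cfsg.IsPSolvable p (↥(Subgroup.normalizer (H : Set G)) ⧸ (Subgroup.centralizer (H : Set G)).subgroupOf (Subgroup.normalizer (H : Set G))))
    (H : Subgroup G) (hH : IsPGroup p ↥H)
    (hq : q ∣ ((Subgroup.centralizer (H : Set G)).subgroupOf (Subgroup.normalizer (H : Set G))).index)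
    (Gp : Sylow p G) :
    ∃ K : Subgroup G, K ≤ (Gp : Subgroup G) ∧ (Gp : Subgroup G) ≤ Subgroup.normalizer (K : Set G) ∧
      q ∣ ((Subgroup.centralizer (K : Set G)).subgroupOf (Subgroup.normalizer (K : Set G))).index := by
  obtain ⟨K, h1, h2, h3⟩ := main hpq h23 _ G rfl hsol H hH (aq_iff.mpr hq) _ (CfsgH1.isSylowIn_top Gp)
  exact ⟨K, h1, h2, aq_iff.mp h3⟩

end Cfsg.Agent.S4411
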