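import Cfsg.Statements.S4412
import Cfsg.Agent.L0.Fitting
import Cfsg.Agent.H2.SdpAct
import Cfsg.Agent.H2.MaxClass
import Cfsg.Agent.H2.RankOne
import Cfsg.Agent.H1.Basic

set_option autoImplicit false
open Cfsg

namespace Cfsg.Agent.S4412
open Subgroup CfsgH2 CfsgL0
open scoped commutatorElement

variable {P : Type*} [Group P]

theorem eq_one_of_eq_inv [Finite P] (ho : Odd (Nat.card P)) {x : P} (h : x = x⁻¹) : x = 1 := by
  have h2 : x ^ 2 = 1 := by rw [pow_two]; nth_rewrite 1 [h]; simp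
  have h3 := Nat.dvd_gcd (orderOf_dvd_of_pow_eq_one h2) (_root_.orderOf_dvd_natCard x)
  rw [(Nat.coprime_two_left.mpr ho).gcd_eq_one] at h3
  exact orderOf_eq_one_iff.mp (Nat.dvd_one.mp h3)

theorem fix_zpowers {T : MulAut P} {x z : P} (h : T x = x) (hz : z ∈ zpowers x) : T z = z := by
  obtain ⟨k, rfl⟩ := hz
  simp [h]

theorem inv_zpowers {T : MulAut P} {x z : P} (h : T x = x⁻¹) (hz : z ∈ zpowers x) :
    T z = z⁻¹ := by
  obtain ⟨k, rfl⟩ := hz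
  simp [h]

theorem common_pow [Finite P] {p : ℕ} [hp : Fact p.Prime] (hP : IsPGroup p P) {g x y : P}
    (hx : x ∈ zpowers g) (hy : y ∈ zpowers g) (hx1 : x ≠ 1) (hy1 : y ≠ 1) :
    ∃ z, z ≠ 1 ∧ z ∈ zpowers x ∧ z ∈ zpowers y := by
  classical
  have ord : ∀ {u : P}, u ≠ 1 → ∃ k : ℕ, orderOf (u ^ k) = p := fun {u} hu => by
    obtain ⟨k, hk⟩ := exists_pow_prime_order hu
    obtain ⟨n, hn⟩ := IsPGroup.iff_orderOf.mp hP (u ^ k)
    exact ⟨k, (Nat.prime_dvd_prime_iff_eq hk hp.out).mp (hk.dvd_of_dvd_pow hn.dvd)⟩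
  obtain ⟨k, hk⟩ := ord hx1
  obtain ⟨l, hl⟩ := ord hy1
  haveI := Fintype.ofFinite (zpowers g)
  have h1 := IsCyclic.card_pow_eq_one_le (α := zpowers g) hp.out.pos
  let u : zpowers g := ⟨x ^ k, pow_mem hx k⟩
  let v : zpowers g := ⟨y ^ l, pow_mem hy l⟩
  have hu : orderOf u = p := by rw [← Subgroup.orderOf_coe]; exact hk
  have hv : orderOf v = p := by rw [← Subgroup.orderOf_coe]; exact hl
  have h2 : (zpowers u : Set (zpowers g)).toFinset = Finset.univ.filter (fun a => a ^ p = 1) := by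
    refine Finset.eq_of_subset_of_card_le (fun a ha => ?_) (h1.trans_eq ?_)
    · obtain ⟨m, rfl⟩ := Set.mem_toFinset.mp ha
      simp only [Finset.mem_filter, Finset.mem_univ, true_and]
      rw [← zpow_natCast, ← zpow_mul, mul_comm, zpow_mul, zpow_natCast, ← hu, pow_orderOf_eq_one,
        one_zpow]
    · rw [Set.toFinset_card, ← Nat.card_eq_fintype_card]
      exact ((Nat.card_zpowers u).trans hu).symm
  have h3 : v ∈ zpowers u := by
    have : v ∈ (zpowers u : Set (zpowers g)).toFinset := by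
      rw [h2]
      simp only [Finset.mem_filter, Finset.mem_univ, true_and]
      rw [← hv, pow_orderOf_eq_one]
    exact Set.mem_toFinset.mp this
  obtain ⟨m, hm⟩ := h3
  refine ⟨y ^ l, fun h => hp.out.one_lt.ne' (by rw [← hl, h, orderOf_one]), ?_,
    npow_mem_zpowers y l⟩
  have : (x ^ k) ^ m = y ^ l := congrArg Subtype.val hm
  rw [← this]
  exact zpow_mem (npow_mem_zpowers x k) m

theorem not_cyc [Finite P] {p : ℕ} [hp : Fact p.Prime] (hP : IsPGroup p P) (ho : Odd (Nat.card P))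
    {g x y : P} {S : MulAut P} (hx : x ∈ zpowers g) (hy : y ∈ zpowers g) (hx1 : x ≠ 1)
    (hSx : S x = x⁻¹) (hSy : S y = y) : y = 1 := by
  by_contra hy1
  obtain ⟨z, hz1, hzx, hzy⟩ := common_pow hP hx hy hx1 hy1
  exact hz1 (eq_one_of_eq_inv ho ((fix_zpowers hSy hzy).symm.trans (inv_zpowers hSx hzx)))

theorem inv_gen [Finite P] {p : ℕ} [hp : Fact p.Prime] (hP : IsPGroup p P) (ho : Odd (Nat.card P))
    {a x : P} {S U : MulAut P} (hU : ∀ y, U y = y ↔ y ∈ zpowers a) (hx1 : x ≠ 1) (hUx : U x = x)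
    (hSx : S x = x⁻¹) (hS : S ^ 2 = 1) (hc : S * U = U * S) : S a = a⁻¹ := by
  have h1 : S a ∈ zpowers a := (hU _).mp (by
    rw [← MulAut.mul_apply, ← hc, MulAut.mul_apply, (hU a).mpr (mem_zpowers a)])
  have h2 : a * S a = S a * a := by
    obtain ⟨k, hk⟩ := h1
    rw [← hk]; exact (Commute.self_zpow a k).eq
  have h3 := not_cyc hP ho ((hU x).mp hUx) (mul_mem (mem_zpowers a) h1) hx1 hSx (by
    rw [map_mul, ← MulAut.mul_apply, ← pow_two, hS, MulAut.one_apply, h2])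
  exact eq_inv_of_mul_eq_one_right h3

theorem comm_mem_gamma [Finite P] (ho : Odd (Nat.card P)) (hs : Group.IsSolvable P)
    {a b c : P} {T U : MulAut P} (hU : ∀ y, U y = y ↔ y ∈ zpowers c) (hU2 : U ^ 2 = 1)
    (hUa : U a = a⁻¹) (hUb : U b = b⁻¹) (hTa : T a = a⁻¹) (hTb : T b = b⁻¹) (hTc : T c = c⁻¹) :
    ⁅a, b⁆ ∈ ⁅commutator P, (⊤ : Subgroup P)⁆ := by
  set N := ⁅commutator P, (⊤ : Subgroup P)⁆
  have hN : ∀ (S : MulAut P), ∀ x ∈ N, S x ∈ N := fun S x hx =>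
    (characteristic_iff_map_le.mp (inferInstance : N.Characteristic) S) ⟨x, hx, rfl⟩
  have key : ∀ S : MulAut P, S a = a⁻¹ → S b = b⁻¹ → ⁅a, b⁆⁻¹ * S ⁅a, b⁆ ∈ N := fun S h1 h2 => by
    have : ⁅a, b⁆⁻¹ * S ⁅a, b⁆ = ⁅⁅a, b⁆⁻¹, (b * a)⁻¹⁆ := by
      rw [map_commutatorElement, h1, h2]
      simp only [commutatorElement_def]; group
    rw [this]
    exact commutator_mem_commutator (inv_mem (comm_mem_commutator a b)) (mem_top _)
  obtain ⟨d, hd, n, hn, e⟩ := exists_fix_mul (zpowers U).subtype (N := N) (fun u => hN u)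
    (by
      rw [Nat.card_zpowers]
      exact ((Nat.coprime_two_left.mpr ho).coprime_dvd_left
        (orderOf_dvd_of_pow_eq_one hU2)).coprime_dvd_right (card_subgroup_dvd_card N))
    (Or.inr inferInstance) (x := ⁅a, b⁆) (by
      rintro ⟨_, k, rfl⟩
      change ⁅a, b⁆⁻¹ * (U ^ k) ⁅a, b⁆ ∈ N
      rcases Int.even_or_odd' k with ⟨m, rfl | rfl⟩
      · rw [zpow_mul, zpow_ofNat, hU2, one_zpow, MulAut.one_apply, inv_mul_cancel]
        exact one_mem N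
      · rw [zpow_add, zpow_mul, zpow_ofNat, hU2, one_zpow, one_mul, zpow_one]
        exact key U hUa hUb)
  have hd' : T d = d⁻¹ := inv_zpowers hTc ((hU d).mp (hd ⟨U, mem_zpowers U⟩))
  have h1 := key T hTa hTb
  rw [e, map_mul, hd'] at h1
  have h2 : (d : P ⧸ N) = (d : P ⧸ N)⁻¹ := by
    rw [← QuotientGroup.mk_inv, QuotientGroup.eq]
    have : d⁻¹ * d⁻¹ = n * ((d * n)⁻¹ * (d⁻¹ * T n)) * (T n)⁻¹ := by group
    rw [this]
    exact mul_mem (mul_mem hn h1) (inv_mem (hN T n hn))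
  have h3 := eq_one_of_eq_inv (ho.of_dvd_nat (card_quotient_dvd_card N)) h2
  rw [e]
  exact mul_mem ((QuotientGroup.eq_one_iff d).mp h3) hn

theorem card_ker_le {Q : Type*} [CommGroup Q] [Finite Q] {p : ℕ} (hp : 0 < p) {a b : Q}
    (h : closure {a, b} = ⊤) : Nat.card (powMonoidHom p : Q →* Q).ker ≤ p * p := by
  rw [← index_range, index]
  set N := (powMonoidHom p : Q →* Q).range
  have ho : ∀ x : Q, Nat.card (zpowers (x : Q ⧸ N)) ≤ p := fun x => by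
    rw [Nat.card_zpowers]
    refine orderOf_le_of_pow_eq_one hp ?_
    rw [← QuotientGroup.mk_pow, QuotientGroup.eq_one_iff]
    exact ⟨x, rfl⟩
  refine le_trans ?_ (Nat.mul_le_mul (ho a) (ho b))
  rw [← Nat.card_prod]
  refine Nat.card_le_card_of_surjective
    (fun u : zpowers (a : Q ⧸ N) × zpowers (b : Q ⧸ N) => (u.1 * u.2 : Q ⧸ N)) fun y => ?_
  obtain ⟨x, rfl⟩ := QuotientGroup.mk_surjective y
  obtain ⟨m, n, rfl⟩ := Subgroup.mem_closure_pair.mp (h.ge (mem_top x))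
  exact ⟨(⟨_, m, rfl⟩, ⟨_, n, rfl⟩), by simp⟩

theorem not_two_gen {Q : Type*} [CommGroup Q] [Finite Q] {p : ℕ} [hp : Fact p.Prime]
    (hP : IsPGroup p Q) (ho : Odd (Nat.card Q)) {x y z : Q} (hx : x ≠ 1) (hy : y ≠ 1) (hz : z ≠ 1)
    {S T : MulAut Q} (h1 : S x = x⁻¹) (h2 : S y = y) (h3 : S z = z) (h5 : T y = y⁻¹)
    (h6 : T z = z) {a b : Q} (h : closure {a, b} = ⊤) : False := by
  have ord : ∀ {u : Q}, u ≠ 1 → ∃ v ∈ zpowers u, Nat.card (zpowers v) = p ∧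
      ∀ w ∈ zpowers v, w ^ p = 1 := fun {u} hu => by
    obtain ⟨k, hk⟩ := exists_pow_prime_order hu
    obtain ⟨n, hn⟩ := IsPGroup.iff_orderOf.mp hP (u ^ k)
    have := (Nat.prime_dvd_prime_iff_eq hk hp.out).mp (hk.dvd_of_dvd_pow hn.dvd)
    refine ⟨u ^ k, npow_mem_zpowers u k, by rw [Nat.card_zpowers, this], ?_⟩
    rintro _ ⟨m, rfl⟩
    rw [← zpow_natCast, ← zpow_mul, mul_comm, zpow_mul, zpow_natCast, ← this,
      pow_orderOf_eq_one, one_zpow]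
  obtain ⟨x', hx1, hx2, hx3⟩ := ord hx
  obtain ⟨y', hy1, hy2, hy3⟩ := ord hy
  obtain ⟨z', hz1, hz2, hz3⟩ := ord hz
  let f : zpowers x' × zpowers y' × zpowers z' →* (powMonoidHom p : Q →* Q).ker :=
    { toFun := fun u => ⟨u.1 * u.2.1 * u.2.2, by
        rw [MonoidHom.mem_ker, powMonoidHom_apply, mul_pow, mul_pow, hx3 _ u.1.2, hy3 _ u.2.1.2,
          hz3 _ u.2.2.2, one_mul, one_mul]⟩
      map_one' := Subtype.ext (by simp)
      map_mul' := fun u v => Subtype.ext (by simp [mul_comm, mul_left_comm, mul_assoc]) }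
  have hf : Function.Injective f := by
    rw [injective_iff_map_eq_one]
    rintro ⟨⟨u, hu⟩, ⟨v, hv⟩, ⟨w, hw⟩⟩ e
    have e1 : u * v * w = 1 := congrArg Subtype.val e
    have hu' := zpowers_le.mpr hx1 hu
    have hv' := zpowers_le.mpr hy1 hv
    have hw' := zpowers_le.mpr hz1 hw
    have e2 := congrArg S e1
    rw [map_mul, map_mul, inv_zpowers h1 hu', fix_zpowers h2 hv', fix_zpowers h3 hw', map_one,
      ← e1, mul_left_inj, mul_left_inj] at e2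
    obtain rfl := eq_one_of_eq_inv ho e2.symm
    have e3 := congrArg T e1
    rw [map_mul, map_mul, map_one] at e3
    rw [inv_zpowers h5 hv', fix_zpowers h6 hw'] at e3
    replace e3 := mul_left_cancel (mul_right_cancel (e3.trans e1.symm))
    obtain rfl := eq_one_of_eq_inv ho e3.symm
    obtain rfl : w = 1 := by simpa using e1
    rfl
  have h7 := (Nat.card_le_card_of_injective f hf).trans (card_ker_le hp.out.pos h)
  rw [Nat.card_prod, Nat.card_prod, hx2, hy2, hz2] at h7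
  have := hp.out.one_lt
  nlinarith [Nat.mul_pos hp.out.pos hp.out.pos]

theorem exists_fix_two {I : Subgroup (MulAut P)} (hI8 : Nat.card I = 8) {x y : P}
    (hx : ∀ i ∈ I, i x = x ∨ i x = x⁻¹) (hy : ∀ i ∈ I, i y = y ∨ i y = y⁻¹) :
    ∃ j ∈ I, j ≠ 1 ∧ j x = x ∧ j y = y := by
  classical
  haveI : Finite I := Nat.finite_of_card_ne_zero (by omega)
  have : ¬ Function.Injective fun i : I => (decide (i.1 x = x), decide (i.1 y = y)) := fun h => by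
    have := Nat.card_le_card_of_injective _ h
    simp [hI8] at this
  obtain ⟨i, i', e, hne⟩ := Function.not_injective_iff.mp this
  simp only [Prod.mk.injEq, decide_eq_decide] at e
  have aux : ∀ z : P, (∀ i ∈ I, i z = z ∨ i z = z⁻¹) → (i.1 z = z ↔ i'.1 z = z) →
      (i.1⁻¹ * i'.1) z = z := fun z hz e => by
    rw [MulAut.mul_apply, MulAut.inv_apply, MulEquiv.symm_apply_eq]
    by_cases h : i.1 z = z
    · rw [h, e.mp h]
    · rw [(hz _ i.2).resolve_left h, (hz _ i'.2).resolve_left (mt e.mpr h)]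
  exact ⟨i.1⁻¹ * i'.1, mul_mem (inv_mem i.2) i'.2,
    fun h => hne (Subtype.ext (inv_mul_eq_one.mp h)), aux x hx e.1, aux y hy e.2⟩

theorem exists_basis [Finite P] (ho : Odd (Nat.card P)) {I : Subgroup (MulAut P)}
    (hI : Cfsg.IsElementaryAbelian 2 I) (hI8 : Nat.card I = 8) :
    ∃ T1 ∈ I, ∃ T2 ∈ I, ∃ T3 ∈ I, ∃ x1 x2 x3 : P, x1 ≠ 1 ∧ x2 ≠ 1 ∧ x3 ≠ 1 ∧
      (T1 x1 = x1⁻¹ ∧ T1 x2 = x2 ∧ T1 x3 = x3) ∧ (T2 x1 = x1 ∧ T2 x2 = x2⁻¹ ∧ T2 x3 = x3) ∧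
      (T3 x1 = x1 ∧ T3 x2 = x2 ∧ T3 x3 = x3⁻¹) ∧
      ∀ i ∈ I, i = 1 ∨ i = T1 ∨ i = T2 ∨ i = T3 ∨ i = T1 * T2 ∨ i = T1 * T3 ∨ i = T2 * T3 ∨
        i = T1 * T2 * T3 := by
  classical
  haveI : Finite I := Nat.finite_of_card_ne_zero (by omega)
  have ex : ∀ j ∈ I, j ≠ 1 → ∃ x : P, x ≠ 1 ∧ j x = x⁻¹ ∧ ∀ i ∈ I, i x = x ∨ i x = x⁻¹ := by
    intro j hj hj1
    obtain ⟨x, h1, h2, h3⟩ := exists_inverted_ext I.subtype hI.1
      (fun a => Subtype.ext (hI.2 a a.2))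
      (by rw [hI8]; exact (Nat.coprime_two_left.mpr ho).pow_left 3) (j := ⟨j, hj⟩) hj1
    exact ⟨x, fun h => Nat.not_prime_one (by simpa [h] using h1), h2, fun i hi => h3 ⟨i, hi⟩⟩
  have h0 : ∀ i ∈ I, i (1 : P) = 1 ∨ i (1 : P) = 1⁻¹ := fun i _ => Or.inl (map_one i)
  obtain ⟨j1, hj1, hj1', -⟩ := exists_fix_two hI8 h0 h0
  obtain ⟨x1, hx1, a1, b1⟩ := ex j1 hj1 hj1'
  obtain ⟨j2, hj2, hj2', c2, -⟩ := exists_fix_two hI8 b1 h0
  obtain ⟨x2, hx2, a2, b2⟩ := ex j2 hj2 hj2'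
  obtain ⟨T3, hT3, hj3', c3, d3⟩ := exists_fix_two hI8 b1 b2
  obtain ⟨x3, hx3, a3, b3⟩ := ex T3 hT3 hj3'
  obtain ⟨T2, hT2, e1, e2, e3⟩ : ∃ T2 ∈ I, T2 x1 = x1 ∧ T2 x2 = x2⁻¹ ∧ T2 x3 = x3 := by
    rcases b3 j2 hj2 with h | h
    · exact ⟨j2, hj2, c2, a2, h⟩
    · exact ⟨j2 * T3, mul_mem hj2 hT3, by simp [*], by simp [*], by simp [*]⟩
  obtain ⟨T1, hT1, f1, f2, f3⟩ : ∃ T1 ∈ I, T1 x1 = x1⁻¹ ∧ T1 x2 = x2 ∧ T1 x3 = x3 := by
    rcases b2 j1 hj1 with h | h <;> rcases b3 j1 hj1 with h' | h'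
    · exact ⟨j1, hj1, a1, h, h'⟩
    · exact ⟨j1 * T3, mul_mem hj1 hT3, by simp [*], by simp [*], by simp [*]⟩
    · exact ⟨j1 * T2, mul_mem hj1 hT2, by simp [*], by simp [*], by simp [*]⟩
    · exact ⟨j1 * T2 * T3, mul_mem (mul_mem hj1 hT2) hT3, by simp [*], by simp [*], by simp [*]⟩
  refine ⟨T1, hT1, T2, hT2, T3, hT3, x1, x2, x3, hx1, hx2, hx3, ⟨f1, f2, f3⟩, ⟨e1, e2, e3⟩,
    ⟨c3, d3, a3⟩, ?_⟩
  have n1 : x1⁻¹ ≠ x1 := fun h => hx1 (eq_one_of_eq_inv ho h.symm)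
  have n2 : x2⁻¹ ≠ x2 := fun h => hx2 (eq_one_of_eq_inv ho h.symm)
  have n3 : x3⁻¹ ≠ x3 := fun h => hx3 (eq_one_of_eq_inv ho h.symm)
  let s : I → Bool × Bool × Bool := fun i =>
    (decide (i.1 x1 = x1), decide (i.1 x2 = x2), decide (i.1 x3 = x3))
  have hs : Function.Surjective s := by
    rintro ⟨_ | _, _ | _, _ | _⟩
    · exact ⟨⟨T1 * T2 * T3, mul_mem (mul_mem hT1 hT2) hT3⟩, by simp [s, *]⟩
    · exact ⟨⟨T1 * T2, mul_mem hT1 hT2⟩, by simp [s, *]⟩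
    · exact ⟨⟨T1 * T3, mul_mem hT1 hT3⟩, by simp [s, *]⟩
    · exact ⟨⟨T1, hT1⟩, by simp [s, *]⟩
    · exact ⟨⟨T2 * T3, mul_mem hT2 hT3⟩, by simp [s, *]⟩
    · exact ⟨⟨T2, hT2⟩, by simp [s, *]⟩
    · exact ⟨⟨T3, hT3⟩, by simp [s, *]⟩
    · exact ⟨1, by simp [s]⟩
  have hinj := (Nat.bijective_iff_surjective_and_card s).mpr ⟨hs, by simp [hI8]⟩ |>.1
  have key : ∀ i ∈ I, ∀ i' ∈ I, i x1 = i' x1 → i x2 = i' x2 → i x3 = i' x3 → i = i' :=
    fun i hi i' hi' h1 h2 h3 => congrArg Subtype.val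
      (hinj (a₁ := ⟨i, hi⟩) (a₂ := ⟨i', hi'⟩) (by simp only [s, h1, h2, h3]))
  intro i hi
  rcases b1 i hi with g1 | g1 <;> rcases b2 i hi with g2 | g2 <;> rcases b3 i hi with g3 | g3
  · exact Or.inl (key i hi _ (one_mem _) (by simp [*]) (by simp [*]) (by simp [*]))
  · exact Or.inr (Or.inr (Or.inr (Or.inl
      (key i hi _ hT3 (by simp [*]) (by simp [*]) (by simp [*])))))
  · exact Or.inr (Or.inr (Or.inl (key i hi _ hT2 (by simp [*]) (by simp [*]) (by simp [*]))))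
  · exact Or.inr (Or.inr (Or.inr (Or.inr (Or.inr (Or.inr (Or.inl
      (key i hi _ (mul_mem hT2 hT3) (by simp [*]) (by simp [*]) (by simp [*]))))))))
  · exact Or.inr (Or.inl (key i hi _ hT1 (by simp [*]) (by simp [*]) (by simp [*])))
  · exact Or.inr (Or.inr (Or.inr (Or.inr (Or.inr (Or.inl
      (key i hi _ (mul_mem hT1 hT3) (by simp [*]) (by simp [*]) (by simp [*])))))))
  · exact Or.inr (Or.inr (Or.inr (Or.inr (Or.inl
      (key i hi _ (mul_mem hT1 hT2) (by simp [*]) (by simp [*]) (by simp [*]))))))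
  · exact Or.inr (Or.inr (Or.inr (Or.inr (Or.inr (Or.inr (Or.inr
      (key i hi _ (mul_mem (mul_mem hT1 hT2) hT3) (by simp [*]) (by simp [*]) (by simp [*]))))))))


/-- Let p be an odd prime, P a finite p-group and I an elementary abelian subgroup of order 8 of Aut(P). Call T ∈ I, T ≠ 1, broad when its fixed-point subgroup C_P(T) is not cyclic. Suppose I has a proper subgroup I₀ containing no broad element such that the product of any two broad elements lies in I₀. Then P is abelian of rank exactly 3 (generated by three elements but not by two), there are exactly three broad elements and they generate I, and I₀ is exactly the set of products of two broad elements. -/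
theorem result
    {P : Type*} [Group P] [Finite P] (p : ℕ) (hp : p.Prime) (hp2 : p ≠ 2) (hP : IsPGroup p P)
    (I : Subgroup (MulAut P)) (hI : Cfsg.IsElementaryAbelian 2 I) (hI8 : Nat.card ↥I = 8)
    (I₀ : Subgroup (MulAut P)) (hI₀ : I₀ < I)
    (hdisj : ∀ T ∈ I₀, T ≠ 1 → ∃ g : P, ∀ x : P, (T x = x ↔ x ∈ Subgroup.zpowers g))
    (hprod : ∀ T ∈ I, ∀ T' ∈ I, T ≠ 1 → T' ≠ 1 → (¬ ∃ g : P, ∀ x : P, (T x = x ↔ x ∈ Subgroup.zpowers g)) →
      (¬ ∃ g : P, ∀ x : P, (T' x = x ↔ x ∈ Subgroup.zpowers g)) → T * T' ∈ I₀) :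
    IsMulCommutative P ∧ (∃ a b c : P, Subgroup.closure {a, b, c} = ⊤) ∧ (¬ ∃ a b : P, Subgroup.closure {a, b} = ⊤) ∧
      Nat.card {T : MulAut P // T ∈ I ∧ T ≠ 1 ∧ ¬ ∃ g : P, ∀ x : P, (T x = x ↔ x ∈ Subgroup.zpowers g)} = 3 ∧
      Subgroup.closure {T : MulAut P | T ∈ I ∧ T ≠ 1 ∧ ¬ ∃ g : P, ∀ x : P, (T x = x ↔ x ∈ Subgroup.zpowers g)} = I ∧
      (I₀ : Set (MulAut P)) = {S : MulAut P | ∃ T T' : MulAut P, T ∈ I ∧ T' ∈ I ∧ T ≠ 1 ∧ T' ≠ 1 ∧
        (¬ ∃ g : P, ∀ x : P, (T x = x ↔ x ∈ Subgroup.zpowers g)) ∧ (¬ ∃ g : P, ∀ x : P, (T' x = x ↔ x ∈ Subgroup.zpowers g)) ∧ S = T * T'} := by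
  classical
  haveI : Fact p.Prime := ⟨hp⟩
  have ho : Odd (Nat.card P) := by
    obtain ⟨n, hn⟩ := IsPGroup.iff_card.mp hP
    rw [hn]; exact (hp.odd_of_ne_two hp2).pow
  obtain ⟨T1, hT1, T2, hT2, T3, hT3, x1, x2, x3, hx1, hx2, hx3, ⟨a1, a2, a3⟩, ⟨b1, b2, b3⟩,
    ⟨c1, c2, c3⟩, hall⟩ := exists_basis ho hI hI8
  have n1 : x1⁻¹ ≠ x1 := fun h => hx1 (eq_one_of_eq_inv ho h.symm)
  have n2 : x2⁻¹ ≠ x2 := fun h => hx2 (eq_one_of_eq_inv ho h.symm)
  have n3 : x3⁻¹ ≠ x3 := fun h => hx3 (eq_one_of_eq_inv ho h.symm)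
  have hc : ∀ S ∈ I, ∀ U ∈ I, S * U = U * S := isMulCommutative_iff.mp hI.1
  have ne1 : ∀ {S : MulAut P} {x : P}, x⁻¹ ≠ x → S x = x⁻¹ → S ≠ 1 := fun hx h e => hx (by
    rw [← h, e, MulAut.one_apply])
  have t1 := ne1 n1 a1
  have t2 := ne1 n2 b2
  have t3 := ne1 n3 c3
  have nc1 : ¬ ∃ g : P, ∀ x : P, (T1 x = x ↔ x ∈ zpowers g) := fun ⟨g, hg⟩ =>
    hx3 (not_cyc hP ho ((hg _).mp a2) ((hg _).mp a3) hx2 b2 b3)
  have nc2 : ¬ ∃ g : P, ∀ x : P, (T2 x = x ↔ x ∈ zpowers g) := fun ⟨g, hg⟩ =>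
    hx3 (not_cyc hP ho ((hg _).mp b1) ((hg _).mp b3) hx1 a1 a3)
  have nc3 : ¬ ∃ g : P, ∀ x : P, (T3 x = x ↔ x ∈ zpowers g) := fun ⟨g, hg⟩ =>
    hx2 (not_cyc hP ho ((hg _).mp c1) ((hg _).mp c2) hx1 a1 a2)
  have m12 := hprod _ hT1 _ hT2 t1 t2 nc1 nc2
  have m13 := hprod _ hT1 _ hT3 t1 t3 nc1 nc3
  have m23 := hprod _ hT2 _ hT3 t2 t3 nc2 nc3
  obtain ⟨g3, hg3⟩ := hdisj _ m12 (ne1 n1 (by simp [*]))
  obtain ⟨g2, hg2⟩ := hdisj _ m13 (ne1 n1 (by simp [*]))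
  obtain ⟨g1, hg1⟩ := hdisj _ m23 (ne1 n2 (by simp [*]))
  have i1 : ∀ S ∈ I, S x1 = x1⁻¹ → S g1 = g1⁻¹ := fun S hS h =>
    inv_gen hP ho hg1 hx1 (by simp [b1, c1]) h (hI.2 S hS) (hc _ hS _ (hI₀.le m23))
  have i2 : ∀ S ∈ I, S x2 = x2⁻¹ → S g2 = g2⁻¹ := fun S hS h =>
    inv_gen hP ho hg2 hx2 (by simp [a2, c2]) h (hI.2 S hS) (hc _ hS _ (hI₀.le m13))
  have i3 : ∀ S ∈ I, S x3 = x3⁻¹ → S g3 = g3⁻¹ := fun S hS h =>
    inv_gen hP ho hg3 hx3 (by simp [a3, b3]) h (hI.2 S hS) (hc _ hS _ (hI₀.le m12))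
  have hT : T1 * T2 * T3 ∈ I := mul_mem (mul_mem hT1 hT2) hT3
  have j1 := i1 _ hT (by simp [a1, b1, c1])
  have j2 := i2 _ hT (by simp [a2, b2, c2])
  have j3 := i3 _ hT (by simp [a3, b3, c3])
  have hI0 : ∀ S ∈ I₀, S = 1 ∨ S = T1 * T2 ∨ S = T1 * T3 ∨ S = T2 * T3 := fun S hS => by
    rcases hall S (hI₀.le hS) with rfl | rfl | rfl | rfl | rfl | rfl | rfl | rfl
    · exact Or.inl rfl
    · exact (nc1 (hdisj _ hS t1)).elim
    · exact (nc2 (hdisj _ hS t2)).elim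
    · exact (nc3 (hdisj _ hS t3)).elim
    · simp
    · simp
    · simp
    · exact (nc3 (hdisj _ ((mul_mem_cancel_left m12).mp hS) t3)).elim
  haveI : Finite I₀ := Finite.of_injective _ (inclusion_injective hI₀.le)
  have hgen : closure {g1, g2, g3} = ⊤ := by
    refine eq_top_of_noncyclic I₀.subtype
      (isMulCommutative_iff.mpr fun S hS U hU => hc _ (hI₀.le hS) _ (hI₀.le hU)) (fun h => ?_)
      (((Nat.coprime_two_left.mpr ho).pow_left 3).coprime_dvd_left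
        ((card_dvd_of_le hI₀.le).trans hI8.dvd)) ?_
    · obtain ⟨g, hg⟩ := exists_zpowers_eq_of_isCyclic h
      have hg2 : g ^ 2 = 1 := hI.2 g (hI₀.le (hg.le (mem_zpowers g)))
      have : ∀ S ∈ I₀, S ≠ 1 → S = g := fun S hS hS1 => by
        obtain ⟨k, rfl⟩ := hg.ge hS
        rcases Int.even_or_odd' k with ⟨m, rfl | rfl⟩
        · exact (hS1 (by simp only [zpow_mul, zpow_ofNat, hg2, one_zpow])).elim
        · simp only [zpow_add, zpow_mul, zpow_ofNat, hg2, one_zpow, one_mul, pow_one]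
      have e := (this _ m12 (ne1 n1 (by simp [*]))).trans (this _ m23 (ne1 n2 (by simp [*]))).symm
      exact n1 (by simpa [a1, b1, c1] using congrArg (fun S : MulAut P => S x1) e)
    · rintro ⟨S, hS⟩ hS1 x hx
      rcases hI0 S hS with rfl | rfl | rfl | rfl
      · exact (hS1 rfl).elim
      · exact zpowers_le.mpr (subset_closure (by simp)) ((hg3 x).mp hx)
      · exact zpowers_le.mpr (subset_closure (by simp)) ((hg2 x).mp hx)
      · exact zpowers_le.mpr (subset_closure (by simp)) ((hg1 x).mp hx)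
  haveI := hP.isNilpotent
  have hab : commutator P = ⊥ := by
    by_contra hne
    refine CfsgH1.commutator_lt_of_isNilpotent (P := ⊤) inferInstance le_top hne
      (commutator_le_of_generators hgen ?_)
    have k12 := comm_mem_gamma ho inferInstance hg3 (hI.2 _ (hI₀.le m12))
      (i1 _ (hI₀.le m12) (by simp [a1, b1])) (i2 _ (hI₀.le m12) (by simp [a2, b2])) j1 j2 j3
    have k13 := comm_mem_gamma ho inferInstance hg2 (hI.2 _ (hI₀.le m13))
      (i1 _ (hI₀.le m13) (by simp [a1, c1])) (i3 _ (hI₀.le m13) (by simp [a3, c3])) j1 j3 j2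
    have k23 := comm_mem_gamma ho inferInstance hg1 (hI.2 _ (hI₀.le m23))
      (i2 _ (hI₀.le m23) (by simp [b2, c2])) (i3 _ (hI₀.le m23) (by simp [b3, c3])) j2 j3 j1
    rintro x (rfl | rfl | rfl) y (rfl | rfl | rfl)
    all_goals first
      | (rw [commutatorElement_self]; exact one_mem _)
      | assumption
      | (rw [← commutatorElement_inv]; exact inv_mem ‹_›)
  have hcomm : ∀ x y : P, x * y = y * x := fun x y =>
    (comm_eq_one_iff.mp (mem_bot.mp (hab.le (comm_mem_commutator x y)))).eq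
  have hTi : ∀ x, (T1 * T2 * T3) x = x⁻¹ := fun x => by
    have hx : x ∈ closure {g1, g2, g3} := hgen.ge (mem_top x)
    induction hx using closure_induction with
    | mem x hx => rcases hx with rfl | rfl | rfl <;> assumption
    | one => simp
    | mul x y _ _ hx hy => rw [map_mul, hx, hy, hcomm, mul_inv_rev]
    | inv x _ hx => rw [map_inv, hx]
  have hset : {T : MulAut P | T ∈ I ∧ T ≠ 1 ∧ ¬ ∃ g : P, ∀ x : P, (T x = x ↔ x ∈ zpowers g)} =
      {T1, T2, T3} := by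
    ext S
    constructor
    · rintro ⟨hS, hS1, hnc⟩
      rcases hall S hS with rfl | rfl | rfl | rfl | rfl | rfl | rfl | rfl
      · exact (hS1 rfl).elim
      · simp
      · simp
      · simp
      · exact (hnc ⟨_, hg3⟩).elim
      · exact (hnc ⟨_, hg2⟩).elim
      · exact (hnc ⟨_, hg1⟩).elim
      · refine (hnc ⟨1, fun x => ?_⟩).elim
        rw [hTi, zpowers_one_eq_bot, mem_bot]
        exact ⟨fun h => eq_one_of_eq_inv ho h.symm, fun h => by simp [h]⟩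
    · rintro (rfl | rfl | rfl)
      exacts [⟨hT1, t1, nc1⟩, ⟨hT2, t2, nc2⟩, ⟨hT3, t3, nc3⟩]
  refine ⟨⟨⟨hcomm⟩⟩, ⟨g1, g2, g3, hgen⟩, fun ⟨a, b, h⟩ => ?_, ?_, ?_, ?_⟩
  · letI : CommGroup P := { ‹Group P› with mul_comm := hcomm }
    exact not_two_gen hP ho hx1 hx2 hx3 a1 a2 a3 b2 b3 h
  · have := Set.ncard_eq_three.mpr ⟨T1, T2, T3, fun e => n1 (by rw [← a1, e, b1]),
      fun e => n1 (by rw [← a1, e, c1]), fun e => n2 (by rw [← b2, e, c2]), hset⟩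
    exact this
  · rw [hset]
    refine le_antisymm ((closure_le _).mpr ?_) fun S hS => ?_
    · rintro _ (rfl | rfl | rfl) <;> assumption
    · have u1 : T1 ∈ closure {T1, T2, T3} := subset_closure (by simp)
      have u2 : T2 ∈ closure {T1, T2, T3} := subset_closure (by simp)
      have u3 : T3 ∈ closure {T1, T2, T3} := subset_closure (by simp)
      rcases hall S hS with rfl | rfl | rfl | rfl | rfl | rfl | rfl | rfl
      exacts [one_mem _, u1, u2, u3, mul_mem u1 u2, mul_mem u1 u3, mul_mem u2 u3,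
        mul_mem (mul_mem u1 u2) u3]
  · ext S
    constructor
    · intro hS
      rcases hI0 S hS with rfl | rfl | rfl | rfl
      · exact ⟨T1, T1, hT1, hT1, t1, t1, nc1, nc1, by rw [← pow_two, hI.2 _ hT1]⟩
      · exact ⟨T1, T2, hT1, hT2, t1, t2, nc1, nc2, rfl⟩
      · exact ⟨T1, T3, hT1, hT3, t1, t3, nc1, nc3, rfl⟩
      · exact ⟨T2, T3, hT2, hT3, t2, t3, nc2, nc3, rfl⟩
    · rintro ⟨U, U', h1, h2, h3, h4, h5, h6, rfl⟩
      exact hprod U h1 U' h2 h3 h4 h5 h6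

end Cfsg.Agent.S4412
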