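import Cfsg.Statements.S4413
import Cfsg.Agent.H2.Minus32
import Cfsg.Agent.L0.Cores

set_option autoImplicit false
open Cfsg

namespace Cfsg.Agent.S4413
open Subgroup CfsgH2 CfsgL0
open scoped commutatorElement



/-- Let P be an extraspecial 2-group of order 32 with no elementary abelian subgroup of order 8 (the central product of a dihedral and a quaternion group of order 8). Then the inner automorphism group of P has order 16 and the outer automorphism group Aut(P)/Inn(P) is isomorphic to the symmetric group of degree 5; in particular Aut(P) has order 1920. -/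
theorem result {P : Type*} [Group P] [Finite P]
    (hex : Cfsg.IsExtraspecial 2 P) (h32 : Nat.card P = 32)
    (hminus : ∀ A : Subgroup P, Cfsg.IsElementaryAbelian 2 A → Nat.card ↥A ≤ 4)
    [(MulAut.conj : P →* MulAut P).range.Normal] :
    Nat.card ↥(MulAut.conj : P →* MulAut P).range = 16 ∧ Nat.card (MulAut P) = 1920 ∧
      Nonempty ((MulAut P ⧸ (MulAut.conj : P →* MulAut P).range) ≃* Equiv.Perm (Fin 5)) := by
  obtain ⟨π, h1, h2, -⟩ := exists_out_hom hex h32 hminus
  have hk : (MulAut.conj : P →* MulAut P).ker = center P := by
    ext g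
    rw [MonoidHom.mem_ker, mem_center_iff, MulEquiv.ext_iff]
    exact forall_congr' fun x => by
      rw [MulAut.conj_apply, MulAut.one_apply, mul_inv_eq_iff_eq_mul, eq_comm]
  have c1 : Nat.card (MulAut.conj : P →* MulAut P).range = 16 := by
    have := (center P).card_mul_index
    rw [hex.2, h32, ← hk, index_ker] at this
    omega
  have e := (QuotientGroup.quotientMulEquivOfEq h2.symm).trans
    (QuotientGroup.quotientKerEquivOfSurjective π h1)
  refine ⟨c1, ?_, ⟨e⟩⟩
  rw [← (MulAut.conj : P →* MulAut P).range.card_mul_index, c1, index_eq_card,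
    Nat.card_congr e.toEquiv, Nat.card_perm]
  simp [Nat.factorial]

end Cfsg.Agent.S4413
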