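import Cfsg.Statements.S4414
import Cfsg.Agent.L0.Fitting
import Cfsg.Agent.H2.FreeMod

set_option autoImplicit false
open Cfsg

namespace Cfsg.Agent.S4414
open Subgroup CfsgH2 CfsgL0
open scoped commutatorElement

open Module

section
variable {K S U : Type*} [Field K] [Group S] [AddCommGroup U] [Module K U]
  (β : Representation K S U) (P : Subgroup S)

/-- weight space -/
def wt (χ : P → K) : Submodule K U where
  carrier := {v | ∀ d : P, β d v = χ d • v}
  add_mem' := fun ha hb d => by rw [map_add, ha d, hb d, smul_add]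
  zero_mem' := fun d => by simp
  smul_mem' := fun c v hv d => by rw [map_smul, hv d, smul_comm]

/-- the sum of the other weight spaces -/
def oth (χ : P → K) : Submodule K U := ⨆ χ' ≠ χ, wt β P χ'

/-- fixed points -/
def fx (T : Subgroup S) : Submodule K U where
  carrier := {v | ∀ t ∈ T, β t v = v}
  add_mem' := fun ha hb d hd => by rw [map_add, ha d hd, hb d hd]
  zero_mem' := fun d _ => by simp
  smul_mem' := fun c v hv d hd => by rw [map_smul, hv d hd]

variable [P.Normal]

/-- action on weights -/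
@[reducible] def actW : MulAction S (P → K) where
  smul := fun s χ d => χ (MulAut.conjNormal s⁻¹ d)
  one_smul := fun χ => funext fun d => congrArg χ (by simp)
  mul_smul := fun s t χ => funext fun d => congrArg χ (by simp)

attribute [local instance] actW

variable {β P}

theorem smul_apply' (s : S) (χ : P → K) (d : P) : (s • χ) d = χ (MulAut.conjNormal s⁻¹ d) := rfl

theorem map_wt {χ : P → K} {v : U} (hv : v ∈ wt β P χ) (s : S) : β s v ∈ wt β P (s • χ) :=
  fun d => by
    rw [smul_apply', ← map_smul, ← hv, ← End.mul_apply, ← End.mul_apply, ← map_mul, ← map_mul]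
    simp

theorem map_oth {χ : P → K} {v : U} (hv : v ∈ oth β P χ) (s : S) : β s v ∈ oth β P (s • χ) :=
  (iSup₂_le fun χ' h _ hw => Submodule.mem_comap.mpr (Submodule.mem_iSup_of_mem (s • χ')
    (Submodule.mem_iSup_of_mem (fun e => h (MulAction.injective s e)) (map_wt hw s))) :
      oth β P χ ≤ Submodule.comap (β s) (oth β P (s • χ))) hv

theorem map_oth_iff {χ : P → K} {v : U} (s : S) : β s v ∈ oth β P (s • χ) ↔ v ∈ oth β P χ :=
  ⟨fun h => by simpa using map_oth h s⁻¹, fun h => map_oth h s⟩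

omit [P.Normal] in
theorem disj (hP : IsMulCommutative P) (χ : P → K) : Disjoint (wt β P χ) (oth β P χ) := by
  have := End.independent_iInf_maxGenEigenspace_of_forall_mapsTo (fun d : P => β d)
    fun i j μ => End.mapsTo_maxGenEigenspace_of_comm (by
      rw [Commute, SemiconjBy, ← map_mul, ← map_mul, ← coe_mul, hP.is_comm.comm, coe_mul]) μ
  exact (this.mono (t := wt β P) fun χ v hv => (Submodule.mem_iInf _).mpr fun d =>
    End.eigenspace_le_maxGenEigenspace (End.mem_eigenspace_iff.mpr (hv d))) χ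

omit [P.Normal] in
theorem exists_wt [IsAlgClosed K] [FiniteDimensional K U] [Nontrivial U] (hP : IsMulCommutative P) :
    ∃ χ, wt β P χ ≠ ⊥ := by
  obtain ⟨W, ⟨hW0, hW⟩, hmin⟩ := exists_minimal_of_wellFoundedLT
    (fun W : Submodule K U => W ≠ ⊥ ∧ ∀ f : P, W ≤ W.comap (β f)) ⟨⊤, top_ne_bot, fun _ => by simp⟩
  have hsc : ∀ d : P, ∃ μ : K, ∀ w ∈ W, β d w = μ • w := fun d => by
    haveI := Submodule.nontrivial_iff_ne_bot.mpr hW0
    obtain ⟨μ, hμ⟩ := End.exists_eigenvalue ((β d).restrict (hW d))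
    obtain ⟨w, hw, hw0⟩ := hμ.exists_hasEigenvector
    have := hmin (y := W ⊓ End.eigenspace (β d) μ) ⟨fun e => hw0 (Subtype.ext
      ((Submodule.eq_bot_iff _).mp e w ⟨w.2, End.mem_eigenspace_iff.mpr
        (congrArg Subtype.val (End.mem_eigenspace_iff.mp hw))⟩)), fun f x hx => ⟨hW f hx.1,
          End.mapsTo_genEigenspace_of_comm (by
            rw [Commute, SemiconjBy, ← map_mul, ← map_mul, ← coe_mul, hP.is_comm.comm, coe_mul])
            μ 1 hx.2⟩⟩ inf_le_left
    exact ⟨μ, fun w hw => End.mem_eigenspace_iff.mp (this hw).2⟩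
  choose χ hχ using hsc
  exact ⟨χ, fun e => hW0 (eq_bot_iff.mpr (e ▸ fun w hw d => hχ d w hw))⟩

theorem exists_good [Finite S] [CharP K 2] (hP : IsMulCommutative P) {T : Subgroup S}
    (hT : IsPGroup 2 T) {χ : P → K} (h : wt β P χ ≠ ⊥) :
    ∃ u ∈ fx β T, ∀ χ', u ∉ oth β P χ' ↔ χ' ∈ MulAction.orbit T χ := by
  classical
  haveI := Fintype.ofFinite T
  obtain ⟨w, hw, hw0, hfix⟩ := exists_fixed_vector (hT.to_subgroup (MulAction.stabilizer T χ))
    ((β.comp T.subtype).comp (MulAction.stabilizer T χ).subtype) (wt β P χ)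
    (fun g w hw => by have := map_wt hw (g : T); rwa [show ((g : T) : S) • χ = χ from g.2] at this)
    (fun w _ => by rw [← Nat.cast_smul_eq_nsmul K, CharP.cast_eq_zero, zero_smul]) h
  set O := Finset.univ.image fun t : T => β t w
  have hu : (∑ y ∈ O, y) ∈ fx β T := fun t ht => by
    rw [map_sum]
    refine Finset.sum_bij (fun y _ => β t y) (fun y hy => ?_) (fun y _ y' _ e => ?_)
      (fun y hy => ?_) fun _ _ => rfl
    · obtain ⟨s, -, rfl⟩ := Finset.mem_image.mp hy
      exact Finset.mem_image.mpr ⟨⟨t, ht⟩ * s, Finset.mem_univ _, by simp⟩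
    · simpa using congrArg (β t⁻¹) e
    · obtain ⟨s, -, rfl⟩ := Finset.mem_image.mp hy
      exact ⟨_, Finset.mem_image.mpr ⟨(⟨t, ht⟩ : T)⁻¹ * s, Finset.mem_univ _, rfl⟩, by simp⟩
  have h1 : (∑ y ∈ O, y) ∉ oth β P χ := fun h1 => by
    rw [← Finset.add_sum_erase O _ (a := w) (Finset.mem_image.mpr ⟨1, Finset.mem_univ _, by simp⟩),
      add_mem_cancel_right (Submodule.sum_mem _ fun y hy => ?_)] at h1
    · exact hw0 (Submodule.disjoint_def.mp (disj hP χ) w hw h1)
    · obtain ⟨h2, h3⟩ := Finset.mem_erase.mp hy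
      obtain ⟨s, -, rfl⟩ := Finset.mem_image.mp h3
      exact Submodule.mem_iSup_of_mem ((s : S) • χ) (Submodule.mem_iSup_of_mem
        (fun e => h2 (hfix ⟨s, e⟩)) (map_wt hw s))
  refine ⟨_, hu, fun χ' => ⟨fun h2 => by_contra fun h3 => h2 (Submodule.sum_mem _ fun y hy => ?_),
    ?_⟩⟩
  · obtain ⟨s, -, rfl⟩ := Finset.mem_image.mp hy
    exact Submodule.mem_iSup_of_mem ((s : S) • χ) (Submodule.mem_iSup_of_mem
      (fun e => h3 ⟨s, e⟩) (map_wt hw s))
  · rintro ⟨t, rfl⟩ h2
    rw [← hu t t.2] at h2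
    exact h1 ((map_oth_iff (t : S)).mp h2)

omit [P.Normal] in
theorem card_le_finrank [FiniteDimensional K U] {ι : Type*} [Fintype ι] (v : ι → U)
    (χ : ι → P → K) (h1 : ∀ i, v i ∉ oth β P (χ i)) (h2 : ∀ i j, j ≠ i → v j ∈ oth β P (χ i))
    {F : Submodule K U} (hF : ∀ i, v i ∈ F) : Fintype.card ι ≤ finrank K F := by
  classical
  have : LinearIndependent K v := linearIndependent_iff'.mpr fun s g hs i hi => by
    by_contra hg
    rw [← Finset.add_sum_erase s _ hi, add_eq_zero_iff_eq_neg] at hs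
    refine h1 i ((Submodule.smul_mem_iff _ hg).mp ?_)
    rw [hs]
    exact neg_mem (Submodule.sum_mem _ fun j hj =>
      Submodule.smul_mem _ _ (h2 i j (Finset.mem_erase.mp hj).1))
  exact (LinearIndependent.of_comp F.subtype (v := fun i => (⟨v i, hF i⟩ : F)) this).fintype_card_le_finrank

theorem not_inv [Finite S] {T Q : Subgroup S} (hT : IsPGroup 2 T) {q : ℕ} [hq : Fact q.Prime]
    (hq2 : q ≠ 2) (hQ : IsPGroup q Q) (hPQ : ⁅P, Q⁆ = P) (h0 : fx β P = ⊥) {χ : P → K}
    (h : wt β P χ ≠ ⊥) (hinv : ∀ x ∈ Q, ∀ χ' ∈ MulAction.orbit T χ, x • χ' ∈ MulAction.orbit T χ) :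
    False := by
  let Ω : SubMulAction Q (P → K) := ⟨MulAction.orbit T χ, fun x _ h => hinv x x.2 _ h⟩
  haveI : Finite Ω := Set.finite_range _
  obtain ⟨⟨_, t, rfl⟩, hfix⟩ := hQ.nonempty_fixed_point_of_prime_not_dvd_card Ω (fun hd => by
    obtain ⟨n, hn⟩ := IsPGroup.iff_card.mp hT
    have : Nat.card Ω ∣ 2 ^ n := by
      rw [← hn]
      exact (MulAction.index_stabilizer T χ).symm.dvd.trans (index_dvd_card _)
    exact hq2 ((Nat.prime_dvd_prime_iff_eq hq.out Nat.prime_two).mp
      (hq.out.dvd_of_dvd_pow (hd.trans this))))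
  obtain ⟨w, hw, hw0⟩ := (Submodule.ne_bot_iff _).mp h
  have hv := map_wt hw (t : S)
  have hD : ⁅P, Q⁆ ≤ (MulAction.stabilizer (End K U)ˣ (β t w)).comap β.asGroupHom := by
    rw [commutator_le]
    intro d hd y hy
    have e := congrFun (congrArg Subtype.val (hfix (⟨y, hy⟩ : Q)⁻¹)) (⟨d, hd⟩ : P)⁻¹
    have e2 := hv (MulAut.conjNormal y (⟨d, hd⟩ : P)⁻¹)
    have e3 : β (y * d⁻¹ * y⁻¹) (β t w) = β d⁻¹ (β t w) := by
      refine e2.trans (Eq.trans ?_ (hv (⟨d, hd⟩ : P)⁻¹).symm)
      refine congrArg (· • β t w) (Eq.trans ?_ e)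
      change _ = ((t : S) • χ) (MulAut.conjNormal y⁻¹⁻¹ _)
      rw [inv_inv]
    change β ⁅d, y⁆ (β t w) = β t w
    rw [commutatorElement_def, mul_assoc d, mul_assoc d, map_mul, End.mul_apply, e3,
      β.self_inv_apply]
  have : β t w ∈ fx β P := fun d hd => hD (hPQ.ge hd)
  rw [h0, Submodule.mem_bot] at this
  exact hw0 (by simpa using congrArg (β (t : S)⁻¹) this)

theorem main [Finite S] [IsAlgClosed K] [CharP K 2] [FiniteDimensional K U] [Nontrivial U]
    (hP : IsMulCommutative P) {T Q : Subgroup S} (hT : IsPGroup 2 T) {q : ℕ} [hq : Fact q.Prime]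
    (hq2 : q ≠ 2) (hQ : Nat.card Q = q) (hPQ : ⁅P, Q⁆ = P) (h0 : fx β P = ⊥) :
    2 ≤ finrank K (fx β T) ∧ ((∀ x ∈ Q, ∀ v ∈ fx β T, β x v ∈ fx β T) → 3 ≤ finrank K (fx β T)) := by
  obtain ⟨χ, h⟩ := exists_wt (β := β) hP
  obtain ⟨u, hu, hs⟩ := exists_good hP hT h
  have hn := not_inv hT hq2 (IsPGroup.of_card (n := 1) (by rw [hQ, pow_one])) hPQ h0 h
  refine ⟨?_, fun hinv => ?_⟩
  · obtain ⟨x, -, _, ⟨t, rfl⟩, hx⟩ : ∃ x ∈ Q, ∃ χ' ∈ MulAction.orbit T χ,
        x • χ' ∉ MulAction.orbit T χ := by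
      by_contra hh
      push Not at hh
      exact hn hh
    obtain ⟨w, hw, hw0⟩ := (Submodule.ne_bot_iff _).mp h
    obtain ⟨u', hu', hs'⟩ := exists_good hP hT (χ := x • (t : S) • χ) ((Submodule.ne_bot_iff _).mpr
      ⟨_, map_wt (map_wt hw t) x, fun e => hw0 (by simpa using congrArg (β (t : S)⁻¹ ∘ β x⁻¹) e)⟩)
    refine card_le_finrank (β := β) (ι := Fin 2) ![u, u'] ![χ, x • (t : S) • χ] ?_ ?_ ?_
    · intro i
      fin_cases i
      exacts [(hs _).mpr (MulAction.mem_orbit_self _), (hs' _).mpr (MulAction.mem_orbit_self _)]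
    · intro i j hij
      fin_cases i <;> fin_cases j
      · exact (hij rfl).elim
      · exact by_contra fun h1 => hx (MulAction.mem_orbit_symm.mp ((hs' _).mp h1))
      · exact by_contra fun h1 => hx ((hs _).mp h1)
      · exact (hij rfl).elim
    · intro i
      fin_cases i
      exacts [hu, hu']
  · haveI := Fintype.ofFinite Q
    have key : ∀ x : Q, x ≠ 1 → (x : S) • χ ∉ MulAction.orbit T χ := fun x hx hm => by
      have h1 : ∀ χ' ∈ MulAction.orbit T χ, (x : S) • χ' ∈ MulAction.orbit T χ := by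
        rintro _ ⟨t, rfl⟩
        have h2 : β (x : S)⁻¹ u ∉ oth β P χ := by
          rw [← map_oth_iff (x : S), β.self_inv_apply]; exact (hs _).mpr hm
        rw [← map_oth_iff (t : S), hinv _ (inv_mem x.2) u hu t t.2, ← map_oth_iff (x : S),
          β.self_inv_apply] at h2
        exact (hs _).mp h2
      refine hn fun y hy χ' h' => ?_
      obtain ⟨n, hn⟩ := mem_powers_of_prime_card hQ hx (g' := ⟨y, hy⟩)
      obtain rfl : (x : S) ^ n = y := congrArg Subtype.val hn
      clear hn hy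
      induction n with
      | zero => simpa using h'
      | succ n ih => rw [pow_succ', mul_smul]; exact h1 _ ih
    have := card_le_finrank (fun y : Q => β y u) (fun y => (y : S) • χ)
      (fun y => by rw [map_oth_iff]; exact (hs _).mpr (MulAction.mem_orbit_self _))
      (fun y y' hy => by
        rw [← smul_inv_smul (y' : S) ((y : S) • χ), map_oth_iff, ← mul_smul]
        exact by_contra fun h1 => key (y'⁻¹ * y) (fun e => hy (inv_mul_eq_one.mp e)) ((hs _).mp h1))
      fun y => hinv y y.2 u hu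
    rw [← Nat.card_eq_fintype_card, hQ] at this
    have := hq.out.two_le
    omega

end

theorem fx_baseChange {k K S E : Type*} [Field k] [Field K] [Algebra k K] [Group S]
    [AddCommGroup E] [Module k E] (ρ : Representation k S E) (T : Subgroup S) :
    fx ((End.baseChangeHom k K E).toMonoidHom.comp ρ) T =
      LinearMap.range ((fx ρ T).subtype.baseChange K) := by
  classical
  refine le_antisymm (fun x hx => ?_) ?_
  · let B := Basis.ofVectorSpace k K
    have h1 : ∀ (g : End k E) (i) (y : TensorProduct k K E), TensorProduct.equivFinsuppOfBasisLeft B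
        (g.baseChange K y) i = g (TensorProduct.equivFinsuppOfBasisLeft B y i) := fun g i y => by
      induction y using TensorProduct.induction_on with
      | zero => simp
      | tmul c u => simp
      | add x y hx hy => simp only [map_add, Finsupp.add_apply, hx, hy]
    rw [← (TensorProduct.equivFinsuppOfBasisLeft B).symm_apply_apply x,
      TensorProduct.equivFinsuppOfBasisLeft_symm_apply]
    exact Submodule.sum_mem _ fun i _ => ⟨B i ⊗ₜ ⟨_, fun t ht => (h1 _ i x).symm.trans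
      (congrArg (fun y => TensorProduct.equivFinsuppOfBasisLeft B y i) (hx t ht))⟩, rfl⟩
  · rintro _ ⟨x, rfl⟩ t ht
    induction x using TensorProduct.induction_on with
    | zero => simp
    | tmul c u => exact congrArg (c ⊗ₜ ·) (u.2 t ht)
    | add x y hx hy => rw [map_add, map_add, hx, hy]


/-- Let S be a finite solvable group whose order is divisible only by the primes 2, p, q (p, q distinct odd primes), with a Sylow system S₂, S_p, S_q (pairwise permutable Sylow subgroups) such that: S_p is a minimal normal subgroup of S of order p or p²; S_q has order q and [S_p, S_q] = S_p; and O₂(S) = 1. Let E be an irreducible module for S over the field with two elements on which S_p acts faithfully, and E₀ the subspace of fixed points of S₂. Then either E₀ has at least 8 elements, or E₀ has exactly 4 elements and S_q does not leave E₀ invariant. -/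
theorem result {S : Type*} [Group S] [Finite S]
    [Group.IsSolvable S] (p q : ℕ) (hp : p.Prime) (hq : q.Prime) (hp2 : p ≠ 2) (hq2 : q ≠ 2) (hpq : p ≠ q)
    (hπ : ∀ r : ℕ, r.Prime → r ∣ Nat.card S → r = 2 ∨ r = p ∨ r = q)
    (S₂ : Sylow 2 S) (Sp : Sylow p S) (Sq : Sylow q S)
    (h2q : Nat.card ↥((S₂ : Subgroup S) ⊔ (Sq : Subgroup S)) = Nat.card ↥S₂ * Nat.card ↥Sq)
    (h2p : Nat.card ↥((S₂ : Subgroup S) ⊔ (Sp : Subgroup S)) = Nat.card ↥S₂ * Nat.card ↥Sp)
    (hpq' : Nat.card ↥((Sp : Subgroup S) ⊔ (Sq : Subgroup S)) = Nat.card ↥Sp * Nat.card ↥Sq)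
    (hSpN : (Sp : Subgroup S).Normal) (hSpmin : ∀ N : Subgroup S, N.Normal → N ≤ (Sp : Subgroup S) → N = ⊥ ∨ N = (Sp : Subgroup S))
    (hSpcard : Nat.card ↥Sp = p ∨ Nat.card ↥Sp = p ^ 2)
    (hSq : Nat.card ↥Sq = q) (hcomm : ⁅(Sp : Subgroup S), (Sq : Subgroup S)⁆ = (Sp : Subgroup S))
    (hO2 : Cfsg.pCore 2 S = ⊥)
    {E : Type*} [AddCommGroup E] [Module (ZMod 2) E] [Finite E] (ρ : Representation (ZMod 2) S E) (hE : Nontrivial E)
    (hirr : ∀ N : Submodule (ZMod 2) E, (∀ s : S, ∀ m ∈ N, ρ s m ∈ N) → N = ⊥ ∨ N = ⊤)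
    (hfaith : ∀ x ∈ (Sp : Subgroup S), ρ x = 1 → x = 1) :
    8 ≤ Nat.card {v : E // ∀ s ∈ (S₂ : Subgroup S), ρ s v = v} ∨
      (Nat.card {v : E // ∀ s ∈ (S₂ : Subgroup S), ρ s v = v} = 4 ∧
        ∃ x ∈ (Sq : Subgroup S), ∃ v : E, (∀ s ∈ (S₂ : Subgroup S), ρ s v = v) ∧ ¬ ∀ s ∈ (S₂ : Subgroup S), ρ s (ρ x v) = ρ x v) := by
  haveI : Fact p.Prime := ⟨hp⟩
  haveI : Fact q.Prime := ⟨hq⟩
  have hP : IsMulCommutative (Sp : Subgroup S) := by
    rcases hSpcard with h | h
    · exact (isCyclic_of_prime_card h).isMulCommutative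
    · exact IsPGroup.isMulCommutative_of_card_eq_prime_sq h
  have h0 : fx ρ (Sp : Subgroup S) = ⊥ := (hirr (fx ρ _) fun s m hm d hd => by
    rw [← End.mul_apply, ← map_mul, show d * s = s * (s⁻¹ * d * s⁻¹⁻¹) by group, map_mul,
      End.mul_apply, hm _ (hSpN.conj_mem d hd _)]).resolve_right fun h => by
    have : (Sp : Subgroup S) = ⊥ := eq_bot_iff.mpr fun x hx => hfaith x hx
      (LinearMap.ext fun v => (h.ge Submodule.mem_top : v ∈ fx ρ _) x hx)
    have h1 : Nat.card (Sp : Subgroup S) = 1 := card_eq_one.mpr this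
    change Nat.card (Sp : Subgroup S) = _ ∨ Nat.card (Sp : Subgroup S) = _ at hSpcard
    have := hp.one_lt
    rcases hSpcard with h | h <;> nlinarith
  let K := AlgebraicClosure (ZMod 2)
  haveI : Nontrivial (TensorProduct (ZMod 2) K E) := by
    rw [← finrank_pos_iff (R := K), finrank_baseChange]; exact finrank_pos
  obtain ⟨h1, h2⟩ := main (β := (End.baseChangeHom (ZMod 2) K E).toMonoidHom.comp ρ) hP S₂.2 hq2
    hSq hcomm (by
      rw [fx_baseChange, h0, LinearMap.range_eq_bot, Subsingleton.elim (Submodule.subtype ⊥) 0,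
        LinearMap.baseChange_zero])
  rw [fx_baseChange] at h1 h2
  have h3 := (LinearMap.finrank_range_le ((fx ρ (S₂ : Subgroup S)).subtype.baseChange K)).trans
    finrank_baseChange.le
  have h4 : Nat.card {v : E // ∀ s ∈ (S₂ : Subgroup S), ρ s v = v} =
      2 ^ finrank (ZMod 2) (fx ρ (S₂ : Subgroup S)) := by
    have := natCard_eq_pow_finrank (K := ZMod 2) (V := fx ρ (S₂ : Subgroup S))
    rw [Nat.card_zmod] at this
    exact this
  rw [h4]
  refine or_iff_not_imp_left.mpr fun h5 => ?_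
  have h6 : ¬ 3 ≤ finrank (ZMod 2) (fx ρ (S₂ : Subgroup S)) := fun h =>
    h5 (Nat.pow_le_pow_right two_pos h)
  refine ⟨by rw [show finrank (ZMod 2) (fx ρ (S₂ : Subgroup S)) = 2 by omega]; rfl, ?_⟩
  by_contra hh
  push Not at hh
  refine h6 ((h2 ?_).trans h3)
  rintro x hx _ ⟨y, rfl⟩
  induction y using TensorProduct.induction_on with
  | zero => simp
  | tmul c u => exact ⟨c ⊗ₜ ⟨ρ x u, hh x hx u u.2⟩, rfl⟩
  | add y z hy hz => rw [map_add, map_add]; exact add_mem hy hz

end Cfsg.Agent.S4414
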