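import Cfsg.Statements.S4415
import Cfsg.Agent.H2.Jor3b
import Cfsg.Agent.H2.Sect
import Cfsg.Agent.H2.SdpAct
import Cfsg.Agent.FT.BG1_15
import Cfsg.Agent.FT.X_helper2_tr

set_option autoImplicit false
open Cfsg

namespace Cfsg.Agent.S4415
open Subgroup CfsgH2 CfsgL0
open scoped commutatorElement

open CfsgFT CfsgH2J SemidirectProduct

theorem extra_equiv {X Y : Type*} [Group X] [Group Y] [Finite X] [Finite Y] (h : IsExtraspecial 2 X)
    (e : X ≃* Y) : IsExtraspecial 2 Y := by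
  obtain ⟨z, hz, hs⟩ := CfsgH2.IsExtraspecial.exists_sympl h
  refine isExtraspecial_of_sympl (hs.of_mulEquiv e) fun h1 =>
    CfsgH2.IsExtraspecial.center_ne_top h ?_
  rw [← hz]
  refine eq_top_of_card_eq _ ?_
  rw [Nat.card_congr e.toEquiv, ← card_top (G := Y), ← h1, Nat.card_zpowers, Nat.card_zpowers,
    MulEquiv.orderOf_eq]

section
variable {S : Type*} [Group S] {E : Type*} [AddCommGroup E] [Module (ZMod 3) E]
  (ρ : Representation (ZMod 3) S E)

/-- the action by automorphisms -/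
def rA : S →* MulAut (Multiplicative E) where
  toFun s :=
    { toFun := fun v => .ofAdd (ρ s v.toAdd)
      invFun := fun v => .ofAdd (ρ s⁻¹ v.toAdd)
      left_inv := fun v => by simp
      right_inv := fun v => by simp
      map_mul' := fun v w => by simp }
  map_one' := by ext; simp
  map_mul' s t := by ext; simp

/-- vectors as group elements -/
abbrev io (v : E) : Multiplicative E ⋊[rA ρ] S := inl (.ofAdd v)

theorem io_add (v w : E) : io ρ (v + w) = io ρ v * io ρ w := by simp [io]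
theorem io_inj : Function.Injective (io ρ) := inl_injective.comp Multiplicative.ofAdd.injective
theorem io_conj (s : S) (v : E) : io ρ (ρ s v) = inr s * io ρ v * (inr s)⁻¹ :=
  (sd_conj (rA ρ) s _).symm
theorem io_mem (v : E) : io ρ v ∈ sdL (rA ρ) := ⟨_, rfl⟩
theorem io_fix {s : S} {v : E} : ρ s v = v ↔ inr s * io ρ v = io ρ v * inr s := by
  rw [← (io_inj ρ).eq_iff, io_conj, mul_inv_eq_iff_eq_mul]

/-- a subspace as a subgroup -/
def up (W : Submodule (ZMod 3) E) : Subgroup (Multiplicative E ⋊[rA ρ] S) :=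
  (AddSubgroup.toSubgroup W.toAddSubgroup).map inl

/-- a subgroup as a subspace -/
def dn (U : Subgroup (Multiplicative E ⋊[rA ρ] S)) : Submodule (ZMod 3) E :=
  AddSubgroup.toZModSubmodule 3 (Subgroup.toAddSubgroup' (U.comap inl))

theorem mem_dn {U : Subgroup (Multiplicative E ⋊[rA ρ] S)} {v : E} : v ∈ dn ρ U ↔ io ρ v ∈ U :=
  Iff.rfl
theorem mem_up {W : Submodule (ZMod 3) E} {v : E} : io ρ v ∈ up ρ W ↔ v ∈ W :=
  mem_map_iff_mem inl_injective
theorem up_le (W : Submodule (ZMod 3) E) : up ρ W ≤ sdL (rA ρ) := map_le_range _ _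
theorem card_up (W : Submodule (ZMod 3) E) : #(up ρ W) = Nat.card W :=
  card_map_of_injective inl_injective
theorem up_norm [Finite E] [Finite S] {W : Submodule (ZMod 3) E} {s : S}
    (h : ∀ v ∈ W, ρ s v ∈ W) : inr s ∈ 𝒩 (up ρ W) := by
  haveI := sd_finite (rA ρ)
  refine mem_normalizer_fintype ?_
  rintro _ ⟨v, hv, rfl⟩
  exact io_conj ρ s v.toAdd ▸ (mem_up ρ).2 (h _ hv)

end

/-- Let S be a finite solvable group acting faithfully on a finite-dimensional space E over the field with three elements, with O₃(S) = 1. Let B ≤ S have order 3 and suppose: E = E₀ ⊕ E₁ with B fixing E₁ pointwise, E₀ B-invariant of order 27 and indecomposable under B (a generator of B has a single Jordan block on E₀); B normalizes but does not centralize some subgroup Q of S that is elementary abelian of order 4; and B is the centre of a Sylow 3-subgroup of S. Put R = [O_{3'}(S), B]. Then R is elementary abelian of order 4 or extraspecial of order 32 containing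 an elementary abelian subgroup of order 8 (a central product of two quaternion groups), and E is the direct sum of a subspace fixed pointwise by R and an RB-invariant subspace on which the subgroup RB acts faithfully and irreducibly. -/
theorem result {S : Type*} [Group S] [Finite S]
    [Group.IsSolvable S] {E : Type*} [AddCommGroup E] [Module (ZMod 3) E] [Finite E] (ρ : Representation (ZMod 3) S E)
    (hfaith : Function.Injective ρ) (hO3 : Cfsg.pCore 3 S = ⊥)
    (B : Subgroup S) (hB : Nat.card ↥B = 3) (b : S) (hb : Subgroup.zpowers b = B)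
    (E₀ E₁ : Submodule (ZMod 3) E) (hE01 : E₀ ⊓ E₁ = ⊥) (hE01' : E₀ ⊔ E₁ = ⊤)
    (hE1 : ∀ v ∈ E₁, ρ b v = v) (hE0inv : ∀ v ∈ E₀, ρ b v ∈ E₀) (hE0 : Nat.card ↥E₀ = 27)
    (hind : ∃ v ∈ E₀, ρ b (ρ b v - v) - (ρ b v - v) ≠ 0)
    (Q : Subgroup S) (hQ : Cfsg.IsElementaryAbelian 2 Q) (hQ4 : Nat.card ↥Q = 4)
    (hBQ : B ≤ Subgroup.normalizer (Q : Set S)) (hBQ' : ¬ B ≤ Subgroup.centralizer (Q : Set S))
    (P : Sylow 3 S) (hBZ : (Subgroup.center ↥(P : Subgroup S)).map (P : Subgroup S).subtype = B) :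
    ((Cfsg.IsElementaryAbelian 2 ⁅Cfsg.pPrimeCore 3 S, B⁆ ∧ Nat.card ↥⁅Cfsg.pPrimeCore 3 S, B⁆ = 4) ∨
      (Cfsg.IsExtraspecial 2 ↥⁅Cfsg.pPrimeCore 3 S, B⁆ ∧ Nat.card ↥⁅Cfsg.pPrimeCore 3 S, B⁆ = 32 ∧
        ∃ A : Subgroup S, A ≤ ⁅Cfsg.pPrimeCore 3 S, B⁆ ∧ Cfsg.IsElementaryAbelian 2 A ∧ Nat.card ↥A = 8)) ∧
    ∃ F₀ F₁ : Submodule (ZMod 3) E, F₀ ⊓ F₁ = ⊥ ∧ F₀ ⊔ F₁ = ⊤ ∧
      (∀ r ∈ ⁅Cfsg.pPrimeCore 3 S, B⁆, ∀ v ∈ F₁, ρ r v = v) ∧ (∀ r ∈ ⁅Cfsg.pPrimeCore 3 S, B⁆ ⊔ B, ∀ v ∈ F₀, ρ r v ∈ F₀) ∧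
      (∀ r ∈ ⁅Cfsg.pPrimeCore 3 S, B⁆ ⊔ B, (∀ v ∈ F₀, ρ r v = v) → r = 1) ∧
      (∀ N : Submodule (ZMod 3) E, N ≤ F₀ → (∀ r ∈ ⁅Cfsg.pPrimeCore 3 S, B⁆ ⊔ B, ∀ v ∈ N, ρ r v ∈ N) → N = ⊥ ∨ N = F₀) := by
  haveI : Finite S := inferInstance
  haveI := sd_finite (rA ρ)
  subst hb
  have hK3 : ¬ 3 ∣ #(pPrimeCore 3 S) := by
    rw [← pPrimeCoreOf_top]
    exact (Nat.Prime.coprime_iff_not_dvd Nat.prime_three).1 coprime_card_pPrimeCoreOf.symm
  have hcop : (#(zpowers b)).Coprime #(pPrimeCore 3 S) :=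
    hB ▸ (Nat.Prime.coprime_iff_not_dvd Nat.prime_three).2 hK3
  have hQB : ⁅Q, zpowers b⁆ = Q := (eq_bot_or_eq_of_card_four hQ4
    (le_normalizer_iff_commutator_le_left.1 hBQ) hBQ (normalizer_commutator_ge_right _ _)
    (by rw [hB]; decide) hBQ').resolve_left fun e =>
      hBQ' (le_centralizer_iff.1 (commutator_eq_bot_iff_le_centralizer.1 e))
  have hn : (⊤ : Subgroup S) ≤ 𝒩 (ppCoreOf 3 ⊤) :=
    le_normalizer.trans (normalizer_le_normalizer_ppCoreOf 3 ⊤)
  have hBO : zpowers b ≤ ppCoreOf 3 ⊤ := by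
    refine le_trans (le_inf le_top ?_) (bg1_15a inferInstance
      ((isSylowOf_top P).inf_of_normal le_top hn))
    rw [← hBZ, CfsgH2.map_center_subtype]
    exact inf_le_right.trans (centralizer_le (SetLike.coe_subset_coe.2 inf_le_left))
  have hQK : Q ≤ pPrimeCore 3 S := by
    rw [← pPrimeCoreOf_top, ← pPrimeCoreOf_ppCoreOf]
    refine le_of_normal_hall (pNil_iff_hall.1 (pNil_ppCoreOf 3 ⊤)) le_normalizer_pPrimeCoreOf ?_
      (isPi_compl_singleton.2 (by rw [hQ4]; decide))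
    exact hQB.ge.trans ((commutator_mono le_top hBO).trans
      (le_normalizer_iff_commutator_le_right.1 hn))
  haveI : (pPrimeCore 3 S).Normal := pPrimeCoreOf_top (G := S) (p := 3) ▸ inferInstance
  set R := ⁅pPrimeCore 3 S, zpowers b⁆ with hR
  have hRK : R ≤ pPrimeCore 3 S := commutator_le_left _ _
  have hRB : ⁅R, zpowers b⁆ = R :=
    commutator_commutator_eq le_normalizer_of_normal hcop (Or.inr inferInstance)
  let j : S →* Multiplicative E ⋊[rA ρ] S := inr
  have hj : Function.Injective j := inr_injective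
  have hjb : (zpowers b).map j = zpowers (j b) := MonoidHom.map_zpowers _ _
  set M := sdL (rA ρ) with hM
  have hMea : IsElementaryAbelian 3 M := by
    refine ⟨CfsgH2.isMulCommutative_iff.2 ?_, ?_⟩
    · rintro _ ⟨v, rfl⟩ _ ⟨w, rfl⟩
      rw [← map_mul, ← map_mul, mul_comm]
    · rintro _ ⟨v, rfl⟩
      rw [← map_pow, ← ofAdd_toAdd v, ← ofAdd_nsmul, ← Nat.cast_smul_eq_nsmul (ZMod 3),
        ZMod.natCast_self, zero_smul]
      simp
  have hf : ∀ r : S, j r ∈ 𝒞 M → r = 1 := fun r hr => hfaith (by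
    ext v
    simpa using (io_fix ρ).2 (hr _ (io_mem ρ v)).symm)
  have hB' : #(zpowers (j b)) = 3 := by rw [← hjb, card_map_of_injective hj, hB]
  have h9 : #⁅M, zpowers (j b)⁆ ≤ 9 := by
    have h1 : zpowers (j b) ≤ 𝒩 (up ρ E₀) := zpowers_le.2 (up_norm ρ hE0inv)
    have h2 : IsPGroup 3 (up ρ E₀) := (isPGroup_of_isElementaryAbelian hMea).to_le (up_le ρ _)
    have h3 := commutator_lt_of_pGroup
      (IsPGroup.to_sup_of_normal_left' h2 (IsPGroup.of_card (n := 1) hB') h1) le_sup_left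
      (sup_le le_normalizer h1) fun e => by
        have := card_up ρ E₀
        rw [e, card_bot, hE0] at this
        omega
    have h4 := card_mul_le_of_lt h2 h3
    rw [card_up, hE0] at h4
    have h5 := card_le_of_le (commutator_mono (le_refl (up ρ E₀))
      (le_sup_right : _ ≤ up ρ E₀ ⊔ zpowers (j b)))
    have h6 : M ≤ cMod (zpowers (j b)) ⁅up ρ E₀, zpowers (j b)⁆ := by
      rintro _ ⟨v, rfl⟩
      obtain ⟨x, hx, y, hy, e⟩ := Submodule.mem_sup.1 (hE01' ▸ Submodule.mem_top :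
        v.toAdd ∈ E₀ ⊔ E₁)
      rw [show inl v = io ρ x * io ρ y by rw [← io_add, e]; rfl]
      refine mul_mem (le_cMod_iff.2 ⟨normalizer_commutator_ge_left _ _, le_rfl⟩ ((mem_up ρ).2 hx))
        (centralizer_inf_le_cMod _ _ ⟨?_, centralizer_le_normalizer _ (centralizer_le
          (SetLike.coe_subset_coe.2 (h3.le.trans (up_le ρ _) |>.trans' ?_))
          (isMulCommutative_iff_le.1 hMea.1 (io_mem ρ y)))⟩)
      · rw [CfsgFT.centralizer_zpowers]
        exact mem_centralizer_singleton_iff.2 ((io_fix ρ).1 (hE1 y hy)).symm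
      · exact commutator_mono le_rfl le_sup_right
    have h7 := card_le_of_le (le_cMod_iff.1 h6).2
    omega
  have h : Ctx M (R.map j) (j b) :=
    { ea := hMea
      card := hB'
      bR := hjb ▸ map_le_normalizer_map j (normalizer_commutator_ge_right _ _)
      cop := by
        rw [card_map_of_injective hj]; exact fun e => hK3 (e.trans (card_dvd_of_le hRK))
      solv := Group.isSolvable_of_surjective (j.subgroupMap_surjective R)
      faith := eq_bot_iff.2 (by
        rintro _ ⟨⟨r, -, rfl⟩, hr⟩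
        rw [hf r hr, map_one]; exact one_mem _)
      h9 := h9
      RB := by rw [← hjb, ← Subgroup.map_commutator, hRB] }
  have hA : Four (R.map j) (j b) (Q.map j) :=
    { le := map_mono (hQB.ge.trans (commutator_mono hQK le_rfl))
      ea := EA.map hj ⟨hQ, hQ4⟩
      n := hjb ▸ map_le_normalizer_map j hBQ
      nc := fun e => hBQ' fun x hx y hy => hj (by
        rw [map_mul, map_mul]
        exact e (hjb ▸ mem_map_of_mem j hx) _ (mem_map_of_mem j hy)) }
  have hX : ∀ {U : Subgroup (Multiplicative E ⋊[rA ρ] S)}, R.map j ≤ U → zpowers (j b) ≤ U →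
      ∀ r ∈ R ⊔ zpowers b, j r ∈ U := fun h1 h2 =>
    map_le_iff_le_comap.1 (by rw [Subgroup.map_sup, hjb]; exact sup_le h1 h2)
  have h0 := h.comm_inf le_rfl le_rfl le_normalizer_of_normal
  have htop : ∀ v : E, ∃ x ∈ dn ρ ⁅M, R.map j⁆, ∃ y ∈ dn ρ (M ⊓ 𝒞 (R.map j)), x + y = v := by
    intro v
    obtain ⟨n, hn, c, hc, e⟩ := exists_commutator_mul_centralizer le_normalizer_of_normal
      (h.copM le_rfl le_rfl) (Or.inr (h.solvM le_rfl)) (io_mem ρ v)
    obtain ⟨x, rfl⟩ := commutator_le_left M _ hn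
    obtain ⟨y, rfl⟩ := hc.1
    exact ⟨x.toAdd, hn, y.toAdd, hc, io_inj ρ (by rw [io_add, e]; rfl)⟩
  refine ⟨?_, dn ρ ⁅M, R.map j⁆, dn ρ (M ⊓ 𝒞 (R.map j)), eq_bot_iff.2 fun v hv => ?_,
    eq_top_iff.2 fun v _ => Submodule.mem_sup.2 (htop v),
    fun r hr v hv => (io_fix ρ).2 (hv.2 _ (mem_map_of_mem j hr)), fun r hr v hv => ?_,
    fun r hr h1 => hfaith ?_, fun N hN h1 => ?_⟩
  · have back : ∀ {n : ℕ} {A : Subgroup (Multiplicative E ⋊[rA ρ] S)}, A ≤ R.map j → EA 2 n A →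
        ∃ A' ≤ R, EA 2 n A' := fun h1 h2 => (exists_EA_map_iff hj).1 ⟨_, h1, h2⟩
    rcases h.struct hA with e | ⟨e1, e2, A, e3, e4⟩
    · obtain ⟨A', a1, a2⟩ := back le_rfl e
      have := e.2
      rw [card_map_of_injective hj] at this
      rw [← eq_of_le_of_card_ge a1 (by rw [this, a2.2])]
      exact Or.inl a2
    · rw [card_map_of_injective hj] at e2
      exact Or.inr ⟨extra_equiv e1 (R.equivMapOfInjective j hj).symm, e2, back e3 e4⟩
  · exact io_inj ρ (mem_bot.1 (h0 ▸ ⟨hv.1, hv.2.2⟩ : io ρ v ∈ ⊥))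
  · rw [mem_dn, io_conj]
    exact (mem_normalizer_iff.1 (hX (normalizer_commutator_ge_right _ _)
      (le_normalizer_commutator le_normalizer_of_normal h.bR) r hr) _).1 hv
  · ext v
    obtain ⟨x, hx, y, hy, rfl⟩ := htop v
    have := hX (U := 𝒞 (M ⊓ 𝒞 (R.map j) : Subgroup _)) (le_centralizer_iff.1 inf_le_right)
      (le_centralizer_iff.1 ((inf_le_inf_left _ (centralizer_le hA.le)).trans (h.cent_le hA))) r hr
    simp [h1 x hx, (io_fix ρ).2 (this _ hy).symm]
  · rcases h.dich hA (up_le ρ N) (by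
      rintro _ ⟨r, hr, rfl⟩; exact up_norm ρ (h1 r (mem_sup_left hr)))
      (zpowers_le.2 (up_norm ρ (h1 b (mem_sup_right (mem_zpowers b))))) with e | e
    · exact Or.inl (eq_bot_iff.2 fun v hv =>
        io_inj ρ (mem_bot.1 (h0 ▸ ⟨hN hv, e ((mem_up ρ).2 hv)⟩ : io ρ v ∈ ⊥)))
    · exact Or.inr (le_antisymm hN fun v hv => (mem_up ρ).1 (e hv))

end Cfsg.Agent.S4415
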