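import Cfsg.Statements.S4420
import Cfsg.Agent.H4.StrEmb

set_option autoImplicit false
open Cfsg

namespace Cfsg.Agent.S4420

open CfsgH4

theorem inverts {H : Type*} [Group H] {A : Subgroup H} (hD : ∀ x : H, x ∉ A → x ^ 2 = 1)
    {x : H} (hx : x ∉ A) {a : H} (ha : a ∈ A) : x * a * x⁻¹ = a⁻¹ := by
  have h1 := hD x hx
  have h2 := hD (x * a) (fun h => hx ((A.mul_mem_cancel_right ha).1 h))
  rw [sq] at h1 h2
  rw [inv_eq_of_mul_eq_one_right h1]
  apply eq_inv_of_mul_eq_one_left
  rw [← h2, mul_assoc]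

theorem elem {H : Type*} [Group H] {A : Subgroup H} (hD : ∀ x : H, x ∉ A → x ^ 2 = 1)
    {x y : H} (hx : x ∉ A) (hy : y ∉ A) (hxy : x * y ∉ A) (a : H) : a ^ 2 = 1 := by
  by_cases ha : a ∈ A
  · have h1 := inverts hD hxy ha
    have h2 : x * y * a * (x * y)⁻¹ = a := by
      calc _ = x * (y * a * y⁻¹) * x⁻¹ := by group
        _ = (x * a * x⁻¹)⁻¹ := by rw [inverts hD hy ha]; group
        _ = a := by rw [inverts hD hx ha, inv_inv]
    rw [h2] at h1
    rw [sq]; nth_rewrite 1 [h1]; simp
  · exact hD a ha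

theorem comm_of_sq {H : Type*} [Group H] (h : ∀ a : H, a ^ 2 = 1) (a b : H) : a * b = b * a := by
  have h1 : ∀ a : H, a⁻¹ = a := fun a => inv_eq_of_mul_eq_one_right (by rw [← sq, h])
  rw [← h1 (a * b), mul_inv_rev, h1, h1]

/-- Structure of groups in which every element outside some proper subgroup has square 1. Let H be a finite group with a proper subgroup A such that every element outside A has square 1. Then H has an abelian normal subgroup B of index 2 such that every element outside B is an involution inverting every element of B; and if H is not an elementary abelian 2-group, B is the only abelian normal subgroup of index 2 with this property. -/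
theorem result {H : Type*} [Group H] [Finite H] (A : Subgroup H) (hA : A ≠ ⊤) (hD : ∀ x : H, x ∉ A → x ^ 2 = 1) :
    ∃ B : Subgroup H, B.Normal ∧ IsMulCommutative ↥B ∧ B.index = 2 ∧
      (∀ x : H, x ∉ B → x ^ 2 = 1 ∧ ∀ b ∈ B, x * b * x⁻¹ = b⁻¹) ∧
      (¬ (IsMulCommutative H ∧ ∀ x : H, x ^ 2 = 1) →
        ∀ B' : Subgroup H, B'.Normal → IsMulCommutative ↥B' → B'.index = 2 →
          (∀ x : H, x ∉ B' → x ^ 2 = 1 ∧ ∀ b ∈ B', x * b * x⁻¹ = b⁻¹) → B' = B) := by
  obtain ⟨x, hx⟩ : ∃ x, x ∉ A := by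
    by_contra h
    push Not at h
    exact hA (eq_top_iff.2 fun x _ => h x)
  by_cases hel : ∀ a : H, a ^ 2 = 1
  · have hc := comm_of_sq hel
    have h2 : IsPGroup 2 H := fun a => ⟨1, by simpa using hel a⟩
    obtain ⟨k, hk⟩ := IsPGroup.iff_card.1 h2
    rcases k with _ | k
    · have : Subsingleton H := (Nat.card_eq_one_iff_unique.1 hk).1
      exact absurd (Subsingleton.elim x 1 ▸ A.one_mem) hx
    obtain ⟨B, -, hB⟩ := exists_index_two_of_normal (N := (⊥ : Subgroup H)) (k := k)
      (by rw [Subgroup.index_bot, hk])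
    refine ⟨B, Subgroup.normal_of_index_eq_two hB, ⟨⟨fun a b => Subtype.ext (hc _ _)⟩⟩, hB,
      fun y _ => ⟨hel y, fun b _ => ?_⟩, fun h => absurd ⟨⟨⟨hc⟩⟩, hel⟩ h⟩
    rw [hc y b, mul_inv_cancel_right]
    exact eq_inv_of_mul_eq_one_left (by rw [← sq, hel])
  · have hA2 : A.index = 2 := by
      rw [Subgroup.index_eq_two_iff']
      refine ⟨x, fun b => ?_⟩
      by_cases hb : b ∈ A
      · exact Or.inr ⟨hb, fun h => hx ((A.mul_mem_cancel_right hb).1 h)⟩
      · refine Or.inl ⟨?_, hb⟩
        by_contra h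
        exact hel (elem hD hx hb h)
    refine ⟨A, Subgroup.normal_of_index_eq_two hA2, ⟨⟨fun a b => Subtype.ext ?_⟩⟩, hA2,
      fun y hy => ⟨hD y hy, fun b hb => inverts hD hy hb⟩, fun _ B _ _ hB2 hB => ?_⟩
    · have h1 := inverts hD hx (A.mul_mem a.2 b.2)
      have h2 : x * (a * b) * x⁻¹ = (x * a * x⁻¹) * (x * b * x⁻¹) := by group
      rw [h2, inverts hD hx a.2, inverts hD hx b.2, ← mul_inv_rev, inv_inj] at h1
      exact h1.symm
    · by_contra hne
      have h1 : ¬ A ≤ B := fun h => hne (Subgroup.eq_of_le_of_card_ge h (by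
        have e1 := A.index_mul_card
        have e2 := B.index_mul_card
        rw [hA2] at e1; rw [hB2] at e2; omega)).symm
      have h2 : ¬ B ≤ A := fun h => hne (Subgroup.eq_of_le_of_card_ge h (by
        have e1 := A.index_mul_card
        have e2 := B.index_mul_card
        rw [hA2] at e1; rw [hB2] at e2; omega))
      obtain ⟨a, ha, ha'⟩ := SetLike.not_le_iff_exists.1 h1
      obtain ⟨b, hb, hb'⟩ := SetLike.not_le_iff_exists.1 h2
      apply hel
      apply elem (A := A ⊓ B) (x := a) (y := b)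
      · intro y hy
        by_cases h3 : y ∈ A
        · exact (hB y (fun h => hy ⟨h3, h⟩)).1
        · exact hD y h3
      · exact fun h => ha' h.2
      · exact fun h => hb' h.1
      · exact fun h => hb' ((A.mul_mem_cancel_left ha).1 h.1)

end Cfsg.Agent.S4420
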