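import Cfsg.Statements.S5075
import Cfsg.Agent.H9.McL2
-- import your own Cfsg.Agent.* helpers here

set_option autoImplicit false
open Cfsg

namespace Cfsg.Agent.S5075
open CfsgH9
section Aux
open Module
variable {p : ℕ} [Fact p.Prime] {V : Type*} [AddCommGroup V] [Module (ZMod p) V]

theorem pow_apply_of {g : V ≃ₗ[ZMod p] V} {x d : V} (h1 : g x = x + d) (h2 : g d = d) (n : ℕ) :
    (g ^ n) x = x + (n : ZMod p) • d := by
  induction n with
  | zero => simp
  | succ n ih =>
    rw [pow_succ', LinearEquiv.mul_apply, ih, map_add, map_smul, h1, h2]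
    push_cast; module

theorem gen_TP [Finite V] {H : Subgroup (V ≃ₗ[ZMod p] V)} {t : V ≃ₗ[ZMod p] V} (ht : t ∈ H)
    (h1 : orderOf t = p)
    (h2 : Module.finrank (ZMod p) ↥(LinearMap.ker ((t : V →ₗ[ZMod p] V) - LinearMap.id)) + 1 =
        Module.finrank (ZMod p) V) : ∃ u φ, TP H u φ ∧ ∀ x, t x = x + φ x • u := by
  have h3 := LinearMap.finrank_range_add_finrank_ker ((t : V →ₗ[ZMod p] V) - LinearMap.id)
  obtain ⟨φ, u, e⟩ := LinearEquiv.mem_dilatransvections_iff_finrank.2
    (show finrank (ZMod p) (LinearMap.range ((t : V →ₗ[ZMod p] V) - LinearMap.id)) ≤ 1 by omega)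
  have e' : ∀ x, t x = x + φ x • u := fun x => congrArg (fun f : V →ₗ[ZMod p] V => f x) e
  have ht1 : t ≠ 1 := by
    rintro rfl
    rw [orderOf_one] at h1
    exact (Fact.out : p.Prime).one_lt.ne h1
  have hu : u ≠ 0 := by
    rintro rfl
    exact ht1 (LinearEquiv.ext fun x => by simp [e'])
  have hφ : φ ≠ 0 := by
    rintro rfl
    exact ht1 (LinearEquiv.ext fun x => by simp [e'])
  have hpow : ∀ n : ℕ, (t ^ n) u = (1 + φ u) ^ n • u := by
    intro n
    induction n with
    | zero => simp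
    | succ n ih =>
      rw [pow_succ', LinearEquiv.mul_apply, ih, map_smul, e', pow_succ]; module
  have h4 := hpow p
  have htp : t ^ p = 1 := by
    have := pow_orderOf_eq_one t
    rwa [h1] at this
  rw [htp, ZMod.pow_card] at h4
  have h5 : φ u • u = 0 := by
    have : u = u + φ u • u := by
      calc u = (1 + φ u) • u := h4
        _ = _ := by module
    simpa using this
  exact ⟨u, φ, ⟨hu, hφ, (smul_eq_zero.1 h5).resolve_right hu, t, ht, e'⟩, e'⟩

theorem ts_of [Finite V] (hp : Odd p) {H : Subgroup (V ≃ₗ[ZMod p] V)}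
    (hgen : ∀ X : Submodule (ZMod p) V, TInv (TP H) X → H ≤ StabS X) (hOp : Cfsg.pCore p ↥H = ⊥) :
    TS (TP H) := by
  refine ts_TP ?_ ?_ ?_
  · intro h
    have : ((2 : ℕ) : ZMod p) = 0 := by exact_mod_cast h
    rw [ZMod.natCast_eq_zero_iff] at this
    have := (Nat.prime_dvd_prime_iff_eq Fact.out Nat.prime_two).1 this
    rw [this] at hp
    exact absurd hp (by decide)
  · rintro u φ c ⟨-, -, h0, g, hg, e⟩
    refine ⟨g ^ c.val, H.pow_mem hg _, fun x => ?_⟩
    rw [pow_apply_of (e x) (by rw [e]; simp [h0]), ZMod.natCast_zmod_val, smul_smul]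
  · rintro X u φ hX ⟨hu, hφ, -, g, hg, e⟩ huX
    by_contra hc
    push Not at hc
    have hst := hgen X hX
    let N : Subgroup H := (FixS X X).subgroupOf H
    have hN : N.Normal := by
      refine ⟨fun n hn a => ⟨fun x => ?_, fun x hx => ?_⟩⟩
      · have h1 := (hst a.2 _).1 (hn.1 ((a⁻¹ : H).1 x))
        rw [map_sub] at h1
        have h2 : a.1 ((a⁻¹ : H).1 x) = x := a.1.apply_symm_apply x
        rw [h2] at h1
        exact h1
      · change a.1 (n.1 ((a⁻¹ : H).1 x)) = x
        have h1 : n.1 ((a⁻¹ : H).1 x) = (a⁻¹ : H).1 x := hn.2 _ ((hst (a⁻¹ : H).2 x).1 hx)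
        rw [h1]
        exact a.1.apply_symm_apply x
    have hP : IsPGroup p N := by
      rintro ⟨⟨n, hn⟩, hn'⟩
      refine ⟨1, Subtype.ext (Subtype.ext (LinearEquiv.ext fun x => ?_))⟩
      change (n ^ (p ^ 1)) x = x
      have h1 : n (n x - x) = n x - x := hn'.2 _ (hn'.1 x)
      rw [pow_one, pow_apply_of (d := n x - x) (by simp) h1]
      simp
    have hle : N ≤ pCore p H := le_sSup ⟨hN, hP⟩
    have hgN : (⟨g, hg⟩ : H) ∈ N := ⟨fun x => by
      change g x - x ∈ X
      rw [e, add_sub_cancel_left]; exact X.smul_mem _ huX, fun x hx => by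
      change g x = x
      rw [e, hc x hx, zero_smul, add_zero]⟩
    have h0 : (⟨g, hg⟩ : H) = 1 := Subgroup.mem_bot.1 (hOp ▸ hle hgN)
    have h1 : g = 1 := congrArg Subtype.val h0
    apply hφ
    ext x
    have h2 := e x
    rw [h1] at h2
    have h3 : φ x • u = 0 := by simpa using h2
    exact (smul_eq_zero.1 h3).resolve_right hu

end Aux

/-- Let p be an odd prime, V a finite-dimensional vector space over the field with p elements, and H a group of linear automorphisms of V generated by transvections (elements of order p fixing a hyperplane pointwise) and having no nontrivial normal p-subgroup. Then for some n ≥ 1 there are a decomposition V = V₀ ⊕ V₁ ⊕ ⋯ ⊕ Vₙ into H-invariant subspaces and a decomposition of H as the internal direct product of normal subgroups H₁, …, Hₙ such that Hⱼ acts trivially on every Vᵢ with i ≠ j, and Hⱼ induces on Vⱼ exactly the special linear group of Vⱼ or exactly the isometry group of a non-degenerate alternating form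 on Vⱼ. -/
theorem result {p : ℕ} [Fact p.Prime] (hp : Odd p) {V : Type*} [AddCommGroup V] [Module (ZMod p) V] [Finite V]
    (H : Subgroup (V ≃ₗ[ZMod p] V)) (T : Set (V ≃ₗ[ZMod p] V)) (hHT : H = Subgroup.closure T)
    (hT : ∀ t ∈ T, orderOf t = p ∧
      Module.finrank (ZMod p) ↥(LinearMap.ker ((t : V →ₗ[ZMod p] V) - LinearMap.id)) + 1 =
        Module.finrank (ZMod p) V)
    (hOp : Cfsg.pCore p ↥H = ⊥) :
    ∃ (n : ℕ) (W : Fin (n + 1) → Submodule (ZMod p) V) (K : Fin n → Subgroup (V ≃ₗ[ZMod p] V)),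
      1 ≤ n ∧ DirectSum.IsInternal W ∧
      (∀ h ∈ H, ∀ i, (W i).map (h : V →ₗ[ZMod p] V) = W i) ∧
      (∀ j, K j ≤ H ∧ ((K j).subgroupOf H).Normal) ∧ ⨆ j, K j = H ∧
      (∀ j, K j ⊓ (⨆ j' ∈ {j' : Fin n | j' ≠ j}, K j') = ⊥) ∧
      (∀ j j', j ≠ j' → ∀ a ∈ K j, ∀ b ∈ K j', a * b = b * a) ∧
      (∀ j, ∀ h ∈ K j, ∀ i : Fin (n + 1), i ≠ j.succ → ∀ v ∈ W i, h v = v) ∧
      (∀ j, ∃ ρ : ↥(K j) →* (↥(W j.succ) ≃ₗ[ZMod p] ↥(W j.succ)),
        (∀ (h : ↥(K j)) (v : ↥(W j.succ)), ((ρ h v : ↥(W j.succ)) : V) = (h : V ≃ₗ[ZMod p] V) (v : V)) ∧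
        ((ρ.range : Set (↥(W j.succ) ≃ₗ[ZMod p] ↥(W j.succ))) =
            {f : ↥(W j.succ) ≃ₗ[ZMod p] ↥(W j.succ) | LinearMap.det (f : ↥(W j.succ) →ₗ[ZMod p] ↥(W j.succ)) = 1} ∨
          ∃ B : LinearMap.BilinForm (ZMod p) ↥(W j.succ), B.IsAlt ∧ B.Nondegenerate ∧
            (ρ.range : Set (↥(W j.succ) ≃ₗ[ZMod p] ↥(W j.succ))) = {f : ↥(W j.succ) ≃ₗ[ZMod p] ↥(W j.succ) | ∀ x y, B (f x) (f y) = B x y})) := by
  classical
  have hT' : ∀ t ∈ T, ∃ u φ, TP H u φ ∧ ∀ x, t x = x + φ x • u := fun t ht =>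
    gen_TP (hHT ▸ Subgroup.subset_closure ht) (hT t ht).1 (hT t ht).2
  have h : TS (TP H) := by
    refine ts_of hp (fun X hX => ?_) hOp
    conv_lhs => rw [hHT]
    rw [Subgroup.closure_le]
    intro t ht x
    obtain ⟨u, φ, h1, e⟩ := hT' t ht
    have key : ∀ y ∈ X, φ y • u ∈ X := fun y hy => by
      by_cases h2 : φ y = 0
      · simp [h2]
      · exact X.smul_mem _ (hX u φ h1 y hy h2)
    refine ⟨fun hx => by rw [e]; exact X.add_mem hx (key x hx), fun hx => ?_⟩
    have h2 := key _ hx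
    have h3 : φ (t x) = φ x := by rw [e]; simp [h1.2.2.1]
    rw [h3] at h2
    simpa [e] using X.sub_mem hx h2
  let I := {W : Submodule (ZMod p) V // W = ⊥ ∨ ∃ u φ, TP H u φ ∧ TW (TP H) u = W}
  have hfin : Finite (Submodule (ZMod p) V) :=
    Finite.of_injective (fun W : Submodule (ZMod p) V => (W : Set V)) SetLike.coe_injective
  have hne : Nonempty I := ⟨⟨⊥, Or.inl rfl⟩⟩
  let e : I ≃ Fin (Nat.card I) := Finite.equivFin I
  set n := Nat.card I with hn
  let U : Fin n → Submodule (ZMod p) V := fun j => (e.symm j).1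
  have hU : ∀ j, TComp (TP H) (U j) := fun j => by
    rcases (e.symm j).2 with h1 | ⟨u, φ, h1, h2⟩
    · simp only [U]; rw [h1]; exact h.comp_bot
    · simp only [U]; rw [← h2]; exact h.comp_TW h1
  have hUne : ∀ {i j}, i ≠ j → U i ≠ U j := fun hij h1 => hij (e.symm.injective (Subtype.ext h1))
  have hUC : ∀ {i j}, i ≠ j → U j ≤ TC (TP H) (U i) := fun hij => (hU _).le_TC (hU _) (hUne hij)
  have hc : ∀ j, IsCompl (U j) (TC (TP H) (U j)) := fun j => h.isCompl (hU j)
  let W : Fin (n + 1) → Submodule (ZMod p) V := Fin.cons (⨅ j, TC (TP H) (U j)) U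
  have hWC : ∀ (j : Fin n) (i : Fin (n + 1)), i ≠ j.succ → W i ≤ TC (TP H) (U j) := by
    intro j i
    refine Fin.cases (fun _ => iInf_le _ j) (fun i hi => hUC (fun h1 => hi (by rw [h1]))) i
  let K : Fin n → Subgroup (V ≃ₗ[ZMod p] V) := fun j => TK (TP H) (U j)
  have hKF : ∀ j, K j ≤ FixS (U j) (TC (TP H) (U j)) := fun j => TK_le_FixS _ _
  have hKH : ⨆ j, K j = H := by
    refine le_antisymm (iSup_le fun j => TK_le _) ?_
    conv_lhs => rw [hHT]
    rw [Subgroup.closure_le]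
    intro t ht
    obtain ⟨u, φ, h1, e'⟩ := hT' t ht
    refine Subgroup.mem_iSup_of_mem (e ⟨TW (TP H) u, Or.inr ⟨u, φ, h1, rfl⟩⟩)
      (Subgroup.subset_closure ⟨u, φ, h1, ?_, e'⟩)
    simp only [U, Equiv.symm_apply_apply]
    exact TS.mem_TW u
  have hcomm : ∀ j j', j ≠ j' → ∀ a ∈ K j, ∀ b ∈ K j', a * b = b * a := by
    intro j j' hj a ha b hb
    refine LinearEquiv.ext fun x => ?_
    have h1 := (hKF j ha).2 _ (hUC hj ((hKF j' hb).1 x))
    have h2 := (hKF j' hb).2 _ (hUC hj.symm ((hKF j ha).1 x))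
    rw [map_sub] at h1 h2
    rw [LinearEquiv.mul_apply, LinearEquiv.mul_apply, sub_eq_iff_eq_add.1 h1, sub_eq_iff_eq_add.1 h2]
    abel
  let π : Fin n → V →ₗ[ZMod p] V := fun j => (U j).projection _ (hc j)
  have hπ0 : ∀ j x, π j x = 0 ↔ x ∈ TC (TP H) (U j) := fun j x =>
    Submodule.projection_apply_eq_zero_iff (hc j)
  have hππ : ∀ i j x, x ∈ U j → π i x = if i = j then x else 0 := by
    intro i j x hx
    split_ifs with hij
    · subst hij; exact Submodule.projection_apply_of_mem_left (hc i) hx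
    · exact (hπ0 i x).2 (hUC hij hx)
  refine ⟨n, W, K, Nat.card_pos, ?_, ?_, fun j => ⟨TK_le _, ?_⟩, hKH, ?_, hcomm, ?_, fun j => ?_⟩
  · rw [DirectSum.isInternal_submodule_iff_iSupIndep_and_iSup_eq_top]
    constructor
    · intro i
      refine Fin.cases ?_ (fun j => ?_) i
      · rw [Submodule.disjoint_def]
        intro x hx hx'
        have h1 : (⨆ j, ⨆ (_ : j ≠ 0), W j) ≤ LinearMap.ker (∑ j, π j - LinearMap.id) := by
          refine iSup₂_le fun j => Fin.cases (fun h1 => absurd rfl h1) (fun j _ y hy => ?_) j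
          have hy' : y ∈ U j := hy
          simp [LinearMap.mem_ker, hππ _ j y hy']
        have h2 := h1 hx'
        have h3 : ∀ j, π j x = 0 := fun j => (hπ0 j x).2 ((Submodule.mem_iInf _).1 hx j)
        simpa [LinearMap.mem_ker, h3] using h2
      · exact (hc j).disjoint.mono_right (iSup₂_le (hWC j))
    · rw [eq_top_iff]
      intro x _
      have h1 : x = (x - ∑ j, π j x) + ∑ j, π j x := by simp
      rw [h1]
      refine Submodule.add_mem _ (Submodule.mem_iSup_of_mem 0 ?_) (Submodule.sum_mem _ fun j _ =>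
        Submodule.mem_iSup_of_mem j.succ (Submodule.projection_apply_mem (hc j) x))
      refine (Submodule.mem_iInf _).2 fun i => (hπ0 i _).1 ?_
      rw [map_sub, map_sum]
      rw [Finset.sum_congr rfl fun j _ => hππ i j _ (Submodule.projection_apply_mem (hc j) x)]
      simp [π]
  · intro g hg i
    refine map_eq_of_stab ?_
    rw [← hKH] at hg
    refine (iSup_le fun j => ?_ : (⨆ j, K j) ≤ StabS (W i)) hg
    by_cases hij : i = j.succ
    · rw [hij]; exact (hKF j).trans (FixS_le_stab_left _ _)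
    · exact (hKF j).trans (FixS_le_stab_right (hWC j i hij))
  · rw [Subgroup.normal_subgroupOf_iff_le_normalizer (TK_le _)]
    refine hKH.ge.trans (iSup_le fun j' => ?_)
    by_cases hj : j' = j
    · rw [hj]; exact Subgroup.le_normalizer
    · intro a ha
      refine Subgroup.centralizer_le_normalizer _ ?_
      rw [Subgroup.mem_centralizer_iff]
      exact fun b hb => (hcomm j' j hj a ha b hb).symm
  · intro j
    rw [eq_bot_iff]
    rintro g ⟨h1, h2⟩
    have h3 : g ∈ FixS ⊤ (U j) := by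
      refine (iSup₂_le fun j' hj' a ha => ?_ : (⨆ j' ∈ {j' : Fin n | j' ≠ j}, K j') ≤ FixS ⊤ (U j)) h2
      exact ⟨fun _ => trivial, fun x hx => (hKF j' ha).2 x (hUC hj' hx)⟩
    rw [Subgroup.mem_bot]
    refine LinearEquiv.ext fun x => ?_
    have h4 : x ∈ U j ⊔ TC (TP H) (U j) := by rw [(hc j).sup_eq_top]; trivial
    obtain ⟨y, hy, z, hz, rfl⟩ := Submodule.mem_sup.1 h4
    rw [map_add, h3.2 y hy, (hKF j h1).2 z hz]; rfl
  · exact fun j g hg i hi v hv => (hKF j hg).2 v (hWC j i hi hv)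
  · exact ⟨rhoK (TP H) (U j), fun _ _ => rfl, rhoK_range h (hU j)⟩

end Cfsg.Agent.S5075
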